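import Cfsg.Statements.S2687
import Cfsg.Agent.H6.BalGr

set_option autoImplicit false
open Cfsg

namespace Cfsg.Agent.S2687

open Matrix H6

variable {F : Type*} [Field F] {n q : ℕ} {τ : F ≃+* F}

local notation "κ" => Fin n
local notation "II" => Inn (PSU n F q)

theorem inn_le (hτ : ∀ x, τ x = x ^ q) : II ≤ (suD F n q).range :=
  inn_psu_eq (n := n) hτ ▸ Subgroup.map_le_range _ _

theorem mem_inn {y : GU n F q} (h : (y.1 : Matrix κ κ F).det = 1) : suD F n q y ∈ II := by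
  obtain ⟨s, hs⟩ := (mem_suJ_range y.1).2 ⟨h, y.2⟩
  exact ⟨_, (diagAut_j suJ_inj gu_normalizes hs.symm).symm⟩

theorem conj_inj [Finite F] (hσ : orderOf τ = 2) (hτ : ∀ x, τ x = x ^ q) (hn : 2 ≤ n) :
    Function.Injective (MulAut.conj : PSU n F q →* _) :=
  conj_injective_of suJ_inj fun s hs => (suD_eq_one_iff hσ hτ hn ⟨_, suJ_mem_GU s⟩).1
    ((diagAut_j suJ_inj gu_normalizes rfl).trans hs)

theorem field_type [Fintype F] (hF : Fintype.card F = q ^ 2) (r : ℕ) [Fact r.Prime] [CharP F r]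
    (hn : 3 ≤ n) {p : ℕ} [Fact p.Prime] (hpr : p ≠ r) (hodd : Odd p) {g : GU n F q} {σ : F ≃+* F}
    (hx : (suD F n q g * suΦ F n q σ) ^ p = 1) (ho : orderOf σ = p) :
    II ⊓ Subgroup.centralizer {suD F n q g * suΦ F n q σ} ≠ ⊥ ∧
      (Unbal p II (suD F n q g * suΦ F n q σ) →
        (Nat.card ↥(II ⊓ Subgroup.centralizer {suD F n q g * suΦ F n q σ})).Coprime p) := by
  have h2 : 2 ≤ n := by omega
  have : Nonempty κ := ⟨⟨0, by omega⟩⟩
  have hp : p.Prime := Fact.out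
  obtain ⟨τ, hσ, hτ⟩ := exists_conj_aut hF
  obtain ⟨l, f, hl, -, hq⟩ := exists_prime_pow_of_sq hF
  obtain ⟨-, hc, h3⟩ := exists_subfield_data hl hq hF hτ ho hodd
  have := Fintype.ofFinite (fixF σ)
  rw [Nat.card_eq_fintype_card] at hc
  obtain ⟨e, τ₀, he, hσ₀, hτ₀, hcomm⟩ := h3 (fixF σ) hc
  generalize l ^ (f / p) = q₀ at *
  obtain ⟨δ, -, hδ⟩ := isConjUnder_of_lang _ _ (suΦ_conj σ)
    (by rw [← map_pow, ← ho, pow_orderOf_eq_one, map_one])
    (su_lang_field hσ hτ hσ₀ hcomm he h2 ho hodd) hx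
  have hjI : ∀ s, suD F n q (guMap n hτ hτ₀ hcomm (suG _ n q₀ s)) ∈ II := fun s => mem_inn (by
    change (s.1.1.map e).det = 1
    rw [← RingHom.mapMatrix_apply, ← RingHom.map_det, s.1.2, map_one])
  have U := suLike (n := n) hσ₀ hτ₀
  rw [hδ, card_inf_cent_conj]
  constructor
  · refine inf_cent_conj_ne_bot _ δ⁻¹ fun h0 => ?_
    rw [show δ⁻¹ * (δ * suΦ F n q σ * δ⁻¹) * δ⁻¹⁻¹ = suΦ F n q σ by group,
      Subgroup.eq_bot_iff_forall] at h0
    obtain ⟨a, ha0, ha⟩ := exists_iso (ι := κ) hσ₀ (by simpa using h2)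
    obtain ⟨t, f, ht⟩ := U.exists_isTv' ha0 ha
    obtain ⟨c, hc⟩ := (map_mem_center_iff' e _).1 ((suD_eq_one_iff hσ hτ h2 _).1
      (h0 _ ⟨hjI t, mem_cent_of_fix (suΦ_conj σ) (guField_guMap hτ hτ₀ hcomm he _)⟩))
    exact tv_ne_smul_one ht.1 ht.2.1 ht.2.2.1 c (ht.2.2.2 ▸ hc)
  · intro h
    have h1 := h.conj δ⁻¹
    rw [show δ⁻¹ * (δ * suΦ F n q σ * δ⁻¹) * δ⁻¹⁻¹ = suΦ F n q σ by group] at h1
    have := suG_normal (n := n) hτ₀
    exact field_case (ν := (GU n F q).subtype) (ν₀ := (GU n _ q₀).subtype) r suΦ_conj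
      (fun _ _ => rfl) (suD_eq_one_iff hσ hτ h2) (inn_le hτ) ho he
      (fun _ => rfl) (guField_guMap hτ hτ₀ hcomm he) (su_surj_field hσ hτ hσ₀ hτ₀ hcomm he h2) hjI
      (fun α _ => psu_aut hσ hτ hn α) (fun G χ => su_semi hσ₀ hτ₀ hn r G)
      (uSub τ₀ (jRho (suJ _ n q₀))) (k := r ^ 2) (d := q₀ + 1)
      (((Nat.coprime_primes Fact.out hp).2 hpr.symm).pow_left 2)
      (fun M hM m hm h s hs => U.iwasawa (by simpa using h2) r hm h hs) (su_pow hσ₀ hτ₀ hn)
      (su_elt hc hσ₀ hτ₀ hn) h1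

theorem exists_form [NeZero n] (hσ : orderOf τ = 2) (hτ : ∀ x, τ x = x ^ q) {F₀ : Type*} [Field F₀]
    {e : F₀ →+* F} (he : ∀ x, τ x = x ↔ ∃ y, e y = x) {g h : GL κ F} (hg : g ∈ GU n F q) {u : Fˣ}
    (hu : h = GeneralLinearGroup.scalar κ u * g * glField κ F τ h) :
    ∃ (B : Matrix κ κ F₀) (d : F), d ≠ 0 ∧ B.map e = d • (h.1ᵀ * h.1.map τ) ∧
      (Bᵀ = B ∨ Bᵀ = -B) := by
  have h2 := sq_of_orderOf_two hσ
  have e0 : ∀ M : Matrix κ κ F, (M.map τ).map τ = M := fun M => by ext; simp [h2]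
  have e1 : h.1 = (u : F) • (g.1 * h.1.map τ) := by
    rw [← smul_mul_assoc, ← coe_scalar_mul]
    exact congrArg Units.val hu
  have e2 : h.1.map τ = τ u • (g.1.map τ * h.1) := by
    conv_lhs => rw [e1]
    rw [Matrix.map_smul' _ _ _ (map_mul τ), Matrix.map_mul, e0]
  have e3 : (h.1ᵀ * h.1.map τ).map τ = (h.1ᵀ * h.1.map τ)ᵀ := by
    rw [Matrix.map_mul, e0, transpose_mul, transpose_transpose, transpose_map]
  have e4 : h.1ᵀ * h.1.map τ = (u * τ u) • (h.1ᵀ * h.1.map τ)ᵀ := by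
    conv_lhs => rw [e2]; lhs; rw [e1]
    rw [transpose_smul, transpose_mul, smul_mul_smul_comm, mul_assoc, ← mul_assoc g.1ᵀ,
      (mem_GU_iff hτ g).1 hg, one_mul, transpose_mul, transpose_transpose]
  obtain ⟨i, j, hij⟩ := exists_entry_ne_zero (glT h * glField κ F τ h)
  change (h.1ᵀ * h.1.map τ) i j ≠ 0 at hij
  generalize h.1ᵀ * h.1.map τ = A at *
  generalize (u : F) * τ u = μ at *
  have e5 : Aᵀ = μ • A := by rw [e4, transpose_smul, transpose_transpose, ← e4]
  have e6 : μ * μ = 1 := mul_right_cancel₀ hij (by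
    rw [e5, smul_smul] at e4
    rw [one_mul]; exact (congrFun (congrFun e4 i) j).symm)
  obtain ⟨d, hd0, hd⟩ : ∃ d : F, d ≠ 0 ∧ τ d = μ * d := by
    rcases mul_self_eq_one_iff.1 e6 with rfl | rfl
    · exact ⟨1, one_ne_zero, by simp⟩
    · obtain ⟨k, h3, h4⟩ := exists_trace_zero hσ
      exact ⟨k, h3, by linear_combination h4⟩
  have e7 : ∀ i j, ∃ y, e y = (d • A) i j := fun i j => (he _).1 (by
    have := congrFun (congrFun (e3.trans e5) i) j
    rw [map_apply, Matrix.smul_apply] at this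
    rw [Matrix.smul_apply, smul_eq_mul, map_mul, hd, this, smul_eq_mul]
    linear_combination d * A i j * e6)
  choose B hB using e7
  have e8 : (Matrix.of B).map e = d • A := by ext i j; exact hB i j
  refine ⟨Matrix.of B, d, hd0, e8, ?_⟩
  rcases mul_self_eq_one_iff.1 e6 with rfl | rfl
  · refine Or.inl (Matrix.map_injective e.injective ?_)
    simp only [transpose_map, e8, transpose_smul, e5, one_smul]
  · refine Or.inr (Matrix.map_injective e.injective ?_)
    simp only [transpose_map, e8, transpose_smul, e5, Matrix.map_neg _ (map_neg e), neg_smul,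
      one_smul, smul_neg]

theorem gram_conj {F₀ : Type*} [Field F₀] {e : F₀ →+* F} (he : ∀ x, τ x = x ↔ ∃ y, e y = x)
    {h : GL κ F} {B : Matrix κ κ F₀} {d : F} (hd : d ≠ 0) (hB : B.map e = d • (h.1ᵀ * h.1.map τ))
    (y : GL κ F₀) (c : F₀) : y.1ᵀ * B * y.1 = c • B ↔
      (h * GeneralLinearGroup.map e y * h⁻¹).1ᵀ * (h * GeneralLinearGroup.map e y * h⁻¹).1.map τ =
        e c • 1 := by
  have e1 : (y.1.map e).map τ = y.1.map e := congrArg Units.val (glField_map he y)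
  have e2 : (h * GeneralLinearGroup.map e y * h⁻¹).1 * h.1 = h.1 * y.1.map e := by
    rw [← Units.val_mul, inv_mul_cancel_right]; rfl
  generalize (h * GeneralLinearGroup.map e y * h⁻¹).1 = Z at *
  have e3 : (y.1ᵀ * B * y.1).map e = d • (h.1ᵀ * (Zᵀ * Z.map τ) * h.1.map τ) := by
    have : h.1ᵀ * (Zᵀ * Z.map τ) * h.1.map τ = (Z * h.1)ᵀ * (Z * h.1).map τ := by
      simp only [transpose_mul, Matrix.map_mul, mul_assoc]
    rw [this, e2, Matrix.map_mul, Matrix.map_mul, hB, transpose_mul, Matrix.map_mul, e1,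
      transpose_map]
    simp only [mul_smul_comm, smul_mul_assoc, mul_assoc]
  have e4 : (c • B).map e = d • (h.1ᵀ * (e c • 1) * h.1.map τ) := by
    rw [Matrix.map_smul' _ _ _ (map_mul e), hB, smul_comm]
    simp only [mul_smul_comm, smul_mul_assoc, mul_one]
  rw [← (Matrix.map_injective e.injective).eq_iff]
  simp only [e3, e4]
  rw [(smul_right_injective _ hd).eq_iff]
  exact ((glField κ F τ h).mul_left_inj).trans (glT h).mul_right_inj

theorem aux {G : Type*} [Group G] {u w h g H y Y : G} (hc : ∀ x, x * u = u * x)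
    (hcw : ∀ x, x * w = w * x) (hu : h = u * g * H) (hw : y = w * (g * Y * g⁻¹)) :
    h⁻¹ * y * h = w * (H⁻¹ * Y * H) := by
  calc h⁻¹ * y * h = (g * H)⁻¹ * (u⁻¹ * (y * u)) * (g * H) := by rw [hu]; group
    _ = ((g * H)⁻¹ * w) * (g * Y * g⁻¹) * (g * H) := by rw [hc, hw]; group
    _ = _ := by rw [hcw]; group

theorem graph_type [Fintype F] (two : (2 : F) ≠ 0) (hσ : orderOf τ = 2) (hτ : ∀ x, τ x = x ^ q)
    (hn : 3 ≤ n) {g : GU n F q} (hx : (suD F n q g * suΦ F n q τ) ^ 2 = 1) :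
    II ⊓ Subgroup.centralizer {suD F n q g * suΦ F n q τ} ≠ ⊥ ∧
      ¬ Unbal 2 II (suD F n q g * suΦ F n q τ) := by
  have h2 : 2 ≤ n := by omega
  have : NeZero n := ⟨by omega⟩
  have hθ : ∀ y, suD F n q g * suΦ F n q τ * suD F n q y * (suD F n q g * suΦ F n q τ)⁻¹ =
      suD F n q ((MulAut.conj g * guField F n q τ) y) := fun y => by
    rw [MulAut.mul_apply, MulAut.conj_apply, map_mul, map_mul, map_inv, ← suΦ_conj]
    group
  obtain ⟨u, h, hu⟩ := lang_gl_field hσ (g := g.1) (by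
    rw [mul_pow_twisted _ _ _ (suΦ_conj τ), ← map_pow, ← hσ, pow_orderOf_eq_one, map_one, mul_one,
      hσ, suD_eq_one_iff hσ hτ h2] at hx
    simpa [tnrm, List.range_succ] using hx)
  have := Fintype.ofFinite (fixF τ)
  obtain ⟨e, he⟩ := exists_emb_fixF τ (fixF τ) Nat.card_eq_fintype_card.symm
  rw [eq_mul_inv_iff_mul_eq, eq_comm] at hu
  obtain ⟨B, d, hd, hB, hs⟩ := exists_form hσ hτ he g.2 hu
  have hc := Subgroup.mem_center_iff.1 (scalar_mem_center (ι := κ) u)
  let J : soGrp B →* GU n F q := ((MulAut.conj h).toMonoidHom.comp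
    ((GeneralLinearGroup.map e).comp (soGrp B).subtype)).codRestrict _ fun s =>
      (mem_GU_iff hτ _).2 (by
        have := (gram_conj he hd hB s.1 1).1 (by rw [one_smul]; exact (mem_soGrp.1 s.2).1)
        rwa [map_one, one_smul] at this)
  have hJ : ∀ s, (J s).1 = h * GeneralLinearGroup.map e s.1 * h⁻¹ := fun _ => rfl
  refine graph_case (ν := (GU n F q).subtype) (e := e) (B := B)
    (fun h0 => two (by rw [← map_ofNat e 2, h0, map_zero])) (fun h0 => ?_) hs (by simpa using hn)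
    Subtype.val_injective suΦ_conj (fun _ _ => rfl) (suD_eq_one_iff hσ hτ h2)
    (fun _ => eq_one_of_suΦ_mem hσ hτ hn) (fun σ h0 => ?_) (fun α _ => psu_aut hσ hτ hn α) J h hJ
    (fun s => ⟨mem_inn ?_, mem_cent_of_fix hθ (Subtype.ext ?_)⟩) fun c hc' => ?_
  · have := congrArg det hB
    rw [← RingHom.mapMatrix_apply, ← RingHom.map_det, h0, map_zero, det_smul] at this
    exact mul_ne_zero (pow_ne_zero _ hd)
      (GeneralLinearGroup.det_ne_zero (glT h * glField κ F τ h)) this.symm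
  · refine orderOf_dvd_iff_pow_eq_one.1 (hσ ▸ orderOf_dvd_of_fix fun x hx => ?_)
    obtain ⟨y, rfl⟩ := (he x).1 hx
    exact h0 y
  · rw [hJ, Units.val_mul, Units.val_mul, det_mul, det_mul, mul_right_comm, ← det_mul,
      Units.mul_inv, det_one, one_mul]
    change (s.1.1.map e).det = 1
    rw [← RingHom.mapMatrix_apply, ← RingHom.map_det, (mem_soGrp.1 s.2).2, map_one]
  · change g.1 * glField κ F τ (J s).1 * g.1⁻¹ = _
    rw [hJ, map_mul, map_mul, map_inv, glField_map he]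
    conv_rhs => rw [hu, mul_assoc _ g.1, ← hc, _root_.mul_inv_rev,
      mul_assoc _ (GeneralLinearGroup.scalar κ u), ← hc]
    group
  · obtain ⟨y, rfl⟩ := inn_le hτ hc'.1
    obtain ⟨w, hw⟩ := (mem_center_gl_iff' _).1 ((suD_eq_one_iff hσ hτ h2 _).1
      ((commute_twisted_iff _ _ _ hθ y).1 hc'.2))
    change y.1 * (g.1 * glField κ F τ y.1 * g.1⁻¹)⁻¹ = _ at hw
    have hcw := Subgroup.mem_center_iff.1 (scalar_mem_center (ι := κ) w)
    obtain ⟨v, hv⟩ := exists_fixed_smul (σ := τ) (g := h⁻¹ * y.1 * h) (u := w) (by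
      rw [map_mul, map_mul, map_inv]
      rw [mul_inv_eq_iff_eq_mul] at hw
      exact aux hc hcw hu hw)
    obtain ⟨y₀, hy⟩ := exists_map_of_fixed he hv
    have hcv := Subgroup.mem_center_iff.1 (scalar_mem_center (ι := κ) v)
    have e1 : h * GeneralLinearGroup.map e y₀ * h⁻¹ = GeneralLinearGroup.scalar κ v * y.1 := by
      rw [hy, ← mul_assoc, hcv]; group
    obtain ⟨c₀, hc₀⟩ := (he (v * τ v)).1 (by rw [map_mul, sq_of_orderOf_two hσ, mul_comm])
    refine ⟨y, v⁻¹, y₀, c₀, rfl, by rw [e1, map_inv, inv_mul_cancel_left]; rfl, ?_⟩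
    rw [gram_conj he hd hB, e1, coe_scalar_mul, transpose_smul, Matrix.map_smul' _ _ _ (map_mul τ),
      smul_mul_smul_comm, (mem_GU_iff hτ _).1 y.2, hc₀]

/-- A criterion for the failure of local balance in almost simple groups with unitary socle. Let F be a finite field of characteristic r with q² elements and K = PSU_n(q) (n ≥ 3, the central quotient of the determinant-one isometries of the standard Hermitian form) simple. Let A be a group of automorphisms of K containing all inner automorphisms, and β ∈ A an automorphism of prime order p ≠ r that is not inner-diagonal (not induced by conjugation by a matrix of the general unitary group). Then the largest normal subgroup of C_A(β) of order prime to p is nontrivial if and only if β is the composite of an inner-diagonal automorphism with the automorphism induced by a field automorphism of F applied entrywise and p does not divide the number of fixed points of β on K. -/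
theorem result
    (F : Type*) [Field F] [Fintype F] (r : ℕ) [Fact r.Prime] [CharP F r] (q : ℕ) (hF : Fintype.card F = q ^ 2)
    (n : ℕ) (hn : 3 ≤ n) (hK : IsSimpleGroup (Cfsg.PSU n F q))
    (𝒢 : Subgroup (MulAut (Cfsg.PSU n F q))) (hinn : ∀ k : Cfsg.PSU n F q, MulAut.conj k ∈ 𝒢)
    (p : ℕ) [Fact p.Prime] (hpr : p ≠ r) (β : MulAut (Cfsg.PSU n F q)) (hβ : β ∈ 𝒢) (hord : orderOf β = p)
    (hnot : ¬ Cfsg.IsInnerDiagonalAutPSU β) :
    Cfsg.pPrimeCore p ↥(𝒢 ⊓ Subgroup.centralizer {β}) ≠ ⊥ ↔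
      ((∃ γ φ : MulAut (Cfsg.PSU n F q), Cfsg.IsInnerDiagonalAutPSU γ ∧ (∃ σ : F ≃+* F, Cfsg.IsFieldAutPSUOf σ φ) ∧ β = φ.trans γ) ∧
        Nat.Coprime p (Nat.card ↥(MonoidHom.eqLocus β.toMonoidHom (MonoidHom.id (Cfsg.PSU n F q))))) := by
  have hI : Inn _ ≤ 𝒢 := by rintro _ ⟨k, rfl⟩; exact hinn k
  have hx : β ^ p = 1 := hord ▸ pow_orderOf_eq_one _
  obtain ⟨τ, hσ, hτ⟩ := exists_conj_aut hF
  obtain ⟨g, σ, rfl⟩ := psu_aut hσ hτ hn β
  have ho : orderOf σ = p := orderOf_eq_prime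
    (pow_eq_one_of_DΦ _ _ _ suΦ_conj (fun _ => eq_one_of_suΦ_mem hσ hτ hn) hx) fun h1 => hnot (by
      rw [isInnerDiagonalAutPSU_iff, h1, map_one, mul_one]
      exact ⟨g, rfl⟩)
  rw [← card_inn_cent (conj_inj hσ hτ (by omega)), Nat.coprime_comm]
  have key : Inn (PSU n F q) ⊓ Subgroup.centralizer {suD F n q g * suΦ F n q σ} ≠ ⊥ ∧
      (Unbal p (Inn (PSU n F q)) (suD F n q g * suΦ F n q σ) → (Nat.card ↥(Inn (PSU n F q) ⊓
        Subgroup.centralizer {suD F n q g * suΦ F n q σ})).Coprime p) := by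
    by_cases hp : p = 2
    · subst hp
      have := ringAut_isCyclic (F := F)
      have := ringAut_finite (F := F)
      obtain rfl := eq_of_orderOf_two ho hσ
      have := graph_type (fun h => hpr (CharP.eq F
          ((CharP.charP_iff_prime_eq_zero Nat.prime_two).2 h) ‹_›)) hσ hτ hn hx
      exact ⟨this.1, fun h => (this.2 h).elim⟩
    · exact field_type hF r hn hpr ((Fact.out : p.Prime).odd_of_ne_two hp) hx ho
  exact ⟨fun h => ⟨⟨_, _, (isInnerDiagonalAutPSU_iff _).2 ⟨g, rfl⟩,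
    ⟨σ, (isFieldAutPSUOf_iff σ _).2 rfl⟩, rfl⟩, key.2 (unbal_of_core hI h)⟩,
    fun h => core_of_coprime hI key.1 h.2⟩

end Cfsg.Agent.S2687
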