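import Cfsg.Statements.S2602
import Cfsg.Agent.H6.OutPSL

set_option autoImplicit false
open Cfsg

namespace Cfsg.Agent.S2602

/-- Structure of the outer automorphism group of PSL_2(q), q = p^f ≥ 4: it has a normal cyclic subgroup of order gcd(2, q − 1) (diagonal automorphisms) with cyclic quotient of order f (field automorphisms); there is no graph automorphism in dimension 2. -/
theorem result {F : Type*} [Field F] [Fintype F] {p f : ℕ} [Fact p.Prime] (hf : 1 ≤ f) (hF : Fintype.card F = p ^ f) (h4 : 4 ≤ p ^ f) : ∃ φ : Cfsg.Out (Matrix.ProjectiveSpecialLinearGroup (Fin 2) F) →* Multiplicative (ZMod f), Function.Surjective φ ∧ IsCyclic φ.ker ∧ Nat.card φ.ker = Nat.gcd 2 (p ^ f - 1) := by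
  obtain ⟨h1, h2⟩ := H6.ringAut_cyclic_card hF
  obtain ⟨e⟩ := H6.exists_equiv_zmod (F ≃+* F) h2
  refine H6.out_hom_transport e ?_
  have := H6.slD_range_normal (F := F) (n := 2) le_rfl
  have h3 := H6.slD_ker_relIndex (ι := Fin 2) (F := F) (by simp)
  rw [Fintype.card_fin, hF] at h3
  rw [← h3]
  exact H6.exists_out_hom (H6.slD (Fin 2) F) Matrix.GeneralLinearGroup.det (H6.slΦ (Fin 2) F) _
    H6.inn_psl_eq H6.psl_aut_two fun σ h => H6.eq_one_of_slΦ_mem (by simp) h

end Cfsg.Agent.S2602
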