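import Cfsg.Statements.S2662
import Cfsg.Agent.H9.ChevFix
import Cfsg.Agent.H9.ChevE8b
import Cfsg.Agent.H9.ChevE8c
import Cfsg.Agent.H9.ChevE8d

set_option autoImplicit false
open scoped MatrixGroups
open Cfsg

namespace Cfsg.Agent.S2662

open Cfsg.Agent.H9

open Chev H4 in
theorem lt240 {f : ℕ → Bool} (h0 : allLt 60 (fun r => f (Nat.add 0 r)) = true)
    (h1 : allLt 60 (fun r => f (Nat.add 60 r)) = true) (h2 : allLt 60 (fun r => f (Nat.add 120 r)) = true)
    (h3 : allLt 60 (fun r => f (Nat.add 180 r)) = true) : ∀ r < 240, f r = true := by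
  intro r hr
  rw [allLt_iff] at h0 h1 h2 h3
  by_cases a : r < 60
  · simpa using h0 r a
  by_cases b : r < 120
  · simpa [show 60 + (r - 60) = r by omega] using h1 (r - 60) (by omega)
  by_cases c : r < 180
  · simpa [show 120 + (r - 120) = r by omega] using h2 (r - 120) (by omega)
  · simpa [show 180 + (r - 180) = r by omega] using h3 (r - 180) (by omega)

open Chev H4 in
theorem goodE8 : Good Lie.chevE8 pkE8 :=
  ⟨lt240 tabE8_0 tabE8_1 tabE8_2 tabE8_3, lt240 addE8_0 addE8_1 addE8_2 addE8_3,
    lt240 grE8_0 grE8_1 grE8_2 grE8_3, allLt_iff.1 rootE8, allLt_iff.1 smE8,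
    fun p (hp : p < 8) => allLt_iff.1 (by
      interval_cases p
      exacts [conjE8_0, conjE8_1, conjE8_2, conjE8_3, conjE8_4, conjE8_5, conjE8_6, conjE8_7]),
    fun e he => allLt_iff.1 (allL_iff.1 commE8 e he)⟩


/-- Centralizers of field automorphisms of prime order, type E₈. Let `F` be a finite field and `G` the Chevalley group of type E₈ over `F` (for this type the group generated by the root elements is the whole group of rational points, with trivial centre). Let `φ` be a field automorphism of `G` (it sends each root element `x_s(t)` to `x_s(σ t)` for a fixed automorphism `σ` of `F`) whose order is a prime `r`. Then `F` has `q₀ ^ r` elements for some prime power `q₀`, and the subgroup of elements fixed by `φ` is isomorphic to the Chevalley group of type E₈ over a field with `q₀` elements. -/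
theorem result {F : Type*} [Field F] [Fintype F]
    (φ : MulAut ↥(Cfsg.Lie.chevE8.group F)) (hφ : Cfsg.Lie.chevE8.IsFieldAut φ) (r : ℕ) (hr : r.Prime) (ho : orderOf φ = r) :
    ∃ (F₀ : Type) (_ : Field F₀) (_ : Fintype F₀), Fintype.card F = Fintype.card F₀ ^ r ∧
      Nonempty (↥((MulEquiv.toMonoidHom φ).eqLocus (MonoidHom.id ↥(Cfsg.Lie.chevE8.group F))) ≃* ↥(Cfsg.Lie.chevE8.group F₀)) := by
  exact goodE8.field_fixed (by decide) ![![4, 5, 7, 10, 8, 6, 4, 2], ![5, 8, 10, 15, 12, 9, 6, 3], ![7, 10, 14, 20, 16, 12, 8, 4], ![10, 15, 20, 30, 24, 18, 12, 6], ![8, 12, 16, 24, 20, 15, 10, 5], ![6, 9, 12, 18, 15, 12, 8, 4], ![4, 6, 8, 12, 10, 8, 6, 3], ![2, 3, 4, 6, 5, 4, 3, 2]] (by decide +kernel) φ hφ r ho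

end Cfsg.Agent.S2662
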