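import Cfsg.Statements.S0447
import Cfsg.Agent.H4.Cover
import Cfsg.Agent.H4.Gasch
import Cfsg.Agent.H3.Dihedral

set_option autoImplicit false
open Cfsg

namespace Cfsg.Agent.S0447

open Cfsg.Agent.H4
open scoped commutatorElement

set_option maxRecDepth 100000

theorem card_closure_pair_le {G : Type*} [Group G] [Finite G] {u v : G} (hu : u * u = 1)
    (hv : v * v = 1) {n : ℕ} (hn : n ≠ 0) (h : (u * v) ^ n = 1) :
    Nat.card (Subgroup.closure ({u, v} : Set G)) ≤ 2 * n := by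
  classical
  obtain ⟨-, h1⟩ := card_le_of_cover (Subgroup.closure ({u, v} : Set G))
    (Subgroup.zpowers (u * v)) {1, u} (fun g hg => by
      obtain ⟨k, rfl | rfl⟩ := (H3.mem_closure_pair_iff hu hv g).mp hg
      · exact ⟨1, by simp, by simp⟩
      · exact ⟨u, by simp, by simp⟩)
  refine h1.trans (Nat.mul_le_mul Finset.card_le_two ?_)
  rw [Nat.card_zpowers]
  exact orderOf_le_of_pow_eq_one (Nat.pos_of_ne_zero hn) h

theorem abs_key {H G : Type*} [Group H] [Finite H] [Group G] (h : IsNonsplitDoubleCover H G)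
    {a b : G} (hc : ∀ g : G, g * g = 1 → g ≠ 1 → IsConj g a) {k m : ℕ} (hk : k ≠ 0)
    (ha : a * a = 1) (hb : b * b = 1) (hab : (a * b) ^ (2 * k) = 1)
    (h1 : ∀ K : Subgroup G, a ∈ K → b ∈ K → 4 * k ≤ Nat.card K) (h2 : Nat.card G = 4 * k * m)
    (hm : Odd m) {x : H} (hx : x * x = 1) : x ∈ Subgroup.center H := by
  obtain ⟨hz, ⟨e⟩, hs⟩ := h
  by_contra hxz
  let π : H →* G := e.toMonoidHom.comp (QuotientGroup.mk' _)
  have hsurj : Function.Surjective π := e.surjective.comp (QuotientGroup.mk'_surjective _)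
  have hker : π.ker = Subgroup.center H := by
    ext g
    simp [π, MonoidHom.mem_ker]
  have hsq : ∀ g ∈ π.ker, g * g = 1 := fun g hg => by
    rw [hker] at hg
    have := pow_card_eq_one' (x := (⟨g, hg⟩ : Subgroup.center H))
    rw [hz, pow_two] at this
    exact congrArg Subtype.val this
  have hx1 : π x ≠ 1 := fun h => hxz (hker ▸ h)
  have key : ∀ y : H, π y * π y = 1 → y * y = 1 := fun y hy => by
    by_cases hy1 : π y = 1
    · exact hsq y hy1
    obtain ⟨c, hc⟩ := isConj_iff.mp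
      ((hc (π x) (by rw [← map_mul, hx, map_one]) hx1).trans (hc _ hy hy1).symm)
    obtain ⟨d, rfl⟩ := hsurj c
    have h3 : (d * x * d⁻¹)⁻¹ * y ∈ π.ker := by
      rw [MonoidHom.mem_ker, map_mul, map_inv, map_mul, map_mul, map_inv, hc, inv_mul_cancel]
    have h4 := hsq _ h3
    rw [hker] at h3
    have h5 := Subgroup.mem_center_iff.mp h3
    obtain ⟨t, ht⟩ : ∃ t, t = (d * x * d⁻¹)⁻¹ * y := ⟨_, rfl⟩
    rw [← ht] at h4 h5
    have h6 : y = d * x * d⁻¹ * t := by rw [ht, mul_inv_cancel_left]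
    rw [h6, mul_assoc _ t, ← mul_assoc t, ← h5, mul_assoc _ t, h4]
    simp only [mul_assoc, inv_mul_cancel_left, mul_one]
    rw [← mul_assoc x, hx, one_mul, mul_inv_cancel]
  obtain ⟨u, rfl⟩ := hsurj a
  obtain ⟨v, rfl⟩ := hsurj b
  have h3 : (u * v) ^ (2 * k) = 1 := by
    rw [two_mul, pow_add]
    exact key _ (by rw [map_pow, map_mul, ← pow_add, ← two_mul, hab])
  have h4 := card_closure_pair_le (key u ha) (key v hb) (by omega) h3
  obtain ⟨K, h5, h6⟩ := exists_compl_of_card π hsq (Subgroup.closure {u, v}) (a := 4 * k) (m := m)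
    (by omega) (h1 _ (Subgroup.mem_map_of_mem _ (Subgroup.subset_closure (by simp)))
      (Subgroup.mem_map_of_mem _ (Subgroup.subset_closure (by simp))))
    (by rw [MonoidHom.range_eq_top.mpr hsurj, Subgroup.card_top, h2]) hm
  rw [hker] at h5 h6
  refine hs K (Subgroup.isComplement'_of_disjoint_and_mul_eq_univ
    (disjoint_iff.mpr (by rw [inf_comm, h5])) ?_)
  rw [← Subgroup.normal_mul, sup_comm, h6, Subgroup.coe_top]

/-- The check for a small alternating group. -/
def chk (n : ℕ) [NeZero n] (hw : n ≤ 2 ^ 3) (L LS : List (CG.Level ℕ)) (a b : ℕ) (l : List ℕ)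
    (k N : ℕ) : Bool :=
  band (band ((acg n 3 hw).ordCheck (isEven n 3) L N) ((acg n 3 hw).topCheck (isEven n 3) LS (4 * k)))
    (band (band (allL l (isEven n 3)) ((acg n 3 hw).allProd ((acg n 3 hw).transOf L)
      (fun c => bor ((acg n 3 hw).isOne c) (bor (bnot ((acg n 3 hw).isOne ((acg n 3 hw).mul c c)))
        ((acg n 3 hw).conjTo l a c))) (acg n 3 hw).one))
    (band (band ((acg n 3 hw).isOne ((acg n 3 hw).mul a a)) ((acg n 3 hw).isOne ((acg n 3 hw).mul b b)))
      (Nat.beq ((acg n 3 hw).ord 10 ((acg n 3 hw).mul a b)) (2 * k))))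

theorem key {n : ℕ} [NeZero n] (hw : n ≤ 2 ^ 3) {H : Type} [Group H] [Finite H]
    (h : IsNonsplitDoubleCover H (alternatingGroup (Fin n))) {L LS : List (CG.Level ℕ)}
    {a b : ℕ} {l : List ℕ} {k m N : ℕ} (hN : Nat.card (alternatingGroup (Fin n)) = N)
    (hm : k ≠ 0 ∧ N = 4 * k * m) (hodd : Odd m) (hLS : CG.gensOf LS = [a, b])
    (hc : chk n hw L LS a b l k N = true) {x : H} (hx : x * x = 1) : x ∈ Subgroup.center H := by
  rw [chk, band_eq, band_eq, band_eq, band_eq, band_eq, band_eq] at hc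
  simp only [Bool.and_eq_true] at hc
  obtain ⟨⟨h1, h2⟩, ⟨h3, h4⟩, ⟨h5, h6⟩, h7⟩ := hc
  obtain ⟨hv, hss, -, hcard⟩ := CG.ordCheck_spec (acg_keyed n 3 hw) (acg_uniq n 3 hw)
    (acg_vt n 3 hw) rfl h1
  have htop : (acg n 3 hw).gen (CG.gensOf L) = ⊤ := Subgroup.eq_top_of_card_eq _ (hcard.trans hN.symm)
  have h8 := CG.le_card_of_check (acg_keyed n 3 hw) (acg_vt n 3 hw) rfl h2
  have hv' : (acg n 3 hw).Valid [a, b] := by
    rw [CG.topCheck, band_eq, Bool.and_eq_true, hLS] at h2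
    exact (acg_vt n 3 hw).valid h2.1
  obtain ⟨α, hα⟩ := hv' a (by simp)
  obtain ⟨β, hβ⟩ := hv' b (by simp)
  have hM := acg n 3 hw
  refine abs_key h (a := α) (b := β) (fun g hg hg1 => ?_) hm.1
    ((acg n 3 hw).eq_one ((acg n 3 hw).rep_mul hα hα) h5)
    ((acg n 3 hw).eq_one ((acg n 3 hw).rep_mul hβ hβ) h6) ?_ (fun K h9 h10 => h8.trans ?_)
    (hN.trans hm.2) hodd hx
  · obtain ⟨c, hc, h9⟩ := CG.forall_gen' hv hss rfl _ h4 g (htop ▸ Subgroup.mem_top g)
    simp only [bor_eq, bnot_eq, Bool.or_eq_true, Bool.not_eq_true'] at h9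
    rcases h9 with h9 | h9 | h9
    · exact absurd ((acg n 3 hw).eq_one hc h9) hg1
    · exact absurd (h9.symm.trans (acg_complete n 3 hw _ _ _ _ hc hc hg)) Bool.false_ne_true
    · exact CG.isConj_of_conjTo ((acg_vt n 3 hw).valid h3) hc hα h9
  · rw [← (acg_complete n 3 hw).ord_eq rfl ((acg n 3 hw).rep_mul hα hβ) (by omega) h7,
      pow_orderOf_eq_one]
  · refine Subgroup.card_le_of_le (CG.gen_le_of_in (acg_uniq n 3 hw) fun c hc => ?_)
    rw [hLS] at hc
    simp only [List.mem_cons, List.not_mem_nil, or_false] at hc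
    rcases hc with rfl | rfl
    exacts [⟨α, h9, hα⟩, ⟨β, h10, hβ⟩]

theorem case4 {H : Type} [Group H] [Finite H]
    (h : IsNonsplitDoubleCover H (alternatingGroup (Fin 4))) {x : H} (hx : x * x = 1) :
    x ∈ Subgroup.center H :=
  key (by norm_num) h (k := 1) (m := 3) (N := 12) (a := 0x4c1) (b := 0x21a)
    (L :=
  [(0, [0x53],
     [(0, 0), (1, 0), (0, 0)]),
   (1, [0x2d0],
     [(0, 0), (0, 0)])])
    (LS :=
  [(0, [0x4c1, 0x21a],
     [(0, 0), (1, 1), (1, 1)])])
    (l := [0x688, 0x458, 0x2d0])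
    (card_alt_fin 4 (by norm_num)) (by norm_num) (by decide) rfl (by decide +kernel) hx

theorem case5 {H : Type} [Group H] [Finite H]
    (h : IsNonsplitDoubleCover H (alternatingGroup (Fin 5))) {x : H} (hx : x * x = 1) :
    x ∈ Subgroup.center H :=
  key (by norm_num) h (k := 1) (m := 15) (N := 60) (a := 0x44c1) (b := 0x421a)
    (L :=
  [(0, [0x1813],
     [(0, 0), (0, 0), (1, 1), (2, 1)]),
   (1, [0x42d0],
     [(0, 0), (0, 0), (1, 0)]),
   (2, [0x28c8],
     [(0, 0), (0, 0)])])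
    (LS :=
  [(0, [0x44c1, 0x421a],
     [(0, 0), (1, 1), (1, 1)])])
    (l := [0x4688, 0x3508, 0x28c8, 0x4458, 0x2318, 0x1898, 0x42d0, 0x1710, 0x3850, 0x2660, 0x32a0, 0x14e0, 0x260c, 0x308c, 0x4cc])
    (card_alt_fin 5 (by norm_num)) (by norm_num) (by decide) rfl (by decide +kernel) hx

theorem case6 {H : Type} [Group H] [Finite H]
    (h : IsNonsplitDoubleCover H (alternatingGroup (Fin 6))) {x : H} (hx : x * x = 1) :
    x ∈ Subgroup.center H :=
  key (by norm_num) h (k := 2) (m := 45) (N := 360) (a := 0x2c4c1) (b := 0x2560a)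
    (L :=
  [(0, [0x210ea],
     [(0, 0), (0, 0), (1, 1), (2, 2), (3, 2)]),
   (1, [0x25650],
     [(0, 0), (1, 0), (0, 0), (2, 1)]),
   (2, [0x15708],
     [(0, 0), (0, 0), (1, 1)]),
   (3, [0x23a88],
     [(0, 0), (0, 0)])])
    (LS :=
  [(1, [0x2c4c1],
     [(0, 0), (1, 0), (0, 0)]),
   (0, [0x2560a],
     [(0, 0)])])
    (l := [0x2c688, 0x23a88, 0x1d888, 0x13948, 0x1c548, 0x22748, 0x2c458, 0x22a58, 0x15858, 0xa958, 0x14358, 0x21558, 0x11b18, 0xd518, 0x2a318, 0x25298, 0x29898, 0xca98, 0x2a660, 0x13a60, 0x1d460, 0xb560, 0x1a360, 0x11760, 0x19aa0, 0xd6a0, 0x2b2a0, 0x152e0, 0x294e0, 0xaae0, 0x2a60c, 0x13a0c, 0x1d40c, 0x354c, 0x1a14c, 0x1074c, 0x18a8c, 0x568c, 0x2b08c, 0x150cc, 0x284cc, 0x2acc, 0x266c, 0x1306c, 0x1846c])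
    (card_alt_fin 6 (by norm_num)) (by norm_num) (by decide) rfl (by decide +kernel) hx

theorem case7 {H : Type} [Group H] [Finite H]
    (h : IsNonsplitDoubleCover H (alternatingGroup (Fin 7))) {x : H} (hx : x * x = 1) :
    x ∈ Subgroup.center H :=
  key (by norm_num) h (k := 2) (m := 315) (N := 2520) (a := 0x1ac4c1) (b := 0x1a560a)
    (L :=
  [(0, [0x10d41e],
     [(0, 0), (0, 0), (1, 1), (3, 2), (2, 2), (0, 2)]),
   (1, [0x14c598],
     [(0, 0), (0, 0), (1, 1), (2, 2), (0, 2)]),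
   (2, [0x15a988],
     [(0, 0), (0, 0), (1, 1), (2, 1)]),
   (3, [0xf4a88],
     [(0, 0), (0, 0), (1, 1)]),
   (4, [0x166688],
     [(0, 0), (0, 0)])])
    (LS :=
  [(1, [0x1ac4c1],
     [(0, 0), (1, 0), (0, 0)]),
   (0, [0x1a560a],
     [(0, 0)])])
    (l := [0x1ac688, 0x11ea88, 0xf4a88, 0x1a3a88, 0x193948, 0x9e948, 0xf2948, 0xe6548, 0x133548, 0x19c548, 0x1ac458, 0x116a58, 0xb4a58, 0x1a2a58, 0x18a958, 0x56958, 0xb1958, 0xa6358, 0x132358, 0x194358, 0x62d58, 0x111d58, 0x8cd58, 0x10e558, 0x74558, 0x1a1558, 0x10dc98, 0x6cc98, 0x161c98, 0x174298, 0x1aa660, 0x156660, 0xb5660, 0x9ea60, 0xf2a60, 0x193a60, 0x18b560, 0x5e560, 0xf1560, 0xd6360, 0xb3360, 0x19a360, 0x53d60, 0x99d60, 0xcad60, 0x8e760, 0x72760, 0x191760, 0x8dce0, 0x6ace0, 0x151ce0, 0x1722e0, 0x1952e0, 0xae2e0, 0x754e0, 0x1a94e0, 0x14e4e0, 0x18aae0, 0x56ae0, 0xb1ae0, 0x1aa60c, 0x15660c, 0xb560c, 0x9ea0c, 0xf2a0c, 0x193a0c, 0x18354c, 0x1e54c, 0xf054c, 0xd614c, 0xb314c, 0x19a14c, 0x13d4c, 0x98d4c,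 0xc2d4c, 0x8674c, 0x3274c, 0x19074c, 0x85ccc, 0x2accc, 0x150ccc, 0x1720cc, 0x1950cc, 0xae0cc, 0x354cc, 0x1a84cc, 0x1464cc, 0x182acc, 0x16acc, 0xb0acc, 0x18266c, 0x1666c, 0xb066c, 0x9e06c, 0xf206c, 0x19306c, 0x1ac6c, 0xd0c6c, 0x83c6c, 0xc646c, 0x3346c, 0x19846c, 0x195ac, 0xc85ac, 0x435ac])
    (card_alt_fin 7 (by norm_num)) (by norm_num) (by decide) rfl (by decide +kernel) hx

theorem small {n : ℕ} (hn : n ≤ 3) {H : Type} [Group H] [Finite H]
    (h : IsNonsplitDoubleCover H (alternatingGroup (Fin n))) {x : H} (hx : x * x = 1) :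
    x ∈ Subgroup.center H := by
  obtain ⟨-, ⟨e⟩, -⟩ := h
  have h1 : e x * e x = 1 := by
    rw [← map_mul, ← QuotientGroup.mk_mul, hx, QuotientGroup.mk_one, map_one]
  have h2 : ∀ g : alternatingGroup (Fin n), g * g = 1 → g = 1 := by
    interval_cases n <;> decide
  exact (QuotientGroup.eq_one_iff x).mp (e.injective ((h2 _ h1).trans (map_one e).symm))

/-- The coded field with three elements. -/
def K3 : FC (ZMod 3) 3 2 (primeOps 3) := primeFC (ZMod 3) 3 2 (by norm_num) (by norm_num)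

/-- The product of a matrix group and the alternating group. -/
def M : CG (GL (Fin 8) (ZMod 3) × alternatingGroup (Fin 8)) ((ℕ × ℕ) × ℕ) :=
  (K3.glcg 8).prodK (acg 8 3 (by norm_num))

/-- The operations on codes. -/
def N : CG (Unit × alternatingGroup (Fin 8)) ((ℕ × ℕ) × ℕ) :=
  ((primeOps 3).cg 3 2 8).prodK (acg 8 3 (by norm_num))

/-- The validity test. -/
def ok (c : (ℕ × ℕ) × ℕ) : Bool := band ((primeOps 3).okGL 3 2 8 c.1) (isEven 8 3 c.2)

/-- A chain for the double cover. -/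
def L8 : List (CG.Level ((ℕ × ℕ) × ℕ)) :=
  [(1, [((0x21828428841412822281118188188824, 0x280a8190140a429082a0240624098250), 0xd1067d)],
     [(0, 0), (0, 0), (2, 1), (4, 2), (5, 3), (0, 3), (2, 4)]),
   (3, [((0x8049261080851a101620404580461510, 0x88182141124122814814118184144418), 0x855f98)],
     [(0, 0), (0, 0), (1, 1), (2, 2), (1, 2), (2, 3)]),
   (5, [((0x1098106820a849022058850245018901, 0x12658800216011598406840a8800225), 0x5bd8c8)],
     [(0, 0), (0, 0), (1, 1), (0, 1), (3, 1)]),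
   (7, [((0x280942504160180a2806240a41908150, 0x140681a08290240514091805826042a0), 0xafcc88)],
     [(0, 0), (1, 0), (2, 1), (1, 1)]),
   (9, [((0x6440584094400119a840021a01160215, 0x58809480648001265440011502250129), 0xf66688)],
     [(0, 0), (0, 0), (1, 1)]),
   (11, [((0xa011601209480a880984a02205889012, 0x9022a0210a840644068850210a486022), 0xbf4688)],
     [(0, 0), (0, 0)]),
   (2, [((0x80002000080002000080002000080002, 0x80002000080002000080002000080002), 0xfac688)],
     [(0, 0)])]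

/-- A chain for the alternating group. -/
def E8 : List (CG.Level ℕ) :=
  [(0, [0xd1067d],
     [(0, 0), (0, 0), (2, 1), (4, 2), (5, 3), (0, 3), (2, 4)]),
   (1, [0x855f98],
     [(0, 0), (0, 0), (1, 1), (2, 2), (1, 2), (2, 3)]),
   (2, [0x5bd8c8],
     [(0, 0), (0, 0), (1, 1), (0, 1), (3, 1)]),
   (3, [0xafcc88],
     [(0, 0), (1, 0), (2, 1), (1, 1)]),
   (4, [0xf66688],
     [(0, 0), (0, 0), (1, 1)]),
   (5, [0xbf4688, 0xfac688],
     [(0, 0), (0, 0)])]

theorem chk8 : N.ordCheck ok L8 40320 = true := by decide +kernel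

theorem vt : M.VT ok := (K3.glcg_vt 8).prodK (acg_vt 8 3 (by norm_num))

theorem uniq : M.Uniq := (K3.cg_uniq 8 _ _).prodK (acg_uniq 8 3 (by norm_num))

theorem complete : M.Complete :=
  (K3.cg_complete 8 _ Units.coeHom_injective).prod (acg_complete 8 3 (by norm_num))

theorem spec : M.Valid (CG.gensOf L8) ∧ M.ssCheck L8 = true ∧ M.lbCheck L8 = true ∧
    Nat.card (M.gen (CG.gensOf L8)) = 40320 :=
  CG.ordCheck_spec ((K3.cg_keyed 8 _ _).prodK (acg_keyed 8 3 (by norm_num))) uniq vt (N := N) rfl chk8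

theorem exists_elt (c : (ℕ × ℕ) × ℕ) (h : band (ok c) (N.sift (N.transOf L8) c) = true) :
    ∃ g : M.gen (CG.gensOf L8), M.Rep g c := vt.gen spec.1 c h

theorem eight : ∃ (H : Type) (_ : Group H) (_ : Finite H),
    IsNonsplitDoubleCover H (alternatingGroup (Fin 8)) ∧
      ∃ x y : H, x ≠ y ∧ orderOf x = 2 ∧ orderOf y = 2 := by
  let D := M.gen (CG.gensOf L8)
  let π : D →* alternatingGroup (Fin 8) := (MonoidHom.snd _ _).comp D.subtype
  have h1 : Function.Surjective π := by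
    rw [← MonoidHom.range_eq_top, MonoidHom.range_comp, Subgroup.range_subtype]
    refine (CG.map_snd_gen (K3.glcg 8) (acg 8 3 (by norm_num)) (CG.gensOf L8) fun c hc => ?_).trans
      (CG.gen_eq_top_of_check (acg_keyed 8 3 (by norm_num)) (acg_vt 8 3 (by norm_num)) rfl
        (L := E8) card_A8.le (by decide +kernel))
    obtain ⟨d, hd, rfl⟩ := List.mem_map.mp hc
    obtain ⟨g, hg⟩ := spec.1 d hd
    exact ⟨g.1, hg.1⟩
  have h2 := card_ker_mul_of_surjective π h1
  rw [card_A8, spec.2.2.2] at h2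
  have h3 : Nat.card π.ker = 2 := by omega
  have h4 : Subgroup.center D = π.ker := by
    refine le_antisymm (fun g hg => ?_) fun g hg => ?_
    · have : π g ∈ Subgroup.center (alternatingGroup (Fin 8)) :=
        Subgroup.mem_center_iff.mpr fun y => by
          obtain ⟨y, rfl⟩ := h1 y
          rw [← map_mul, ← map_mul, Subgroup.mem_center_iff.mp hg]
      rwa [alternatingGroup.center_eq_bot (by simp)] at this
    · refine Subgroup.mem_center_iff.mpr fun y => ?_
      by_cases hg1 : g = 1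
      · simp [hg1]
      obtain ⟨t, -, ht⟩ := (Nat.card_eq_two_iff' (1 : π.ker)).mp h3
      have e1 := ht ⟨g, hg⟩ fun h => hg1 (congrArg Subtype.val h)
      have e2 := ht ⟨y * g * y⁻¹, (inferInstance : π.ker.Normal).conj_mem g hg y⟩ fun h =>
        hg1 (by simpa using congrArg Subtype.val h)
      exact mul_inv_eq_iff_eq_mul.mp (congrArg Subtype.val (e2.trans e1.symm))
  obtain ⟨a, ha⟩ := exists_elt ((0x29104045408980492610808525202a20, 0x1620808a804640861920404a1a101510), 0xfac21a) (by decide +kernel)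
  obtain ⟨b, hb⟩ := exists_elt ((0x8a20852510408916108620408615208, 0x45104a1a2080462920491080492a104), 0xfac053) (by decide +kernel)
  obtain ⟨z, hz⟩ := exists_elt ((0x80002000080002000080002000080002, 0x80002000080002000080002000080002), 0xfac688) (by decide +kernel)
  obtain ⟨x, hx⟩ := exists_elt ((0x40892a20291026108049252080854045, 0x40892a20291026108049252080854045), 0xb3e053) (by decide +kernel)
  have h5 : ⁅a, b⁆ = z := Subtype.ext (M.eq_of_eqc (M.rep_cm ha hb) hz
    (show N.eqc (N.cm ((0x29104045408980492610808525202a20, 0x1620808a804640861920404a1a101510), 0xfac21a) ((0x8a20852510408916108620408615208, 0x45104a1a2080462920491080492a104), 0xfac053)) ((0x80002000080002000080002000080002, 0x80002000080002000080002000080002), 0xfac688) = true by decide +kernel))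
  have h6 : orderOf z = 2 := (complete.sub D).ord_eq (N := N) (fuel := 3) rfl hz two_ne_zero
    (by decide +kernel)
  have h7 : orderOf x = 2 := (complete.sub D).ord_eq (N := N) (fuel := 3) rfl hx two_ne_zero
    (by decide +kernel)
  have h8 : z ∈ Subgroup.center D := by
    rw [h4]
    exact (acg 8 3 (by norm_num)).eq_one hz.2 (by decide +kernel)
  refine ⟨D, inferInstance, inferInstance, ⟨h4 ▸ h3, ⟨(QuotientGroup.quotientMulEquivOfEq h4).trans
    (QuotientGroup.quotientKerEquivOfSurjective π h1)⟩, fun K hK => ?_⟩,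
    x, z, fun h => ?_, h7, h6⟩
  · have := Subgroup.disjoint_def.mp hK.disjoint h8
      (h5 ▸ commutator_mem_of_isComplement_center hK a b)
    rw [this, orderOf_one] at h6
    omega
  · exact absurd ((complete.eqc_iff hx hz).mpr (congrArg Subtype.val h))
      (show ¬ N.eqc ((0x40892a20291026108049252080854045, 0x40892a20291026108049252080854045), 0xb3e053) ((0x80002000080002000080002000080002, 0x80002000080002000080002000080002), 0xfac688) = true by decide +kernel)

/-- Involutions in double covers of alternating groups: for n ≤ 7, a finite non-split double cover of the alternating group of degree n has exactly one element of order 2 (the central one); for degree 8 there is a non-split double cover with two distinct involutions. -/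
theorem result : (∀ (n : ℕ) (H : Type) (_ : Group H) (_ : Finite H), n ≤ 7 → Cfsg.IsNonsplitDoubleCover H (alternatingGroup (Fin n)) → ∀ x y : H, orderOf x = 2 → orderOf y = 2 → x = y) ∧ ∃ (H : Type) (_ : Group H) (_ : Finite H), Cfsg.IsNonsplitDoubleCover H (alternatingGroup (Fin 8)) ∧ ∃ x y : H, x ≠ y ∧ orderOf x = 2 ∧ orderOf y = 2 := by
  refine ⟨fun n H _ _ hn h x y hx hy => ?_, eight⟩
  have key : ∀ x : H, x * x = 1 → x ∈ Subgroup.center H := fun x hx => by
    rcases (by omega : n ≤ 3 ∨ n = 4 ∨ n = 5 ∨ n = 6 ∨ n = 7) with h1 | rfl | rfl | rfl | rfl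
    exacts [small h1 h hx, case4 h hx, case5 h hx, case6 h hx, case7 h hx]
  obtain ⟨h1, h2⟩ := H3.orderOf_two_iff.mp hx
  obtain ⟨h3, h4⟩ := H3.orderOf_two_iff.mp hy
  obtain ⟨t, -, ht⟩ := (Nat.card_eq_two_iff' (1 : Subgroup.center H)).mp h.1
  exact congrArg Subtype.val ((ht ⟨x, key x h1⟩ fun h => h2 (congrArg Subtype.val h)).trans
    (ht ⟨y, key y h3⟩ fun h => h4 (congrArg Subtype.val h)).symm)

end Cfsg.Agent.S0447
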