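import Cfsg.Statements.S0454
import Cfsg.Agent.H5.LyG
-- import your own Cfsg.Agent.* helpers here

set_option autoImplicit false
open Cfsg

namespace Cfsg.Agent.S0454

/-- Existence of the Lyons group: there is a transitive permutation group of degree 8835156, simple of order 51765179004000000, whose point stabiliser is simple of the order of a group of type G2, and which has an involution whose centraliser is a non-split double cover of the alternating group of degree 11. -/
theorem result : ∃ H : Subgroup (Equiv.Perm (Fin 8835156)), Cfsg.IsLy H ∧ MulAction.IsPretransitive H (Fin 8835156) ∧ Cfsg.IsG2 (MulAction.stabilizer H (0 : Fin 8835156)) ∧ ∃ t : H, orderOf t = 2 ∧ Cfsg.IsNonsplitDoubleCover (Subgroup.centralizer ({t} : Set H)) (alternatingGroup (Fin 11)) := by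
  have hs := H5.Ly.simple H5.Ly.h10 H5.Ly.ht1
  have hc := H5.Ly.card_G H5.Ly.h10 H5.Ly.ht1
  have hK := H5.Ly.card_H (H5.Ly.hb H5.Ly.h10)
  have hS := H5.Ly.simple_H (H5.Ly.hb H5.Ly.h10)
  generalize H5.Ly.m1.gn H5.Ly.eg 3 = K at hK hS
  have hi : K.index = 8835155 + 1 := by
    have := K.card_mul_index
    rw [hK, hc] at this
    omega
  obtain ⟨H, e, ht, hst⟩ := H5.exists_perm_rep K 8835155 hi (fun h => by simp [h] at hi)
  have f : MulAction.stabilizer H (0 : Fin (8835155 + 1)) ≃* K :=
    (MulEquiv.subgroupCongr hst).trans (K.equivMapOfInjective _ e.injective).symm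
  have hS' : IsSimpleGroup (MulAction.stabilizer H (0 : Fin (8835155 + 1))) :=
    @MulEquiv.isSimpleGroup _ _ _ _ hS f
  have hq : Nat.card (MulAction.stabilizer H (0 : Fin (8835155 + 1))) =
      5 ^ 6 * (5 ^ 6 - 1) * (5 ^ 2 - 1) := (Nat.card_congr f.toEquiv).trans (hK.trans (by norm_num))
  exact ⟨H, ⟨e.symm.isSimpleGroup, (Nat.card_congr e.toEquiv).symm.trans hc⟩, ht,
    ⟨hS', 5, Nat.prime_five.isPrimePow, by norm_num, hq⟩, H5.Ly.cent_two' e⟩

end Cfsg.Agent.S0454
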