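import Cfsg.Statements.S0472
import Cfsg.Agent.H4.F23S

set_option autoImplicit false
open Cfsg

namespace Cfsg.Agent.S0472

theorem aux {G : Type} [Group G] [Finite G] {G' H : Subgroup G}
    (hs : IsSimpleGroup G') (h1 : Nat.card G' = 4089470473293004800)
    (h0 : Nat.card H = 129123503308800) (h4 : IsSimpleGroup (H ⧸ Subgroup.center H))
    (h2 : IsNonsplitDoubleCover H (H ⧸ Subgroup.center H))
    (h3 : ∃ S : Set G', IsThreeTranspositionClass S ∧ Nat.card S = 31671 ∧
      ∀ e ∈ S, Nonempty (H ≃* Subgroup.centralizer {e})) : ∃ (G : Type) (_ : Group G) (_ : Finite G), Cfsg.IsFi23 G ∧ ∃ D : Set G, Cfsg.IsThreeTranspositionClass D ∧ Nat.card D = 31671 ∧ ∀ d ∈ D, ∃ (K : Type) (_ : Group K), Cfsg.IsFi22 K ∧ Cfsg.IsNonsplitDoubleCover (Subgroup.centralizer ({d} : Set G)) K := by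
  obtain ⟨S, a, b, c⟩ := h3
  refine ⟨G', inferInstance, inferInstance, ⟨hs, h1⟩, S, a, b, fun d hd => ?_⟩
  obtain ⟨e⟩ := c d hd
  exact ⟨H ⧸ Subgroup.center H, inferInstance, ⟨h4, H4.card_quot_center h2 (by rw [h0])⟩,
    H4.nonsplit_congr e (MulEquiv.refl _) h2⟩

/-- The Fischer group of order 4089470473293004800 exists as a 3-transposition group: a simple group of that order generated by a conjugacy class of 31671 3-transpositions, the centraliser of each being a non-split double cover of a simple group of order 64561751654400. -/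
theorem result : ∃ (G : Type) (_ : Group G) (_ : Finite G), Cfsg.IsFi23 G ∧ ∃ D : Set G, Cfsg.IsThreeTranspositionClass D ∧ Nat.card D = 31671 ∧ ∀ d ∈ D, ∃ (K : Type) (_ : Group K), Cfsg.IsFi22 K ∧ Cfsg.IsNonsplitDoubleCover (Subgroup.centralizer ({d} : Set G)) K :=
  aux H4.F23.simpleG H4.F23.cardG H4.F23.cardH H4.F23.covH.2.1 H4.F23.covH.2.2 H4.F23.transp

end Cfsg.Agent.S0472
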