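import Cfsg.Statements.S1892
import Cfsg.Agent.H2.Coprime
import Cfsg.Agent.L.PSolv

set_option autoImplicit false
open Cfsg

namespace Cfsg.Agent.S1892

open Subgroup Cfsg.Agent.H2
open scoped commutatorElement Pointwise


/-- Let S be a finite p-solvable group with no nontrivial normal subgroup of order prime to p, A a p-subgroup of S, and Q a nontrivial A-invariant subgroup of order prime to p with [A, Q] = Q. Then the commutator [O_p(S), A, Q] is nontrivial. -/
theorem result {S : Type*} [Group S] [Finite S] {p : ℕ} [Fact p.Prime]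
    (hS : Cfsg.IsPSolvable p S) (hred : Cfsg.pPrimeCore p S = ⊥)
    (A Q : Subgroup S) (hA : IsPGroup p A) (hQ : ¬ p ∣ Nat.card Q) (hQ1 : Q ≠ ⊥)
    (hinv : ∀ a ∈ A, ∀ x ∈ Q, a * x * a⁻¹ ∈ Q) (hAQ : ⁅A, Q⁆ = Q) :
    ⁅⁅Cfsg.pCore p S, A⁆, Q⁆ ≠ ⊥ := by
  intro h
  have hp : p.Prime := Fact.out
  set P := pCore p S
  have hcop : (Nat.card Q).Coprime p := ((Nat.Prime.coprime_iff_not_dvd hp).mpr hQ).symm
  have hQN : Q ≤ normalizer ((⁅P, A⁆ : Subgroup S) : Set S) :=
    le_normalizer_of_le_centralizer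
      (le_centralizer_iff.mp (commutator_eq_bot_iff_le_centralizer.mp h))
  have h1 : ⁅⁅A, Q⁆, P⁆ ≤ ⁅P, A⁆ :=
    three_subgroups' (normalizer_commutator_ge_right _ _) hQN (normalizer_commutator_ge_left _ _)
      (commutator_mono (commutator_le_right _ _) le_rfl) (h.le.trans bot_le)
  rw [hAQ, commutator_comm] at h1
  have h2 : P ≤ centralizer (Q : Set S) :=
    le_centralizer_of_commutator_le_centralizer le_normalizer_of_normal
      (L.coprime_card_of_isPGroup (L.pCore_isPGroup p) hcop).symm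
      (h1.trans (commutator_eq_bot_iff_le_centralizer.mp h))
  exact hQ1 (L.eq_bot_of_isPGroup_of_coprime ((L.pCore_isPGroup p).to_le
    ((le_centralizer_iff.mp h2).trans (L.centralizer_pCore_le hS hred))) hcop)

end Cfsg.Agent.S1892
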