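import Cfsg.Statements.S1893
import Cfsg.Agent.H2.Stable
import Cfsg.Agent.H2.Hall

set_option autoImplicit false
open Cfsg

namespace Cfsg.Agent.S1893

open Subgroup Cfsg.Agent.H2
open scoped commutatorElement Pointwise


/-- Let S be a finite solvable group, π a set of primes containing neither 2 nor 3, H a Hall π-subgroup of S, and A a self-centralizing normal subgroup of the Fitting subgroup F(H). Then C_S(A) = A × D for a normal subgroup D of C_S(A) whose order has no prime divisor in π. -/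
theorem result {S : Type*} [Group S] [Finite S] [Group.IsSolvable S]
    (π : Set ℕ) (h2 : 2 ∉ π) (h3 : 3 ∉ π) (H : Subgroup S) (hH : Cfsg.IsPiHall π H)
    (A : Subgroup S) (hA : Cfsg.IsSCN ((Cfsg.fittingSubgroup H).map H.subtype) A) :
    ∃ D : Subgroup S, D ≤ Subgroup.centralizer (A : Set S) ∧
      (∀ c ∈ Subgroup.centralizer (A : Set S), ∀ d ∈ D, c * d * c⁻¹ ∈ D) ∧
      A ⊓ D = ⊥ ∧ A ⊔ D = Subgroup.centralizer (A : Set S) ∧
      ∀ q : ℕ, q.Prime → q ∣ Nat.card D → q ∉ π := by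
  obtain ⟨hAF, hFA, hC⟩ := hA
  set N := piCore πᶜ S with hN
  have hNπ : PiNum πᶜ (Nat.card N) := L.piCore_mem πᶜ
  have hHπ : PiNum π (Nat.card H) := hH.1
  set f := QuotientGroup.mk' N with hf
  have hfs := QuotientGroup.mk'_surjective N
  set F₀ := (fittingSubgroup H).map H.subtype with hF₀
  have hF₀H : F₀ ≤ H := map_subtype_le _
  have hAH : A ≤ H := hAF.trans hF₀H
  have hHN : H ⊓ N = ⊥ := (disjoint_of_coprime_natCard (hHπ.coprime hNπ)).eq_bot
  have hinj : ∀ x ∈ H, f x = 1 → x = 1 := fun x hx h => mem_bot.mp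
    (hHN ▸ mem_inf.mpr ⟨hx, (QuotientGroup.eq_one_iff x).mp h⟩)
  have hg : Function.Injective (f.comp H.subtype) :=
    (injective_iff_map_eq_one _).mpr fun x hx => Subtype.ext (hinj x x.2 hx)
  have hcore : ∀ q : ℕ, q.Prime → q ∉ π → pCore q (S ⧸ N) = ⊥ := fun q hq hqπ => by
    have : Fact q.Prime := ⟨hq⟩
    rw [eq_bot_iff, ← L.piCore_quotient πᶜ]
    exact L.le_piCore (piNum_card_of_isPGroup (L.pCore_isPGroup q) hqπ)
  set F := fittingSubgroup (S ⧸ N) with hF
  have hFH : F ≤ H.map f := by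
    rw [hF, L.fitting_eq_iSup_pCore]
    refine iSup_le fun q => ?_
    by_cases hq : (q : ℕ) ∈ π
    · have : Fact (q : ℕ).Prime := ⟨q.2⟩
      have h1 : ¬ (q : ℕ) ∣ (H.map f).index := fun h =>
        hH.2 q q.2 hq (h.trans (index_map_dvd H hfs))
      obtain ⟨P, -, h2, h3, h4⟩ := exists_sylow_le (p := q) (K := H.map f) IsPGroup.of_bot bot_le
      refine (L.pCore_le_sylow (h3.toSylow fun h => ?_)).trans h2
      rw [← relIndex_mul_index h2] at h
      exact ((Nat.Prime.dvd_mul q.2).mp h).elim h4 h1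
    · rw [hcore q q.2 hq]; exact bot_le
  have hFF : F ≤ F₀.map f := by
    intro x hx
    obtain ⟨y, hy, rfl⟩ := hFH hx
    exact mem_map_of_mem f (mem_map_of_mem H.subtype
      (L.nilClass.comap_rad_le (f.comp H.subtype) hg (x := ⟨y, hy⟩) hx))
  set C := centralizer ((A.map f : Subgroup _) : Set (S ⧸ N)) with hCdef
  have hC' : F₀.map f ⊓ C ≤ A.map f := by
    rintro _ ⟨⟨x, hx, rfl⟩, hxC⟩
    refine mem_map_of_mem f (hC.le (mem_inf.mpr ⟨hx, fun a ha => ?_⟩))
    rw [← commutatorElement_eq_one_iff_mul_comm]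
    refine hinj _ (commutator_le_left_of_le_normalizer le_normalizer
      (commutator_mem_commutator (hAH ha) (hF₀H hx))) ?_
    rw [map_commutatorElement, commutatorElement_eq_one_iff_mul_comm]
    exact hxC _ (mem_map_of_mem f ha)
  have hAC : ⁅A.map f, C⁆ = ⊥ := by
    rw [commutator_comm, commutator_eq_bot_iff_le_centralizer]
  have h1 : ⁅F, C⁆ ≤ A.map f := by
    refine le_trans (le_inf ((commutator_le_left _ _).trans hFF) ?_) hC'
    rw [← commutator_eq_bot_iff_le_centralizer]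
    apply commutator_commutator_eq_bot_of_rotate
    · rw [commutator_comm C, hAC, commutator_bot_left]
    · rw [eq_bot_iff, ← hAC]
      exact commutator_mono (commutator_le_left_of_le_normalizer
        (hFF.trans ((map_mono hFA).trans (le_normalizer_map _)))) le_rfl
  have h2' : C ≤ A.map f := le_trans (le_inf ((le_fitting_of_quadratic (hcore 2 Nat.prime_two h2)
    (hcore 3 Nat.prime_three h3)
    (eq_bot_iff.mpr ((commutator_mono h1 le_rfl).trans hAC.le))).trans hFF) le_rfl) hC'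
  have hAc : A ≤ centralizer (A : Set S) := hC.ge.trans inf_le_right
  refine ⟨N ⊓ centralizer (A : Set S), inf_le_right, fun c hc d hd => mem_inf.mpr
    ⟨(inferInstance : N.Normal).conj_mem d (mem_inf.mp hd).1 c,
      mul_mem (mul_mem hc (mem_inf.mp hd).2) (inv_mem hc)⟩,
    eq_bot_iff.mpr (hHN ▸ inf_le_inf hAH inf_le_left), le_antisymm (sup_le hAc inf_le_right) ?_,
    hNπ.of_dvd (card_dvd_of_le inf_le_left)⟩
  intro c hc
  obtain ⟨a, ha, h⟩ := h2' (x := f c) (by
    rintro _ ⟨a, ha, rfl⟩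
    rw [← map_mul, hc a ha, map_mul])
  rw [← mul_inv_cancel_left a c]
  exact mul_mem (mem_sup_left ha) (mem_sup_right (mem_inf.mpr
    ⟨QuotientGroup.eq.mp h, mul_mem (inv_mem (hAc ha)) hc⟩))

end Cfsg.Agent.S1893
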