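import Cfsg.Statements.S1894
import Cfsg.Agent.H2.PGroup
import Cfsg.Agent.H2.Coprime

set_option autoImplicit false
open Cfsg

namespace Cfsg.Agent.S1894

open Subgroup Cfsg.Agent.H2
open scoped commutatorElement Pointwise


/-- Let P be a finite p-group, A a normal subgroup of P and B an abelian subgroup of A that is normal in P. Then some subgroup C of A containing B is normal in P and is self-centralizing and normal in A (C ∈ SCN(A)). -/
theorem result {P : Type*} [Group P] [Finite P] {p : ℕ} [Fact p.Prime] (hP : IsPGroup p P)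
    (A : Subgroup P) [A.Normal] (B : Subgroup P) [B.Normal] (hBA : B ≤ A) (hB : IsMulCommutative B) :
    ∃ C : Subgroup P, C.Normal ∧ B ≤ C ∧ Cfsg.IsSCN A C := by
  have := hP.isNilpotent
  obtain ⟨C, hBC, hC, hmax⟩ := Finite.exists_le_maximal
    (p := fun C : Subgroup P => C.Normal ∧ C ≤ A ∧ IsMulCommutative C) (a := B) ⟨‹_›, hBA, hB⟩
  obtain ⟨hn, hCA, hCc⟩ := hC
  refine ⟨C, hn, hBC, hCA, le_normalizer_of_normal, le_antisymm ?_ ?_⟩
  · by_contra hcon
    obtain ⟨x, hx, hx1, hx2⟩ := exists_mem_not_mem_commutator_mem_top hcon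
    exact hx1 (hmax ⟨normal_sup_zpowers hx2, sup_le hCA (zpowers_le.mpr (mem_inf.mp hx).1),
      isMulCommutative_sup_zpowers hCc (mem_inf.mp hx).2⟩ le_sup_left
      (mem_sup_right (mem_zpowers x)))
  · exact le_inf hCA (le_centralizer C)

end Cfsg.Agent.S1894
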