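import Cfsg.Statements.S1895
import Cfsg.Agent.H2.Rank
import Cfsg.Agent.L.PSolv
import Cfsg.Agent.H1.Basic

set_option autoImplicit false
open Cfsg

namespace Cfsg.Agent.S1895

open Subgroup Cfsg.Agent.H2
open scoped commutatorElement Pointwise

theorem aux {G : Type*} [Group G] [Finite G] {p : ℕ} [hp : Fact p.Prime] (hp2 : p ≠ 2)
    (hG : IsPSolvable p G) (hr : PRankLE p 2 G) (h0 : pPrimeCore p G = ⊥)
    (C : Subgroup G → Prop) (hC0 : C ⊥)
    (hC : ∀ A B : Subgroup G, A.Normal → B.Normal → A ≤ B → ¬ p ^ 3 ∣ A.relIndex B → C A → C B) :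
    C ⊤ := by
  have h1p := hp.out.one_lt
  have hC' : ∀ A B : Subgroup G, A.Normal → B.Normal → A ≤ B → A.relIndex B ≤ p ^ 2 → C A → C B :=
    fun A B hA hB hAB h => hC A B hA hB hAB fun h' => by
      have := (Nat.le_of_dvd (Nat.pos_of_ne_zero (relIndex_ne_zero' _ _)) h').trans h
      rw [Nat.pow_le_pow_iff_right h1p] at this
      omega
  set R := pCore p G with hR
  have hRp : IsPGroup p R := L.pCore_isPGroup p
  have hCR := L.centralizer_pCore_le hG h0
  have hom : ∀ T : Subgroup G, Nat.card (omegaZ p T) ≤ p ^ 2 := fun T =>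
    hr _ (le_centralizer_iff_isMulCommutative.mp ((omegaZ_le_centralizer T).trans
      (centralizer_le (SetLike.coe_subset_coe.mpr (omegaZ_le T))))) fun a ha => ha.2
  have hmax : ∀ A : Subgroup G, IsMulCommutative A → (∀ a ∈ A, a ^ p = 1) → Nat.card A = p ^ 2 →
      ∀ x ∈ centralizer (A : Set G), x ^ p = 1 → x ∈ A := fun A h1 h2 h3 x hx hxp => by
    have := eq_of_le_of_card_ge (le_sup_left : A ≤ A ⊔ zpowers x)
      (h3 ▸ hr _ (isMulCommutative_sup_zpowers h1 hx) (pow_eq_one_of_mem_sup_zpowers h2 hx hxp))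
    exact this.ge (mem_sup_right (mem_zpowers x))
  have hCR' : C R := by
    by_cases h : ∀ x ∈ R, x ^ p = 1 → x ∈ centralizer (R : Set G)
    · exact induction_of_omega_central hp2 _ _ G le_rfl R hRp h (hom R) C hC0 hC'
    push Not at h
    obtain ⟨x₀, hx₀, hx₀p, hx₀c⟩ := h
    set Z := omegaZ p R with hZ
    have hZc : IsMulCommutative Z := le_centralizer_iff_isMulCommutative.mp
      ((omegaZ_le_centralizer R).trans (centralizer_le (SetLike.coe_subset_coe.mpr (omegaZ_le R))))
    have hZp : Nat.card Z = p := by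
      obtain ⟨k, hk⟩ := IsPGroup.iff_card.mp (hRp.to_le (omegaZ_le R))
      have h1 : k ≤ 2 := (Nat.pow_le_pow_iff_right h1p).mp (hk ▸ hom R)
      have h2 : k ≠ 2 := by
        rintro rfl
        exact hx₀c (hmax Z hZc (fun a ha => ha.2) hk x₀
          (le_centralizer_iff.mp (omegaZ_le_centralizer R) hx₀) hx₀p).1.2
      have h3 : k ≠ 0 := by
        rintro rfl
        refine omegaZ_ne_bot hRp (fun h => hx₀c ?_) (card_eq_one.mp hk)
        rw [h, mem_bot] at hx₀
        rw [hx₀]
        exact one_mem _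
      rw [hk, show k = 1 by omega, pow_one]
    set f := QuotientGroup.mk' Z with hf
    have : (R.map f).Normal := Normal.map inferInstance f (QuotientGroup.mk'_surjective Z)
    set S := (R.map f ⊓ centralizer ((R.map f : Subgroup _) : Set (G ⧸ Z))).comap f with hS
    have hSR : S ≤ R := by
      rw [← comap_map_eq_self (f := f) (H := R) (by rw [QuotientGroup.ker_mk']; exact omegaZ_le R)]
      exact comap_mono inf_le_left
    have hS1 : ∀ x ∈ R, x ∈ S ↔ ∀ g ∈ R, ⁅g, x⁆ ∈ Z := fun x hx => by
      constructor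
      · intro h g hg
        rw [← QuotientGroup.eq_one_iff, ← QuotientGroup.mk'_apply, map_commutatorElement,
          commutatorElement_eq_one_iff_mul_comm]
        exact (mem_inf.mp h).2 _ (mem_map_of_mem f hg)
      · intro h
        refine mem_inf.mpr ⟨mem_map_of_mem f hx, ?_⟩
        rintro _ ⟨g, hg, rfl⟩
        rw [← commutatorElement_eq_one_iff_mul_comm, ← map_commutatorElement,
          QuotientGroup.mk'_apply, QuotientGroup.eq_one_iff]
        exact h g hg
    have hS2 : ⁅R, S⁆ ≤ Z := commutator_le.mpr fun g hg x hx => (hS1 x (hSR hx)).mp hx g hg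
    set W := omegaOfClassTwo p (hp.out.odd_of_ne_two hp2) S ((commutator_mono hSR le_rfl).trans
      (hS2.trans ((omegaZ_le_centralizer R).trans
        (centralizer_le (SetLike.coe_subset_coe.mpr hSR))))) with hW
    have hWS : W ≤ S := fun x hx => hx.1
    have hWn : W.Normal := ⟨fun x hx g => ⟨(inferInstance : S.Normal).conj_mem x hx.1 g, by
      rw [conj_pow, hx.2, mul_one, mul_inv_cancel]⟩⟩
    have hZW : Z ≤ W := fun x hx => ⟨(hS1 x hx.1.1).mpr fun g hg => by
      rw [commutatorElement_eq_one_iff_mul_comm.mpr (hx.1.2 g hg)]; exact one_mem _, hx.2⟩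
    have hW3 : Nat.card W ≤ p ^ 3 := card_le_cube_of_exponent (fun x hx => hx.2)
      fun A hA hAc => hr A hAc fun a ha => (hA ha).2
    refine hC' (R ⊓ centralizer (W : Set G)) R inferInstance inferInstance inf_le_left ?_ ?_
    · rw [inf_comm, inf_relIndex_right]
      refine (relIndex_centralizer_le_relIndex hZp.le
        (le_centralizer_iff.mp (omegaZ_le_centralizer R)) (hRp.to_le (hWS.trans hSR)) hZW
        ((commutator_mono le_rfl hWS).trans hS2)).trans ?_
      have := card_mul_relIndex hZW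
      rw [← this, hZp, pow_succ'] at hW3
      exact Nat.le_of_mul_le_mul_left hW3 hp.out.pos
    · obtain ⟨A', hA'n, hA'c, hA'p, hA'⟩ := exists_normal_elementary_sq hp2 R hRp fun h =>
        hx₀c (le_centralizer R hx₀)
      set A := A'.map R.subtype with hA
      have hAR : A ≤ R := map_subtype_le _
      have hRA : R ≤ normalizer (A : Set G) := L.le_normalizer_map_subtype A'
      have hA2 : Nat.card A = p ^ 2 := by rw [hA, L.card_map_subtype, hA']
      have hAp : ∀ a ∈ A, a ^ p = 1 := by
        rintro _ ⟨a, ha, rfl⟩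
        exact congrArg Subtype.val (hA'p a ha)
      have h1 := card_commutator_le_pow hRp hAR hRA (k := 1) hA2.le
      have h2 : ⁅A, R⁆ ≤ A := commutator_le_left_of_le_normalizer hRA
      have h3 := commutator_eq_bot_iff_le_centralizer.mp (eq_bot_of_card_le _
        (card_commutator_le_pow hRp (h2.trans hAR) (normalizer_commutator_ge_right _ _) (k := 0) h1))
      have hAW : A ≤ W := fun a ha => ⟨(hS1 a (hAR ha)).mpr fun g hg => by
        have h4 : ⁅g, a⁆ ∈ ⁅A, R⁆ := commutator_comm R A ▸ commutator_mem_commutator hg ha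
        exact ⟨⟨hAR (h2 h4), h3 h4⟩, hAp _ (h2 h4)⟩, hAp a ha⟩
      refine induction_of_omega_central hp2 _ _ G le_rfl _ (hRp.to_le inf_le_left) ?_ (hom _)
        C hC0 hC'
      intro x hx hxp
      exact le_centralizer_iff.mp inf_le_right (hAW (hmax A inferInstance hAp hA2 x
        (centralizer_le (SetLike.coe_subset_coe.mpr hAW) (mem_inf.mp hx).2) hxp))
  refine hC R ⊤ inferInstance inferInstance le_top ?_ hCR'
  obtain ⟨D', hD', h1, -, h3⟩ := exists_char_exponent_p_faithful hp2 hRp
  set D := D'.map R.subtype with hD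
  have hDn : D.Normal := L.normal_map_subtype_of_char D'
  have hDp : ∀ a ∈ D, a ^ p = 1 := by
    rintro _ ⟨a, ha, rfl⟩
    exact congrArg Subtype.val (h1 a ha)
  have hDR : D ≤ R := map_subtype_le _
  have hCD : centralizer (D : Set G) ≤ R := by
    refine L.le_pCore (H1.isPGroup_iff_mem.mpr fun x hx => ?_)
    obtain ⟨k, hk⟩ := H1.exists_pow_coprime (p := p) x
    have h4 := h3 (MulAut.conjNormal (x ^ p ^ k)) _ (by rw [← map_pow, pow_orderOf_eq_one, map_one])
      hk fun y hy => Subtype.ext (mul_inv_eq_iff_eq_mul.mpr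
        (pow_mem hx _ _ (mem_map_of_mem _ hy)).symm)
    have h5 : x ^ p ^ k ∈ R := hCR fun y hy => (mul_inv_eq_iff_eq_mul.mp
      (congrArg (fun f : MulAut R => (f ⟨y, hy⟩ : G)) h4)).symm
    obtain ⟨j, hj⟩ := H1.isPGroup_iff_mem.mp hRp _ h5
    exact ⟨k, H1.eq_one_of_pow_of_coprime hj hk⟩
  obtain ⟨P⟩ : Nonempty (Sylow p G) := inferInstance
  have hRP : R ≤ P := L.pCore_le_sylow P
  obtain ⟨k, hk⟩ := IsPGroup.iff_card.mp (hRp.to_le hDR)
  have h4 := relIndex_centralizer_le_pow_choose P.isPGroup' (hDR.trans hRP)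
    le_normalizer_of_normal hk
  rw [← relIndex_mul_relIndex _ _ _ hCD hRP] at h4
  have h5 : R.relIndex P ≤ p ^ 2 := by
    by_cases h : D ≤ centralizer (D : Set G)
    · have h5 : k ≤ 2 := (Nat.pow_le_pow_iff_right h1p).mp
        (hk ▸ hr D (le_centralizer_iff_isMulCommutative.mp h) hDp)
      exact (Nat.le_mul_of_pos_left _ (Nat.pos_of_ne_zero (relIndex_ne_zero' _ _))).trans
        (h4.trans (Nat.pow_le_pow_right hp.out.pos ((Nat.choose_le_choose 2 h5).trans one_le_two)))
    · have h5 : k ≤ 3 := (Nat.pow_le_pow_iff_right h1p).mp (hk ▸ card_le_cube_of_exponent hDp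
        fun A hA hAc => hr A hAc fun a ha => hDp a (hA ha))
      have h6 := mul_card_le_of_lt hRp (lt_of_le_of_ne hCD fun h' => h (hDR.trans h'.ge))
      rw [← card_mul_relIndex hCD] at h6
      have h7 := (Nat.mul_le_mul_right _ (Nat.le_of_mul_le_mul_left h6 Nat.card_pos)).trans
        (h4.trans (Nat.pow_le_pow_right hp.out.pos (Nat.choose_le_choose 2 h5)))
      exact Nat.le_of_mul_le_mul_left (h7.trans_eq (pow_succ' p 2)) hp.out.pos
  rw [relIndex_top_right, ← relIndex_mul_index hRP]
  intro h
  have := (Nat.le_of_dvd (Nat.pos_of_ne_zero (relIndex_ne_zero' _ _))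
    ((Nat.Coprime.pow_left 3 ((Nat.Prime.coprime_iff_not_dvd hp.out).mpr
      P.not_dvd_index)).dvd_of_dvd_mul_right h)).trans h5
  rw [Nat.pow_le_pow_iff_right h1p] at this
  omega

/-- Let p be an odd prime and G a finite p-solvable group with no elementary abelian subgroup of order p³. Then every chief factor H/K of G (H, K normal in G with no normal subgroup of G strictly between them) whose order is a power of p has order p or p². -/
theorem result {G : Type*} [Group G] [Finite G] {p : ℕ} [Fact p.Prime] (hp : p ≠ 2)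
    (hG : Cfsg.IsPSolvable p G) (hr : Cfsg.PRankLE p 2 G)
    (H K : Subgroup G) [H.Normal] [K.Normal] (hKH : K < H) (hpow : ∃ n : ℕ, K.relIndex H = p ^ n)
    (hchief : ∀ L : Subgroup G, L.Normal → K ≤ L → L ≤ H → L = K ∨ L = H) :
    K.relIndex H = p ∨ K.relIndex H = p ^ 2 := by
  have hp' : p.Prime := Fact.out
  obtain ⟨n, hn⟩ := hpow
  have key : ∀ A B : Subgroup G, A.Normal → B.Normal → H ⊓ A ≤ K → ¬ H ⊓ B ≤ K →
      p ^ n ∣ A.relIndex B := by
    intro A B _ _ h1 h2
    have h3 : K ⊔ (H ⊓ B) = H := (hchief _ inferInstance le_sup_left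
      (sup_le hKH.le inf_le_left)).resolve_left fun h => h2 (le_sup_right.trans h.le)
    have h4 : K.relIndex H = K.relIndex (H ⊓ B) := by
      conv_lhs => rw [← h3]
      exact relIndex_sup_left _ _
    rw [← hn, h4]
    refine (relIndex_dvd_of_le_left _ h1).trans ?_
    have h5 : (H ⊓ A).relIndex (H ⊓ B) = A.relIndex (H ⊓ B) := by
      rw [← inf_relIndex_right, ← inf_inf_distrib_left, inf_left_comm, inf_relIndex_right]
    rw [h5, ← QuotientGroup.ker_mk' A, relIndex_ker, relIndex_ker]
    exact card_dvd_of_le (map_mono inf_le_right)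
  have hn0 : n ≠ 0 := by
    rintro rfl
    exact hKH.not_ge (relIndex_eq_one.mp hn)
  have hn3 : n < 3 := by
    by_contra hcon
    set N := pPrimeCore p G with hN
    set f := QuotientGroup.mk' N with hf
    have hfs := QuotientGroup.mk'_surjective N
    have hNp : (Nat.card N).Coprime p := L.pPrimeCore_coprime p
    refine hKH.not_ge (le_inf le_rfl le_top |>.trans (aux hp (L.isPSolvable_quotient hG N) ?_
      (L.pPrimeCore_quotient p) (fun X => H ⊓ X.comap f ≤ K) ?_ ?_))
    · intro A hA hAp
      obtain ⟨P, -, h1, h2, h3⟩ := exists_sylow_le (p := p) (K := A.comap f) IsPGroup.of_bot bot_le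
      have h4 : P ⊓ N = ⊥ := L.inf_eq_bot_of_isPGroup h2 hNp
      have h5 : ∀ x ∈ P, f x = 1 → x = 1 := fun x hx h => mem_bot.mp
        (h4 ▸ mem_inf.mpr ⟨hx, (QuotientGroup.eq_one_iff x).mp h⟩)
      have h6 : P.map f = A := by
        refine (eq_of_le_of_not_dvd_relIndex (isPGroup_of_pow_eq_one hAp) le_rfl
          (map_le_iff_le_comap.mpr h1) fun h => h3 (h.trans ?_)).symm
        conv_lhs => rw [← map_comap_eq_self_of_surjective hfs A, ← relIndex_comap]
        exact relIndex_dvd_of_le_left _ (le_comap_map _ _)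
      rw [← h6]
      refine (Nat.le_of_dvd Nat.card_pos (card_map_dvd _ _)).trans (hr P ⟨⟨fun x y => Subtype.ext ?_⟩⟩ fun x hx => ?_)
      · rw [coe_mul, coe_mul, ← commutatorElement_eq_one_iff_mul_comm]
        refine h5 _ (commutator_le_left_of_le_normalizer le_normalizer
          (commutator_mem_commutator x.2 y.2)) ?_
        rw [map_commutatorElement, commutatorElement_eq_one_iff_mul_comm]
        exact setLike_mul_comm (s := A) (h1 x.2) (h1 y.2)
      · exact h5 _ (pow_mem hx p) (by rw [map_pow]; exact hAp _ (h1 hx))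
    · by_contra h
      have := key ⊥ _ inferInstance inferInstance (inf_le_right.trans bot_le) h
      rw [relIndex_bot_left, MonoidHom.comap_bot, QuotientGroup.ker_mk'] at this
      exact hp'.one_lt.ne' (hNp.symm.eq_one_of_dvd ((dvd_pow_self p hn0).trans this))
    · intro A B _ _ hAB h1 h2
      by_contra h
      have := key _ _ inferInstance inferInstance h2 h
      rw [relIndex_comap, map_comap_eq_self_of_surjective hfs] at this
      exact h1 ((pow_dvd_pow p (by omega)).trans this)
  rw [hn]
  have : n = 1 ∨ n = 2 := by omega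
  rcases this with rfl | rfl
  · exact Or.inl (pow_one p)
  · exact Or.inr rfl

end Cfsg.Agent.S1895
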