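import Cfsg.Statements.S1896
import Cfsg.Agent.H2.Meta
import Cfsg.Agent.H2.Maschke
import Cfsg.Agent.H1.Basic
import Cfsg.Agent.L.Core
import Mathlib.GroupTheory.NoncommCoprod

set_option autoImplicit false
open Cfsg

namespace Cfsg.Agent.S1896

open Subgroup Cfsg.Agent.H2
open scoped commutatorElement Pointwise

theorem odd_of_zpowers_eq {X : Type*} [Group X] (hX : IsPGroup 2 X) {d : X} (hd : d ≠ 1) {v : ℤ}
    (h : d ∈ zpowers (d ^ v)) : Odd v := by
  obtain ⟨k, hk⟩ := IsPGroup.iff_orderOf.mp hX d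
  have h1 := mem_zpowers_zpow_iff.mp h
  rw [← Int.not_even_iff_odd, even_iff_two_dvd]
  intro h2
  rcases k with _ | k
  · exact hd (orderOf_eq_one_iff.mp hk)
  · have := Int.dvd_gcd (c := 2) h2 (b := orderOf d) (by rw [hk]; push_cast; exact dvd_pow_self _ k.succ_ne_zero)
    rw [h1] at this
    omega

theorem sq_eq_one_of_odd {X : Type*} [Group X] (hX : IsPGroup 2 X) {d : X} {s : ℤ} (hs : Odd s)
    (h : (d ^ s) ^ 2 = 1) : d ^ 2 = 1 := by
  obtain ⟨k, hk⟩ := IsPGroup.iff_orderOf.mp hX (d ^ 2)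
  have h1 : ((2 ^ k : ℕ) : ℤ) ∣ s := by
    rw [← hk, orderOf_dvd_iff_zpow_eq_one, ← h, ← zpow_natCast, ← zpow_natCast, ← zpow_mul,
      ← zpow_mul, mul_comm]
  rcases k with _ | k
  · exact orderOf_eq_one_iff.mp hk
  · exact absurd (even_iff_two_dvd.mpr ((dvd_pow_self _ k.succ_ne_zero).trans (by exact_mod_cast h1)))
      (Int.not_even_iff_odd.mpr hs)

theorem zpow_odd_eq {X : Type*} [Group X] {d : X} (hd : d ^ 2 = 1) {s : ℤ} (hs : Odd s) :
    d ^ s = d := by
  obtain ⟨k, rfl⟩ := hs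
  rw [zpow_add, zpow_mul, zpow_ofNat, hd, one_zpow, one_mul, zpow_one]

theorem zpow_even_eq {X : Type*} [Group X] {d : X} (hd : d ^ 2 = 1) {s : ℤ} (hs : Even s) :
    d ^ s = 1 := by
  obtain ⟨k, rfl⟩ := hs
  rw [← two_mul, zpow_mul, zpow_ofNat, hd, one_zpow]

/-- A finite metacyclic 2-group whose automorphism group is not a 2-group is isomorphic to the quaternion group of order 8 or to a homocyclic abelian group Z_{2^n} × Z_{2^n}. -/
theorem result {X : Type*} [Group X] [Finite X] (hX : IsPGroup 2 X)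
    (hm : Cfsg.IsMetacyclic X) (hA : ¬ IsPGroup 2 (MulAut X)) :
    Nonempty (X ≃* QuaternionGroup 2) ∨
      ∃ n : ℕ, Nonempty (X ≃* Multiplicative (ZMod (2 ^ n)) × Multiplicative (ZMod (2 ^ n))) := by
  obtain ⟨α, hα1, hα⟩ : ∃ α : MulAut X, α ≠ 1 ∧ (orderOf α).Coprime 2 := by
    obtain ⟨x, hx⟩ := not_forall.mp hA
    obtain ⟨k, hk⟩ := H1.exists_pow_coprime (p := 2) x
    exact ⟨_, fun h => hx ⟨k, h⟩, hk⟩
  obtain ⟨a, g, hn, hag⟩ := isMetacyclic_iff.mp hm
  have hΦ := (SR_of_isMetacyclic two_pos hm).index_frattini_le hX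
  set π := QuotientGroup.mk' (frattini X) with hπ
  set φ := quotAct (MonoidHom.id (MulAut X)) (frattini X) fun a n hn =>
    isInv_of_characteristic (φ := MonoidHom.id _) _ ⊤ a (mem_top a) n hn with hφ
  have hφπ : ∀ x, φ α (π x) = π (α x) := fun x => rfl
  have hsq : ∀ x, π x ^ 2 = 1 := fun x => (QuotientGroup.eq_one_iff _).mpr (pow_mem_frattini hX x)
  have key : ∀ x y, zpowers x ⊔ zpowers y = ⊤ → π (α (α x)) = π x → π (α (α y)) = π y → False := by
    intro x y h h1 h2
    have h3 : φ α ^ 2 = 1 := by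
      ext v
      obtain ⟨v, rfl⟩ := QuotientGroup.mk'_surjective _ v
      have : v ∈ ((φ α ^ 2).toMonoidHom.comp π).eqLocus π := by
        refine (h.ge.trans (sup_le (zpowers_le.mpr ?_) (zpowers_le.mpr ?_))) (mem_top v)
        · exact h1
        · exact h2
      exact this
    have h4 : φ α = 1 := orderOf_eq_one_iff.mp (Nat.eq_one_of_dvd_coprimes hα
      (orderOf_map_dvd φ α) (orderOf_dvd_of_pow_eq_one h3))
    have h5 := act_fixed_of_frattini (φ := MonoidHom.id (MulAut X)) (B := zpowers α)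
      (L.coprime_card_of_isPGroup hX (by rwa [Nat.card_zpowers])).symm (by
        rintro x _ ⟨i, rfl⟩
        rw [← QuotientGroup.eq]
        exact (congrArg (fun e : MulAut (X ⧸ frattini X) => e (π x))
          (show φ (α ^ i) = 1 by rw [map_zpow, h4, one_zpow])).symm)
    exact hα1 (MulEquiv.ext fun x => (h5.ge (mem_top x)) α (mem_zpowers α))
  have hmem : ∀ x y, y ∈ frattini X ⊔ zpowers x → π y = 1 ∨ π y = π x := fun x y h => by
    obtain ⟨u, hu, _, ⟨i, rfl⟩, rfl⟩ := (mem_sup_of_le_normalizer' le_normalizer_of_normal).mp h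
    rw [map_mul, show π u = 1 from (QuotientGroup.eq_one_iff _).mpr hu, one_mul, map_zpow]
    exact zpow_eq_one_or_self (hsq x) i
  have hb : α a ∉ frattini X ⊔ zpowers a := fun h => by
    have h1 : π (α a) = π a := (hmem _ _ h).elim (fun h => by
      rw [h, (φ α).map_eq_one_iff.mp ((hφπ a).trans h)]) id
    refine key a g hag (by rw [← hφπ, h1, hφπ, h1]) ?_
    obtain ⟨i, j, h2⟩ := exists_eq_zpow_mul_zpow hag (α g)
    have h3 := congrArg π h2
    rw [map_mul, map_zpow, map_zpow] at h3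
    rcases zpow_eq_one_or_self (hsq a) i with h4 | h4 <;>
      rcases zpow_eq_one_or_self (hsq g) j with h5 | h5 <;> rw [h4, h5] at h3
    · rw [← hφπ, h3, mul_one, map_one, (φ α).map_eq_one_iff.mp ((hφπ g).trans (h3.trans (mul_one _)))]
    · rw [← hφπ, h3, one_mul, hφπ, h3, one_mul]
    · rw [mul_one] at h3
      rw [← hφπ, h3, hφπ, h1]
      exact (φ α).injective (h1.trans h3.symm)
    · rw [← hφπ, h3, map_mul, hφπ, hφπ, h1, h3, ← mul_assoc, ← sq, hsq, one_mul]
  set b := α a with hbdef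
  have ha : a ∉ frattini X := fun h => hb (mem_sup_left
    (isInv_of_characteristic (φ := MonoidHom.id _) _ ⊤ α (mem_top _) a h))
  have hab := sup_zpowers_eq_top_of_index_frattini hX hΦ ha hb
  have hbn : (zpowers b).Normal :=
    MonoidHom.map_zpowers α.toMonoidHom a ▸ hn.map α.toMonoidHom α.surjective
  have hord : orderOf b = orderOf a := α.orderOf_eq a
  obtain ⟨i, j, hc⟩ := exists_eq_zpow_mul_zpow hab (α b)
  have hc' := congrArg π hc
  rw [map_mul, map_zpow, map_zpow] at hc'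
  have hi : Odd i := by
    rw [← Int.not_even_iff_odd]
    intro h
    rw [zpow_even_eq (hsq a) h, one_mul] at hc'
    rcases zpow_eq_one_or_self (hsq b) j with h1 | h1 <;> rw [h1, ← hφπ] at hc'
    · exact hb (mem_sup_left ((QuotientGroup.eq_one_iff _).mp ((φ α).map_eq_one_iff.mp hc')))
    · have h2 : π b = π a := (φ α).injective hc'
      refine hb ((mul_mem_cancel_left (inv_mem (mem_sup_right (mem_zpowers a)))).mp (mem_sup_left ?_))
      exact QuotientGroup.eq.mp h2.symm
  have hj : Odd j := by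
    rw [← Int.not_even_iff_odd]
    intro h
    rw [zpow_even_eq (hsq b) h, mul_one, zpow_odd_eq (hsq a) hi] at hc'
    exact key a b hab hc' (by rw [← hφπ, hc', hφπ])
  obtain ⟨n, hn'⟩ := IsPGroup.iff_orderOf.mp hX a
  set D := zpowers a ⊓ zpowers b with hD
  have hcomm : ∀ x ∈ zpowers a, ∀ y ∈ zpowers b, ⁅x, y⁆ ∈ D := fun x hx y hy =>
    commutator_le_inf _ _ (commutator_mem_commutator hx hy)
  by_cases hD0 : D = ⊥
  · right
    have h1 : ∀ (x : zpowers a) (y : zpowers b), Commute ((zpowers a).subtype x)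
        ((zpowers b).subtype y) := fun x y =>
      commutatorElement_eq_one_iff_commute.mp (mem_bot.mp (hD0 ▸ hcomm x x.2 y y.2))
    have h2 : Function.Bijective (MonoidHom.noncommCoprod _ _ h1) := by
      constructor
      · rw [MonoidHom.noncommCoprod_injective, range_subtype, range_subtype]
        exact ⟨Subtype.val_injective, Subtype.val_injective, disjoint_iff.mpr hD0⟩
      · rw [← MonoidHom.range_eq_top, MonoidHom.noncommCoprod_range, range_subtype, range_subtype, hab]
    refine ⟨n, ⟨(MulEquiv.ofBijective _ h2).symm.trans (MulEquiv.prodCongr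
      (mulEquivOfCyclicCardEq ?_) (mulEquivOfCyclicCardEq ?_))⟩⟩
    · simp [Nat.card_zpowers, hn']
    · simp [Nat.card_zpowers, hn', hord]
  left
  set m := D.relIndex (zpowers a) with hm'
  have hm1 : Nat.card D * m = orderOf a := by
    rw [hm', card_mul_relIndex inf_le_left, Nat.card_zpowers]
  have h1 : D = zpowers (a ^ m) := eq_zpowers_pow_of_le_zpowers inf_le_left hm1
  have h2 : D = zpowers (b ^ m) := eq_zpowers_pow_of_le_zpowers inf_le_right (hm1.trans hord.symm)
  have h3 : D = zpowers (α b ^ m) := by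
    have := congrArg (map α.toMonoidHom) (h1.symm.trans h2)
    rw [MonoidHom.map_zpowers, MonoidHom.map_zpowers, map_pow, map_pow] at this
    exact h2.trans this
  set d := a ^ m with hd
  have hd1 : d ≠ 1 := fun h => hD0 (by rw [h1, h, zpowers_one_eq_bot])
  obtain ⟨v, hv⟩ : b ^ m ∈ zpowers d := h1 ▸ h2 ▸ mem_zpowers _
  obtain ⟨u, hu⟩ : α b ^ m ∈ zpowers d := h1 ▸ h3 ▸ mem_zpowers _
  simp only at hu hv
  have hvo : Odd v := odd_of_zpowers_eq hX hd1 (by rw [hv, ← h2, h1]; exact mem_zpowers _)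
  have huo : Odd u := odd_of_zpowers_eq hX hd1 (by rw [hu, ← h3, h1]; exact mem_zpowers _)
  have hDZ : D ≤ center X := fun x hx => mem_center_iff.mpr fun y =>
    (mem_centralizer_singleton_iff.mp ((hab.ge.trans (sup_le (zpowers_le.mpr
      (mem_centralizer_singleton_iff.mpr (commute_of_mem_zpowers (mem_zpowers a) hx.1)))
      (zpowers_le.mpr (mem_centralizer_singleton_iff.mpr
        (commute_of_mem_zpowers (mem_zpowers b) hx.2))))) (mem_top y)))
  set w := ⁅b ^ j, a ^ i⁆ with hw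
  have hwD : w ∈ D := by
    rw [hw, ← commutatorElement_inv]
    exact inv_mem (hcomm _ (zpow_mem (mem_zpowers a) i) _ (zpow_mem (mem_zpowers b) j))
  have hwc : ∀ x, Commute x w := fun x => mem_center_iff.mp (hDZ hwD) x
  have hbj : (b ^ j) ^ m = d ^ (v * j) := by
    rw [zpow_mul, hv, ← zpow_natCast, ← zpow_natCast, ← zpow_mul, ← zpow_mul, mul_comm]
  have hwm : w ^ m = 1 := by
    rw [hw, ← commutator_pow_left_of_commute (hwc _), commutatorElement_eq_one_iff_mul_comm, hbj]
    exact (mem_center_iff.mp (hDZ (h1 ▸ zpow_mem (mem_zpowers d) _)) _).symm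
  have h4 : w ^ m.choose 2 = d ^ (u - (i + v * j)) := by
    have := mul_pow_of_commute_commutator (hwc (a ^ i)) (hwc (b ^ j)) m
    rw [← hc, ← hu, hbj, show (a ^ i) ^ m = d ^ i by
      rw [hd, ← zpow_natCast, ← zpow_natCast, ← zpow_mul, ← zpow_mul, mul_comm], ← zpow_add] at this
    rw [sub_eq_neg_add, zpow_add, this, zpow_neg, inv_mul_cancel_left]
  have hs : Odd (u - (i + v * j)) := huo.sub_even (hi.add_odd (hvo.mul hj))
  have hd2 : d ^ 2 = 1 := sq_eq_one_of_odd hX hs (by
    rw [← h4, ← pow_mul, Nat.choose_two_right, Nat.div_mul_cancel (Nat.even_mul_pred_self m).two_dvd,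
      pow_mul, hwm, one_pow])
  rw [zpow_odd_eq hd2 hs] at h4
  have hDc : ∀ x ∈ D, x = 1 ∨ x = d := by
    rw [h1]
    rintro _ ⟨i, rfl⟩
    exact zpow_eq_one_or_self hd2 i
  have hwd : w = d := (hDc w hwD).resolve_left fun h => hd1 (by rw [← h4, h, one_pow])
  have hm2 : m = 2 := by
    obtain ⟨k, -, hk⟩ := (Nat.dvd_prime_pow Nat.prime_two).mp (hn' ▸ Dvd.intro_left _ hm1)
    rw [hwd] at h4
    rcases k with _ | _ | k
    · rw [hk] at h4
      exact absurd (h4.symm.trans (pow_zero d)) hd1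
    · exact hk
    · refine absurd ?_ hd1
      rw [← h4, hk, Nat.choose_two_right, show 2 ^ (k + 1 + 1) * (2 ^ (k + 1 + 1) - 1) =
        2 * (2 ^ k * (2 ^ (k + 1 + 1) - 1)) * 2 by ring, Nat.mul_div_cancel _ two_pos, pow_mul, hd2,
        one_pow]
  have hD2 : Nat.card D = 2 := by rw [h1, Nat.card_zpowers, orderOf_eq_prime hd2 hd1]
  rw [hD2, hm2] at hm1
  have h5 := card_sup_mul_card_inf (H := zpowers a) (K := zpowers b) le_normalizer_of_normal
  rw [hab, card_top, ← hD, hD2, Nat.card_zpowers, Nat.card_zpowers, hord, ← hm1] at h5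
  have h6 : ⁅b, a⁆ = d := by
    refine (hDc _ (by
      rw [← commutatorElement_inv]
      exact inv_mem (hcomm _ (mem_zpowers a) _ (mem_zpowers b)))).resolve_left fun h => hd1 ?_
    rw [← hwd, hw, commutatorElement_eq_one_iff_commute]
    exact (commutatorElement_eq_one_iff_commute.mp h).zpow_zpow j i
  rw [hm2] at hd hv
  refine nonempty_equiv_quaternion (c := a) (t := b) hm1.symm
    (by rw [← sq, ← hv, zpow_odd_eq hd2 hvo, hd]) ?_ (fun h => hb (mem_sup_right h)) (by omega)
  rw [commutatorElement_def, mul_inv_eq_iff_eq_mul] at h6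
  rw [h6, hd, eq_inv_iff_mul_eq_one, ← pow_succ, ← pow_succ, show 2 + 1 + 1 = 2 * 2 from rfl, hm1,
    pow_orderOf_eq_one]

end Cfsg.Agent.S1896
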