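import Cfsg.Statements.S1897
import Cfsg.Agent.H9.SUcg

set_option autoImplicit false
open Cfsg

namespace Cfsg.Agent.S1897

open Cfsg.Agent.H4 Cfsg.Agent.H9.SUcg

set_option maxRecDepth 100000

/-- The operations of `PSL(2, 7)`. -/
def N : CG Unit (ℕ × ℕ) := (primeOps 7).kpcg 7 3 2 [1, 6]

/-- The validity test for `SL(2, 7)`. -/
def ok (c : ℕ × ℕ) : Bool := band ((primeOps 7).okGL 7 3 2 c) ((primeOps 7).det2 3 c.1)

/-- The validity test for `SU(3, 3)`. -/
def ok' (c : ℕ × ℕ) : Bool :=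
  band (band (f9Ops.okGL 9 4 3 c) (f9Ops.det3 4 c.1)) (uniC f9Ops 4 3 3 c.1)

/-- A chain for the diagonal group. -/
def L : List (CG.Level ((ℕ × ℕ) × (ℕ × ℕ))) :=
  [(1, [((0xaad, 0xb55), (0x550750003, 0x840880006))],
     [(0, 0), (0, 0), (1, 1), (0, 1), (1, 2), (0, 2), (1, 3), (1, 3), (0, 3), (1, 4), (0, 4), (0, 4), (0, 4), (0, 4), (1, 5), (0, 5), (1, 6), (0, 6), (0, 5), (0, 5), (1, 5), (0, 4), (1, 4)]),
   (8, [((0x231, 0x209), (0x241165762, 0x214733182))],
     [(0, 0), (0, 0), (0, 0), (0, 0), (0, 0), (0, 0)])]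

/-- The projective special unitary group PSU₃(3) (realised over the field with 9 elements) has a subgroup isomorphic to PSL₂(7). -/
theorem result {F : Type*} [Field F] [Fintype F] (hF : Fintype.card F = 9)
    {K : Type*} [Field K] [Fintype K] (hK : Fintype.card K = 7) :
    ∃ H : Subgroup (Cfsg.PSU 3 F 3), Nonempty (H ≃* Matrix.ProjectiveSpecialLinearGroup (Fin 2) K) := by
  obtain ⟨A⟩ := nonempty_primeFC (by norm_num) 3 (by norm_num) hK
  obtain ⟨B⟩ := nonempty_f9FC hF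
  have := charP_of_card Nat.prime_three 2 hF
  obtain ⟨τ, hτ⟩ := exists_frob (F := F) 3 1 Nat.prime_three
  have cen : A.Cen (FC.slHom 2 K) [1, 6] := A.cen_sl hK 2 (by decide +kernel)
  have vt : (A.pslcg 2 [1, 6]).VT ok := A.kpcg_vt A.sl2_vt
  have vt' : (sucg B 3 3).VT ok' := sucg_vt B τ hτ B.sl3_vt
  have hc : Nat.card (Matrix.ProjectiveSpecialLinearGroup (Fin 2) K) = 168 := by
    have h1 := card_SL_of 2 K (N := 336) hK (by decide)
    have h2 := card_SL_eq_PSL_mul 2 K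
    rw [FC.Cen.card_center A (FC.slHom_injective 2 K) cen (by decide +kernel)] at h2
    simp only [List.length_cons, List.length_nil] at h2
    omega
  obtain ⟨φ, -, -, h⟩ := CG.exists_hom_top A.kpcg_uniq (B.cg_uniq 3 _ (suHom_inj 3 F 3))
    (A.kpcg_keyed cen) vt vt' (N := N) (N' := f9Ops.cg 9 4 3) rfl rfl (L := L) hc.le
    (by decide +kernel)
  have : IsSimpleGroup (Matrix.ProjectiveSpecialLinearGroup (Fin 2) K) :=
    Matrix.ProjectiveSpecialLinearGroup.rank_two_simple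
      (by rw [Nat.card_eq_fintype_card, hK]; norm_num)
  let ψ := (QuotientGroup.mk' (Subgroup.center (SU 3 F 3))).comp φ
  rcases (inferInstance : ψ.ker.Normal).eq_bot_or_eq_top with h1 | h1
  · exact ⟨ψ.range, ⟨(MonoidHom.ofInjective ((MonoidHom.ker_eq_bot_iff ψ).mp h1)).symm⟩⟩
  · exfalso
    obtain ⟨x, hx⟩ := vt (0xaad, 0xb55) (by decide +kernel)
    obtain ⟨k, hk⟩ := vt' (0x550750003, 0x840880006) (by decide +kernel)
    obtain ⟨k', hk'⟩ := vt' (0x241165762, 0x214733182) (by decide +kernel)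
    have h2 := h x k ((0xaad, 0xb55), (0x550750003, 0x840880006)) hx hk (by decide +kernel)
    have h3 : x ∈ ψ.ker := h1 ▸ Subgroup.mem_top x
    have h4 : φ x ∈ Subgroup.center (SU 3 F 3) := (QuotientGroup.eq_one_iff _).mp h3
    exact (B.cg_complete 3 _ (suHom_inj 3 F 3)).not_mem_center hk hk'
      (show (f9Ops.cg 9 4 3).comm (0x241165762, 0x214733182) (0x550750003, 0x840880006) = false by decide +kernel) (h2 ▸ h4)

end Cfsg.Agent.S1897
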