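import Cfsg.Statements.S1898
import Cfsg.Agent.H2.Class2

set_option autoImplicit false
open Cfsg

namespace Cfsg.Agent.S1898

open Subgroup Cfsg.Agent.H2
open scoped commutatorElement Pointwise


/-- Let X be a finite 2-group whose derived subgroup is elementary abelian and central. Then the subgroup generated by the elements of order dividing 4 has exponent dividing 4, and every automorphism of X fixing each element of order dividing 4 has 2-power order. -/
theorem result {X : Type*} [Group X] [Finite X] (hX : IsPGroup 2 X)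
    (hel : Cfsg.IsElementaryAbelian 2 (commutator X)) (hcen : commutator X ≤ Subgroup.center X) :
    (∀ x ∈ Subgroup.closure {g : X | g ^ 4 = 1}, x ^ 4 = 1) ∧
      ∀ φ : MulAut X, (∀ g : X, g ^ 4 = 1 → φ g = g) → ∃ k : ℕ, φ ^ (2 ^ k) = 1 := by
  have hc := commute_commutator_of_le_center hcen
  have hmul : ∀ x y : X, (x * y) ^ 4 = x ^ 4 * y ^ 4 := by
    intro x y
    rw [mul_pow_of_commute_commutator (hc _ _ _) (hc _ _ _),
      show Nat.choose 4 2 = 2 * 3 from rfl, pow_mul,
      hel.2 _ (commutator_mem_commutator (mem_top _) (mem_top _)), one_pow, mul_one]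
  refine ⟨fun x hx => pow_eq_one_of_mem_closure (fun x y hx hy => by rw [hmul, hx, hy, one_mul]) hx,
    fun φ hφ => ?_⟩
  obtain ⟨k, m, hm, hk⟩ := Nat.exists_eq_two_pow_mul_odd (orderOf_pos φ).ne'
  refine ⟨k, ?_⟩
  set ψ := φ ^ 2 ^ k with hψ
  have h1 : ψ ^ m = 1 := by rw [hψ, ← pow_mul, ← hk, pow_orderOf_eq_one]
  have h2 : ∀ g : X, g ^ 4 = 1 → ψ g = g := fun g hg => by
    have := mulAut_pow_apply (a := φ) (x := g) (w := 1) (by rw [hφ g hg, mul_one]) (map_one _) (2 ^ k)
    rwa [one_pow, mul_one] at this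
  have h3 : ∀ j : ℕ, ∀ g : X, g ^ 4 ^ j = 1 → ψ g = g := by
    intro j
    induction j with
    | zero => intro g hg; rw [pow_zero, pow_one] at hg; rw [hg, map_one]
    | succ j ih =>
      intro g hg
      have h4 := ih (g ^ 4) (by rw [← pow_mul, ← pow_succ', hg])
      have h5 : (g⁻¹ * ψ g) ^ 4 = 1 := by rw [hmul, ← map_pow, h4, inv_pow, inv_mul_cancel]
      exact mulAut_apply_eq_of_coprime h1 (h2 _ h5) h5
        ((Nat.coprime_two_right.mpr hm).pow_right 2)
  ext g
  obtain ⟨j, hj⟩ := hX g
  exact h3 j g (by rw [show 4 = 2 * 2 from rfl, mul_pow, pow_mul, hj, one_pow])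

end Cfsg.Agent.S1898
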