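import Cfsg.Statements.S1899
import Cfsg.Agent.H2.PGroup

set_option autoImplicit false
open Cfsg

namespace Cfsg.Agent.S1899

open Subgroup Cfsg.Agent.H2
open scoped commutatorElement Pointwise

theorem card_le_mul {A : Type*} [CommGroup A] [Finite A] (f : A →* A) (C I : Subgroup A)
    (h1 : f.ker ≤ C) (h2 : f.range ≤ I) : Nat.card A ≤ Nat.card C * Nat.card I := by
  rw [← f.ker.card_mul_index, index_ker]
  exact Nat.mul_le_mul (card_le_of_le h1) (card_le_of_le h2)

theorem sq_le {A : Type*} [CommGroup A] [Finite A] (C : Subgroup A) (d : MulAut A)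
    (h : C ⊓ C.map d.toMonoidHom = ⊥) :
    Nat.card (C ⊔ C.map d.toMonoidHom : Subgroup A) = Nat.card C * Nat.card C := by
  have := card_sup_mul_card_inf (H := C) (K := C.map d.toMonoidHom) le_normalizer_of_normal
  rwa [h, card_bot, mul_one, card_map_of_injective d.injective] at this

/-- Let a dihedral group of order 2n, n odd and n > 1, act on a finite abelian 2-group A through automorphisms d and t with d^n = 1, t² = 1 and t d t⁻¹ = d⁻¹, and suppose that d fixes only the identity. Then A is the internal direct product of C_A(t) and its image under d. -/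
theorem result {A : Type*} [CommGroup A] [Finite A] (hA : IsPGroup 2 A)
    {n : ℕ} (hn : Odd n) (hn1 : 1 < n) (d t : MulAut A) (hd : d ^ n = 1) (ht : t ^ 2 = 1) (hdt : t * d * t⁻¹ = d⁻¹)
    (hfix : ∀ a : A, d a = a → a = 1) :
    (MulEquiv.toMonoidHom t).eqLocus (MonoidHom.id A) ⊓ ((MulEquiv.toMonoidHom t).eqLocus (MonoidHom.id A)).map d.toMonoidHom = ⊥ ∧
      (MulEquiv.toMonoidHom t).eqLocus (MonoidHom.id A) ⊔ ((MulEquiv.toMonoidHom t).eqLocus (MonoidHom.id A)).map d.toMonoidHom = ⊤ := by
  have hd2 : ∀ a, d (d a) = a → a = 1 := by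
    intro a ha
    obtain ⟨m, rfl⟩ := hn
    apply hfix
    have h1 : ∀ k : ℕ, (d ^ (2 * k)) a = a := by
      intro k
      induction k with
      | zero => rfl
      | succ k ih => rw [mul_add, pow_add, mul_one, sq, MulAut.mul_apply, MulAut.mul_apply, ha, ih]
    have h2 : (d ^ (2 * m + 1)) a = a := by rw [hd]; rfl
    rwa [pow_succ', MulAut.mul_apply, h1] at h2
  have ht' : ∀ a, t (t a) = a := fun a => by rw [← MulAut.mul_apply, ← sq, ht]; rfl
  have hdt' : ∀ a, d (t (d a)) = t a := fun a => by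
    have : d * t * d = t := by
      rw [mul_inv_eq_iff_eq_mul] at hdt
      rw [mul_assoc, hdt, mul_inv_cancel_left]
    rw [← MulAut.mul_apply, ← MulAut.mul_apply, this]
  set C := (MulEquiv.toMonoidHom t).eqLocus (MonoidHom.id A) with hC
  set I := (MulEquiv.toMonoidHom t).eqLocus (invMonoidHom : A →* A) with hI
  have mC : ∀ a, a ∈ C ↔ t a = a := fun a => Iff.rfl
  have mI : ∀ a, a ∈ I ↔ t a = a⁻¹ := fun a => Iff.rfl
  have h1 : C ⊓ C.map d.toMonoidHom = ⊥ := by
    rw [eq_bot_iff]
    rintro _ ⟨ha, b, hb, rfl⟩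
    have ha' : t (d b) = d b := ha
    have hb' : t b = b := hb
    have := hdt' b
    rw [ha', hb'] at this
    rw [hd2 b this, map_one]
    exact one_mem _
  have h2 : I ⊓ I.map d.toMonoidHom = ⊥ := by
    rw [eq_bot_iff]
    rintro _ ⟨ha, b, hb, rfl⟩
    have ha' : t (d b) = (d b)⁻¹ := ha
    have hb' : t b = b⁻¹ := hb
    have := hdt' b
    rw [ha', hb', map_inv, inv_inj] at this
    rw [hd2 b this, map_one]
    exact one_mem _
  refine ⟨h1, eq_top_of_le_card _ ?_⟩
  have h3 := card_le_mul (MonoidHom.id A / t.toMonoidHom) C I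
    (fun a ha => (mC a).mpr (div_eq_one.mp ha).symm) (by
      rintro _ ⟨a, rfl⟩
      change t (a / t a) = (a / t a)⁻¹
      rw [map_div, ht', inv_div])
  have h4 := card_le_card_group (I ⊔ I.map d.toMonoidHom)
  rw [sq_le I d h2] at h4
  rw [sq_le C d h1]
  have h5 : Nat.card I ≤ Nat.card C := Nat.le_of_mul_le_mul_right (h4.trans h3) Nat.card_pos
  exact h3.trans (Nat.mul_le_mul_left _ h5)

end Cfsg.Agent.S1899
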