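import Cfsg.Statements.S1900
import Cfsg.Agent.H2.CoprimeGen
import Cfsg.Agent.L.Core

set_option autoImplicit false
open Cfsg

namespace Cfsg.Agent.S1900

open Subgroup Cfsg.Agent.H2
open scoped commutatorElement Pointwise

theorem aux {G : Type*} [Group G] [Finite G] {A K N : Subgroup G} [N.Normal]
    (hA : A ≤ normalizer (K : Set G)) (hc : (Nat.card A).Coprime (Nat.card K))
    (h1 : ⁅K, K⁆ ≤ N) (h2 : K ≤ ⁅K, A⁆ ⊔ N) : K ⊓ centralizer (A : Set G) ≤ N := by
  have h3 := centralizer_inf_commutator_eq_bot (A := A.map (QuotientGroup.mk' N))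
    (K := K.map (QuotientGroup.mk' N)) ((map_mono hA).trans (le_normalizer_map _))
    ((hc.coprime_dvd_left (card_map_dvd _ _)).coprime_dvd_right (card_map_dvd _ _)) (by
      rw [← commutator_self_eq_bot_iff, ← Subgroup.map_commutator, Subgroup.map_eq_bot_iff,
        QuotientGroup.ker_mk']
      exact h1)
  intro x hx
  rw [← QuotientGroup.eq_one_iff, ← QuotientGroup.mk'_apply, ← mem_bot, ← h3]
  refine mem_inf.mpr ⟨?_, ?_⟩
  · rintro _ ⟨a, ha, rfl⟩
    rw [← map_mul, (mem_inf.mp hx).2 a ha, map_mul]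
  · have := mem_map_of_mem (QuotientGroup.mk' N) (h2 (mem_inf.mp hx).1)
    rwa [Subgroup.map_sup, QuotientGroup.map_mk'_self, sup_bot_eq, Subgroup.map_commutator] at this

theorem aux2 {S : Type*} [Group S] [Finite S] {p : ℕ} [Fact p.Prime] {P X C₁ C₂ : Subgroup S}
    [P.Normal] (hP : IsPGroup p P) (hX : (Nat.card X).Coprime p) (hC : C₁ ⊔ C₂ = P)
    (h1 : C₁ ≤ centralizer (X : Set S)) (h2 : X ≤ normalizer (C₂ : Set S))
    (h3 : C₂ ⊓ centralizer (X : Set S) = ⊥) [hD : (⁅C₁, C₂⁆).Normal] :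
    ⁅C₁, C₂⁆ ⊓ centralizer (X : Set S) ≤ ⁅⁅C₁, C₂⁆, P⁆ := by
  have := hP.isNilpotent
  have hC1 : C₁ ≤ P := hC ▸ le_sup_left
  have hC2 : C₂ ≤ P := hC ▸ le_sup_right
  set D := ⁅C₁, C₂⁆ with hDdef
  have hDP : D ≤ P := (commutator_mono hC1 le_top).trans (commutator_le_left _ _)
  have hcop : ∀ Y ≤ P, (Nat.card X).Coprime (Nat.card Y) := fun Y hY =>
    (L.coprime_card_of_isPGroup (hP.to_le hY) hX).symm
  refine aux le_normalizer_of_normal (hcop D hDP) (commutator_mono le_rfl hDP) ?_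
  have h4 : ⁅C₂, X⁆ = C₂ := by
    have : Group.IsNilpotent C₂ := (hP.to_le hC2).isNilpotent
    have := centralizer_sup_commutator h2 (hcop _ hC2) (Or.inr inferInstance)
    rwa [h3, bot_sup_eq] at this
  have hM : ⁅D, X⁆ ⊔ ⁅D, P⁆ ≤ D := sup_le (commutator_le_left _ _) (commutator_le_left _ _)
  have hPM : P ≤ normalizer ((⁅D, X⁆ ⊔ ⁅D, P⁆ : Subgroup S) : Set S) := by
    rw [le_normalizer_iff_commutator_le_left]
    exact (commutator_mono hM le_rfl).trans le_sup_right
  have h5 : ⁅⁅C₂, X⁆, C₁⁆ ≤ ⁅D, X⁆ ⊔ ⁅D, P⁆ := three_subgroups' (hC2.trans hPM)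
    (le_normalizer_sup (normalizer_commutator_ge_right _ _) le_normalizer_of_normal)
    (hC1.trans hPM)
    (by rw [commutator_comm X, commutator_eq_bot_iff_le_centralizer.mpr h1, commutator_bot_left]
        exact bot_le) le_sup_left
  rwa [h4, commutator_comm] at h5

/-- Let S = PQ be a finite group with P a normal Sylow p-subgroup and Q elementary abelian of order q², q a prime different from p. If exactly two subgroups X₁, X₂ of order q in Q have a nontrivial centralizer in P, then P is the internal direct product of C_P(X₁) and C_P(X₂): they commute elementwise, meet trivially and generate P. -/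
theorem result {S : Type*} [Group S] [Finite S] {p q : ℕ} [Fact p.Prime] [Fact q.Prime] (hpq : p ≠ q)
    (P : Sylow p S) [(P : Subgroup S).Normal] (Q : Subgroup S) (hQ : Cfsg.IsElementaryAbelian q Q) (hQc : Nat.card Q = q ^ 2)
    (hS : (P : Subgroup S) ⊔ Q = ⊤)
    (X₁ X₂ : Subgroup S) (h₁ : X₁ ≤ Q) (h₂ : X₂ ≤ Q) (h₁₂ : X₁ ≠ X₂) (hc₁ : Nat.card X₁ = q) (hc₂ : Nat.card X₂ = q)
    (hf₁ : (P : Subgroup S) ⊓ Subgroup.centralizer (X₁ : Set S) ≠ ⊥)
    (hf₂ : (P : Subgroup S) ⊓ Subgroup.centralizer (X₂ : Set S) ≠ ⊥)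
    (honly : ∀ X : Subgroup S, X ≤ Q → Nat.card X = q →
      (P : Subgroup S) ⊓ Subgroup.centralizer (X : Set S) ≠ ⊥ → X = X₁ ∨ X = X₂) :
    ⁅(P : Subgroup S) ⊓ Subgroup.centralizer (X₁ : Set S), (P : Subgroup S) ⊓ Subgroup.centralizer (X₂ : Set S)⁆ = ⊥ ∧
      ((P : Subgroup S) ⊓ Subgroup.centralizer (X₁ : Set S)) ⊓ ((P : Subgroup S) ⊓ Subgroup.centralizer (X₂ : Set S)) = ⊥ ∧
      ((P : Subgroup S) ⊓ Subgroup.centralizer (X₁ : Set S)) ⊔ ((P : Subgroup S) ⊓ Subgroup.centralizer (X₂ : Set S)) = P := by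
  have hp : p.Prime := Fact.out
  have hq : q.Prime := Fact.out
  have hP := P.isPGroup'
  have hQp : (Nat.card Q).Coprime p := by
    rw [hQc]; exact ((Nat.coprime_primes hq hp).mpr hpq.symm).pow_left 2
  have hQQ : Q ≤ centralizer (Q : Set S) := (haveI := hQ.1; le_centralizer Q)
  have hQn : ∀ X ≤ Q, Q ≤ normalizer (((P : Subgroup S) ⊓ centralizer (X : Set S) :
      Subgroup S) : Set S) := fun X hX => le_normalizer_inf le_normalizer_of_normal
      (le_normalizer_centralizer (le_normalizer_of_le_centralizer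
        (hQQ.trans (centralizer_le (SetLike.coe_subset_coe.mpr hX)))))
  have hsup : X₁ ⊔ X₂ = Q := by
    refine (eq_or_eq_of_card_eq_mul_prime (p := q) le_sup_left (sup_le h₁ h₂)
      (by rw [hQc, hc₁, sq])).resolve_left fun h => h₁₂ ?_
    exact (eq_of_le_of_card_ge (le_sup_right.trans h.le) (by rw [hc₁, hc₂])).symm
  have hinf : X₁ ⊓ X₂ = ⊥ := by
    refine (eq_or_eq_of_card_eq_mul_prime (p := q) bot_le inf_le_left
      (by rw [hc₁, card_bot, one_mul])).resolve_right fun h => h₁₂ ?_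
    exact eq_of_le_of_card_ge (h.ge.trans inf_le_right) (by rw [hc₁, hc₂])
  have hCQ : (P : Subgroup S) ⊓ centralizer (Q : Set S) = ⊥ := by
    obtain ⟨a, ha, ha1⟩ := (bot_or_exists_ne_one X₁).resolve_left (by
      rintro rfl; rw [card_bot] at hc₁; exact hq.one_lt.ne hc₁)
    obtain ⟨b, hb, hb1⟩ := (bot_or_exists_ne_one X₂).resolve_left (by
      rintro rfl; rw [card_bot] at hc₂; exact hq.one_lt.ne hc₂)
    have hab := mul_mem (h₁ ha) (h₂ hb)
    have h1 : a * b ∉ X₁ := fun h => hb1 (mem_bot.mp (hinf ▸ mem_inf.mpr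
      ⟨(mul_mem_cancel_left ha).mp h, hb⟩))
    have h2 : a * b ∉ X₂ := fun h => ha1 (mem_bot.mp (hinf ▸ mem_inf.mpr
      ⟨ha, (mul_mem_cancel_right hb).mp h⟩))
    by_contra hcon
    rcases honly (zpowers (a * b)) (zpowers_le.mpr hab) (by
      rw [Nat.card_zpowers]
      exact orderOf_eq_prime (hQ.2 _ hab) fun h => h1 (h ▸ one_mem _)) (fun h => hcon (by
        rw [eq_bot_iff, ← h]
        exact inf_le_inf_left _ (centralizer_le (SetLike.coe_subset_coe.mpr
          (zpowers_le.mpr hab))))) with h | h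
    · exact h1 (h ▸ mem_zpowers _)
    · exact h2 (h ▸ mem_zpowers _)
  have hcop : ∀ Y ≤ (P : Subgroup S), (Nat.card Q).Coprime (Nat.card Y) := fun Y hY =>
    (L.coprime_card_of_isPGroup (hP.to_le hY) hQp).symm
  have hgen : ∀ K M : Subgroup S, K ≤ P → Q ≤ normalizer (K : Set S) →
      K ⊓ centralizer (X₁ : Set S) ≤ M → K ⊓ centralizer (X₂ : Set S) ≤ M → K ≤ M := by
    intro K M hK hQK h1 h2
    refine le_of_forall_centralizer_hyperplane_le hQ.1 hQ.2 (by
      rintro rfl; rw [card_bot] at hQc; exact (Nat.one_lt_pow two_ne_zero hq.one_lt).ne hQc)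
      hQK (hcop K hK) fun B hB hBc => ?_
    by_cases h : (P : Subgroup S) ⊓ centralizer (B : Set S) = ⊥
    · exact ((inf_le_inf_right _ hK).trans h.le).trans bot_le
    · rw [hQc, sq] at hBc
      rcases honly B hB (Nat.eq_of_mul_eq_mul_right hq.pos hBc).symm h with rfl | rfl
      exacts [h1, h2]
  have hC12 : ((P : Subgroup S) ⊓ centralizer (X₁ : Set S)) ⊓
      ((P : Subgroup S) ⊓ centralizer (X₂ : Set S)) = ⊥ := by
    rw [← inf_inf_distrib_left, ← hCQ, ← hsup]
    congr 1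
    exact le_antisymm (le_centralizer_iff.mp (sup_le (le_centralizer_iff.mp inf_le_left)
      (le_centralizer_iff.mp inf_le_right))) (le_inf (centralizer_le
        (SetLike.coe_subset_coe.mpr le_sup_left)) (centralizer_le
          (SetLike.coe_subset_coe.mpr le_sup_right)))
  have hP12 : ((P : Subgroup S) ⊓ centralizer (X₁ : Set S)) ⊔
      ((P : Subgroup S) ⊓ centralizer (X₂ : Set S)) = P :=
    le_antisymm (sup_le inf_le_left inf_le_left)
      (hgen _ _ le_rfl le_normalizer_of_normal le_sup_left le_sup_right)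
  refine ⟨?_, hC12, hP12⟩
  set C₁ := (P : Subgroup S) ⊓ centralizer (X₁ : Set S)
  set C₂ := (P : Subgroup S) ⊓ centralizer (X₂ : Set S)
  have hD : (⁅C₁, C₂⁆).Normal := by
    rw [← normalizer_eq_top_iff, eq_top_iff, ← hS, ← hP12]
    exact sup_le (sup_le (normalizer_commutator_ge_left _ _) (normalizer_commutator_ge_right _ _))
      (le_normalizer_commutator (hQn _ h₁) (hQn _ h₂))
  have hD' : (⁅C₂, C₁⁆).Normal := by rwa [commutator_comm]
  have hDP : ⁅C₁, C₂⁆ ≤ P := (commutator_mono inf_le_left le_top).trans (commutator_le_left _ _)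
  have h1 := aux2 hP (hQp.coprime_dvd_left (card_dvd_of_le h₁)) hP12 inf_le_right
    (h₁.trans (hQn _ h₂)) (by
      rw [eq_bot_iff, ← hC12]
      exact le_inf (inf_le_inf_right _ inf_le_left) inf_le_left)
  have h2 := aux2 hP (hQp.coprime_dvd_left (card_dvd_of_le h₂)) (by rwa [sup_comm]) inf_le_right
    (h₂.trans (hQn _ h₁)) (C₁ := C₂) (C₂ := C₁) (by
      rw [eq_bot_iff, ← hC12]
      exact le_inf inf_le_left (inf_le_inf_right _ inf_le_left))
  rw [commutator_comm C₂] at h2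
  by_contra hcon
  have := hP.isNilpotent
  exact (commutator_lt_of_nilpotent hDP le_normalizer_of_normal hcon).not_ge
    (hgen _ _ hDP le_normalizer_of_normal h1 h2)

end Cfsg.Agent.S1900
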