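import Cfsg.Statements.S1901
import Cfsg.Agent.H2.Coprime
import Cfsg.Agent.L.PSolv

set_option autoImplicit false
open Cfsg

namespace Cfsg.Agent.S1901

open Subgroup Cfsg.Agent.H2
open scoped commutatorElement Pointwise

universe u

theorem aux {p : ℕ} [hp : Fact p.Prime] (n : ℕ) : ∀ (G : Type u) [Group G] [Finite G],
    Nat.card G ≤ n → IsPSolvable p G → ∀ (Q X : Subgroup G) (P : Sylow p G),
    (Nat.card Q).Coprime p → IsPGroup p X → X ≤ normalizer (Q : Set G) →
    Q ≤ normalizer ((P : Subgroup G) : Set G) → ⁅Q, X⁆ = ⊥ := by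
  induction n with
  | zero => intro G _ _ h; exact absurd h (Nat.not_le.mpr Nat.card_pos)
  | succ n ih =>
    intro G _ _ hG hs Q X P hQ hX hXQ hQP
    rcases subsingleton_or_nontrivial G with h | h
    · exact Subsingleton.elim _ _
    have key : ∀ (N : Subgroup G) [N.Normal], N ≠ ⊥ → ⁅Q, X⁆ ≤ N := by
      intro N _ hN
      have hf := QuotientGroup.mk'_surjective N
      have h1 : Nat.card (G ⧸ N) ≤ n := by
        have h2 := card_eq_card_quotient_mul_card_subgroup N
        have h3 := (one_lt_card_iff_ne_bot N).mpr hN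
        have : 0 < Nat.card (G ⧸ N) := Nat.card_pos
        nlinarith
      have := ih (G ⧸ N) h1 (L.isPSolvable_quotient hs N) (Q.map (QuotientGroup.mk' N))
        (X.map (QuotientGroup.mk' N)) (P.mapSurjective hf)
        (hQ.coprime_dvd_left (card_map_dvd _ _)) (hX.map _)
        ((map_mono hXQ).trans (le_normalizer_map _)) ((map_mono hQP).trans (le_normalizer_map _))
      rwa [← Subgroup.map_commutator, Subgroup.map_eq_bot_iff, QuotientGroup.ker_mk'] at this
    have h1 : ⁅Q, X⁆ ≤ Q := commutator_le_left_of_le_normalizer hXQ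
    rcases L.core_ne_bot_of_isPSolvable hs with h2 | h2
    · exact L.eq_bot_of_isPGroup_of_coprime ((L.pCore_isPGroup p).to_le (key _ h2))
        (hQ.coprime_dvd_left (card_dvd_of_le h1))
    · have h3 := key _ h2
      have h4 : (P : Subgroup G) ≤ centralizer ((⁅Q, X⁆ : Subgroup G) : Set G) := by
        rw [← commutator_eq_bot_iff_le_centralizer, eq_bot_iff,
          ← L.inf_eq_bot_of_isPGroup P.isPGroup' (L.pPrimeCore_coprime p)]
        exact le_inf (commutator_le_left_of_le_normalizer (h1.trans hQP))
          ((commutator_mono le_rfl h3).trans (commutator_le_right _ _))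
      have h5 : X ≤ centralizer ((⁅Q, X⁆ : Subgroup G) : Set G) := by
        have hXN : X ≤ normalizer ((⁅Q, X⁆ : Subgroup G) : Set G) :=
          normalizer_commutator_ge_right _ _
        have h6 := L.le_of_isPGroup_of_coprime_index
          (A := X.subgroupOf (normalizer ((⁅Q, X⁆ : Subgroup G) : Set G)))
          (N := (centralizer ((⁅Q, X⁆ : Subgroup G) : Set G)).subgroupOf
            (normalizer ((⁅Q, X⁆ : Subgroup G) : Set G))) (hX.comap_subtype) (by
          refine ((Nat.Prime.coprime_iff_not_dvd hp.out).mpr fun h7 => P.not_dvd_index ?_).symm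
          exact h7.trans ((relIndex_dvd_index_of_le (centralizer_le_normalizer _)).trans
            (index_dvd_of_le h4)))
        exact fun x hx => h6 (x := ⟨x, hXN hx⟩) hx
      rw [← commutator_commutator_eq hXQ (L.coprime_card_of_isPGroup hX hQ), commutator_comm,
        commutator_eq_bot_iff_le_centralizer]
      exact h5

/-- Let G be a finite p-solvable group and Q a subgroup of order prime to p such that p divides the index of C_G(Q) in N_G(Q). Then Q normalizes no Sylow p-subgroup of G. -/
theorem result {G : Type*} [Group G] [Finite G] {p : ℕ} [Fact p.Prime]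
    (hG : Cfsg.IsPSolvable p G) (Q : Subgroup G) (hQ : ¬ p ∣ Nat.card Q)
    (hA : p ∣ (Subgroup.centralizer (Q : Set G)).relIndex (Subgroup.normalizer (Q : Set G)))
    (P : Sylow p G) : ¬ Q ≤ Subgroup.normalizer ((P : Subgroup G) : Set G) := by
  intro h
  have hp : p.Prime := Fact.out
  obtain ⟨X, -, hXN, hX, hX'⟩ := exists_sylow_le (p := p) (Q := ⊥)
    (K := normalizer (Q : Set G)) IsPGroup.of_bot bot_le
  have := aux _ G le_rfl hG Q X P ((Nat.Prime.coprime_iff_not_dvd hp).mpr hQ).symm hX hXN h
  rw [commutator_comm, commutator_eq_bot_iff_le_centralizer] at this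
  exact hX' (hA.trans (relIndex_dvd_of_le_left _ this))

end Cfsg.Agent.S1901
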