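import Cfsg.Statements.S1902
import Cfsg.Agent.H2.Baer
import Cfsg.Agent.L.PSolv

set_option autoImplicit false
open Cfsg

namespace Cfsg.Agent.S1902

open Subgroup Cfsg.Agent.H2
open scoped commutatorElement Pointwise


/-- Let p be an odd prime, G a finite p-solvable group, and B an elementary abelian subgroup of order p² such that B is the subgroup generated by the elements of order p of some Sylow p-subgroup of C_G(b₀), for some nontrivial b₀ ∈ B. Then every B-invariant subgroup of G of order prime to p lies in O_{p'}(G). -/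
theorem result {G : Type*} [Group G] [Finite G] {p : ℕ} [Fact p.Prime] (hp : p ≠ 2)
    (hG : Cfsg.IsPSolvable p G) (B : Subgroup G) (hB : Cfsg.IsElementaryAbelian p B) (hBc : Nat.card B = p ^ 2)
    (b₀ : G) (hb₀ : b₀ ∈ B) (hb₁ : b₀ ≠ 1) (P : Sylow p ↥(Subgroup.centralizer ({b₀} : Set G)))
    (hBP : B = Subgroup.closure {x : G | x ∈ ((P : Subgroup ↥(Subgroup.centralizer ({b₀} : Set G))).map
      (Subgroup.centralizer ({b₀} : Set G)).subtype : Subgroup G) ∧ orderOf x = p})
    (Q : Subgroup G) (hQ : ¬ p ∣ Nat.card Q) (hinv : ∀ b ∈ B, ∀ x ∈ Q, b * x * b⁻¹ ∈ Q) :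
    Q ≤ Cfsg.pPrimeCore p G := by
  have hp' : p.Prime := Fact.out
  set N := pPrimeCore p G with hN
  set f := QuotientGroup.mk' N with hf
  have hNp : (Nat.card N).Coprime p := L.pPrimeCore_coprime p
  have hQp : (Nat.card Q).Coprime p := ((Nat.Prime.coprime_iff_not_dvd hp').mpr hQ).symm
  have hBp : IsPGroup p B := IsPGroup.of_card hBc
  set R := pCore p (G ⧸ N) with hR
  have hRp : IsPGroup p R := L.pCore_isPGroup p
  have hQp' : (Nat.card (Q.map f)).Coprime p := hQp.coprime_dvd_left (card_map_dvd _ _)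
  have hBQ : B.map f ≤ normalizer ((Q.map f : Subgroup _) : Set (G ⧸ N)) :=
    (map_mono (le_normalizer_of_conj_mem hinv)).trans (le_normalizer_map _)
  have hb : IsPGroup p (zpowers b₀) := hBp.to_le (zpowers_le.mpr hb₀)
  have := hb.isNilpotent
  have h1 : centralizer {f b₀} = (centralizer {b₀}).map f := by
    have := centralizer_map_mk' (A := zpowers b₀) (N := N) (L.coprime_card_of_isPGroup hb hNp)
      (Or.inl inferInstance)
    rwa [MonoidHom.map_zpowers, zpowers_eq_closure, zpowers_eq_closure, centralizer_closure,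
      centralizer_closure] at this
  let C := centralizer ({b₀} : Set G)
  let P' := (P : Subgroup (centralizer ({b₀} : Set G))).map C.subtype
  have h2 : R ⊓ centralizer {f b₀} ≤ P'.map f := by
    let g : C →* (centralizer {f b₀} : Subgroup (G ⧸ N)) :=
      (f.comp C.subtype).codRestrict _ fun x => h1 ▸ mem_map_of_mem f x.2
    have hg : Function.Surjective g := by
      rintro ⟨y, hy⟩
      obtain ⟨x, hx, rfl⟩ := h1.le hy
      exact ⟨⟨x, hx⟩, rfl⟩
    have h3 : R.subgroupOf (centralizer {f b₀}) ≤ (P.mapSurjective hg : Subgroup _) :=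
      (hRp.comap_subtype).le_sylow_of_normal _
    intro y hy
    obtain ⟨x, hx, h⟩ := h3 (x := ⟨y, (mem_inf.mp hy).2⟩) (mem_inf.mp hy).1
    exact ⟨x, mem_map_of_mem _ hx, congrArg Subtype.val h⟩
  have h3 : R ≤ centralizer ((Q.map f : Subgroup _) : Set (G ⧸ N)) := by
    refine bender_A_times_B hp hRp (hBp.map f) hQp' le_normalizer_of_normal le_normalizer_of_normal
      hBQ fun y hy hyp => ?_
    obtain ⟨x, hx, rfl⟩ := h2 (mem_inf.mpr ⟨(mem_inf.mp hy).1,
      centralizer_le (Set.singleton_subset_iff.mpr (mem_map_of_mem f hb₀)) (mem_inf.mp hy).2⟩)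
    have hxp : x ^ p = 1 := by
      rw [← mem_bot, ← L.inf_eq_bot_of_isPGroup (P.isPGroup'.map C.subtype) hNp]
      refine mem_inf.mpr ⟨pow_mem hx p, ?_⟩
      rwa [← map_pow, QuotientGroup.mk'_apply, QuotientGroup.eq_one_iff] at hyp
    have hxB : x ∈ B := by
      by_cases h : x = 1
      · rw [h]; exact one_mem _
      · rw [hBP]; exact subset_closure ⟨hx, orderOf_eq_prime hxp h⟩
    have h4 : R ⊓ B.map f ≤ centralizer ((Q.map f : Subgroup _) : Set (G ⧸ N)) := by
      rw [← commutator_eq_bot_iff_le_centralizer, eq_bot_iff,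
        ← L.inf_eq_bot_of_isPGroup hRp hQp']
      exact le_inf ((commutator_mono inf_le_left le_rfl).trans (commutator_le_left _ _))
        (le_normalizer_iff_commutator_le_right.mp (inf_le_right.trans hBQ))
    exact h4 (mem_inf.mpr ⟨(mem_inf.mp hy).1, mem_map_of_mem f hxB⟩)
  have h4 := L.eq_bot_of_isPGroup_of_coprime (hRp.to_le ((le_centralizer_iff.mp h3).trans
    (L.centralizer_pCore_le (L.isPSolvable_quotient hG N) (L.pPrimeCore_quotient p)))) hQp'
  rwa [Subgroup.map_eq_bot_iff, QuotientGroup.ker_mk'] at h4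

end Cfsg.Agent.S1902
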