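import Cfsg.Statements.S1903
import Cfsg.Agent.H9.SUcg
import Cfsg.Agent.H9.G320

set_option autoImplicit false
open Cfsg

namespace Cfsg.Agent.S1903

open Cfsg.Agent.H4 Cfsg.Agent.H9.SUcg Cfsg.Agent.H9.G320 Matrix MulAction

set_option maxRecDepth 100000

/-- The validity test for `SU(3, 4)`. -/
def ok (c : ℕ × ℕ) : Bool :=
  band (band (f16Ops.okGL 16 4 3 c) (f16Ops.det3 4 c.1)) (uniC f16Ops 4 3 4 c.1)

/-- The operations on codes. -/
def N : CG Unit (ℕ × ℕ) := f16Ops.cg 16 4 3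

/-- The involution. -/
def ct : ℕ × ℕ := (0x100001010, 0x100001010)
/-- An element of order four. -/
def ca : ℕ × ℕ := (0x1ddc45c54, 0x1ddc67c76)
/-- An element of order five. -/
def cc : ℕ × ℕ := (0x611928982, 0x4aa12b1b2)
/-- A central involution. -/
def cu : ℕ × ℕ := (0x100023032, 0x100023032)
/-- A second central involution. -/
def cw : ℕ × ℕ := (0x100001010, 0x100001010)
/-- An element that commutes with no non-trivial element of the centraliser. -/
def cs : ℕ × ℕ := (0xabff4bf21, 0x9ee862e81)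

/-- A chain for the centraliser. -/
def L : List (CG.Level (ℕ × ℕ)) := [(1, [ca, cc], [(0, 0), (1, 1), (0, 1), (1, 2), (0, 2), (1, 3), (0, 3), (1, 4), (0, 4), (1, 5), (1, 5), (0, 5), (1, 6), (1, 6), (0, 6), (1, 7), (1, 7), (0, 7), (1, 8), (0, 8), (1, 9), (1, 9), (0, 9), (1, 10), (0, 10), (1, 11), (1, 11), (0, 11), (1, 12), (0, 12), (1, 13), (1, 13), (0, 13), (1, 14), (1, 14), (0, 14), (1, 15), (0, 15), (1, 16), (1, 16), (0, 16), (1, 16), (0, 16), (1, 17), (0, 17), (1, 18), (1, 18), (0, 18), (1, 19), (1, 19), (0, 19), (1, 20), (0, 20), (1, 21), (1, 21), (0, 21), (0, 21), (1, 22), (1, 22), (0, 22), (1, 23), (1, 23), (0, 23), (1, 24), (0, 24), (1, 25), (1, 25), (0, 25), (1, 26), (1, 26), (0, 26), (1, 27), (1, 27), (0, 27), (1, 28), (0, 28), (1, 29), (1, 29), (0, 29), (0, 29), (1, 30), (1, 30), (0, 30), (1, 31), (1, 31), (1, 31), (0, 31), (1, 32), (1, 32), (0, 31), (1, 32), (0, 32), (1, 33), (1, 33), (0, 33), (0, 33),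 (1, 34), (1, 34), (0, 34), (1, 35), (1, 35), (0, 35), (1, 36), (0, 36), (1, 37), (1, 37), (0, 37), (1, 38), (0, 38), (1, 38), (0, 38), (0, 38), (1, 39), (1, 39), (0, 39), (1, 40), (1, 40), (1, 40), (0, 40), (1, 41), (1, 41), (0, 40), (1, 41), (1, 41), (1, 41), (0, 41), (0, 41), (1, 42), (0, 42), (1, 43), (1, 43), (0, 43), (1, 44), (0, 44), (1, 45), (1, 45), (0, 45), (1, 46), (1, 46), (1, 46), (1, 46), (1, 46), (1, 45), (0, 45), (1, 46), (1, 46), (0, 46), (0, 46), (1, 47), (1, 47), (0, 47), (1, 48), (1, 48), (0, 48), (1, 49), (0, 49), (1, 50), (0, 49), (1, 50), (1, 50), (0, 50), (1, 51), (1, 51), (0, 50), (1, 51), (1, 50), (0, 50), (0, 50), (1, 51), (0, 51), (1, 52), (1, 52), (1, 52), (0, 52), (1, 53), (1, 53), (1, 53), (1, 53), (1, 53), (1, 53), (1, 52), (1, 52), (1, 51), (1, 51), (0, 51), (1, 52), (1, 52), (1, 52), (1, 52), (1, 52), (0, 52), (0, 52), (1, 53), (1, 53), (0, 53), (1, 54), (0, 54), (1, 55), (0, 55), (1,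 56), (1, 56), (1, 56), (1, 56), (1, 56), (1, 55), (1, 55), (1, 55), (0, 55), (0, 55), (1, 56), (1, 56), (0, 56), (0, 55), (1, 55), (0, 55), (0, 55), (1, 56), (1, 55), (0, 55), (1, 54), (1, 54), (1, 54), (1, 53), (1, 53), (1, 52), (0, 52), (1, 53), (1, 53), (1, 53), (1, 53), (1, 52), (1, 52), (0, 52), (1, 53), (1, 53), (1, 53), (1, 53), (1, 53), (1, 53), (1, 52), (1, 51), (1, 50), (1, 47), (0, 47), (1, 48), (1, 48), (1, 48), (1, 48), (0, 48), (1, 48), (0, 47), (1, 48), (1, 48), (0, 48), (1, 49), (1, 49), (1, 49), (1, 49), (1, 48), (1, 47), (1, 45), (0, 43), (1, 41), (0, 41), (1, 41), (1, 41), (1, 41), (1, 41), (1, 40), (1, 37), (1, 37), (1, 37), (0, 36), (1, 37), (0, 37), (1, 38), (1, 38), (1, 38), (1, 38), (1, 38), (1, 38), (1, 38), (1, 36), (1, 34), (1, 33), (0, 33), (1, 34), (1, 33), (0, 31), (1, 32), (1, 31), (1, 31), (0, 31), (1, 27), (1, 27), (1, 27), (1, 27), (1, 26), (1, 25), (1, 25), (1, 22), (1, 22), (1, 21),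 (1, 21), (1, 21), (1, 20), (0, 16), (1, 17), (1, 16), (1, 13), (1, 13), (1, 13), (1, 13), (1, 12), (1, 9), (1, 9), (0, 7), (1, 5), (1, 5)])]

/-- The form on codes. -/
def hc (a b : ℕ) : ℕ :=
  f16Ops.sum 3 fun k => f16Ops.mul (img 4 a k) (f16Ops.pw (img 4 b k) 4)

section

variable {F : Type*} [Field F] (B : FC F 16 4 f16Ops)

theorem hc_spec {u v : Fin 3 → F} {a b : ℕ} (hu : B.RepV u a) (hv : B.RepV v b) :
    hc a b < 16 ∧ B.val (hc a b) = hermForm 3 F 4 u v := by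
  obtain ⟨h1, h2⟩ := B.sum_spec 3 (fun k => f16Ops.mul (img 4 a k) (f16Ops.pw (img 4 b k) 4))
    fun k hk => B.mul_lt _ _ (hu ⟨k, hk⟩).1 (B.pw_spec (hv ⟨k, hk⟩).1 4).1
  refine ⟨h1, h2.trans (Finset.sum_congr rfl fun k _ => ?_)⟩
  rw [B.val_mul _ _ (hu k).1 (B.pw_spec (hv k).1 4).1, (B.pw_spec (hv k).1 4).2, ← (hu k).2,
    ← (hv k).2]

theorem card_le [Fintype F] (hF : Fintype.card F = 16) {t : SU 3 F 4} (ht : (sucg B 3 4).Rep t ct) :
    Nat.card (Subgroup.centralizer ({t} : Set (SU 3 F 4))) ≤ 320 := by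
  classical
  letI := FC.vecAction 3 (suHom 3 F 4)
  have hT : suHom 3 F 4 t = !![0, 1, 0; 1, 0, 0; 0, 0, 1] := by
    rw [ht.1.eq_matOf]
    ext i j
    fin_cases i <;> fin_cases j <;> first | exact B.val_zero | exact B.val_one
  have hcm : ∀ g ∈ Subgroup.centralizer ({t} : Set (SU 3 F 4)), ∀ x : Fin 3 → F,
      suHom 3 F 4 t *ᵥ (suHom 3 F 4 g *ᵥ x) = suHom 3 F 4 g *ᵥ (suHom 3 F 4 t *ᵥ x) :=
    fun g hg x => by
      rw [mulVec_mulVec, mulVec_mulVec, ← map_mul, ← map_mul,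
        Subgroup.mem_centralizer_singleton_iff.mp hg]
  have hp : ∀ (g : SU 3 F 4) (x y : Fin 3 → F),
      hermForm 3 F 4 (suHom 3 F 4 g *ᵥ x) (suHom 3 F 4 g *ᵥ y) = hermForm 3 F 4 x y := fun g => g.2
  have h01 : suHom 3 F 4 t *ᵥ Pi.single 0 1 = Pi.single 1 1 := by
    rw [hT]; ext i; fin_cases i <;> simp
  have h1 := card_le_of_orbit_subset (Subgroup.centralizer ({t} : Set (SU 3 F 4)))
    (Pi.single 0 1 : Fin 3 → F)
    {x | hermForm 3 F 4 x x = 1 ∧ hermForm 3 F 4 (suHom 3 F 4 t *ᵥ x) x = 0} (Set.toFinite _)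
    fun g hg => by
      change hermForm 3 F 4 (suHom 3 F 4 g *ᵥ _) (suHom 3 F 4 g *ᵥ _) = 1 ∧
        hermForm 3 F 4 (_ *ᵥ (suHom 3 F 4 g *ᵥ _)) (suHom 3 F 4 g *ᵥ _) = 0
      rw [hcm g hg, hp, hp, h01]
      simp [hermForm, Fin.sum_univ_three]
  have h2 : Subgroup.centralizer ({t} : Set (SU 3 F 4)) ⊓
      stabilizer (SU 3 F 4) (Pi.single 0 1 : Fin 3 → F) = ⊥ := by
    refine eq_bot_iff.mpr fun g hg => suHom_inj 3 F 4 ?_
    have e0 : suHom 3 F 4 g *ᵥ Pi.single 0 1 = Pi.single 0 1 := hg.2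
    have e1 := hcm g hg.1 (Pi.single 0 1)
    rw [e0, h01] at e1
    have e2 := hp g (Pi.single 2 1) (Pi.single 0 1)
    have e3 := hp g (Pi.single 2 1) (Pi.single 1 1)
    rw [e0] at e2
    rw [← e1] at e3
    have e4 : (suHom 3 F 4 g).det = 1 := g.1.2
    generalize suHom 3 F 4 g = A at e0 e1 e2 e3 e4
    have a0 := congrFun e0
    have a1 := congrFun e1.symm
    simp [hermForm, Fin.sum_univ_three] at a0 a1 e2 e3
    simp [Matrix.det_fin_three, a0, a1, e2, e3] at e4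
    rw [map_one]
    ext i j
    fin_cases i <;> fin_cases j <;> simp [a0, a1, e2, e3, e4]
  rw [h2, Subgroup.card_bot, mul_one] at h1
  refine h1.trans (le_trans (Set.ncard_le_ncard (t := B.vecOf 3 '' (((Finset.range 4096).filter
    fun c => band (Nat.beq (hc c c) 1) (Nat.beq (hc (f16Ops.mvec 4 3 ct.1 c) c) 0) = true :
      Finset ℕ) : Set ℕ)) (fun x hx => ?_) (Set.toFinite _)) ?_)
  · obtain ⟨c, h3, h4⟩ := exists_repV B hF x
    obtain ⟨h5, h6⟩ := hc_spec B h4 h4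
    obtain ⟨h7, h8⟩ := hc_spec B (ht.1.mulVec h4) h4
    refine ⟨c, ?_, funext fun i => (h4 i).2.symm⟩
    rw [Finset.mem_coe, Finset.mem_filter, Finset.mem_range, band_eq, Bool.and_eq_true, Nat.beq_eq,
      Nat.beq_eq]
    exact ⟨h3, B.inj _ _ h5 B.one_lt (by rw [h6, hx.1, B.val_one]),
      B.inj _ _ h7 B.pos (by rw [h8, hx.2, B.val_zero])⟩
  · refine (Set.ncard_image_le (Set.toFinite _)).trans ?_
    rw [Set.ncard_coe_finset, ← countLt_eq]
    decide +kernel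

end

theorem rep_cj {G : Type*} [Group G] {C : Type} {M : CG G C} {a c : G} {x y : C} (ha : M.Rep a x)
    (hc : M.Rep c y) (i : ℕ) : M.Rep (cj c a i) (iter (M.conj y) i x) := by
  induction i with
  | zero => rwa [cj_zero]
  | succ i ih =>
    rw [add_comm, ← conj_cj, pow_one, add_comm, iter_succ]
    exact M.rep_conj hc ih

/-- The check of the relations. -/
def relChk {G : Type*} [Group G] {C : Type} (M : CG G C) (a c u w : C) : Bool :=
  allL [M.isOne (M.mul (M.mul (M.mul (M.mul c c) c) c) c), M.isOne (M.mul u u), M.isOne (M.mul w w),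
    M.eqc (M.mul u w) (M.mul w u), M.eqc (M.mul u a) (M.mul a u), M.eqc (M.mul u c) (M.mul c u),
    M.eqc (M.mul w a) (M.mul a w), M.eqc (M.mul w c) (M.mul c w), M.eqc (M.mul a a) (M.mul u w),
    M.eqc (M.mul (iter (M.conj c) 1 a) a) (M.mul (M.mul a (iter (M.conj c) 1 a)) u),
    M.eqc (M.mul (iter (M.conj c) 2 a) a) (M.mul (M.mul a (iter (M.conj c) 2 a)) w),
    M.isOne (M.mul (M.mul (M.mul (M.mul a (iter (M.conj c) 1 a)) (iter (M.conj c) 2 a))
      (iter (M.conj c) 3 a)) (iter (M.conj c) 4 a))] id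

theorem rel_of {G : Type*} [Group G] {C : Type} {M : CG G C} {a c u w : G} {x y z v : C}
    (ha : M.Rep a x) (hc : M.Rep c y) (hu : M.Rep u z) (hw : M.Rep w v)
    {G₀ : Type*} [Group G₀] {M₀ : CG G₀ C} (hM : M.triv = M₀.triv)
    (h : relChk M₀ x y z v = true) : Rel a c u w := by
  rw [show relChk M₀ = relChk M from (congrArg relChk hM).symm] at h
  simp only [relChk, allL_iff, List.forall_mem_cons, id] at h
  obtain ⟨h1, h2, h3, h4, h5, h6, h7, h8, h9, h10, h11, h12, -⟩ := h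
  have m := @M.rep_mul
  have r := rep_cj ha hc
  exact ⟨by simpa only [pow_succ, pow_zero, one_mul] using M.eq_one (m (m (m (m hc hc) hc) hc) hc) h1,
    M.eq_one (m hu hu) h2, M.eq_one (m hw hw) h3, M.eq_of_eqc (m hu hw) (m hw hu) h4,
    M.eq_of_eqc (m hu ha) (m ha hu) h5, M.eq_of_eqc (m hu hc) (m hc hu) h6,
    M.eq_of_eqc (m hw ha) (m ha hw) h7, M.eq_of_eqc (m hw hc) (m hc hw) h8,
    M.eq_of_eqc (m ha ha) (m hu hw) h9, M.eq_of_eqc (m (r 1) ha) (m (m ha (r 1)) hu) h10,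
    M.eq_of_eqc (m (r 2) ha) (m (m ha (r 2)) hw) h11,
    M.eq_one (m (m (m (m ha (r 1)) (r 2)) (r 3)) (r 4)) h12⟩

theorem chk : N.ordCheck (fun c => band (ok c) (N.comm ct c)) L 320 = true := by decide +kernel

/-- A finite group of order 320 whose derived subgroup has order 64 and has centre a Klein four-group is isomorphic to the centralizer of an involution in PSU₃(4). -/
theorem result {G : Type*} [Group G] [Finite G] (hG : Nat.card G = 320) (hD : Nat.card (commutator G) = 64)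
    (hZ : IsKleinFour (Subgroup.center (commutator G)))
    {F : Type*} [Field F] [Fintype F] (hF : Fintype.card F = 16) :
    ∃ t : Cfsg.PSU 3 F 4, orderOf t = 2 ∧ Nonempty (G ≃* Subgroup.centralizer ({t} : Set (Cfsg.PSU 3 F 4))) := by
  obtain ⟨B⟩ := nonempty_f16FC hF
  have := charP_of_card Nat.prime_two 4 hF
  obtain ⟨τ, hτ⟩ := exists_frob (F := F) 2 2 Nat.prime_two
  have vt : (sucg B 3 4).VT ok := sucg_vt B τ hτ B.sl3_vt
  have cp : (sucg B 3 4).Complete := B.cg_complete 3 _ (suHom_inj 3 F 4)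
  have uq : (sucg B 3 4).Uniq := B.cg_uniq 3 _ (suHom_inj 3 F 4)
  obtain ⟨t, ht⟩ := vt ct (by decide +kernel)
  obtain ⟨s, hs⟩ := vt cs (by decide +kernel)
  have vt' := vt.centralizer ht
  obtain ⟨hv, hss, -, h1⟩ := CG.ordCheck_spec ((B.cg_keyed 3 _ (suHom_inj 3 F 4)).sub _) (uq.sub _)
    vt' (N := N) rfl chk
  have h0 := card_le B hF ht
  rw [← h1] at h0
  have h2 := Subgroup.eq_top_of_le_card _ h0
  have h3 : Subgroup.center (SU 3 F 4) = ⊥ := eq_bot_iff.mpr fun z hz => by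
    obtain ⟨c, h3, h4⟩ := CG.forall_gen' hv hss (N := N) rfl
      (fun c => bor (N.isOne c) (bnot (N.comm cs c))) (by decide +kernel)
      ⟨z, Subgroup.center_le_centralizer _ hz⟩ (h2 ▸ Subgroup.mem_top _)
    simp only [bor_eq, bnot_eq, Bool.or_eq_true, Bool.not_eq_true'] at h4
    exact h4.elim ((sucg B 3 4).eq_one h3) fun h => absurd hz (cp.not_mem_center h3 hs h)
  let e : SU 3 F 4 ≃* PSU 3 F 4 :=
    ((QuotientGroup.quotientMulEquivOfEq h3).trans QuotientGroup.quotientBot).symm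
  obtain ⟨a, c, u, w, h4, h5⟩ := exists_rel hG hD hZ
  obtain ⟨a', ha⟩ := hv ca (by simp [L, CG.gensOf])
  obtain ⟨c', hc⟩ := hv cc (by simp [L, CG.gensOf])
  obtain ⟨u', hu⟩ := vt' cu (show band (ok cu) (N.comm ct cu) = true by decide +kernel)
  obtain ⟨w', hw⟩ := vt' cw (show band (ok cw) (N.comm ct cw) = true by decide +kernel)
  obtain ⟨f⟩ := h4.equiv (rel_of ha hc hu hw (M₀ := N) rfl (by decide +kernel)) h5
    (eq_top_iff.mpr (h2.ge.trans (CG.gen_le_of_in (uq.sub _) fun x hx => by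
      rcases List.mem_pair.mp hx with rfl | rfl
      exacts [⟨a', Subgroup.subset_closure (by simp), ha⟩,
        ⟨c', Subgroup.subset_closure (by simp), hc⟩]))) hG
    (by rw [← h1, h2, Subgroup.card_top])
  exact ⟨e t, (e.orderOf_eq t).trans (cp.ord_eq (N := N) (fuel := 3) rfl ht two_ne_zero
    (by decide +kernel)), ⟨f.trans (centralizerCongr e t)⟩⟩

end Cfsg.Agent.S1903
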