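import Cfsg.Statements.S1905
import Cfsg.Agent.H2.PGroup
import Cfsg.Agent.H1.Basic
import Cfsg.Agent.H3.Invol

set_option autoImplicit false
open Cfsg

namespace Cfsg.Agent.S1905

open Subgroup Cfsg.Agent.H2
open scoped commutatorElement Pointwise


/-- Let M be a subgroup of even order of a finite group S such that M contains the centralizer in S of each of its involutions and the normal core of M in S has odd order. Then all involutions of S are conjugate. If moreover N_S(X) ≤ M for a Sylow 2-subgroup X of M and I is an involution in the centre of X, then all involutions of M are conjugate in M and M = M₀ C_M(I) for some subgroup M₀ of M of odd order. -/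
theorem result {S : Type*} [Group S] [Finite S] (M : Subgroup S) (hM : Even (Nat.card M))
    (hC : ∀ i ∈ M, orderOf i = 2 → Subgroup.centralizer ({i} : Set S) ≤ M) (hcore : Odd (Nat.card M.normalCore)) :
    (∀ x y : S, orderOf x = 2 → orderOf y = 2 → IsConj x y) ∧
      ∀ (X : Sylow 2 M) (I : M), I ∈ (Subgroup.center ↥(X : Subgroup ↥M)).map (X : Subgroup ↥M).subtype → orderOf I = 2 →
        Subgroup.normalizer (((X : Subgroup M).map M.subtype : Subgroup S) : Set S) ≤ M →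
        (∀ x y : M, orderOf x = 2 → orderOf y = 2 → IsConj x y) ∧
          ∃ M₀ : Subgroup M, Odd (Nat.card M₀) ∧
            ∀ m : M, ∃ a ∈ M₀, ∃ c ∈ Subgroup.centralizer ({I} : Set M), m = a * c := by
  have hodd : ∀ u ∈ M, orderOf u = 2 → ∀ v, v ∉ M → orderOf v = 2 → Odd (orderOf (u * v)) := by
    intro u hu hu2 v hv hv2
    by_contra h
    obtain ⟨h1, h2, h3⟩ := H3.half_pow_central (H3.mul_self_of_orderOf_two hu2)
      (H3.mul_self_of_orderOf_two hv2) (Nat.not_odd_iff_even.mp h)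
    exact hv (hC _ (hC u hu hu2 (mem_centralizer_singleton_iff.mpr h2.eq)) h1
      (mem_centralizer_singleton_iff.mpr h3.eq.symm))
  have hconj : ∀ u ∈ M, orderOf u = 2 → ∀ v, v ∉ M → orderOf v = 2 → IsConj u v :=
    fun u hu hu2 v hv hv2 => H3.isConj_of_odd (H3.mul_self_of_orderOf_two hu2)
      (H3.mul_self_of_orderOf_two hv2) (hodd u hu hu2 v hv hv2)
  obtain ⟨u, hu, hu2⟩ := (H3.even_card_subgroup_iff M).mp hM
  obtain ⟨v, hv, hv2⟩ : ∃ v, v ∉ M ∧ orderOf v = 2 := by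
    by_contra hcon
    push Not at hcon
    refine (H3.odd_card_subgroup_iff _).mp hcore u (fun g => ?_) hu2
    by_contra h
    exact hcon _ h ((H3.orderOf_conj g u).trans hu2)
  have hall : ∀ x y : S, orderOf x = 2 → orderOf y = 2 → IsConj x y := by
    intro x y hx hy
    by_cases h1 : x ∈ M <;> by_cases h2 : y ∈ M
    · exact (hconj x h1 hx v hv hv2).trans (hconj y h2 hy v hv hv2).symm
    · exact hconj x h1 hx y h2 hy
    · exact (hconj y h2 hy x h1 hx).symm
    · exact (hconj u hu hu2 x h1 hx).symm.trans (hconj u hu hu2 y h2 hy)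
  refine ⟨hall, fun X I _ hI hN => ?_⟩
  have hse : ∀ g t : S, t ∈ M → orderOf t = 2 → g * t * g⁻¹ ∈ M → g ∈ M := by
    intro g t ht ht2 hg
    have hX := H1.isSylowIn_map_subtype X
    have hs2 : orderOf (g * t * g⁻¹) = 2 := (H3.orderOf_conj g t).trans ht2
    obtain ⟨R, hR1, hR⟩ := H1.exists_isSylowIn_ge (H3.isPGroup_zpowers_of_orderOf_two hs2)
      (zpowers_le.mpr hg)
    obtain ⟨z, hz, hz2, hz3⟩ := H3.exists_central_involution hR.isPGroup (fun h =>
      H3.ne_one_of_orderOf_two hs2 (mem_bot.mp (h ▸ hR1 (mem_zpowers _))))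
    have h1 : g⁻¹ * z * g⁻¹⁻¹ ∈ M := hC t ht ht2 (mem_centralizer_singleton_iff.mpr (by
      have := hz3 _ (hR1 (mem_zpowers _))
      calc g⁻¹ * z * g⁻¹⁻¹ * t = g⁻¹ * (z * (g * t * g⁻¹)) * g := by group
        _ = _ := by rw [← this]; group))
    have h2 : H1.cj g⁻¹ R ≤ M := H1.cj_le_iff.mpr fun x hx =>
      hC _ h1 ((H3.orderOf_conj _ z).trans hz2) (mem_centralizer_singleton_iff.mpr (by
        calc g⁻¹ * x * g⁻¹⁻¹ * (g⁻¹ * z * g⁻¹⁻¹) = g⁻¹ * (x * z) * g := by group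
          _ = _ := by rw [hz3 x hx]; group))
    obtain ⟨m₁, hm₁, e₁⟩ := hX.exists_cj_eq hR
    obtain ⟨m₂, hm₂, e₂⟩ := hX.exists_cj_eq (H1.isSylowIn_of_card_ge hR
      (H1.isPGroup_cj _ hR.isPGroup) h2 (H1.card_cj _ _).ge)
    have h3 : m₂ * g⁻¹ * m₁⁻¹ ∈ M := hN (H1.cj_eq_iff_mem_normalizer.mp (by
      rw [H1.cj_mul, H1.cj_mul, ← e₁, H1.cj_inv_cj, e₂, e₁]))
    rwa [mul_mem_cancel_right (inv_mem hm₁), mul_mem_cancel_left hm₂, inv_mem_iff] at h3
  refine ⟨fun x y hx hy => ?_, (M ⊓ H1.cj v M).subgroupOf M, ?_, fun m => ?_⟩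
  · obtain ⟨g, hg⟩ := isConj_iff.mp (hall x y ((orderOf_coe x).trans hx) ((orderOf_coe y).trans hy))
    exact isConj_iff.mpr ⟨⟨g, hse g x x.2 ((orderOf_coe x).trans hx) (hg ▸ y.2)⟩, Subtype.ext hg⟩
  · rw [H3.odd_card_subgroup_iff]
    intro t ht ht2
    exact hv (inv_mem_iff.mp (hse v⁻¹ t t.2 ((orderOf_coe t).trans ht2)
      (by simpa using H1.mem_cj.mp (mem_inf.mp ht).2)))
  · have hI2 : orderOf (I : S) = 2 := (orderOf_coe I).trans hI
    have hvv := H3.mul_self_of_orderOf_two hv2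
    have hvi := H3.inv_eq_of_orderOf_two hv2
    have hII := H3.mul_self_of_orderOf_two hI2
    set y : S := v * (m * I * (m : S)⁻¹) * v⁻¹ with hy
    have hmI : (m * I * (m : S)⁻¹ : S) ∈ M := (m * I * m⁻¹).2
    have hmI2 : orderOf (m * I * (m : S)⁻¹ : S) = 2 := (H3.orderOf_conj _ _).trans hI2
    have hy2 : orderOf y = 2 := (H3.orderOf_conj _ _).trans hmI2
    have hyy := H3.mul_self_of_orderOf_two hy2
    obtain ⟨n, hn⟩ := H3.exists_zpow_conj_of_odd hII hyy
      (hodd I I.2 hI2 y (fun h => hv (hse v _ hmI hmI2 h)) hy2)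
    set w : S := I * (I * y) ^ (-n) with hw
    have hww : w * w = 1 := H3.refl_mul_self hII (H3.left_inverts hII hyy) _
    have hwI : w * I * w⁻¹ = y := by
      rw [hw, ← H3.zpow_mul_of_inverts (H3.left_inverts hII hyy)]
      refine Eq.trans ?_ hn
      group
    have hd : v⁻¹ * w * I * (v⁻¹ * w)⁻¹ = m * I * (m : S)⁻¹ := by
      calc v⁻¹ * w * I * (v⁻¹ * w)⁻¹ = v⁻¹ * (w * I * w⁻¹) * v := by group
        _ = _ := by rw [hwI, hy]; group
    have hdM : v⁻¹ * w ∈ M := hse _ I I.2 hI2 (hd ▸ hmI)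
    refine ⟨⟨_, hdM⟩, mem_inf.mpr ⟨hdM, H1.mem_cj.mpr ?_⟩, (⟨_, hdM⟩ : M)⁻¹ * m, ?_, by group⟩
    · have := inv_mem hdM
      rw [mul_inv_rev, inv_inv, inv_eq_of_mul_eq_one_left hww] at this
      change v⁻¹ * (v⁻¹ * w) * v ∈ M
      rwa [hvi, ← mul_assoc, hvv, one_mul]
    · refine mem_centralizer_singleton_iff.mpr (Subtype.ext ?_)
      change (v⁻¹ * w)⁻¹ * m * I = I * ((v⁻¹ * w)⁻¹ * m)
      calc (v⁻¹ * w)⁻¹ * m * I = (v⁻¹ * w)⁻¹ * (m * I * (m : S)⁻¹) * m := by group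
        _ = _ := by rw [← hd]; group

end Cfsg.Agent.S1905
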