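import Cfsg.Statements.S1906
import Cfsg.Agent.H2.PGroup
import Cfsg.Agent.H2.Elem2
import Cfsg.Agent.H1.ThompsonTransfer
import Cfsg.Agent.L.Rad
import Mathlib.RepresentationTheory.Basic

set_option autoImplicit false
open Cfsg

namespace Cfsg.Agent.S1906

open Subgroup Cfsg.Agent.H2
open scoped commutatorElement Pointwise

open Module

universe u

variable {F : Type*} [Field F]

theorem eq_zero_of_neg (h2 : (2 : F) ≠ 0) {V : Type*} [AddCommGroup V] [Module F V] {v : V}
    (h : -v = v) : v = 0 :=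
  (smul_eq_zero.mp (by rw [two_smul]; exact neg_eq_iff_add_eq_zero.mp h)).resolve_left h2

theorem index_ker_le (h2 : (2 : F) ≠ 0) {A : Type*} [Group A] [Finite A] (hA : ∀ a : A, a * a = 1)
    (n : ℕ) : ∀ (V : Type u) [AddCommGroup V] [Module F V] [FiniteDimensional F V]
      (ρ : Representation F A V), finrank F V = n → ρ.ker.index ≤ 2 ^ n := by
  have hc : ∀ a b : A, a * b = b * a := fun a b => by
    rw [← inv_eq_of_mul_eq_one_right (hA (a * b)), mul_inv_rev, inv_eq_of_mul_eq_one_right (hA a),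
      inv_eq_of_mul_eq_one_right (hA b)]
  induction n with
  | zero =>
    intro V _ _ _ ρ h
    haveI := finrank_zero_iff.mp h
    rw [show ρ.ker = ⊤ from eq_top_iff.mpr fun a _ => Subsingleton.elim (ρ a) 1, index_top, pow_zero]
  | succ n ih =>
    intro V _ _ _ ρ h
    have e : ∀ a v, ρ a (ρ a v) = v := fun a v => by rw [← End.mul_apply, ← map_mul, hA]; simp
    haveI : Nontrivial V := nontrivial_of_finrank_pos (R := F) (by omega)
    obtain ⟨W, ⟨h1, h3⟩, h4⟩ := wellFounded_lt.has_min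
      {W : Submodule F V | W ≠ ⊥ ∧ ∀ a, ∀ w ∈ W, ρ a w ∈ W} ⟨⊤, top_ne_bot, fun _ _ _ => trivial⟩
    obtain ⟨v, hv, hv0⟩ := (Submodule.ne_bot_iff W).mp h1
    have h5 : ∀ a, ρ a v = v ∨ ρ a v = -v := fun a => by
      by_cases h5 : W ⊓ LinearMap.eqLocus (ρ a) 1 = ⊥
      · exact .inr (eq_neg_of_add_eq_zero_left ((Submodule.eq_bot_iff _).mp h5 _
          ⟨add_mem (h3 a v hv) hv, show ρ a _ = _ by simp [e, add_comm]⟩))
      · refine .inl ((inf_le_left.lt_or_eq.resolve_left (h4 _ ⟨h5, fun b w hw =>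
          ⟨h3 b w hw.1, show ρ a _ = ρ b w from ?_⟩⟩)).ge hv).2
        rw [← End.mul_apply, ← map_mul, hc, map_mul, End.mul_apply, show ρ a w = w from hw.2]
    have h6 : ∀ a, (F ∙ v) ≤ (F ∙ v).comap (ρ a) := fun a =>
      (Submodule.span_singleton_le_iff_mem _ _).mpr (by
        rcases h5 a with h | h <;> simp [h])
    let D : Subgroup A :=
      { carrier := {a | ρ a v = v}
        one_mem' := by simp
        mul_mem' := fun {a b} (ha : _ = _) (hb : _ = _) => by simp [ha, hb]
        inv_mem' := fun {a} ha => by rwa [inv_eq_of_mul_eq_one_right (hA a)] }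
    have h7 : D.index ≤ 2 := Nat.le_of_dvd two_pos (index_dvd_two_iff.mpr (by
      by_cases h : ∀ b, b ∈ D
      · exact ⟨1, fun b => .inr (h b)⟩
      · push Not at h
        obtain ⟨a, ha⟩ := h
        refine ⟨a, fun b => or_iff_not_imp_right.mpr fun hb => show ρ _ v = v from ?_⟩
        simp [(h5 a).resolve_left ha, (h5 b).resolve_left hb]))
    have h8 := ih _ (ρ.quotient _ h6) (by
      have := (F ∙ v).finrank_quotient_add_finrank
      rw [finrank_span_singleton hv0] at this
      omega)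
    refine (index_antitone (H := D ⊓ (ρ.quotient _ h6).ker) fun a ha => LinearMap.ext
      fun w => ?_).trans (index_inf_le.trans ((Nat.mul_le_mul h7 h8).trans_eq (by ring)))
    obtain ⟨c, hc⟩ := Submodule.mem_span_singleton.mp ((Submodule.Quotient.eq _).mp
      (LinearMap.congr_fun ha.2 (Submodule.Quotient.mk w)))
    have h9 := congrArg (ρ a) hc
    rw [map_smul, show ρ a v = v from ha.1, hc, map_sub, e, ← neg_sub] at h9
    exact (sub_eq_zero.mp (eq_zero_of_neg h2 h9)).symm

theorem exists_char {P V : Type*} [Group P] [AddCommGroup V] [Module F V]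
    (ρ : Representation F P V) {W : Submodule F V} (h : finrank F W = 1)
    (hW : ∀ x, ∀ w ∈ W, ρ x w ∈ W) : ∃ χ : P →* Fˣ, ∀ x, ∀ w ∈ W, ρ x w = (χ x : F) • w := by
  obtain ⟨v, hv, h1⟩ := finrank_eq_one_iff'.mp h
  choose c hc using fun x => h1 ⟨_, hW x v v.2⟩
  replace hc : ∀ x, ρ x v = c x • v := fun x => (congrArg Subtype.val (hc x)).symm
  replace hv : (v : V) ≠ 0 := fun h => hv (Subtype.ext h)
  refine ⟨MonoidHom.toHomUnits ⟨⟨c, smul_left_injective F hv ?_⟩, fun x y =>
    smul_left_injective F hv ?_⟩, fun x w hw => ?_⟩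
  · simp [← hc]
  · simp only [← hc, mul_smul, ← map_smul, smul_comm (c x)]
    simp [hc, smul_comm (c x)]
  · obtain ⟨t, ht⟩ := h1 ⟨w, hw⟩
    obtain rfl : t • (v : V) = w := congrArg Subtype.val ht
    simp [hc, smul_comm t]

/-- Let G be a finite group with no subgroup of index 2 whose Sylow 2-subgroup X embeds in GL₃(F) for a finite field F of odd order. If X contains an elementary abelian subgroup of order 8, then X is abelian. -/
theorem result {G : Type*} [Group G] [Finite G] (hG : ∀ H : Subgroup G, H.index ≠ 2) (X : Sylow 2 G)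
    {F : Type*} [Field F] [Fintype F] (hF : Odd (Fintype.card F))
    (f : ↥(X : Subgroup G) →* GL (Fin 3) F) (hf : Function.Injective f)
    (E : Subgroup G) (hE : E ≤ (X : Subgroup G)) (hEa : Cfsg.IsElementaryAbelian 2 E) (hE8 : Nat.card E = 8) :
    IsMulCommutative (X : Subgroup G) := by
  by_contra hna
  let P := (X : Subgroup G)
  have h2 : (2 : F) ≠ 0 := Ring.two_ne_zero fun h => by
    have := FiniteField.even_card_iff_char_two.mp h
    rw [Nat.odd_iff] at hF
    omega
  let τ : Representation F (GL (Fin 3) F) (Fin 3 → F) :=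
    (Matrix.toLinAlgEquiv' : Matrix (Fin 3) (Fin 3) F ≃ₐ[F] _).toMonoidHom.comp (Units.coeHom _)
  have hτ : Function.Injective τ := Matrix.toLinAlgEquiv'.injective.comp Units.val_injective
  have hτ1 : ∀ v, τ (-1) v = -v := fun v => by simp [τ]
  let ρ : Representation F P (Fin 3 → F) := τ.comp f
  have hρ : Function.Injective ρ := hτ.comp hf
  obtain ⟨u, hu⟩ : ∃ u : P, f u = -1 := by
    by_contra! h
    let A := (E.subgroupOf P).map f
    have h1 : -1 ∉ A := fun ⟨u, _, hu⟩ => h u hu
    have h3 := index_ker_le h2 (A := ↥(A ⊔ zpowers (-1))) (fun ⟨a, ha⟩ => Subtype.ext (by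
      obtain ⟨_, ⟨e, he, rfl⟩, _, ⟨i, rfl⟩, rfl⟩ := (mem_sup_of_le_normalizer' (zpowers_le.mpr
        (centralizer_le_normalizer _ fun a _ => by simp))).mp ha
      have : f e * f e = 1 := by
        rw [← map_mul, ← sq, show e ^ 2 = 1 from Subtype.ext (hEa.2 e he), map_one]
      rcases Int.even_or_odd i with h | h <;> simp [h.neg_one_zpow, this])) 3 _
      (τ.comp (A ⊔ zpowers (-1)).subtype) (by simp)
    rw [(MonoidHom.ker_eq_bot_iff (τ.comp (A ⊔ zpowers (-1)).subtype)).mpr
        (hτ.comp (subtype_injective _)), index_bot,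
      card_sup_zpowers_eq (p := 2) (centralizer_le_normalizer _ fun a _ => by simp) h1
        (by simp), card_map_of_injective hf, L.card_subgroupOf_of_le hE, hE8] at h3
    omega
  have hu' : ∀ v, ρ u v = -v := fun v => by rw [← hτ1, ← hu]; rfl
  haveI := X.2.isNilpotent
  obtain ⟨z₀, hz₀, hz₀'⟩ := (bot_or_exists_ne_one _).resolve_left (inf_center_ne_bot_of_nilpotent
    (K := commutator P) fun h => hna ((commutator_eq_bot_iff _).mp h))
  obtain ⟨k, hk⟩ := exists_prime_orderOf_pow hz₀'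
  obtain ⟨j, hj⟩ := IsPGroup.iff_orderOf.mp X.2 (z₀ ^ k)
  have hz := pow_mem hz₀ k
  generalize z₀ ^ k = z at hk hj hz
  have hz2 : z * z = 1 := by
    rw [← sq, ← (Nat.prime_dvd_prime_iff_eq hk Nat.prime_two).mp (hk.dvd_of_dvd_pow hj.dvd),
      pow_orderOf_eq_one]
  have hz1 : z ≠ 1 := by rintro rfl; exact hk.one_lt.ne' orderOf_one
  have e : ∀ {a : P}, a * a = 1 → ∀ v, ρ a (ρ a v) = v := fun h v => by
    rw [← End.mul_apply, ← map_mul, h]; simp
  have hinv : ∀ {a : P}, a ∈ center P → ∀ (c : F) x, ∀ w ∈ End.eigenspace (ρ a) c,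
      ρ x w ∈ End.eigenspace (ρ a) c := fun ha c x w hw => by
    rw [End.mem_eigenspace_iff] at hw ⊢
    rw [← End.mul_apply, ← map_mul, ← mem_center_iff.mp ha, map_mul, End.mul_apply, hw, map_smul]
  have h3 : ∀ W ≤ End.eigenspace (ρ z) (-1), (∀ x, ∀ w ∈ W, ρ x w ∈ W) → finrank F W ≠ 1 :=
    fun W h3 h4 h5 => by
      obtain ⟨χ, hχ⟩ := exists_char ρ h5 h4
      obtain ⟨v, hv, -⟩ := finrank_eq_one_iff'.mp h5
      have := hχ z v v.2
      rw [Abelianization.commutator_subset_ker χ hz.1, End.mem_eigenspace_iff.mp (h3 v.2)] at this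
      exact hv (Subtype.ext (eq_zero_of_neg h2 (by simpa using this)))
  have hdec : ∀ {a : P}, a * a = 1 → ∀ v, (2⁻¹ : F) • (v + ρ a v) ∈ End.eigenspace (ρ a) 1 ∧
      (2⁻¹ : F) • (v - ρ a v) ∈ End.eigenspace (ρ a) (-1) ∧
      v = (2⁻¹ : F) • (v + ρ a v) + (2⁻¹ : F) • (v - ρ a v) := fun h v =>
    ⟨Submodule.smul_mem _ _ (by simp [e h, add_comm]), Submodule.smul_mem _ _ (by simp [e h]), by
      rw [← smul_add, add_add_sub_cancel, ← two_smul F, inv_smul_smul₀ h2]⟩
  have h4 : finrank F (End.eigenspace (ρ z) 1) + finrank F (End.eigenspace (ρ z) (-1)) = 3 := by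
    have h4 : End.eigenspace (ρ z) 1 ⊔ End.eigenspace (ρ z) (-1) = ⊤ :=
      eq_top_iff.mpr fun v _ => (hdec hz2 v).2.2 ▸
        Submodule.add_mem_sup (hdec hz2 v).1 (hdec hz2 v).2.1
    have h5 : End.eigenspace (ρ z) 1 ⊓ End.eigenspace (ρ z) (-1) = ⊥ :=
      (Submodule.eq_bot_iff _).mpr fun v hv => eq_zero_of_neg h2 (by
        simpa using ((End.mem_eigenspace_iff.mp hv.2).symm.trans (End.mem_eigenspace_iff.mp hv.1)))
    rw [← Submodule.finrank_sup_add_finrank_inf_eq, h4, h5]
    simp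
  have hext : ∀ a b : P, (∀ v ∈ End.eigenspace (ρ z) 1, ρ a v = ρ b v) →
      (∀ v ∈ End.eigenspace (ρ z) (-1), ρ a v = ρ b v) → a = b := fun a b h h' =>
    hρ (LinearMap.ext fun v => by
      rw [(hdec hz2 v).2.2, map_add, map_add, h _ (hdec hz2 v).1, h' _ (hdec hz2 v).2.1])
  have h5 : finrank F (End.eigenspace (ρ z) 1) = 1 := by
    have h5 := h3 _ le_rfl (hinv hz.2 _)
    have h6 : finrank F (End.eigenspace (ρ z) (-1)) ≠ 0 := fun h => hz1 (hext _ _
      (fun v hv => by simpa using hv) fun v hv => by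
        simp [show v = 0 from (Submodule.finrank_eq_zero.mp h).le hv])
    have h7 : finrank F (End.eigenspace (ρ z) 1) ≠ 0 := fun h => by
      have h7 := Abelianization.commutator_subset_ker (Matrix.GeneralLinearGroup.det.comp f) hz.1
      rw [hext z u (fun v hv => by simp [show v = 0 from (Submodule.finrank_eq_zero.mp h).le hv])
        fun v hv => by simpa [hu'] using hv, MonoidHom.mem_ker, MonoidHom.comp_apply, hu] at h7
      have := congrArg Units.val h7
      exact one_ne_zero (eq_zero_of_neg (V := F) h2 (by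
        simpa [Matrix.det_neg, pow_succ] using this))
    omega
  obtain ⟨χ, hχ⟩ := exists_char ρ h5 (hinv hz.2 _)
  have hT : (χ.ker.map P.subtype).subgroupOf P = χ.ker :=
    comap_map_eq_self_of_injective P.subtype_injective _
  haveI : ((χ.ker.map P.subtype).subgroupOf P).Normal := hT.symm ▸ inferInstance
  have huT : u ∉ χ.ker := fun h => by
    obtain ⟨v, hv, -⟩ := finrank_eq_one_iff'.mp h5
    have := hχ u v v.2
    rw [h, hu'] at this
    exact hv (Subtype.ext (eq_zero_of_neg h2 (by simpa using this)))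
  have huc : ∀ r : P, r * u = u * r := fun r => hf (by simp [hu])
  have hu2 : u ^ 2 = 1 := hf (by simp [hu])
  rcases H1.thompson_transfer (S := P) (T := χ.ker.map P.subtype) X.not_dvd_index
    (isCyclic_of_injective ((QuotientGroup.kerLift χ).comp
      (QuotientGroup.quotientMulEquivOfEq hT).toMonoidHom) ((QuotientGroup.kerLift_injective χ).comp
        (MulEquiv.injective _))) (congrArg Subtype.val hu2) X.2 u.2
    (fun r hr => congrArg Subtype.val (huc ⟨r, hr⟩)) u.2 (fun h => huT (hT.le h))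
    with ⟨θ, hθ⟩ | ⟨g, hg, y, hy, hyu⟩
  · haveI : Nontrivial θ.range := nontrivial_of_ne ⟨_, u, rfl⟩ 1
      fun h => hθ (congrArg Subtype.val h)
    obtain ⟨M, hM, -⟩ := (eq_top_or_exists_le_coatom (⊥ : Subgroup θ.range)).resolve_left bot_ne_top
    exact hG (M.comap θ.rangeRestrict) ((index_comap_of_surjective _ θ.rangeRestrict_surjective
      ).trans (index_eq_of_isCoatom ((X.2.to_quotient _).to_subgroup _) hM))
  have hg' : g ∈ normalizer (P : Set G) := H1.cj_eq_iff_mem_normalizer.mp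
    (eq_of_le_of_card_ge hg (H1.card_cj g P).le).symm
  let α := P.normalizerMonoidHom ⟨g, hg'⟩
  have hα : α y = u := Subtype.ext (show g * P.subtype y * g⁻¹ = u by rw [hyu]; group)
  have hyc : y ∈ center P := mem_center_iff.mpr fun r => α.injective (by simp [hα, huc])
  have hy2 : y * y = 1 := α.injective (by simp [hα, ← sq, hu2])
  have h6 : ∀ v ∈ End.eigenspace (ρ z) 1, ρ y v = v := fun v hv => by
    simp [hχ y v hv, show χ y = 1 from hy]
  have h7 : ∀ c d : F, End.eigenspace (ρ z) (-1) ⊓ End.eigenspace (ρ y) c = ⊥ →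
      ∀ v w, v ∈ End.eigenspace (ρ z) (-1) → (2⁻¹ : F) • (v + d • ρ y v) + w = v →
      (2⁻¹ : F) • (v + d • ρ y v) ∈ End.eigenspace (ρ y) c → w = v := fun c d h v w h1 h2 h3 => by
    rwa [(Submodule.eq_bot_iff _).mp h _ ⟨Submodule.smul_mem _ _ (add_mem h1
      (Submodule.smul_mem _ _ (hinv hz.2 _ y v h1))), h3⟩, zero_add] at h2
  by_cases h8 : End.eigenspace (ρ z) (-1) ⊓ End.eigenspace (ρ y) 1 = ⊥
  · obtain rfl : y = z := hext _ _ (fun v hv => by
        rw [h6 v hv, End.mem_eigenspace_iff.mp hv, one_smul]) fun v hv => by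
      have := (hdec hy2 v).2.1
      rw [h7 1 1 h8 v ((2⁻¹ : F) • (v - ρ y v)) hv (by simpa using (hdec hy2 v).2.2.symm)
        (by simpa using (hdec hy2 v).1)] at this
      rw [End.mem_eigenspace_iff.mp this, End.mem_eigenspace_iff.mp hv]
    exact huT (Abelianization.commutator_subset_ker χ (hα ▸
      (characteristic_iff_le_comap.mp inferInstance α hz.1)))
  by_cases h9 : End.eigenspace (ρ z) (-1) ≤ End.eigenspace (ρ y) 1
  · obtain rfl : y = 1 := hext _ _ (fun v hv => by simp [h6 v hv]) fun v hv => by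
      simpa using h9 hv
    exact huT (by rw [← hα, map_one]; exact one_mem _)
  refine h3 _ (inf_le_left (b := End.eigenspace (ρ y) 1))
    (fun x w hw => ⟨hinv hz.2 _ x w hw.1, hinv hyc _ x w hw.2⟩) ?_
  have h10 := Submodule.finrank_lt_finrank_of_lt (inf_lt_left.mpr h9)
  have h11 := mt Submodule.finrank_eq_zero.mp h8
  omega

end Cfsg.Agent.S1906
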