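import Cfsg.Statements.S1907
import Cfsg.Agent.H2.Coprime
import Cfsg.Agent.L.PSolv

set_option autoImplicit false
open Cfsg

namespace Cfsg.Agent.S1907

open Subgroup Cfsg.Agent.H2
open scoped commutatorElement Pointwise


/-- Let P be a Sylow p-subgroup of a finite group G, H = P ∩ O_{p',p}(G), N = N_G(H) and D = O_{p'}(G). (a) If y is an element of p-power order of N and d ∈ D with d⁻¹ y d ∈ N, then d = d₁ d₂ with d₁ ∈ C_D(y) and d₂ ∈ C_D(H). (b) Two elements of P that are conjugate in G are conjugate in N. -/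
theorem result {G : Type*} [Group G] [Finite G] {p : ℕ} [Fact p.Prime] (P : Sylow p G) :
    (∀ y ∈ Subgroup.normalizer (((P : Subgroup G) ⊓ Cfsg.pPrimePCore p G : Subgroup G) : Set G), (∃ k : ℕ, orderOf y = p ^ k) →
      ∀ d ∈ Cfsg.pPrimeCore p G, d⁻¹ * y * d ∈ Subgroup.normalizer (((P : Subgroup G) ⊓ Cfsg.pPrimePCore p G : Subgroup G) : Set G) →
        ∃ d₁ ∈ Cfsg.pPrimeCore p G ⊓ Subgroup.centralizer ({y} : Set G),
          ∃ d₂ ∈ Cfsg.pPrimeCore p G ⊓ Subgroup.centralizer (((P : Subgroup G) ⊓ Cfsg.pPrimePCore p G : Subgroup G) : Set G), d = d₁ * d₂) ∧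
    ∀ x y : G, x ∈ (P : Subgroup G) → y ∈ (P : Subgroup G) → IsConj x y →
      ∃ n ∈ Subgroup.normalizer (((P : Subgroup G) ⊓ Cfsg.pPrimePCore p G : Subgroup G) : Set G), n * x * n⁻¹ = y := by
  set H := (P : Subgroup G) ⊓ pPrimePCore p G with hH
  set D := pPrimeCore p G with hD
  have hHp : IsPGroup p H := P.isPGroup'.to_inf_left
  have hE : D ⊓ normalizer (H : Set G) ≤ centralizer (H : Set G) := by
    rw [← commutator_eq_bot_iff_le_centralizer, eq_bot_iff,
      ← L.inf_eq_bot_of_isPGroup hHp (L.pPrimeCore_coprime p)]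
    exact le_inf (le_normalizer_iff_commutator_le_right.mp inf_le_right)
      ((commutator_mono inf_le_left le_rfl).trans (commutator_le_left _ _))
  have ha : ∀ y ∈ normalizer (H : Set G), (∃ k : ℕ, orderOf y = p ^ k) →
      ∀ d ∈ D, d⁻¹ * y * d ∈ normalizer (H : Set G) →
        ∃ d₁ ∈ D ⊓ centralizer ({y} : Set G), ∃ d₂ ∈ D ⊓ centralizer (H : Set G), d = d₁ * d₂ := by
    rintro y hy ⟨k, hk⟩ d hd hdy
    have hy' : IsPGroup p (zpowers y) := IsPGroup.of_card (by rw [Nat.card_zpowers, hk])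
    have := hy'.isNilpotent
    obtain ⟨c, hc, e, he, h⟩ := exists_centralizer_mul (A := zpowers y)
      (N := D ⊓ normalizer (H : Set G))
      (le_normalizer_inf le_normalizer_of_normal ((zpowers_le.mpr hy).trans le_normalizer))
      (L.coprime_card_of_isPGroup hy'
        ((L.pPrimeCore_coprime p).coprime_dvd_left (card_dvd_of_le inf_le_left)))
      (Or.inl inferInstance) (x := d) (by
        rintro _ ⟨i, rfl⟩
        refine mem_inf.mpr ⟨?_, mul_mem ?_ (inv_mem (zpow_mem hy i))⟩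
        · rw [mul_assoc, mul_assoc, ← mul_assoc _ d]
          exact mul_mem (inv_mem hd) ((inferInstance : D.Normal).conj_mem d hd _)
        · have := zpow_mem hdy i
          rwa [show d⁻¹ * y * d = d⁻¹ * y * d⁻¹⁻¹ by rw [inv_inv], conj_zpow, inv_inv] at this)
    refine ⟨c, mem_inf.mpr ⟨?_, ?_⟩, e, mem_inf.mpr ⟨(mem_inf.mp he).1, hE he⟩, h⟩
    · rw [← mul_mem_cancel_right (mem_inf.mp he).1, ← h]; exact hd
    · exact mem_centralizer_singleton_iff.mpr (hc y (mem_zpowers y)).symm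
  refine ⟨ha, fun x y hx hy hxy => ?_⟩
  obtain ⟨g, rfl⟩ := isConj_iff.mp hxy
  have := hHp.isNilpotent
  have hPN : (P : Subgroup G) ≤ normalizer (H : Set G) :=
    le_normalizer_inf le_normalizer le_normalizer_of_normal
  obtain ⟨c, hc, d, hd, rfl⟩ := exists_normalizer_mul (A := H) (N := D) le_normalizer_of_normal
    (L.coprime_card_of_isPGroup hHp (L.pPrimeCore_coprime p)) (Or.inl inferInstance) (x := g) (by
      intro a ha
      rw [sup_comm, ← L.pPrimePCore_eq_sup]
      exact (inferInstance : (pPrimePCore p G).Normal).conj_mem' a (mem_inf.mp ha).2 g)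
  obtain ⟨d₁, h1, d₂, h2, h3⟩ := ha x (hPN hx) (P.isPGroup'.exists_orderOf_eq_pow ⟨x, hx⟩ |>.imp
    fun k hk => by simpa using hk) d⁻¹ (inv_mem hd) (by
      have := mul_mem (mul_mem (inv_mem hc) (hPN hy)) hc
      convert this using 1
      group)
  refine ⟨c * d₂⁻¹, mul_mem hc (inv_mem (centralizer_le_normalizer _ (mem_inf.mp h2).2)), ?_⟩
  have h4 := mem_centralizer_singleton_iff.mp (mem_inf.mp h1).2
  rw [inv_eq_iff_eq_inv] at h3
  rw [h3]
  calc c * d₂⁻¹ * x * (c * d₂⁻¹)⁻¹ = c * d₂⁻¹ * d₁⁻¹ * (d₁ * x) * (c * d₂⁻¹)⁻¹ := by group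
    _ = _ := by rw [h4]; group

end Cfsg.Agent.S1907
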