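import Cfsg.Statements.S1908
import Cfsg.Agent.FT.Main
-- import your own Cfsg.Agent.* helpers here

set_option autoImplicit false
open Cfsg

namespace Cfsg.Agent.S1908

/-- Let π be a set of primes and G a finite π-separable group: G has a chain of normal subgroups from 1 to G in which each successive index is divisible only by primes in π or only by primes outside π. Then G has a Hall π-subgroup, any two Hall π-subgroups of G are conjugate, and every subgroup of G whose order is divisible only by primes in π lies in some Hall π-subgroup. -/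
theorem result {G : Type*} [Group G] [Finite G] (π : Set ℕ)
    (hsep : ∃ (n : ℕ) (H : Fin (n + 1) → Subgroup G), H 0 = ⊥ ∧ H (Fin.last n) = ⊤ ∧ Monotone H ∧ (∀ i, (H i).Normal) ∧
      ∀ i : Fin n, (∀ q : ℕ, q.Prime → q ∣ (H i.castSucc).relIndex (H i.succ) → q ∈ π) ∨
        (∀ q : ℕ, q.Prime → q ∣ (H i.castSucc).relIndex (H i.succ) → q ∉ π)) :
    (∃ K : Subgroup G, Cfsg.IsPiHall π K) ∧
      (∀ K L : Subgroup G, Cfsg.IsPiHall π K → Cfsg.IsPiHall π L → ∃ g : G, L = K.map (MulAut.conj g).toMonoidHom) ∧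
      ∀ U : Subgroup G, (∀ q : ℕ, q.Prime → q ∣ Nat.card U → q ∈ π) → ∃ K : Subgroup G, Cfsg.IsPiHall π K ∧ U ≤ K := by
  obtain ⟨K, hK, h⟩ := H2.exists_hall_generic π (2 ∈ π) (fun G _ => ∀ M : Subgroup G, M.Normal →
    M ≠ ⊤ → ∃ N : Subgroup G, N.Normal ∧ M < N ∧
      (H2.PiNum π (M.relIndex N) ∨ H2.PiNum πᶜ (M.relIndex N)))
    (fun G _ _ N _ h M hM h1 => by
      have s := QuotientGroup.mk'_surjective N
      obtain ⟨L, a, b, c⟩ := h (M.comap (QuotientGroup.mk' N)) inferInstance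
        fun e => h1 (Subgroup.comap_injective s (by rw [e, Subgroup.comap_top]))
      have d : (L.map (QuotientGroup.mk' N)).comap (QuotientGroup.mk' N) = L :=
        Subgroup.comap_map_eq_self ((Subgroup.ker_le_comap _ M).trans b.le)
      refine ⟨L.map (QuotientGroup.mk' N), a.map _ s, ?_, ?_⟩
      · rwa [← Subgroup.comap_lt_comap_of_surjective s, d]
      · rwa [← Subgroup.relIndex_comap])
    (fun G _ _ _ h => by
      obtain ⟨N, a, b, c⟩ := h ⊥ inferInstance bot_ne_top
      rw [Subgroup.relIndex_bot_left] at c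
      exact ⟨N, a, b.ne', c.imp_right fun d => ⟨d, fun e => FT.odd_order_solvable
        (Nat.not_even_iff_odd.1 fun f => d 2 Nat.prime_two f.two_dvd e)⟩⟩) G
    (fun M hM h1 => by
      obtain ⟨n, H, h0, hl, hm, hn, hi⟩ := hsep
      have : ∃ i : Fin n, H i.castSucc ≤ M ∧ ¬ H i.succ ≤ M := by
        by_contra a
        push Not at a
        have : ∀ i, H i ≤ M := fun i => Fin.induction (h0 ▸ bot_le) (fun i => a i) i
        exact h1 (top_le_iff.1 (hl ▸ this _))
      obtain ⟨i, a, b⟩ := this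
      have := hn i.succ
      refine ⟨H i.succ ⊔ M, inferInstance, lt_of_le_of_ne le_sup_right
        fun e => b (le_sup_left.trans e.ge), ?_⟩
      rw [Subgroup.relIndex_sup_right]
      exact (hi i).imp (fun c => H2.PiNum.of_dvd c (Subgroup.relIndex_dvd_of_le_left _ a))
        fun c => H2.PiNum.of_dvd c (Subgroup.relIndex_dvd_of_le_left _ a))
  have key : ∀ U : Subgroup G, H2.PiNum π (Nat.card U) → ∃ g : G, U ≤ H1.cj g K := fun U hU => by
    obtain ⟨g, hg⟩ := h U hU ((em _).imp_right fun a => FT.odd_order_solvable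
      (Nat.not_even_iff_odd.1 fun f => a (hU 2 Nat.prime_two f.two_dvd)))
    exact ⟨g⁻¹, fun u hu => H1.mem_cj.2 (by simpa using hg u hu)⟩
  have top : ∀ {L : Subgroup G}, FT.Hall π L ⊤ ↔ IsPiHall π L :=
    FT.hall_iff.trans H2.isPiHallOf_top
  have cj : ∀ g, FT.Hall π (H1.cj g K) ⊤ := fun g =>
    (top.2 hK).cj_of_mem (Subgroup.le_normalizer (Subgroup.mem_top g))
  have eq : ∀ L, IsPiHall π L → ∃ g, H1.cj g K = L := fun L hL =>
    let ⟨g, a⟩ := key L hL.1; ⟨g, (top.2 hL).eq_of_le le_top (cj g).piG a⟩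
  refine ⟨⟨K, hK⟩, fun A B hA hB => ?_, fun U hU => let ⟨g, a⟩ := key U hU; ⟨_, top.1 (cj g), a⟩⟩
  obtain ⟨a, rfl⟩ := eq A hA
  obtain ⟨b, rfl⟩ := eq B hB
  exact ⟨b * a⁻¹, show _ = H1.cj _ _ by rw [H1.cj_mul, H1.cj_inv_cj]⟩

end Cfsg.Agent.S1908
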