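import Cfsg.Statements.S1917
import Cfsg.Agent.MP.IR
import Cfsg.Agent.H2.Hol

set_option autoImplicit false
open Cfsg

namespace Cfsg.Agent.S1917

open Subgroup SemidirectProduct Cfsg.Agent.FT Cfsg.Agent.H1

/-- Let G be a finite group and A an elementary abelian group of automorphisms of G of order coprime to that of G. Suppose that for every prime p dividing the order of G exactly one Sylow p-subgroup of G is A-invariant, and that the subgroup of fixed points of A has odd order. Then G is solvable. -/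
theorem result {G : Type*} [Group G] [Finite G] (A : Subgroup (MulAut G)) {r : ℕ} [Fact r.Prime]
    (hA : Cfsg.IsElementaryAbelian r A) (hcop : (Nat.card A).Coprime (Nat.card G))
    (huniq : ∀ p : ℕ, p.Prime → p ∣ Nat.card G →
      ∃! P : Sylow p G, ∀ φ ∈ A, (P : Subgroup G).map (MulEquiv.toMonoidHom φ) = P)
    (hodd : Odd (Nat.card {g : G // ∀ φ ∈ A, φ g = g})) :
    Group.IsSolvable G := by
  have hr : r.Prime := Fact.out
  let φ : MulAut G →* MulAut G := MonoidHom.id _
  have e : Nat.card (H2.fixedPts φ A) = Nat.card {g : G // ∀ φ ∈ A, φ g = g} := rfl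
  by_cases h1 : r ∣ Nat.card G
  · have h2 : A = ⊥ := by
      by_contra k
      exact hr.one_lt.ne' (Nat.eq_one_of_dvd_coprimes hcop
        (dvd_card_of_isPGroup (H2.isPGroup_of_forall_pow_eq_one hA.2) k) h1)
    have h3 : H2.fixedPts φ A = ⊤ := eq_top_iff.2 fun g _ a ha => by
      rw [h2, mem_bot] at ha; rw [ha, map_one]; rfl
    rw [← e, h3, card_top] at hodd
    exact odd_order_solvable hodd
  by_cases h2 : r = 2
  · exact odd_order_solvable (Nat.not_even_iff_odd.1 fun k => h1 (h2 ▸ k.two_dvd))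
  have ab : A.map (inr : _ →* G ⋊[φ] MulAut G) ≤ 𝐂(A.map inr) :=
    comm_iff_le_cent.1 (by haveI := hA.1; infer_instance)
  have ex : ∀ a ∈ A.map (inr : _ →* G ⋊[φ] MulAut G), a ^ r = 1 := by
    rintro _ ⟨a, ha, rfl⟩
    rw [← map_pow, hA.2 a ha, map_one]
  have nH : A.map (inr : _ →* G ⋊[φ] MulAut G) ≤ 𝐍((⊤ : Subgroup G).map inl) :=
    H2.map_inr_le_normalizer_iff.2 fun _ _ _ _ => mem_top _
  have h : MP.Hy r (A.map (inr : _ →* G ⋊[φ] MulAut G)) ((⊤ : Subgroup G).map inl) := by
    refine ⟨ab, ex, h2, nH, by rwa [H2.card_map_inl, card_top], ?_, fun p hp V W v w => ?_⟩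
    · rw [H2.map_inl_inf_centralizer, H2.card_map_inl, top_inf_eq, e]
      exact hodd.not_two_dvd_nat
    haveI := Fact.mk hp
    by_cases h3 : p ∣ Nat.card G
    swap
    · have k : ∀ V, MP.Pv p (A.map (inr : _ →* G ⋊[φ] MulAut G)) ((⊤ : Subgroup G).map inl) V →
          V = ⊥ := fun V v => by_contra fun k => h3 (by
        have := (dvd_card_of_isPGroup v.pg k).trans (card_dvd_of_le' v.le)
        rwa [H2.card_map_inl, card_top] at this)
      rw [k V v, bot_sup_eq]; exact w.pg
    obtain ⟨S, -, hS⟩ := huniq p hp h3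
    have s := (sylow_isSylowIn_top S).map (inl : _ →* G ⋊[φ] MulAut G)
    have k : ∀ V, MP.Pv p (A.map (inr : _ →* G ⋊[φ] MulAut G)) ((⊤ : Subgroup G).map inl) V →
        V ≤ (S : Subgroup G).map inl := fun V v => by
      obtain ⟨P, p1, p2, p3⟩ := exists_invariant_syl_ge nH
        (by rwa [H2.card_map_inl, H2.card_map_inr, card_top])
        (.inl (isSolvable_of_isPGroup (H2.isPGroup_of_forall_pow_eq_one ex))) v.pg v.le v.inv
      obtain ⟨Q, -, rfl⟩ := H2.exists_eq_map_inl p1.le
      have c := s.card_eq p1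
      rw [H2.card_map_inl, H2.card_map_inl] at c
      have q := isSylowIn_of_card_ge (sylow_isSylowIn_top S)
        (p1.isPGroup.of_equiv (equivMapOfInjective Q _ inl_injective).symm) le_top c.le
      rw [← hS q.toSylowTop fun a ha => ?_]
      · exact p2
      refine eq_of_le_of_card_le (map_le_iff_le_comap.2 fun g hg =>
        H2.map_inr_le_normalizer_iff.1 p3 a ha g hg) (card_map_of_injective a.injective).ge
    exact isPGroup_of_le (sup_le (k V v) (k W w)) s.isPGroup
  have := h.solvable
  exact H2.isSolvable_of_mulEquiv ((equivMapOfInjective ⊤ (inl : _ →* G ⋊[φ] MulAut G)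
    inl_injective).symm.trans topEquiv) this

end Cfsg.Agent.S1917
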