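import Cfsg.Statements.S1924
import Cfsg.Agent.H1.SignTransfer
import Cfsg.Agent.H2.PGroup
import Mathlib.GroupTheory.SpecificGroups.Dihedral

set_option autoImplicit false
open Cfsg

namespace Cfsg.Agent.S1924

open Cfsg.Agent.H1
open scoped commutatorElement

theorem card_mul_le {G : Type*} [Group G] [Finite G] {T D V : Subgroup G} (hDT : D ⊓ T = ⊥)
    (hT : T ≤ V) (hD : D ≤ V) :
    Function.Injective (fun x : T × D => (⟨x.1 * x.2, V.mul_mem (hT x.1.2) (hD x.2.2)⟩ : V)) := by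
  rintro ⟨⟨t, ht⟩, ⟨d, hd⟩⟩ ⟨⟨t', ht'⟩, ⟨d', hd'⟩⟩ h
  have h1 : t * d = t' * d' := congrArg Subtype.val h
  have h2 : t'⁻¹ * t = d' * d⁻¹ := by
    rw [inv_mul_eq_iff_eq_mul, ← mul_assoc, ← h1, mul_inv_cancel_right]
  have h3 : t'⁻¹ * t = 1 := Subgroup.mem_bot.1 (hDT ▸ Subgroup.mem_inf.2
    ⟨h2 ▸ D.mul_mem hd' (D.inv_mem hd), T.mul_mem (T.inv_mem ht') ht⟩)
  rw [h3, eq_comm, mul_inv_eq_one] at h2
  rw [inv_mul_eq_one] at h3
  subst h2 h3
  rfl

theorem card_eq_mul {G : Type*} [Group G] [Finite G] {T D S V : Subgroup G} (hDT : D ⊓ T = ⊥)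
    (hTS : T ≤ S) (hDS : D ≤ S) (hc : Nat.card T * Nat.card D = Nat.card S) (hTV : T ≤ V)
    (hVS : V ≤ S) : Nat.card V = Nat.card T * Nat.card (V ⊓ D : Subgroup G) := by
  have h1 := (card_mul_le hDT hTS hDS).bijective_of_nat_card_le (by rw [Nat.card_prod, hc])
  have h2 := card_mul_le (D := V ⊓ D) (V := V)
    (eq_bot_iff.2 (hDT ▸ inf_le_inf_right _ inf_le_right)) hTV inf_le_left
  rw [← Nat.card_prod]
  refine (Nat.card_eq_of_bijective _ ⟨h2, fun v => ?_⟩).symm
  obtain ⟨⟨t, d⟩, h⟩ := h1.2 ⟨v, hVS v.2⟩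
  have h3 : (t : G) * d = v := congrArg Subtype.val h
  refine ⟨(t, ⟨d, Subgroup.mem_inf.2 ⟨?_, d.2⟩⟩), Subtype.ext h3⟩
  rw [eq_inv_mul_of_mul_eq h3]
  exact V.mul_mem (V.inv_mem (hTV t.2)) v.2

theorem orderOf_eq_two {n : ℕ} (hn : 2 ≤ n) {C : Subgroup (DihedralGroup n)} (hC : IsCyclic C)
    (hi : C.index = 2) {x : DihedralGroup n} (hx : x ∉ C) : orderOf x = 2 := by
  have : NeZero n := ⟨by omega⟩
  rcases x with i | i
  swap
  · exact DihedralGroup.orderOf_sr i
  obtain ⟨⟨c, hc⟩, hgen⟩ := hC.exists_generator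
  have hcard : Nat.card C = n := by
    have := C.card_mul_index
    rw [hi, DihedralGroup.nat_card] at this
    omega
  have hoc : orderOf c = n := by
    refine Eq.trans ?_ hcard
    rw [← orderOf_eq_card_of_forall_mem_zpowers hgen, Subgroup.orderOf_mk]
  rcases c with j | j
  · exfalso
    have h1 : Subgroup.zpowers (DihedralGroup.r j) = Subgroup.zpowers (DihedralGroup.r (1 : ZMod n)) := by
      refine Subgroup.eq_of_le_of_card_ge (Subgroup.zpowers_le.2 ⟨j.val, ?_⟩) ?_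
      · simp [DihedralGroup.r_one_pow]
      · rw [Nat.card_zpowers, Nat.card_zpowers, hoc, DihedralGroup.orderOf_r_one]
    refine hx (Subgroup.zpowers_le.2 hc (h1 ▸ ⟨i.val, ?_⟩))
    simp [DihedralGroup.r_one_pow]
  · rw [DihedralGroup.orderOf_sr] at hoc
    subst hoc
    refine orderOf_eq_prime ?_ (fun h => hx (h ▸ C.one_mem))
    clear hx
    revert i
    decide

/-- A consequence of Thompson's transfer lemma. Let G be a finite group, L a subgroup with O²(L) = L, T a Sylow 2-subgroup of L and S a Sylow 2-subgroup of G containing T. Suppose D ≤ S is a dihedral subgroup of order at least 4 (the four-group counts) with D ∩ T = 1 and S = TD as a set of products (so |S| = |T|·|D|), and C ≤ D is cyclic of index 2 in D. If no involution of D outside C is G-conjugate to an involution of the subgroup generated by T and C, and the involution of C is not G-conjugate to any involution of T, then G has a normal subgroup K, containing every Sylow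 2-subgroup of L as a Sylow 2-subgroup, with G = KD. -/
theorem result {G : Type*} [Group G] [Finite G] (L T S D C : Subgroup G) (hL : Cfsg.pResidual 2 ↥L = ⊤)
    (hTL : T ≤ L) (hT2 : IsPGroup 2 T) (hTsyl : ¬ 2 ∣ T.relIndex L)
    (hS2 : IsPGroup 2 S) (hSsyl : ¬ 2 ∣ S.index) (hTS : T ≤ S)
    (hDS : D ≤ S) (hDih : ∃ n : ℕ, 2 ≤ n ∧ Nonempty (↥D ≃* DihedralGroup n)) (hDT : D ⊓ T = ⊥) (hTD : T ⊔ D = S) (hTDc : Nat.card T * Nat.card D = Nat.card S)
    (hCD : C ≤ D) (hC : IsCyclic ↥C) (hCi : C.relIndex D = 2)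
    (h1 : ∀ x ∈ D, x ∉ C → orderOf x = 2 → ∀ g : G, g * x * g⁻¹ ∈ T ⊔ C → False)
    (h2 : ∀ c ∈ C, orderOf c = 2 → ∀ g : G, g * c * g⁻¹ ∈ T → False) :
    ∃ K : Subgroup G, K.Normal ∧ K ⊔ D = ⊤ ∧
      ∀ T' : Subgroup G, T' ≤ L → IsPGroup 2 T' → ¬ 2 ∣ T'.relIndex L → T' ≤ K ∧ ¬ 2 ∣ T'.relIndex K := by
  have hLR : L ≤ pResidual 2 G := pResidual_eq_top_iff.1 hL ▸ pResidualOf_le_pResidual L
  have hTR := hTL.trans hLR
  have hinv : ∀ x ∈ D, x ∉ C → orderOf x = 2 := by
    intro x hx hxC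
    obtain ⟨n, hn, ⟨e⟩⟩ := hDih
    have := orderOf_eq_two hn (C := (C.subgroupOf D).map e.toMonoidHom)
      (isCyclic_of_surjective (((C.subgroupOf D).equivMapOfInjective e.toMonoidHom
        e.injective).toMonoidHom.comp (Subgroup.subgroupOfEquivOfLe hCD).symm.toMonoidHom)
        (((C.subgroupOf D).equivMapOfInjective e.toMonoidHom e.injective).surjective.comp
          (Subgroup.subgroupOfEquivOfLe hCD).symm.surjective))
      (by rw [Subgroup.index_map_of_bijective e.bijective]; exact hCi) (x := e ⟨x, hx⟩)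
      (by
        rintro ⟨y, hy, hyx⟩
        rw [e.injective hyx] at hy
        exact hxC hy)
    rwa [MulEquiv.orderOf_eq, Subgroup.orderOf_mk] at this
  have hUS : T ⊔ C ≤ S := sup_le hTS (hCD.trans hDS)
  have hUD : (T ⊔ C) ⊓ D = C := by
    refine le_antisymm (fun x hx => ?_) (le_inf le_sup_right hCD)
    by_contra h
    exact h1 x hx.2 h (hinv x hx.2 h) 1 (by simpa using hx.1)
  have hU : (T ⊔ C).relIndex S = 2 := by
    have h3 := H2.card_mul_relIndex hUS
    rw [card_eq_mul hDT hTS hDS hTDc le_sup_left hUS, hUD, ← hTDc, ← H2.card_mul_relIndex hCD,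
      hCi, ← mul_assoc] at h3
    exact Nat.eq_of_mul_eq_mul_left (Nat.mul_pos Nat.card_pos Nat.card_pos) h3
  have hRC : pResidual 2 G ⊓ D ≤ C := by
    intro x hx
    by_contra h
    have hx2 := hinv x hx.2 h
    rcases thompson_transfer_index_two hSsyl hU (y := x) (hx2 ▸ pow_orderOf_eq_one x) (hDS hx.2)
      (fun h' => h1 x hx.2 h hx2 1 (by simpa using h')) with ⟨M, hM, hM2, hxM⟩ | ⟨k, hk⟩
    · refine hxM (pResidual_le_of_isPGroup_quotient (p := 2) M ?_ hx.1)
      exact IsPGroup.of_card (n := 1) (by rw [← Subgroup.index_eq_card, hM2, pow_one])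
    · exact h1 x hx.2 h hx2 k hk
  have hSS : IsSylowIn 2 S ⊤ := ⟨le_top, hS2, by rwa [Subgroup.relIndex_top_right]⟩
  have hSR : IsSylowIn 2 (S ⊓ pResidual 2 G) (pResidual 2 G) :=
    hSS.inf_of_normal le_top (by rw [Subgroup.normalizer_eq_top])
  have hc := card_eq_mul hDT hTS hDS hTDc (le_inf hTS hTR) inf_le_left
  rw [inf_assoc, inf_eq_right.2 (inf_le_right.trans hDS)] at hc
  have hRD : pResidual 2 G ⊓ D = ⊥ := by
    by_contra hne
    have : IsCyclic (pResidual 2 G ⊓ D : Subgroup G) :=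
      isCyclic_of_injective (Subgroup.inclusion hRC) (Subgroup.inclusion_injective _)
    obtain ⟨⟨y, hy⟩, hgen⟩ := this.exists_generator
    have hoy : orderOf y = Nat.card (pResidual 2 G ⊓ D : Subgroup G) := by
      rw [← orderOf_eq_card_of_forall_mem_zpowers hgen, Subgroup.orderOf_mk]
    obtain ⟨j, hj⟩ := (IsPGroup.iff_card.1 (hS2.to_le (inf_le_right.trans hDS :
      pResidual 2 G ⊓ D ≤ S)))
    have hj0 : j ≠ 0 := by
      rintro rfl
      exact hne (Subgroup.card_eq_one.1 hj)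
    refine not_mem_pResidual_of_semiregular (G := pResidual 2 G) (U := T.subgroupOf _)
      (y := ⟨y, hy.1⟩) (k := (S ⊓ pResidual 2 G).relIndex (pResidual 2 G)) ?_ ?_ ?_ ?_
      (by rw [pResidual_pResidual_eq_top]; trivial)
    · rw [Subgroup.orderOf_mk, hoy, hj]
      exact (Nat.even_pow' hj0).2 even_two
    · exact Nat.not_even_iff_odd.1 fun h => hSR.not_dvd h.two_dvd
    · rw [Subgroup.orderOf_mk, hoy]
      change T.relIndex _ = _
      have h3 := H2.card_mul_relIndex hTR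
      rw [← H2.card_mul_relIndex hSR.le, hc, mul_assoc] at h3
      exact Nat.eq_of_mul_eq_mul_left Nat.card_pos h3
    · rintro n ⟨g, hg⟩ hn
      by_contra hne1
      have hne2 : y ^ n ≠ 1 := fun h => hne1 (Subtype.ext h)
      have hn' : g⁻¹ * y ^ n * g ∈ T := hn
      have hp : (y ^ n) ^ 2 ^ j = 1 := by
        rw [← pow_mul, mul_comm, pow_mul, ← hj, ← hoy, pow_orderOf_eq_one, one_pow]
      obtain ⟨i, -, hi⟩ := (Nat.dvd_prime_pow Nat.prime_two).1 (orderOf_dvd_of_pow_eq_one hp)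
      obtain ⟨i, rfl⟩ := Nat.exists_eq_succ_of_ne_zero (n := i) (by
        rintro rfl
        exact hne2 (orderOf_eq_one_iff.1 hi))
      refine h2 ((y ^ n) ^ 2 ^ i) (C.pow_mem (C.pow_mem (hRC hy) _) _) ?_ g⁻¹ ?_
      · rw [orderOf_pow, hi, Nat.gcd_eq_right (pow_dvd_pow _ (Nat.le_succ i)), pow_succ,
          Nat.mul_div_cancel_left _ (by positivity)]
      · rw [← conj_pow, inv_inv]
        exact T.pow_mem hn' _
  rw [hRD, Subgroup.card_bot, mul_one] at hc
  refine ⟨pResidual 2 G, inferInstance, ?_, fun T' hT'L hT' hT'i => ⟨hT'L.trans hLR, ?_⟩⟩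
  · rw [eq_top_iff, ← pResidual_sup_of_not_dvd_index hSsyl, ← hTD]
    exact sup_le le_sup_left (sup_le (hTR.trans le_sup_left) le_sup_right)
  · refine (isSylowIn_of_card_ge hSR hT' (hT'L.trans hLR) ?_).not_dvd
    rw [hc, IsSylowIn.card_eq ⟨hTL, hT2, hTsyl⟩ ⟨hT'L, hT', hT'i⟩]

end Cfsg.Agent.S1924
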