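import Cfsg.Statements.S1935
import Cfsg.Agent.H9.QO4

set_option autoImplicit false
open Cfsg

namespace Cfsg.Agent.S1935

open Cfsg.Agent.H9.QO Subgroup
open scoped commutatorElement

/-- Let p ≥ 5 be a prime and, inside an ambient finite group, let G be a p-subgroup acting faithfully by conjugation on an elementary abelian p-subgroup V that it normalizes (only the identity of G centralizes V). Suppose V is an F-module for G: some nontrivial elementary abelian subgroup E of G satisfies #E · #C_V(E) ≥ #V. Then G contains such an offender A that moreover acts quadratically on V ([V, A, A] = 1) and is normal in its normal closure in G. -/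
theorem result {Ω : Type*} [Group Ω] [Finite Ω] (p : ℕ) [Fact p.Prime] (hp : 5 ≤ p) (V G : Subgroup Ω) (hV : Cfsg.IsElementaryAbelian p V) (hG : IsPGroup p ↥G) (hGV : G ≤ Subgroup.normalizer (V : Set Ω)) (hfaith : G ⊓ Subgroup.centralizer (V : Set Ω) = ⊥) (hF : ∃ E : Subgroup Ω, E ≤ G ∧ E ≠ ⊥ ∧ Cfsg.IsElementaryAbelian p E ∧ Nat.card ↥V ≤ Nat.card ↥E * Nat.card ↥(V ⊓ Subgroup.centralizer (E : Set Ω))) : ∃ A : Subgroup Ω, A ≤ G ∧ A ≠ ⊥ ∧ Cfsg.IsElementaryAbelian p A ∧ Nat.card ↥V ≤ Nat.card ↥A * Nat.card ↥(V ⊓ Subgroup.centralizer (A : Set Ω)) ∧ ⁅⁅V, A⁆, A⁆ = ⊥ ∧ ∀ g ∈ Subgroup.closure {x : Ω | ∃ h ∈ G, ∃ a ∈ A, x = h * a * h⁻¹}, ∀ a ∈ A, g * a * g⁻¹ ∈ A := by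
  obtain ⟨E, hEG, hE, hEe, hoff⟩ := hF
  haveI := hV.1
  letI : CommGroup V := { (inferInstance : Group V) with mul_comm := hV.1.is_comm.comm }
  obtain ⟨inst⟩ : Nonempty (Module (ZMod p) (Additive V)) :=
    ⟨AddCommGroup.zmodModule fun x => congrArg Additive.ofMul (Subtype.ext (hV.2 _ x.toMul.2) :
      x.toMul ^ p = 1)⟩
  let φ : G →* MulAut V := V.normalizerMonoidHom.comp (inclusion hGV)
  let ρ : G →* Module.End (ZMod p) (Additive V) :=
    { toFun := fun x =>
        { toFun := MonoidHom.toAdditive (φ x).toMonoidHom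
          map_add' := map_add _
          map_smul' := ZMod.map_smul _ }
      map_one' := LinearMap.ext fun v => by rw [map_one]; rfl
      map_mul' := fun x y => LinearMap.ext fun v => by rw [map_mul]; rfl }
  have hρ : ∀ (g : G) (v : Additive V), ((ρ g v).toMul : Ω) = g * v.toMul * (g : Ω)⁻¹ :=
    fun g v => rfl
  have hfix : ∀ (g : G) (v : Additive V), ρ g v = v ↔ (g : Ω) * v.toMul = v.toMul * g := by
    intro g v
    rw [← mul_inv_eq_iff_eq_mul, ← hρ]
    exact ⟨fun h => by rw [h], fun h => Additive.toMul.injective (Subtype.ext h)⟩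
  have hinj : Function.Injective ρ := by
    rw [injective_iff_map_eq_one]
    intro g hg
    have : (g : Ω) ∈ G ⊓ centralizer (V : Set Ω) := ⟨g.2, fun v hv =>
      ((hfix g (Additive.ofMul ⟨v, hv⟩)).1 (by rw [hg]; rfl)).symm⟩
    rw [hfaith, mem_bot] at this
    exact Subtype.ext this
  have hcard : ∀ A : Subgroup G,
      Nat.card (Fx ρ A) = Nat.card ↥(V ⊓ centralizer (A.map G.subtype : Set Ω)) := by
    intro A
    refine Nat.card_eq_of_bijective (fun v => ⟨(v.1.toMul : V), v.1.toMul.2, ?_⟩)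
      ⟨fun a b h => ?_, fun x => ?_⟩
    · rintro _ ⟨a, ha, rfl⟩
      exact (hfix a v).1 (v.2 a ha)
    · have := congrArg Subtype.val h
      exact Subtype.ext (Additive.toMul.injective (Subtype.ext this))
    · exact ⟨⟨Additive.ofMul ⟨x, x.2.1⟩, fun a ha => (hfix _ _).2 (x.2.2 _ ⟨a, ha, rfl⟩)⟩, rfl⟩
  obtain ⟨A, hA, hc, hpow, hq, hoff', hN⟩ := main (V := Additive V) hp hG hinj
    (E := E.subgroupOf G) (by
      intro h
      rw [← map_subgroupOf_eq_of_le hEG, h, Subgroup.map_bot] at hE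
      exact hE rfl)
    (fun a ha b hb => by
      have := congrArg Subtype.val (hEe.1.is_comm.comm (⟨a, ha⟩ : E) ⟨b, hb⟩)
      exact Subtype.ext this)
    (by
      rw [hcard, map_subgroupOf_eq_of_le hEG, Nat.card_congr (subgroupOfEquivOfLe hEG).toEquiv]
      exact hoff)
  refine ⟨A.map G.subtype, map_subtype_le _, ?_, ⟨⟨⟨?_⟩⟩, ?_⟩, ?_, ?_, ?_⟩
  · rwa [Ne, map_eq_bot_iff_of_injective _ G.subtype_injective]
  · rintro ⟨_, a, ha, rfl⟩ ⟨_, b, hb, rfl⟩
    have := congrArg Subtype.val (hc a ha b hb)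
    exact Subtype.ext this
  · rintro _ ⟨a, ha, rfl⟩
    rw [← map_pow, hpow a ha, map_one]
  · rw [← hcard, card_map_of_injective G.subtype_injective]
    exact hoff'
  · rw [commutator_eq_bot_iff_le_centralizer, commutator_le]
    rintro v hv _ ⟨a, ha, rfl⟩ _ ⟨b, hb, rfl⟩
    have h1 : ρ b ((ρ a - 1) (Additive.ofMul ⟨v, hv⟩)) = (ρ a - 1) (Additive.ofMul ⟨v, hv⟩) := by
      have := congrArg (fun f => f (Additive.ofMul ⟨v, hv⟩)) (hq b hb a ha)
      simpa [sub_eq_zero] using this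
    rw [hfix] at h1
    have h2 : (((ρ a - 1) (Additive.ofMul ⟨v, hv⟩)).toMul : Ω) = ⁅v, (a : Ω)⁆⁻¹ := by
      rw [LinearMap.sub_apply, toMul_sub, div_eq_mul_inv, coe_mul, coe_inv, hρ,
        commutatorElement_inv]
      rfl
    rw [h2] at h1
    exact (Commute.inv_right_iff.1 h1).eq
  · intro g hg
    have : closure {x : Ω | ∃ h ∈ G, ∃ a ∈ A.map G.subtype, x = h * a * h⁻¹}
        ≤ normalizer ((A.map G.subtype : Subgroup Ω) : Set Ω) := by
      rw [closure_le]
      rintro _ ⟨h, hh, _, ⟨a, ha, rfl⟩, rfl⟩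
      refine mem_normalizer_fintype ?_
      rintro _ ⟨b, hb, rfl⟩
      exact ⟨_, hN ⟨h, hh⟩ a ha b hb, rfl⟩
    exact fun a ha => (mem_normalizer_iff.1 (this hg) a).1 ha

end Cfsg.Agent.S1935
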