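import Cfsg.Statements.S1936
import Cfsg.Agent.H3.AbSyl
import Cfsg.Agent.FT.Main
import Cfsg.Agent.H9.Burnside

set_option autoImplicit false
open Cfsg

namespace Cfsg.Agent.S1936

section aux
open Subgroup Cfsg.Agent.FT Cfsg.Agent.BS Cfsg.Agent.H3.AbSyl MulAction

universe u v

variable {G : Type u} [Group G] [Finite G] {p : ℕ} [hp : Fact p.Prime]

/-- all `p'`-subgroups are abelian -/
def Ab (p : ℕ) (G : Type u) [Group G] : Prop :=
  ∀ H : Subgroup G, PiG {p}ᶜ H → IsMulCommutative H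

theorem comm_le_pcore (h : Ab p G) {Y U : Subgroup G} (hs : Group.IsSolvable Y)
    (hU : PiG {p}ᶜ U) (hn : U ≤ 𝐍(Y)) (hc : (♯U).Coprime ♯Y) : ⁅Y, U⁆ ≤ core {p} Y := by
  have hY := (core_nrm {p} Y).norm
  have hUN := le_normalizer_core {p} hn
  have hF : PiG {p}ᶜ (fit (bar (core {p} Y) Y)) := (core_piG {p}ᶜ (bar (core {p} Y) Y)).of_le
    (fit_le_of_forall_pcore fun q _ => by
      by_cases e : p = q
      · rw [← e, core_bar_core]; exact bot_le
      · exact core_mono_pi (by simpa using e) _)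
  have hF0 : unbar (core {p} Y) (fit (bar (core {p} Y) Y)) ≤ Y :=
    (unbar_le_iff (core_nrm _ Y)).2 (fit_le _)
  obtain ⟨E, hE, hUE⟩ := exists_invariant_hall {p}ᶜ
    (le_normalizer_unbar hUN (le_normalizer_fit (bar_le_normalizer _ hn)))
    (hc.coprime_dvd_right (card_dvd_of_le' hF0)) (isSolvable_of_le hF0 hs)
  have h1 : U ≤ 𝐂(E) := le_sup_right.trans ((comm_iff_le_cent.1 (h _ (hE.piG.sup hU hUE))).trans
    (cent_anti le_sup_left))
  have h2 := hE.bar (unbar_le _)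
  rw [bar_unbar] at h2
  have h3 := bar_le_cent (core {p} Y) h1
  rw [← h2.eq_of_le le_rfl hF h2.le] at h3
  rw [commutator_comm, ← bar_le_cent_iff hUN hY]
  exact (le_inf le_rfl h3).trans (coprime_cent_Fitting (bar_le_normalizer _ hn) (coprime_bar hc _)
    (isSolvable_bar hs _))

theorem three_le_prank (hG : MinS G) (h : Ab p G) (h5 : 5 ≤ p) {T : Subgroup G}
    (hT : Syl 2 T ⊤) : 3 ≤ prank 2 T := by
  have hT' : PiG {p}ᶜ T := piG_compl_of_isPGroup_ne hT.isPGroup (by omega)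
  have hc := h T hT'
  have hT0 : T ≠ ⊥ := fun e => hG.nsol (odd_order_solvable (odd_iff_piG.2
    ((Syl.hall hT).eq_bot_iff.1 e)))
  have hs := hG.sol _ (hG.norm_proper hT0 (isSolvable_of_isPGroup hT.isPGroup))
  by_contra h3
  obtain ⟨A, hA, hTA⟩ := exists_hall_ge hs le_normalizer hT'
  obtain ⟨P, hP⟩ := exists_syl p 𝐍(T)
  have hE := pnElem_om_of_comm (p := 2) hc
  have h1 : P ≤ 𝐂(om 2 T) := by
    have h4 := le_normalizer_om 2 hP.le
    refine le_of_coprime_relIndex (h4.trans (H1.normalizer_le_normalizer_centralizer _))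
      (H2.PiNum.coprime (piG_singleton_iff.2 hP.isPGroup) ((piNum_compl_singleton hp.out).2
        fun hd => ?_))
    have h6 : p ∣ 6 := hd.trans (by
      by_cases e : prank 2 T = 2
      · exact relIndex_cent_dvd_of_abelem2 (e ▸ hE) h4
      · have h7 := relIndex_cent_dvd_totient ((isCyclic_iff_rank_of_comm hE.comm).2
          (by rw [hE.rank_eq]; omega)) h4
        rw [hE.card] at h7
        have : prank 2 T = 0 ∨ prank 2 T = 1 := by omega
        rcases this with e | e <;> rw [e] at h7 <;> exact h7.trans (by decide))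
    have := Nat.le_of_dvd (by norm_num) h6
    interval_cases p
    · exact absurd h6 (by decide)
    · exact absurd hp.out (by decide)
  have h2 : P ≤ 𝐂(T) := coprime_abelian_faithful_Ohm1 hP.le
    (coprime_of_isPGroup hP.isPGroup hT') hc fun x hx e => cent_symm h1 (mem_om hx (by
      rw [← eq_of_isPGroup_of_dvd hT.isPGroup e (orderOf_dvd_card' hx), pow_orderOf_eq_one]))
  have h4 : PNil 2 (⊤ : Subgroup G) := Burnside_normal_complement hT (inf_le_right.trans (by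
    rw [← (Syl.hall hP).sup_eq hA]
    exact sup_le h2 ((comm_iff_le_cent.1 (h A hA.piG)).trans (cent_anti hTA))))
  rcases hG.simple _ (core_nrm {2}ᶜ ⊤).norm with e | e
  · exact hG.nsol (isSolvable_of_isPGroup (p := 2) (PiG.isPGroup (by
      simpa using h4.eq_bot_iff.1 e)))
  · exact hG.nsol (odd_order_solvable (odd_iff_piG.2 (e ▸ core_piG _ _)))

theorem exists_strongly_embedded (hG : MinS G) (h : Ab p G) (h5 : 5 ≤ p) {T : Subgroup G}
    (hT : Syl 2 T ⊤) : ∃ M : Subgroup G, M ≠ ⊤ ∧ 𝐍(T) ≤ M ∧ ∀ t ∈ T, t ≠ 1 → 𝐂[t] ≤ M := by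
  have hT' : PiG {p}ᶜ T := piG_compl_of_isPGroup_ne hT.isPGroup (by omega)
  have hc := h T hT'
  have h3 := three_le_prank hG h h5 hT
  have hT0 : T ≠ ⊥ := fun e => by
    rw [e, prank_eq_zero_iff.2 (PiG.bot _)] at h3; omega
  obtain ⟨Q, hQ⟩ := exists_maxN p T
  have h1 : ∀ t ∈ T, T ≤ 𝐂[t] := fun t ht => le_cent1_iff.2 (comm_iff_le_cent.1 hc ht)
  have h2 : ∀ t ∈ T, t ≠ 1 → 𝐂[t] ≤ core {2}ᶜ 𝐂[t] ⊔ (𝐂[t] ⊓ 𝐍(T)) := fun t ht h0 =>
    eq_core_sup_norm (hG.sol _ (hG.cent1_proper h0)) (hT.of_le (h1 t ht) le_top) hc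
  have h4 : ∀ t ∈ T, t ≠ 1 → ⁅core {2}ᶜ 𝐂[t], T⁆ ≤ Q := fun t ht h0 => by
    have hn := (h1 t ht).trans (core_nrm {2}ᶜ _).norm
    obtain ⟨Q', hQ', e⟩ := exists_maxN_ge (q := p) (isPGroup_of_le (comm_le_pcore h
      (isSolvable_of_le (core_le _ _) (hG.sol _ (hG.cent1_proper h0))) hT' hn
      (coprime_of_isPGroup hT.isPGroup (core_piG _ _))) (core_isPGroup _))
      (right_le_normalizer_commutator _ T)
    obtain ⟨k, hk, e1⟩ := rank3_trans hG hT hc (by omega) h3 hQ' hQ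
    rw [← e1, ← cj_eq_iff_mem_normalizer.2 (le_normalizer_commutator (A := 𝐂(T))
      ((cent_le_cent1 ht).trans (core_nrm {2}ᶜ _).norm) (cent_le_norm T) hk)]
    exact cj_mono k e
  set N : Subgroup G := ⨆ t : {t // t ∈ T ∧ t ≠ 1}, ⁅core {2}ᶜ 𝐂[t.1], T⁆ with hN
  have h6 : ∀ t ∈ T, t ≠ 1 → ⁅core {2}ᶜ 𝐂[t], T⁆ ≤ N := fun t ht h0 =>
    le_iSup (fun t : {t // t ∈ T ∧ t ≠ 1} => ⁅core {2}ᶜ 𝐂[t.1], T⁆) ⟨t, ht, h0⟩
  have h7 : 𝐍(T) ≤ 𝐍(N) := fun g hg => mem_normalizer_of_cj_le (cj_le_iff_le_cj_inv.2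
    (iSup_le fun t => cj_le_iff_le_cj_inv.1 (by
      rw [cj_commutator, cj_core, cj_cent1, cj_eq_iff_mem_normalizer.2 hg]
      exact h6 _ (conj_mem_of_mem_normalizer hg t.2.1) (conj_ne_one t.2.2))))
  refine ⟨N ⊔ 𝐍(T), ?_, le_sup_right, fun t ht h0 => (h2 t ht h0).trans
    (sup_le ?_ (inf_le_right.trans le_sup_right))⟩
  · by_cases e : N = ⊥
    · rw [e, bot_sup_eq]; exact hG.norm_proper hT0 (isSolvable_of_isPGroup hT.isPGroup)
    · exact ne_top_of_le (sup_le le_normalizer h7) (hG.norm_proper e (isSolvable_of_isPGroup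
        (isPGroup_of_le (iSup_le fun t => h4 t.1 t.2.1 t.2.2) hQ.isPGroup)))
  · rw [← H2.centralizer_sup_commutator ((h1 t ht).trans (core_nrm {2}ᶜ _).norm)
      (coprime_of_isPGroup hT.isPGroup (core_piG _ _))
      (Or.inl (isSolvable_of_isPGroup hT.isPGroup))]
    exact sup_le ((inf_le_right.trans (cent_le_norm T)).trans le_sup_right)
      ((h6 t ht h0).trans le_sup_left)

variable {Ω : Type v} [MulAction G Ω] [OneFix G Ω]

theorem syl_trans (hG : MinS G) (h : Ab p G) (h2 : p ≠ 2) {a : Ω} {t : G} (ht : orderOf t = 2)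
    (hta : t • a ≠ a) {S : Subgroup G} (hS : Syl p S (stabilizer G a)) {z z' : G}
    (hz : orderOf z = 2) (hz' : orderOf z' = 2) (h3 : z • a = a) (h4 : z' • a = a) :
    ∃ k ∈ S, k * z * k⁻¹ = z' := by
  set D := stabilizer G a ⊓ stabilizer G (t • a) with hD
  have ho : Odd ♯D := odd_stab2 hta.symm
  have hU : IsPGroup 2 (zpowers t) := isPGroup_zpowers (k := 1) (by rw [pow_one, pow_two, sq1 ht])
  have hn : zpowers t ≤ 𝐍(D) := zpowers_le.2 (by
    rw [← cj_eq_iff_mem_normalizer, cj_inf, cj_stab, cj_stab, smul_smul2 ht, inf_comm])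
  have h5 := comm_le_pcore h (odd_order_solvable ho) (piG_compl_of_isPGroup_ne hU h2.symm) hn
    (coprime_of_isPGroup hU (odd_iff_piG.1 ho))
  obtain ⟨g, hg, h6⟩ := Syl.exists_le_cj hS (core_isPGroup D) ((core_le _ D).trans inf_le_left)
  obtain ⟨k, k1, k2, k3, k4, -⟩ := exists_inverted_conj (ord2_conj hz g) (ord2_conj hz' g) ht
    (by simpa [mem_stabilizer_iff.1 hg] using conj_fix h3 g)
    (by simpa [mem_stabilizer_iff.1 hg] using conj_fix h4 g) hta
  refine ⟨g⁻¹ * k * g, mem_cj.1 (h6 (h5 (mem_commutator_of_inv ⟨k1, k2⟩ (mem_zpowers t)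
    (odd_orderOf_of_fix_two hta.symm k1 k2) k3))), ?_⟩
  calc _ = g⁻¹ * (k * (g * z * g⁻¹) * k⁻¹) * g := by group
    _ = z' := by rw [k4]; group

theorem not_mem_norm (hG : MinS G) (h : Ab p G) (h2 : p ≠ 2) {a : Ω} {t : G} (ht : orderOf t = 2)
    (hta : t • a ≠ a) {V : Subgroup G} (hV : PnElem 2 2 V (stabilizer G a)) {S : Subgroup G}
    (hS : Syl p S (stabilizer G a)) (u : G) (hu : orderOf u = 2) (h3 : u • a = a) :
    u ∉ 𝐍(S) := fun h4 => by
  have hSo : Odd ♯S := odd_iff_piG.2 (piG_compl_of_isPGroup_ne hS.isPGroup h2)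
  have h5 : ∀ z ∈ V, z ≠ 1 → z * u ∈ S := fun z hz h0 => by
    obtain ⟨k, hk, e⟩ := syl_trans hG h h2 ht hta hS hu
      (ord2 (by rw [← pow_two]; exact hV.abelem.2 z hz) h0) h3 (hV.le hz)
    rw [← e, show k * u * k⁻¹ * u = k * (u * k⁻¹ * u⁻¹) by rw [inv2 hu]; group]
    exact mul_mem hk (conj_mem_of_mem_normalizer h4 (inv_mem hk))
  obtain ⟨X, hX⟩ := hV.exists_sub (k := 1) (by norm_num)
  obtain ⟨x, hx, x0⟩ := exists_ne_one_of_ne_bot (hX.ne_bot one_ne_zero)
  obtain ⟨y, hy, y0⟩ := SetLike.exists_of_lt (lt_of_le_of_ne hX.le fun e => by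
    have := hX.card; rw [e, hV.card] at this; norm_num at this)
  have h6 : x * y⁻¹ ∈ S := by
    simpa using mul_mem (h5 x (hX.le hx) x0) (inv_mem (h5 y hy fun e => y0 (e ▸ one_mem X)))
  refine not_odd_of_ord2 (ord2 ?_ fun e => y0 ?_) h6 hSo
  · rw [← pow_two]; exact hV.abelem.2 _ (mul_mem (hX.le hx) (inv_mem hy))
  · rw [← mul_inv_eq_one.1 e]; exact hx

theorem syl_top (hG : MinS G) (h : Ab p G) (h2 : p ≠ 2) {a : Ω} {t : G} (ht : orderOf t = 2)
    (hta : t • a ≠ a) {V : Subgroup G} (hV : PnElem 2 2 V (stabilizer G a)) {S : Subgroup G}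
    (hS : Syl p S (stabilizer G a)) : Syl p S ⊤ := by
  have key := not_mem_norm hG h h2 ht hta hV hS
  obtain ⟨z, hz, z0⟩ := exists_ne_one_of_ne_bot (hV.ne_bot (by norm_num))
  have hz2 : orderOf z = 2 := ord2 (by rw [← pow_two]; exact hV.abelem.2 z hz) z0
  have hS0 : S ≠ ⊥ := fun e => key z hz2 (hV.le hz) (by rw [e, norm_bot]; exact mem_top z)
  obtain ⟨R, hR, hSR⟩ := exists_syl_ge hS.isPGroup le_top
  by_contra h3
  obtain ⟨g, hg, hgS⟩ := SetLike.exists_of_lt (lt_inf_normalizer hR.isPGroup.isNilpotent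
    (lt_of_le_of_ne hSR fun e => h3 (e ▸ hR)))
  obtain ⟨hgR, hgN⟩ := mem_inf.1 hg
  have hga : g • a ≠ a := fun e => hgS (hS.le_of_le_normalizer
    (isPGroup_of_le (zpowers_le.2 hgR) hR.isPGroup) (zpowers_le.2 e) (zpowers_le.2 hgN)
    (mem_zpowers g))
  have hSb : S ≤ stabilizer G (g • a) := by
    rw [← cj_stab, ← cj_eq_iff_mem_normalizer.2 hgN]; exact cj_mono g hS.le
  obtain ⟨t₀, ht₀, t1, t2, -⟩ := exists_swap_points hz2 (ord2_conj hz2 g) (hV.le hz)
    (conj_fix (hV.le hz) g) hga.symm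
  set D := stabilizer G a ⊓ stabilizer G (g • a) with hD
  have ho : Odd ♯D := odd_stab2 hga.symm
  have hU : IsPGroup 2 (zpowers t₀) :=
    isPGroup_zpowers (k := 1) (by rw [pow_one, pow_two, sq1 ht₀])
  obtain ⟨S', hS', hn⟩ := exists_invariant_syl p (A := zpowers t₀) (K := D) (zpowers_le.2 (by
    rw [← cj_eq_iff_mem_normalizer, cj_inf, cj_stab, cj_stab, t1, t2, inf_comm]))
    (coprime_of_isPGroup hU (odd_iff_piG.1 ho)) (Or.inl (isSolvable_of_isPGroup hU))
  obtain ⟨d, hd, e⟩ := (hS.of_le (le_inf hS.le hSb) inf_le_left).exists_cj_eq hS'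
  have hw := ord2_conj ht₀ d
  have hwN : d * t₀ * d⁻¹ ∈ 𝐍(S) := by
    rw [← e, ← cj_normalizer]; exact conj_mem_cj (hn (mem_zpowers t₀))
  have hwa : (d * t₀ * d⁻¹) • a = g • a := by
    rw [mul_smul, mul_smul, mem_stabilizer_iff.1 (inv_mem hd.1), t1, mem_stabilizer_iff.1 hd.2]
  have hs := hG.sol _ (hG.norm_proper hS0 (isSolvable_of_isPGroup hS.isPGroup))
  obtain ⟨T, hT⟩ := exists_syl 2 𝐍(S)
  by_cases hc : IsCyclic T
  · have h4 := cyclic_pdiv_normal_complement hT hc fun r hr _ => hr.two_le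
    have h5 : Odd ♯(𝐍(S) ⊓ stabilizer G a : Subgroup G) :=
      odd_of_no_inv fun u hu e => key u e hu.2 hu.1
    have h6 := h4.le_core inf_le_left (odd_iff_piG.1 h5) (show g⁻¹ * (d * t₀ * d⁻¹) ∈ _ from
      mem_inf.2 ⟨mul_mem (inv_mem hgN) hwN, by
        rw [mem_stabilizer_iff, mul_smul, hwa, inv_smul_smul]⟩)
    have h7 := h4.le_core (zpowers_le.2 hgN) (piG_compl_of_isPGroup_ne
      (isPGroup_of_le (zpowers_le.2 hgR) hR.isPGroup) h2) (mem_zpowers g)
    exact not_odd_of_ord2 hw (by simpa using mul_mem h7 h6) (odd_iff_piG.2 (core_piG _ _))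
  · obtain ⟨c, hc1⟩ := exists_fix_of_two_group Ω hT.isPGroup fun e => hc (e ▸ inferInstance)
    have h4 := le_stab_of_four hs hT.isPGroup
      (h T (piG_compl_of_isPGroup_ne hT.isPGroup h2.symm)) hc hT.le hc1
    have h5 : (d * t₀ * d⁻¹) • c = c := h4 hwN
    obtain ⟨r, hr, r1, r2, -⟩ := exists_swap_points hz2 hw (hV.le hz) h5
      fun e => hga (by rw [← hwa, e, h5])
    refine not_mem_norm hG h h2 ht hta hV (S := cj r S) (H1.isSylowIn_of_card_ge hS
      (isPGroup_cj r hS.isPGroup) ?_ (card_cj r S).ge) _ (ord2_conj hw r) ?_ ?_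
    · rw [← r2, ← cj_stab]; exact cj_mono r (le_normalizer.trans h4)
    · rw [← r2]; exact conj_fix h5 r
    · rw [← cj_normalizer]; exact conj_mem_cj hwN

theorem not_minS (hG : MinS G) (h : Ab p G) (h5 : 5 ≤ p) : False := by
  obtain ⟨T, hT⟩ := exists_syl 2 (⊤ : Subgroup G)
  obtain ⟨M, hM, h1, h2⟩ := exists_strongly_embedded hG h h5 hT
  have hc := h T (piG_compl_of_isPGroup_ne hT.isPGroup (by omega))
  have := oneFix_of_le hT hc h1 h2
  obtain ⟨V, hV⟩ := exists_pnElem_of_le_prank ((by norm_num : 2 ≤ 3).trans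
    (three_le_prank hG h h5 hT))
  replace hV : PnElem 2 2 V (stabilizer G ((1 : G) : G ⧸ M)) :=
    hV.mono (by rw [stabilizer_quotient]; exact le_normalizer.trans h1)
  obtain ⟨z, hz, z0⟩ := exists_ne_one_of_ne_bot (hV.ne_bot (by norm_num))
  have hz2 : orderOf z = 2 := ord2 (by rw [← pow_two]; exact hV.abelem.2 z hz) z0
  have e : ∀ g : G, g • ((1 : G) : G ⧸ M) = g := fun g => by
    rw [MulAction.Quotient.smul_coe, smul_eq_mul, mul_one]
  obtain ⟨g, -, hg⟩ := SetLike.exists_of_lt (lt_top_iff_ne_top.2 hM)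
  obtain ⟨u, hu, hua, h3⟩ := exists_mul_no_fix (Ω := G ⧸ M) (fun c => by
    induction c using QuotientGroup.induction_on with
    | H c => exact ⟨_, ord2_conj hz2 c, e c ▸ conj_fix (hV.le hz) c⟩) hz2 (hV.le hz)
    (b := g) (fun e => hg (by simpa using inv_mem (QuotientGroup.eq.1 e)))
  obtain ⟨S, hS⟩ := exists_syl p (stabilizer G ((1 : G) : G ⧸ M))
  have h4 := syl_top hG h (by omega) hu hua hV hS
  have ho := odd_mul hz2 hu (hV.le hz) hua
  have hU : IsPGroup 2 (zpowers z) := isPGroup_zpowers (k := 1) (by rw [pow_one, pow_two, sq1 hz2])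
  have h6 : z * (z * u) * z⁻¹ = (z * u)⁻¹ := by
    rw [← mul_assoc, sq1 hz2, one_mul, mul_inv_rev, inv2 hu]
  have h7 := comm_le_pcore h (Y := zpowers (z * u)) (U := zpowers z)
    (isSolvable_of_nil (isNilpotent_of_comm inferInstance))
    (piG_compl_of_isPGroup_ne hU (by omega))
    (zpowers_le.2 (by rw [← cj_eq_iff_mem_normalizer, cj_zpowers, h6, zpowers_inv]))
    (coprime_of_isPGroup hU (odd_iff_piG.1 (by rwa [Nat.card_zpowers])))
    (mem_commutator_of_inv (mem_zpowers _) (mem_zpowers z) ho h6)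
  obtain ⟨y, -, h8⟩ := Syl.exists_le_cj h4 (core_isPGroup _) le_top
  exact h3 _ ((cj_stab y _).le (cj_mono y hS.le (h8 h7)))

theorem exists_piG_map_eq {G' : Type u} [Group G'] (f : G →* G') {π : Set ℕ} {X : Subgroup G'}
    (hX : PiG π X) (h : X ≤ f.range) : ∃ H : Subgroup G, PiG π H ∧ H.map f = X := by
  obtain ⟨H, -, h1⟩ := Finite.exists_le_minimal (p := fun H : Subgroup G => H.map f = X)
    (a := X.comap f) (map_comap_eq_self h)
  refine ⟨H, fun q hq hd => ?_, h1.1⟩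
  by_contra h2
  have := Fact.mk hq
  obtain ⟨Q, hQ⟩ := exists_syl q H
  have h3 : Q ≤ f.ker := (Subgroup.map_eq_bot_iff Q).1 (PiG.eq_bot
    (hX.of_le (h1.1 ▸ map_mono hQ.le)) (PiG.map (piG_of_isPGroup (π := πᶜ) hQ.isPGroup h2) f))
  have h4 : ∀ K ≤ H, (H ⊓ f.ker) ⊔ K = H → H ≤ K := fun K hK e => h1.2 (by
    have := h1.1
    rwa [← e, Subgroup.map_sup, (Subgroup.map_eq_bot_iff _).2 inf_le_right, bot_sup_eq] at this)
    hK
  have h5 := h4 _ inf_le_left (Syl.frattini' (hQ.of_le (le_inf hQ.le h3) inf_le_left)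
    (nrm_inf_of_le_normalizer le_normalizer_of_normal))
  obtain ⟨E, hE⟩ := exists_sdp (Syl.hall hQ).isHall (h5.trans inf_le_right)
  have h6 := h4 E hE.le_right (le_antisymm (sup_le inf_le_left hE.le_right)
    (hE.sup.ge.trans (sup_le_sup_right (le_inf hQ.le h3) E)))
  exact Syl.ne_bot hQ hd (by rw [← hE.inf, inf_of_le_left (hQ.le.trans h6)])

theorem solvable_aux (h5 : 5 ≤ p) (n : ℕ) : ∀ (G : Type u) [Group G] [Finite G], Nat.card G = n →
    Ab p G → Group.IsSolvable G := by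
  induction n using Nat.strong_induction_on with
  | _ n ih =>
    intro G _ _ hn h
    by_contra hs
    have sub : ∀ H : Subgroup G, H ≠ ⊤ → Group.IsSolvable H := fun H h1 =>
      ih _ (hn ▸ lt_of_le_of_ne (Subgroup.card_le_card_group H)
        fun e => h1 (Subgroup.eq_top_of_card_eq H e)) H rfl fun K hK => by
          have := h _ (hK.map H.subtype)
          exact comm_iff_le_cent.2 fun a ha => mem_cent_iff.2 fun b hb => Subtype.ext
            (mem_cent_iff.1 (comm_iff_le_cent.1 this (mem_map_of_mem _ ha)) _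
              (mem_map_of_mem _ hb))
    refine not_minS ⟨sub, fun N hN => ?_, fun e => hs ?_⟩ h h5
    · have := L.normal_iff_top_le_normalizer.2 hN
      by_contra h1
      push Not at h1
      have := sub N h1.2
      have := ih _ (hn ▸ H2.card_quotient_lt h1.1) (G ⧸ N) rfl fun K hK => by
        obtain ⟨H, h2, rfl⟩ := exists_piG_map_eq (QuotientGroup.mk' N) hK (by simp)
        have := h H h2
        infer_instance
      exact hs (Group.isSolvable_of_ker_le_range N.subtype (QuotientGroup.mk' N) (by simp))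
    · exact Group.isSolvable_of_surjective (f := (⊤ : Subgroup G).subtype) fun x => ⟨⟨x, trivial⟩, rfl⟩

end aux

/-- Let p be a prime and G a finite group in which every subgroup of order prime to p is abelian of exponent dividing p − 1. Then G is solvable. -/
theorem result {G : Type*} [Group G] [Finite G] (p : ℕ) [Fact p.Prime] (h : ∀ H : Subgroup G, (Nat.card ↥H).Coprime p → IsMulCommutative ↥H ∧ ∀ x ∈ H, x ^ (p - 1) = 1) : Group.IsSolvable G := by
  have hp : p.Prime := Fact.out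
  by_cases h5 : 5 ≤ p
  · exact solvable_aux h5 _ G rfl fun H h1 => (h H h1.coprime_prime).1
  have h1 : ∀ r : ℕ, r.Prime → r ∣ Nat.card G → r = 2 ∨ r = p := fun r hr hd => by
    by_contra h2
    push Not at h2
    have := Fact.mk hr
    obtain ⟨x, hx⟩ := exists_prime_orderOf_dvd_card' r hd
    have h3 := (h (Subgroup.zpowers x) (by
      rw [Nat.card_zpowers, hx]; exact (Nat.coprime_primes hr hp).2 h2.2)).2 x
      (Subgroup.mem_zpowers x)
    rw [← orderOf_dvd_iff_pow_eq_one, hx] at h3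
    have := hp.two_le
    have h4 : p < 5 := by omega
    interval_cases p
    · exact hr.one_lt.ne' (Nat.dvd_one.1 h3)
    · exact h2.1 ((Nat.prime_dvd_prime_iff_eq hr Nat.prime_two).1 h3)
    · exact absurd hp (by decide)
  obtain ⟨a, b, e, ha, hb⟩ := FT.exists_piNum_mul {2} (Nat.card_pos (α := G)).ne'
  have h0 := (Nat.card_pos (α := G)).ne'
  rw [e, mul_ne_zero_iff] at h0
  obtain ⟨i, rfl⟩ := (FT.piNum_singleton_iff Nat.prime_two h0.1).1 ha
  obtain ⟨j, rfl⟩ := (FT.piNum_singleton_iff hp h0.2).1 fun r hr hd =>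
    (h1 r hr (e ▸ hd.mul_left _)).resolve_left (hb r hr hd)
  exact H9.burnside_pq Nat.prime_two hp e.dvd

end Cfsg.Agent.S1936
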