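import Cfsg.Statements.S1939
import Cfsg.Agent.H1.Fusion

set_option autoImplicit false
open Cfsg

namespace Cfsg.Agent.S1939

open Cfsg.Agent.H1
open scoped commutatorElement

/-- Let S be a Sylow p-subgroup of the finite group G and a an element of S that is the only G-conjugate of a lying in S. Then every power of a has the same property: for every n, the only G-conjugate of a^n lying in S is a^n. -/
theorem result {G : Type*} [Group G] [Finite G] {p : ℕ} [Fact p.Prime] (S : Sylow p G) (a : G)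
    (haS : a ∈ (S : Subgroup G)) (hwc : ∀ g : G, g * a * g⁻¹ ∈ (S : Subgroup G) → g * a * g⁻¹ = a) (n : ℕ) :
    ∀ g : G, g * a ^ n * g⁻¹ ∈ (S : Subgroup G) → g * a ^ n * g⁻¹ = a ^ n := by
  intro g hg
  have hP := sylow_isSylowIn_top S
  have h1 : ∀ g : G, cj g (Subgroup.zpowers a) ≤ S → g * a * g⁻¹ = a := fun g h =>
    hwc g (h (conj_mem_cj (Subgroup.mem_zpowers a)))
  obtain ⟨y, hy, e⟩ := hP.fusion_elt_of_weaklyClosed (Z := Subgroup.zpowers a)
    (Subgroup.zpowers_le.2 haS) (Subgroup.zpowers_le.2 fun x hx =>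
      mul_inv_eq_iff_eq_mul.1 (hwc x (mul_mem (mul_mem hx haS) (inv_mem hx))))
    (fun g _ h => by rw [cj_zpowers, h1 g h]) (a ^ n) (pow_mem haS n) g trivial hg
  rw [← e, ← conj_pow, h1 y ((cj_eq_iff_mem_normalizer.2 hy.2).le.trans
    (Subgroup.zpowers_le.2 haS))]

end Cfsg.Agent.S1939
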