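import Cfsg.Statements.S1940
import Cfsg.Agent.H1.Norm

set_option autoImplicit false
open Cfsg

namespace Cfsg.Agent.S1940

open Cfsg.Agent.H1
open scoped commutatorElement

/-- Let the finite group L act by automorphisms on the finite abelian group M, and let N be an L-invariant subgroup of M such that M/N is a p-group on which L acts trivially (every l • m lies in the coset mN). If every element of M is a product of an element of N and an element fixed by a Sylow p-subgroup T of L, then every element of M is a product of an element of N and an element fixed by all of L. -/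
theorem result {L : Type*} [Group L] [Finite L] {M : Type*} [CommGroup M] [Finite M] [MulDistribMulAction L M]
    {p : ℕ} [Fact p.Prime] (N : Subgroup M) (hN : ∀ (l : L) (m : M), m ∈ N → l • m ∈ N)
    (hquot : IsPGroup p (M ⧸ N)) (htriv : ∀ (l : L) (m : M), (l • m) * m⁻¹ ∈ N) (T : Sylow p L)
    (hT : ∀ m : M, ∃ n ∈ N, ∃ c : M, (∀ t ∈ (T : Subgroup L), t • c = c) ∧ m = n * c) :
    ∀ m : M, ∃ n ∈ N, ∃ c : M, (∀ l : L, l • c = c) ∧ m = n * c := by
  intro m
  obtain ⟨n, hn, c, hc, rfl⟩ := hT m
  have h1 := map_relNorm (T : Subgroup L) (QuotientGroup.mk' N) (c := c) fun l =>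
    QuotientGroup.eq_iff_div_mem.2 (by rw [div_eq_mul_inv]; exact htriv l c)
  obtain ⟨k, hk⟩ := hquot (QuotientGroup.mk' N c)
  obtain ⟨j, hj⟩ := exists_pow_mul_eq_self hk T.not_dvd_index
  rw [← h1, ← map_pow] at hj
  refine ⟨n * (c / relNorm (T : Subgroup L) c ^ j),
    mul_mem hn (QuotientGroup.eq_iff_div_mem.1 hj.symm), relNorm (T : Subgroup L) c ^ j,
    fun l => by rw [smul_pow', smul_relNorm _ hc], by rw [mul_assoc, div_mul_cancel]⟩

end Cfsg.Agent.S1940
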