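import Cfsg.Statements.S1941
import Cfsg.Agent.H1.Norm
import Cfsg.Agent.L.Comp

set_option autoImplicit false
open Cfsg

namespace Cfsg.Agent.S1941

open Cfsg.Agent.H1
open scoped commutatorElement

theorem exists_of_cocycle {L M : Type*} [Group L] [Finite L] [CommGroup M]
    [MulDistribMulAction L M] (T : Subgroup L) (δ : L → M)
    (hδ : ∀ g h, δ (g * h) = δ g * g • δ h) (hT : ∀ t ∈ T, δ t = 1) :
    ∃ a : M, ∀ h, δ h ^ T.index * h • a = a := by
  classical
  have := Fintype.ofFinite (L ⧸ T)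
  refine ⟨∏ q : L ⧸ T, δ q.out, fun h => ?_⟩
  rw [Finset.smul_prod', Subgroup.index_eq_card, Nat.card_eq_fintype_card, ← Finset.card_univ,
    ← Finset.prod_const, ← Finset.prod_mul_distrib]
  refine Fintype.prod_equiv (MulAction.toPerm h) _ _ fun q => ?_
  obtain ⟨t, ht⟩ := QuotientGroup.mk_out_eq_mul T (h * q.out)
  rw [← hδ, MulAction.toPerm_apply]
  conv_rhs => rw [← QuotientGroup.out_eq' q, MulAction.Quotient.smul_coe, smul_eq_mul, ht, hδ,
    hT t t.2, smul_one, mul_one]

/-- Let G be a finite group with no nontrivial normal subgroup of order prime to p, T a Sylow p-subgroup of G and E(G) the layer of G (the subgroup generated by its components). An automorphism of G of p-power order that fixes T and E(G) elementwise is inner. -/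
theorem result {G : Type*} [Group G] [Finite G] {p : ℕ} [Fact p.Prime] (hcore : Cfsg.pPrimeCore p G = ⊥)
    (T : Sylow p G) (α : MulAut G) (hα : ∃ j : ℕ, orderOf α = p ^ j) (hfixT : ∀ x ∈ (T : Subgroup G), α x = x)
    (hfixE : ∀ x ∈ Cfsg.layer G, α x = x) : ∃ g : G, ∀ x : G, α x = g * x * g⁻¹ := by
  set Z := Subgroup.centralizer (generalizedFittingSubgroup G : Set G) with hZ
  have hZF : Z ≤ pCore p G := L.fitting_eq_pCore hcore ▸ L.centralizer_gf_le_fitting
  have hZn : Z.Normal := Subgroup.normal_centralizer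
  have hfix : ∀ x ∈ generalizedFittingSubgroup G, α x = x := by
    have : generalizedFittingSubgroup G ≤ α.toMonoidHom.eqLocus (MonoidHom.id G) :=
      sup_le hfixE (L.fitting_eq_pCore hcore ▸ (L.pCore_le_sylow T).trans hfixT)
    exact this
  have hmem : ∀ g : G, α g * g⁻¹ ∈ Z := by
    intro g x hx
    have h1 := hfix _ (L.gf_normal.conj_mem x hx g⁻¹)
    rw [map_mul, map_mul, hfix x hx, inv_inv, map_inv] at h1
    calc x * (α g * g⁻¹) = α g * ((α g)⁻¹ * x * α g) * g⁻¹ := by group
      _ = _ := by rw [h1]; group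
  let _ : CommGroup Z := { (inferInstance : Group Z) with
    mul_comm := fun a b => Subtype.ext (b.2 a (L.centralizer_gf_le a.2)) }
  let _ : MulDistribMulAction G Z := MulDistribMulAction.compHom Z (MulAut.conjNormal (H := Z))
  have hs : ∀ (g : G) (z : Z), ((g • z : Z) : G) = g * z * g⁻¹ := fun _ _ => rfl
  obtain ⟨a, ha⟩ := exists_of_cocycle (T : Subgroup G) (fun g => (⟨_, hmem g⟩ : Z))
    (fun g h => Subtype.ext (by simp [hs, mul_assoc]))
    (fun t ht => Subtype.ext (by simp [hfixT t ht]))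
  have hinj : Function.Injective (fun z : Z => z ^ (T : Subgroup G).index) :=
    (((L.pCore_isPGroup p).to_le hZF).powEquiv' T.not_dvd_index).injective
  obtain ⟨k, hk⟩ := (L.pCore_isPGroup p).to_le hZF a
  obtain ⟨m, hm⟩ := exists_pow_mul_eq_self hk T.not_dvd_index
  refine ⟨(a ^ m : Z), fun x => ?_⟩
  have h1 : (⟨_, hmem x⟩ : Z) * x • a ^ m = a ^ m := by
    refine hinj ?_
    simp only
    rw [mul_pow, ← smul_pow', pow_right_comm, hm, ha]
  have h2 : α x * x⁻¹ * (x * (a ^ m : Z) * x⁻¹) = (a ^ m : Z) := congrArg Subtype.val h1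
  calc α x = α x * x⁻¹ * (x * (a ^ m : Z) * x⁻¹) * x * ((a ^ m : Z) : G)⁻¹ := by group
    _ = _ := by rw [h2]

end Cfsg.Agent.S1941
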