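import Cfsg.Statements.S1944
import Cfsg.Agent.H1.Norm
import Cfsg.Agent.H1.Constrained

set_option autoImplicit false
open Cfsg

namespace Cfsg.Agent.S1944

open Cfsg.Agent.H1
open scoped commutatorElement

/-- Let S be a Sylow p-subgroup of the finite group G and suppose that the centre Z(S) lies in O_{p',p}(G). The elements of S each of which is its only G-conjugate in S form a subgroup W of Z(S); W is then a direct factor of Z(S): there is a subgroup K of Z(S) with W ∩ K = 1 and WK = Z(S). -/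
theorem result {G : Type*} [Group G] [Finite G] {p : ℕ} [Fact p.Prime] (S : Sylow p G)
    (hZ : ((S : Subgroup G) ⊓ Subgroup.centralizer ((S : Subgroup G) : Set G)) ≤ Cfsg.pPrimePCore p G) :
    ∃ W K : Subgroup G, (∀ x : G, x ∈ W ↔ (x ∈ (S : Subgroup G) ∧ ∀ g : G, g * x * g⁻¹ ∈ (S : Subgroup G) → g * x * g⁻¹ = x)) ∧
      K ≤ ((S : Subgroup G) ⊓ Subgroup.centralizer ((S : Subgroup G) : Set G)) ∧ W ⊓ K = ⊥ ∧ W ⊔ K = ((S : Subgroup G) ⊓ Subgroup.centralizer ((S : Subgroup G) : Set G)) := by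
  have hS := sylow_isSylowIn_top S
  set π := QuotientGroup.mk' (pPrimeCore p G) with hπ
  have hπs : Function.Surjective π := QuotientGroup.mk'_surjective _
  set Z := (S : Subgroup G) ⊓ Subgroup.centralizer ((S : Subgroup G) : Set G) with hZdef
  have hinj : ∀ x ∈ (S : Subgroup G), ∀ y ∈ (S : Subgroup G), π x = π y → x = y := by
    intro x hx y hy h
    have : x⁻¹ * y ∈ (S : Subgroup G) ⊓ pPrimeCore p G :=
      Subgroup.mem_inf.2 ⟨mul_mem (inv_mem hx) hy, QuotientGroup.eq.1 h⟩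
    rwa [H9.inf_eq_bot_of_not_dvd hS.isPGroup not_dvd_card_pPrimeCore, Subgroup.mem_bot,
      inv_mul_eq_one] at this
  have hS' := isSylowIn_map_mk' hS (pPrimeCore p G)
  set Q := pCore p (G ⧸ pPrimeCore p G) with hQ
  have hQS : Q ≤ (S : Subgroup G).map π := H9.pCore_le_of_isSylowIn (isSylowIn_toH9 hS')
  set W := (S : Subgroup G) ⊓ (Subgroup.center _).comap π with hW
  have hW1 : ∀ x : G, x ∈ W ↔ (x ∈ (S : Subgroup G) ∧
      ∀ g : G, g * x * g⁻¹ ∈ (S : Subgroup G) → g * x * g⁻¹ = x) := by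
    intro x
    constructor
    · rintro ⟨h1, h2⟩
      refine ⟨h1, fun g hg => hinj _ hg _ h1 ?_⟩
      rw [map_mul, map_mul, Subgroup.mem_center_iff.1 h2, map_inv, mul_inv_cancel_right]
    rintro ⟨h1, h2⟩
    refine ⟨h1, Subgroup.mem_center_iff.2 fun g => ?_⟩
    obtain ⟨g, rfl⟩ := hπs g
    have h3 : x ∈ Z := ⟨h1, fun y hy =>
      mul_inv_eq_iff_eq_mul.1 (h2 y (mul_mem (mul_mem hy h1) (inv_mem hy)))⟩
    have h4 : g * x * g⁻¹ ∈ (S : Subgroup G) ⊔ pPrimeCore p G := by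
      have := hQS ((inferInstance : (pPrimePCore p G).Normal).conj_mem x (hZ h3) g)
      rwa [← Subgroup.mem_comap, Subgroup.comap_map_eq, QuotientGroup.ker_mk'] at this
    obtain ⟨k, hk⟩ := isPGroup_iff_mem.1 hS.isPGroup x h1
    obtain ⟨y, hy, h5⟩ := (hS.of_le le_sup_left le_top).exists_cj_le
      (isPGroup_zpowers (x := g * x * g⁻¹) (k := k) (by rw [conj_pow, hk]; group))
      (Subgroup.zpowers_le.2 h4)
    obtain ⟨s, hs, c, hc, rfl⟩ := mem_sup_normal_iff.1 hy
    have h6 := h2 (s * c * g) (by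
      have := h5 (conj_mem_cj (Subgroup.mem_zpowers _))
      simpa only [mul_inv_rev, mul_assoc] using this)
    have h7 := congrArg π h6
    have h8 := congrArg π (h3.2 s hs)
    simp only [map_mul, map_inv, show π c = 1 from (QuotientGroup.eq_one_iff c).2 hc,
      mul_one] at h7 h8
    calc π g * π x = (π s)⁻¹ * (π s * π g * π x * (π s * π g)⁻¹) * π s * π g := by group
      _ = (π s)⁻¹ * (π x * π s) * π g := by rw [h7]; group
      _ = _ := by rw [← h8]; group
  have hWZ : W ≤ Z := fun x hx => ⟨hx.1, fun y hy =>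
    hinj _ (mul_mem hy hx.1) _ (mul_mem hx.1 hy) (by
      rw [map_mul, map_mul, Subgroup.mem_center_iff.1 hx.2])⟩
  set V := Q ⊓ Subgroup.centralizer (Q : Set _) with hV
  have hZV : ∀ z ∈ Z, π z ∈ V := fun z hz => ⟨hZ hz, fun q hq => by
    obtain ⟨s, hs, rfl⟩ := hQS hq
    rw [← map_mul, ← map_mul, hz.2 s hs]⟩
  let _ : CommGroup V :=
    { (inferInstance : Group V) with mul_comm := fun a b => Subtype.ext (b.2.2 a a.2.1) }
  let _ : MulDistribMulAction (G ⧸ pPrimeCore p G) V :=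
    MulDistribMulAction.compHom V (MulAut.conjNormal (H := V))
  have hsmul : ∀ (g : G ⧸ pPrimeCore p G) (v : V), (g • v : V).1 = g * v.1 * g⁻¹ :=
    fun _ _ => rfl
  let φ : Z →* V := (π.comp Z.subtype).codRestrict V fun z => hZV z z.2
  let ψ : Z →* V := (relNorm ((S : Subgroup G).map π)).comp φ
  have hidx : ¬ p ∣ ((S : Subgroup G).map π).index := by simpa using hS'.not_dvd
  have hψ : ∀ z : Z, (z : G) ∈ W → ψ z = φ z ^ ((S : Subgroup G).map π).index := fun z hz =>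
    relNorm_of_fixed _ fun l => Subtype.ext (by
      rw [hsmul, mul_inv_eq_iff_eq_mul]
      exact Subgroup.mem_center_iff.1 hz.2 l)
  refine ⟨W, ψ.ker.map Z.subtype, hW1, Subgroup.map_subtype_le _, ?_,
    le_antisymm (sup_le hWZ (Subgroup.map_subtype_le _)) fun z hz => ?_⟩
  · rw [eq_bot_iff]
    rintro _ ⟨h1, z, h2, rfl⟩
    obtain ⟨k, hk⟩ := hS.isPGroup.to_inf_left z
    obtain ⟨j, hj⟩ := exists_pow_mul_eq_self (x := φ z) (k := k) (by rw [← map_pow, hk, map_one]) hidx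
    rw [← hψ z h1, MonoidHom.mem_ker.1 h2, one_pow] at hj
    exact hinj _ z.2.1 _ (one_mem _) ((congrArg Subtype.val hj).symm.trans (map_one π).symm)
  · obtain ⟨w, hw, e⟩ := hQS (ψ ⟨z, hz⟩).2.1
    have hw' : w ∈ W := ⟨hw, Subgroup.mem_center_iff.2 fun g => by
      have := congrArg Subtype.val (smul_relNorm ((S : Subgroup G).map π) (c := φ ⟨z, hz⟩) (by
        rintro _ ⟨s, hs, rfl⟩
        apply Subtype.ext
        rw [hsmul, mul_inv_eq_iff_eq_mul]
        exact (map_mul π s z).symm.trans ((congrArg π (hz.2 s hs)).trans (map_mul π z s))) g)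
      rw [hsmul, mul_inv_eq_iff_eq_mul] at this
      rw [e]
      exact this⟩
    obtain ⟨k, hk⟩ := hS.isPGroup.to_inf_left (⟨w, hWZ hw'⟩ : Z)
    obtain ⟨j, hj⟩ := exists_pow_mul_eq_self hk hidx
    have h1 : ψ (⟨w, hWZ hw'⟩ ^ j) = ψ ⟨z, hz⟩ := by
      rw [map_pow, hψ _ hw', ← map_pow, ← map_pow, hj]
      exact Subtype.ext e
    rw [← mul_inv_cancel_left (w ^ j) z]
    refine Subgroup.mul_mem_sup (pow_mem hw' j) ⟨(⟨w, hWZ hw'⟩ ^ j)⁻¹ * ⟨z, hz⟩, ?_, rfl⟩
    show ψ _ = 1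
    rw [map_mul, map_inv, h1, inv_mul_cancel]

end Cfsg.Agent.S1944
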