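import Cfsg.Statements.S1946
import Cfsg.Agent.H1.SmallExp

set_option autoImplicit false
open Cfsg

namespace Cfsg.Agent.S1946

open Cfsg.Agent.H1
open scoped commutatorElement

/-- Let P be a Sylow p-subgroup of the finite group G. Then G has a normal p-complement if and only if P controls the fusion of its elements of order dividing p (dividing 4 when p = 2): whenever such an element a of P has a G-conjugate g a g⁻¹ in P, that conjugate is already x a x⁻¹ for some x in P. -/
theorem result {G : Type*} [Group G] [Finite G] {p : ℕ} [Fact p.Prime] (P : Sylow p G) :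
    Cfsg.HasNormalPComplement p G ↔
      ∀ a ∈ (P : Subgroup G), (a ^ p = 1 ∨ (p = 2 ∧ a ^ 4 = 1)) → ∀ g : G, g * a * g⁻¹ ∈ (P : Subgroup G) →
        ∃ x ∈ (P : Subgroup G), g * a * g⁻¹ = x * a * x⁻¹ := by
  have hP := sylow_isSylowIn_top P
  constructor
  · intro h a ha _ g hg
    obtain ⟨y, hy, h1⟩ := hP.exists_mem_conj_eq_of_hasNormalPComplement
      (hasNormalPComplement_top_iff.2 h) (Subgroup.mem_top g)
    exact ⟨y, hy, (h1 a ha hg).symm⟩
  intro h
  refine frobenius_sylow P fun D hD g hg hgp => ?_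
  have hDp := P.isPGroup'.to_le hD
  obtain ⟨E, h1, h2, h3, h4⟩ := exists_small_exponent_le hDp
  obtain ⟨n, hn⟩ := P.isPGroup'.isNilpotent.nilpotent
  refine h4 g hg hgp (Subgroup.centralizer_le (le_inf le_rfl fun x hx => Subgroup.mem_map.2 ⟨⟨x, hD (h1 hx)⟩, ?_, rfl⟩)
    (mem_centralizer_of_asc_chain (U := fun i =>
      E ⊓ (Subgroup.upperCentralSeries (P : Subgroup G) i).map (P : Subgroup G).subtype) hDp
      (fun i => inf_le_left.trans h1) (by simp) hgp (fun i x hx => ⟨?_, ?_⟩) n))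
  · rw [hn]; trivial
  · exact H2.commutator_le_left_of_le_normalizer (Subgroup.zpowers_le.2 (h2 hg))
      (Subgroup.commutator_mem_commutator hx.1 (Subgroup.mem_zpowers g))
  · obtain ⟨hx1, x, hx2, rfl⟩ := hx
    obtain ⟨y, hy, e⟩ := h _ (inv_mem x.2) (h3 _ (inv_mem hx1)) g
      (hD (h1 (conj_mem_of_mem_normalizer (h2 hg) (inv_mem hx1))))
    refine ⟨_, Subgroup.mem_upperCentralSeries_succ_iff.1 hx2 ⟨y, hy⟩, ?_⟩
    show (x : G) * y * (x : G)⁻¹ * y⁻¹ = x * g * (x : G)⁻¹ * g⁻¹
    rw [mul_assoc (x : G) g, mul_assoc (x : G) (g * _), e]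
    group

end Cfsg.Agent.S1946
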