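import Cfsg.Statements.S1947
import Cfsg.Agent.H1.SmallExp

set_option autoImplicit false
open Cfsg

namespace Cfsg.Agent.S1947

open Cfsg.Agent.H1
open scoped commutatorElement

/-- Let G be a finite group and p a prime. If every element of G of order dividing p (dividing 4 when p = 2) lies in some fixed term Z_n(G) of the upper central series, then G has a normal p-complement. -/
theorem result {G : Type*} [Group G] [Finite G] {p : ℕ} [Fact p.Prime] (n : ℕ)
    (h : ∀ a : G, (a ^ p = 1 ∨ (p = 2 ∧ a ^ 4 = 1)) → a ∈ Subgroup.upperCentralSeries G n) : Cfsg.HasNormalPComplement p G := by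
  obtain ⟨P⟩ : Nonempty (Sylow p G) := inferInstance
  refine frobenius_sylow P fun D hD g hg hgp => ?_
  have hDp := P.isPGroup'.to_le hD
  obtain ⟨E, h1, h2, h3, h4⟩ := exists_small_exponent_le hDp
  refine h4 g hg hgp (Subgroup.centralizer_le (le_inf le_rfl fun x hx => h x (h3 x hx))
    (mem_centralizer_of_asc_chain (U := fun i => E ⊓ Subgroup.upperCentralSeries G i) hDp
      (fun i => inf_le_left.trans h1) (by simp) hgp (fun i x hx => ⟨?_, ?_⟩) n))
  · exact H2.commutator_le_left_of_le_normalizer (Subgroup.zpowers_le.2 (h2 hg))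
      (Subgroup.commutator_mem_commutator hx.1 (Subgroup.mem_zpowers g))
  · exact Subgroup.mem_upperCentralSeries_succ_iff.1 hx.2 g

end Cfsg.Agent.S1947
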