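import Cfsg.Statements.S1948
import Cfsg.Agent.H1.NormalInF
import Cfsg.Agent.H1.Constrained

set_option autoImplicit false
open Cfsg

namespace Cfsg.Agent.S1948

open Cfsg.Agent.H1
open scoped commutatorElement

/-- Let S be a Sylow p-subgroup of the finite group G. Then G = N_G(S)·O_{p'}(G) if and only if G is p-constrained and N_G(S) controls fusion in S, in the sense that whenever a subgroup Q of S has a conjugate g Q g⁻¹ inside S, the element g is a product n c with n normalizing S and c centralizing Q. -/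
theorem result {G : Type*} [Group G] [Finite G] {p : ℕ} [Fact p.Prime] (S : Sylow p G) :
    Subgroup.normalizer ((S : Subgroup G) : Set G) ⊔ Cfsg.pPrimeCore p G = ⊤ ↔
      (Cfsg.IsPConstrained p G ∧
        ∀ Q : Subgroup G, Q ≤ (S : Subgroup G) → ∀ g : G, Q.map (MulAut.conj g).toMonoidHom ≤ (S : Subgroup G) →
          ∃ n ∈ Subgroup.normalizer ((S : Subgroup G) : Set G), ∃ c ∈ Subgroup.centralizer (Q : Set G), g = n * c) := by
  have hS := sylow_isSylowIn_top S
  constructor
  · intro h
    constructor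
    · have := (normalizer_sup_pPrimeCore_eq_top_iff hS.isPGroup).1 h
      have hS' := isSylowIn_map_mk' hS (pPrimeCore p G)
      exact isPConstrained_iff.2 (H9.constrained_of_inf_centralizer_le (isSylowIn_toH9 hS')
        (L.pPrimeCore_quotient p) (inf_le_left.trans (L.le_pCore hS'.isPGroup)))
    intro Q hQ g hg
    obtain ⟨k, hk, n, hn, rfl⟩ := mem_normal_sup_iff.1
      ((sup_comm _ _).trans h ▸ Subgroup.mem_top g :
        g ∈ pPrimeCore p G ⊔ Subgroup.normalizer ((S : Subgroup G) : Set G))
    refine ⟨n, hn, n⁻¹ * k * n, fun a ha => ?_, by group⟩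
    have h1 := conj_mem_of_mem_normalizer hn (hQ ha)
    have h2 : ⁅k, n * a * n⁻¹⁆ ∈ (S : Subgroup G) ⊓ pPrimeCore p G := by
      refine ⟨?_, Subgroup.commutator_le_left (pPrimeCore p G) ⊤
        (Subgroup.commutator_mem_commutator hk trivial)⟩
      have := mul_mem (hg (conj_mem_cj ha)) (inv_mem h1)
      rw [show ⁅k, n * a * n⁻¹⁆ = k * n * a * (k * n)⁻¹ * (n * a * n⁻¹)⁻¹ by
        rw [commutatorElement_def]; group]
      exact this
    rw [H9.inf_eq_bot_of_not_dvd hS.isPGroup not_dvd_card_pPrimeCore, Subgroup.mem_bot,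
      commutatorElement_eq_one_iff_mul_comm] at h2
    calc a * (n⁻¹ * k * n) = n⁻¹ * (n * a * n⁻¹ * k) * n := by group
      _ = _ := by rw [← h2]; group
  · rintro ⟨h1, h2⟩
    have hR := sylow_inf_isSylowIn S (pPrimePCore p G)
    have h3 : pPrimePCore p G ≤ Subgroup.normalizer ((S : Subgroup G) : Set G) ⊔ pPrimeCore p G := by
      rw [L.pPrimePCore_eq_sup S]
      exact sup_le le_sup_right (inf_le_left.trans (Subgroup.le_normalizer.trans le_sup_left))
    rw [eq_top_iff]
    intro g _
    obtain ⟨k, hk, h4⟩ := hR.frattini (le_normalizer_of_normal ⊤ _) (Subgroup.mem_top g)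
    obtain ⟨n, hn, c, hc, e⟩ := h2 _ inf_le_left _
      ((cj_eq_iff_mem_normalizer.2 h4).le.trans inf_le_left)
    rw [← mul_mem_cancel_left (h3 hk), e]
    exact mul_mem (Subgroup.mem_sup_left hn) (h3 ((isPConstrained_iff_of_isSylowIn hR).1 h1 hc))

end Cfsg.Agent.S1948
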