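import Cfsg.Statements.S1949
import Cfsg.Agent.H1.SmallExp

set_option autoImplicit false
open Cfsg

namespace Cfsg.Agent.S1949

open Cfsg.Agent.H1
open scoped commutatorElement

/-- Let P be a finite p-group and G a group of automorphisms of P containing the inner automorphisms. Then there is a G-invariant subgroup D of P, contained in the subgroup generated by the elements x⁻¹α(x) with x in P and α in O^p(G), of exponent dividing p when p is odd and dividing 4 when p = 2, with [D, P] ≤ Z(D), such that every automorphism in G of order prime to p that fixes D elementwise is the identity; moreover every maximal abelian subgroup A of D is normal in P and every automorphism in G fixing A elementwise has p-power order. -/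
theorem result {P : Type*} [Group P] [Finite P] {p : ℕ} [Fact p.Prime] (hP : IsPGroup p P)
    (G : Subgroup (MulAut P)) (hG : Cfsg.Inn P ≤ G) :
    ∃ D : Subgroup P,
      (∀ α ∈ G, D.map α.toMonoidHom = D) ∧
      D ≤ Subgroup.closure {y : P | ∃ α ∈ Cfsg.pResidual p ↥G, ∃ x : P, y = x⁻¹ * (α : MulAut P) x} ∧
      (∀ d ∈ D, d ^ p = 1 ∨ (p = 2 ∧ d ^ 4 = 1)) ∧
      ⁅D, (⊤ : Subgroup P)⁆ ≤ D ⊓ Subgroup.centralizer (D : Set P) ∧
      (∀ α ∈ G, (orderOf α).Coprime p → (∀ d ∈ D, α d = d) → α = 1) ∧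
      ∀ A : Subgroup P, A ≤ D → IsMulCommutative ↥A →
        (∀ B : Subgroup P, A ≤ B → B ≤ D → IsMulCommutative ↥B → B = A) →
        A.Normal ∧ ∀ α ∈ G, (∀ a ∈ A, α a = a) → ∃ k : ℕ, orderOf α = p ^ k := by
  obtain ⟨E, h1, h2, h3, h4⟩ := exists_char_small_exponent hP
  have hE : ∀ α : MulAut P, ∀ x ∈ E, α x ∈ E := fun α x hx =>
    Subgroup.characteristic_iff_le_comap.1 h1 α hx
  set D := Subgroup.closure {y : P | ∃ α ∈ Cfsg.pResidual p ↥G, ∃ x ∈ E, y = x⁻¹ * (α : MulAut P) x}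
    with hD
  have hDE : D ≤ E := by
    rw [hD, Subgroup.closure_le]
    rintro _ ⟨α, -, x, hx, rfl⟩
    exact mul_mem (inv_mem hx) (hE _ x hx)
  have hinv : ∀ α ∈ G, ∀ d ∈ D, α d ∈ D := by
    intro γ hγ
    have : D ≤ D.comap γ.toMonoidHom := by
      rw [hD, Subgroup.closure_le]
      rintro _ ⟨α, hα, x, hx, rfl⟩
      have h5 := (pResidual_normal (p := p) (G := G)).conj_mem α hα ⟨γ, hγ⟩
      refine Subgroup.mem_comap.2 (Subgroup.subset_closure ⟨_, h5, γ x, hE _ x hx, ?_⟩)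
      show γ (x⁻¹ * (α : MulAut P) x) = (γ x)⁻¹ * γ ((α : MulAut P) (γ.symm (γ x)))
      rw [MulEquiv.symm_apply_apply, map_mul, map_inv]
    exact fun d hd => this hd
  have hDn : D.Normal := ⟨fun d hd g => hinv (MulAut.conj g) (hG ⟨g, rfl⟩) d hd⟩
  have h5 : ⁅D, (⊤ : Subgroup P)⁆ ≤ D ⊓ Subgroup.centralizer (D : Set P) :=
    le_inf (Subgroup.commutator_le_left _ _) ((Subgroup.commutator_mono hDE le_rfl).trans
      (h3.trans (inf_le_right.trans (Subgroup.centralizer_le hDE))))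
  have hquad : ∀ (α : MulAut P), (orderOf α).Coprime p → ∀ x, α (x⁻¹ * α x) = x⁻¹ * α x →
      α x = x := by
    intro α hα x hx
    obtain ⟨k, hk⟩ := hP (x⁻¹ * α x)
    exact H2.mulAut_apply_eq_of_coprime (pow_orderOf_eq_one α) hx hk (hα.pow_right k)
  have h6 : ∀ α ∈ G, (orderOf α).Coprime p → (∀ d ∈ D, α d = d) → α = 1 := by
    intro α hα hα' h
    refine h4 α _ (pow_orderOf_eq_one α) hα' fun x hx => hquad α hα' x (h _ ?_)
    exact Subgroup.subset_closure ⟨⟨α, hα⟩, mem_pResidual_of_coprime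
      (by rwa [← Subgroup.orderOf_coe]), x, hx, rfl⟩
  refine ⟨D, fun α hα => ?_, Subgroup.closure_mono ?_, fun d hd => h2 d (hDE hd), h5, h6,
    fun A hA hAc hmax => ?_⟩
  · refine le_antisymm ?_ fun d hd => ⟨α⁻¹ d, hinv _ (inv_mem hα) d hd, by simp⟩
    rintro _ ⟨d, hd, rfl⟩
    exact hinv α hα d hd
  · rintro _ ⟨α, hα, x, -, rfl⟩
    exact ⟨α, hα, x, rfl⟩
  have h7 : ∀ d ∈ D, d ∈ Subgroup.centralizer (A : Set P) → d ∈ A := fun d hd hd' =>
    (hmax _ le_sup_left (sup_le hA (Subgroup.zpowers_le.2 hd))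
      (H2.isMulCommutative_sup_zpowers hAc hd')).le (Subgroup.mem_sup_right (Subgroup.mem_zpowers d))
  have hAn : A.Normal := ⟨fun a ha g => by
    have h8 := h5 (Subgroup.commutator_mem_commutator (hA ha) (Subgroup.mem_top g))
    have := mul_mem (inv_mem (h7 _ h8.1 (Subgroup.centralizer_le hA h8.2))) ha
    rwa [commutatorElement_inv, commutatorElement_def, inv_mul_cancel_right] at this⟩
  refine ⟨hAn, fun α hα h => ?_⟩
  obtain ⟨k, hk⟩ := exists_pow_coprime (p := p) α
  have h8 : ∀ a ∈ A, (α ^ p ^ k) a = a := fun a ha =>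
    MulAction.mem_stabilizer_iff.1 (pow_mem (MulAction.mem_stabilizer_iff.2 (h a ha) :
      α ∈ MulAction.stabilizer (MulAut P) a) _)
  have h9 := h6 _ (pow_mem hα _) hk fun d hd => hquad _ hk d (h8 _ (h7 _
    (mul_mem (inv_mem hd) (hinv _ (pow_mem hα _) d hd)) fun a ha => ?_))
  · obtain ⟨j, -, hj⟩ := (Nat.dvd_prime_pow Fact.out).1 (orderOf_dvd_of_pow_eq_one h9)
    exact ⟨j, hj⟩
  have h10 := h8 _ (hAn.conj_mem a ha d)
  rw [map_mul, map_mul, map_inv, h8 a ha] at h10
  set e := (α ^ p ^ k) d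
  calc a * (d⁻¹ * e) = d⁻¹ * (d * a * d⁻¹) * e := by group
    _ = _ := by rw [← h10]; group

end Cfsg.Agent.S1949
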