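import Cfsg.Statements.S1950
import Cfsg.Agent.H1.PCyc

set_option autoImplicit false
open Cfsg

namespace Cfsg.Agent.S1950

open Subgroup Cfsg.Agent.H1 Cfsg.Agent.H1.PB Cfsg.Agent.L

universe u

variable {p : ℕ} [hp : Fact p.Prime]

lemma of_npc {G : Type u} [Group G] [Finite G] (h : HasNormalPComplement p G) : IsPSolvable p G :=
  isPSolvable_of_ext (pResidual p G) (isPSolvable_of_coprime
    (hp.out.coprime_iff_not_dvd.2 (hasNormalPComplement_iff_not_dvd.1 h)).symm)
    (isPSolvable_of_isPGroup isPGroup_quotient_pResidual)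

lemma of_map {G H : Type u} [Group G] [Group H] [Finite G] (f : G →* H) {x y : G}
    (h : IsPSolvable p (closure ({x, y} : Set G))) :
    IsPSolvable p (closure ({f x, f y} : Set H)) := by
  rw [← Set.image_pair, ← MonoidHom.map_closure]
  exact isPSolvable_of_surjective h _ (f.subgroupMap_surjective _)

lemma lift {G : Type u} [Group G] [Finite G] {N : Subgroup G} [N.Normal]
    (hN : (Nat.card N).Coprime p) {x : G ⧸ N} (hx : orderOf x = p) :
    ∃ a : G, orderOf a = p ∧ QuotientGroup.mk' N a = x := by
  obtain ⟨x, rfl⟩ := QuotientGroup.mk'_surjective N x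
  obtain ⟨a, b, rfl, -, hb, ⟨k, hk⟩, hbo⟩ := exists_pPart (p := p) x
  have h1 : QuotientGroup.mk' N b = 1 := by
    refine eq_one_of_pow_of_coprime (p := p) (k := 1) ?_
      (hbo.coprime_dvd_left (orderOf_map_dvd _ _))
    obtain ⟨i, hi⟩ := hb
    have hi : (a * b) ^ i = b := hi
    rw [← hi, map_zpow, pow_one, ← zpow_natCast, ← zpow_mul, mul_comm, zpow_mul, zpow_natCast,
      orderOf_dvd_iff_pow_eq_one.1 hx.dvd, one_zpow]
  rw [map_mul, h1, mul_one] at hx ⊢
  refine ⟨a, orderOf_eq_prime (eq_one_of_pow_of_coprime (p := p) (k := k) ?_ ?_) ?_, rfl⟩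
  · rw [← pow_mul, mul_comm, pow_mul, hk, one_pow]
  · refine hN.coprime_dvd_left (N.orderOf_dvd_natCard ?_)
    rw [← QuotientGroup.eq_one_iff, QuotientGroup.mk_pow]
    exact orderOf_dvd_iff_pow_eq_one.1 hx.dvd
  · rintro rfl
    exact hp.out.ne_one (by simpa using hx.symm)

lemma aux (n : ℕ) : ∀ (G : Type u) [Group G] [Finite G], Nat.card G = n → ∀ P : Sylow p G,
    IsCyclic (P : Subgroup G) → (∀ x y : G, orderOf x = p → orderOf y = p →
      IsPSolvable p (closure ({x, y} : Set G))) → IsPSolvable p G := by
  induction n using Nat.strong_induction_on with | _ n ih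
  intro G _ _ hn P hP h
  by_cases h1 : pPrimeCore p G = ⊥
  swap
  · have hN := pPrimeCore_coprime (G := G) p
    refine isPSolvable_of_ext _ (isPSolvable_of_coprime hN) (ih _ ?_ _ rfl
      (P.mapSurjective (QuotientGroup.mk'_surjective _)) ?_ fun x y hx hy => ?_)
    · rw [← hn, ← (pPrimeCore p G).card_mul_index]
      exact lt_mul_of_one_lt_left (Nat.card_pos) (one_lt_card_iff_ne_bot _ |>.2 h1)
    · exact isCyclic_of_surjective _ (MonoidHom.subgroupMap_surjective _ _)
    · obtain ⟨a, ha, rfl⟩ := lift hN hx
      obtain ⟨b, hb, rfl⟩ := lift hN hy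
      exact of_map _ (h a b ha hb)
  by_cases h2 : pCore p G = ⊥
  swap
  · obtain ⟨⟨z, hz⟩, hz1⟩ := ne_bot_iff_exists_ne_one.1 h2
    have hQ := pCore_le_sylow P
    refine isPSolvable_of_ext (centralizer (pCore p G : Set G)) (of_npc
      (hasNormalPComplement_of_le (npc_of_cyclic P hP (hQ hz) fun h => hz1 (Subtype.ext h))
        (centralizer_le (by simpa using hz)))) (isPSolvable_of_coprime ?_)
    refine (hp.out.coprime_iff_not_dvd.2 fun h => P.not_dvd_index (h.trans (index_dvd_of_le ?_))).symm
    exact (le_centralizer_iff_isMulCommutative.2 inferInstance).trans (centralizer_le hQ)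
  rcases subsingleton_or_nontrivial G with h3 | h3
  · exact isPSolvable_of_coprime (by simp)
  have : IsSimpleGroup G := ⟨fun N hN => by
    by_contra h4
    push Not at h4
    obtain ⟨Q⟩ : Nonempty (Sylow p N) := inferInstance
    obtain ⟨g, -, hg⟩ := (sylow_isSylowIn_top P).exists_cj_le (Q.isPGroup'.map N.subtype) le_top
    have h5 := ih _ (by
      rw [← hn, ← N.card_mul_index]
      exact lt_mul_of_one_lt_right Nat.card_pos (one_lt_index_of_ne_top h4.2)) N rfl Q ?_ fun x y hx hy => ?_
    · have := (nontrivial_iff_ne_bot N).2 h4.1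
      rcases core_ne_bot_of_isPSolvable h5 with h6 | h6
      · exact h6 ((map_eq_bot_iff_of_injective _ N.subtype_injective).1 (le_bot_iff.1
          (h2 ▸ le_pCore ((pCore_isPGroup p).map _))))
      · exact h6 ((map_eq_bot_iff_of_injective _ N.subtype_injective).1 (le_bot_iff.1
          (h1 ▸ le_pPrimeCore (card_map_of_injective N.subtype_injective ▸ pPrimeCore_coprime p))))
    · have : IsCyclic (map (MulAut.conj g).toMonoidHom (map N.subtype Q)) := isCyclic_of_le hg
      exact isCyclic_of_surjective _ ((equivMapOfInjective _ _ N.subtype_injective).trans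
        (equivMapOfInjective _ (MulAut.conj g).toMonoidHom (MulAut.conj g).injective)).symm.surjective
    · have := h x y ((orderOf_coe x).trans hx) ((orderOf_coe y).trans hy)
      rw [show ({(x : G), (y : G)} : Set G) = N.subtype '' {x, y} from (Set.image_pair _ _ _).symm,
        ← MonoidHom.map_closure] at this
      let e := equivMapOfInjective (closure ({x, y} : Set N)) N.subtype N.subtype_injective
      exact isPSolvable_of_injective this e.toMonoidHom e.injective⟩
  exact of_npc (hasNormalPComplement_of_normalizer_le P (normalizer_le_of_pairs P hP h))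

/-- Let G be a finite group whose Sylow p-subgroups are cyclic. Then G is p-solvable if and only if every two elements of order p of G generate a p-solvable subgroup. -/
theorem result {G : Type*} [Group G] [Finite G] {p : ℕ} [Fact p.Prime] (P : Sylow p G) (hP : IsCyclic ↥(P : Subgroup G)) :
    Cfsg.IsPSolvable p G ↔ ∀ x y : G, orderOf x = p → orderOf y = p → Cfsg.IsPSolvable p ↥(Subgroup.closure ({x, y} : Set G)) := by
  exact ⟨fun h _ _ _ _ => isPSolvable_subgroup h _, aux _ G rfl P hP⟩

end Cfsg.Agent.S1950
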