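import Cfsg.Statements.S1951
import Cfsg.Agent.H1.PChar

set_option autoImplicit false
open Cfsg

namespace Cfsg.Agent.S1951

open Subgroup Cfsg.Agent.H1 Cfsg.Agent.H1.PB
open Cfsg.Agent.H3 (gE Wedd gE_one)
open scoped IsMulCommutative

lemma bound {p q n : ℕ} {a : ℤ} {d : ℕ} (hp : p = 3 ∨ 5 ≤ p) (hq : p ∣ q) (hq0 : 0 < q)
    (hn : 1 ≤ n) (hd : (d : ℤ) = a + q * n) (ha : a ^ 2 + 1 ≤ q) (hd0 : 0 < d) :
    ((p : ℤ) + 1) * (p - 1) * a ≤ (p ^ 2 - 2 * p - 1) * d := by
  have h1 : (q : ℤ) ≤ q * n := by nlinarith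
  have hd0' : (0 : ℤ) < d := by exact_mod_cast hd0
  rcases hp with rfl | hp
  · obtain ⟨k, rfl⟩ := hq
    have hk : 1 ≤ k := by omega
    have hk' : (1 : ℤ) ≤ k := by exact_mod_cast hk
    push_cast at *
    have : a ≤ k := by
      by_contra h
      push Not at h
      rcases le_or_gt a 2 with h2 | h2
      · have : a = 2 := by omega
        have : (k : ℤ) = 1 := by omega
        nlinarith
      · nlinarith
    linarith
  · have hp' : (5 : ℤ) ≤ p := by exact_mod_cast hp
    have h2 : 2 * a ≤ d := by nlinarith [sq_nonneg (a - 1)]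
    nlinarith [mul_nonneg (show (0 : ℤ) ≤ (p + 1) * (p - 1) by nlinarith) (sub_nonneg.2 h2),
      mul_nonneg (show (0 : ℤ) ≤ p ^ 2 - 4 * p - 1 by nlinarith) hd0'.le]

/-- Let p be a prime and P a nontrivial elementary abelian Sylow p-subgroup of a finite nonabelian simple group G whose nonidentity elements are all conjugate in G. Suppose that two elements of P are conjugate in G only if they are conjugate in N_G(P), that the centralizer of every element of order p of P has a normal p-complement, and that every two elements of order p of G generate a p-solvable subgroup. Then p = 2. -/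
theorem result {G : Type*} [Group G] [Finite G] [IsSimpleGroup G] (hG : ¬ IsMulCommutative G) {p : ℕ} [Fact p.Prime] (P : Sylow p G)
    (hP1 : (P : Subgroup G) ≠ ⊥) (hPe : Cfsg.IsElementaryAbelian p (P : Subgroup G))
    (hconj : ∀ x ∈ (P : Subgroup G), ∀ y ∈ (P : Subgroup G), x ≠ 1 → y ≠ 1 → ∃ g : G, g * x * g⁻¹ = y)
    (ha : ∀ x ∈ (P : Subgroup G), ∀ y ∈ (P : Subgroup G), (∃ g : G, g * x * g⁻¹ = y) →
      ∃ n ∈ Subgroup.normalizer ((P : Subgroup G) : Set G), n * x * n⁻¹ = y)
    (hb : ∀ x ∈ (P : Subgroup G), orderOf x = p → Cfsg.HasNormalPComplement p ↥(Subgroup.centralizer ({x} : Set G)))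
    (hc : ∀ x y : G, orderOf x = p → orderOf y = p → Cfsg.IsPSolvable p ↥(Subgroup.closure ({x, y} : Set G))) :
    p = 2 := by
  classical
  by_contra hp2
  have hp : p.Prime := Fact.out
  have := Fintype.ofFinite G
  obtain ⟨W⟩ := H3.nonempty_wedd G
  have hcomm := hPe.1
  obtain ⟨⟨x, hxP⟩, hx1⟩ := (ne_bot_iff_exists_ne_one).1 hP1
  have hx1 : x ≠ 1 := fun h => hx1 (Subtype.ext h)
  have hxo : orderOf x = p := orderOf_eq_prime (hPe.2 x hxP) hx1
  have hcj : ∀ d : G, orderOf d = p → ∃ g, d = g * x * g⁻¹ := by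
    intro d hd
    obtain ⟨g, y, hy, hyo, rfl⟩ := exists_conj_mem P hd
    obtain ⟨h, rfl⟩ := hconj x hxP y hy hx1 (by rintro rfl; exact hp.ne_one (by simpa using hyo.symm))
    exact ⟨g * h, by group⟩
  set q := Fintype.card (P : Subgroup G) with hq
  obtain ⟨l, hl⟩ := CommGroup.exists_apply_ne_one_of_hasEnoughRootsOfUnity (P : Subgroup G) ℂ
    (a := ⟨x, hxP⟩) (fun h => hx1 (congrArg Subtype.val h))
  let ι := (P : Subgroup G).subtype
  have key : ∀ j, ∀ m : (P : Subgroup G) →* ℂˣ, m ≠ 1 →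
      W.χ j (gE x) = W.d j - q * nL ι W j m := by
    intro j m hm
    rw [card_mul_nL, ← Finset.add_sum_erase _ _ (Finset.mem_univ 1)]
    have h1 : ∑ z ∈ Finset.univ.erase (1 : (P : Subgroup G)), (m z : ℂ) * W.χ j (gE (ι z)) =
        (∑ z ∈ Finset.univ.erase (1 : (P : Subgroup G)), (m z : ℂ)) * W.χ j (gE x) := by
      rw [Finset.sum_mul]
      refine Finset.sum_congr rfl fun z hz => ?_
      obtain ⟨g, hg⟩ := hconj x hxP z z.2 hx1
        (fun h => Finset.ne_of_mem_erase hz (Subtype.ext h))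
      rw [← W.χ_gE_conj j g x, hg]; rfl
    have h2 := sum_char m
    rw [if_neg hm, ← Finset.add_sum_erase _ _ (Finset.mem_univ 1)] at h2
    rw [h1]
    simp only [map_one, Units.val_one, gE_one, W.χ_one] at h2 ⊢
    linear_combination (W.χ j (gE x)) * h2
  have hl1 : l ≠ 1 := fun h => hl (by simp [h])
  let a : Fin W.n → ℤ := fun j => W.d j - q * nL ι W j l
  have ha' : ∀ j, W.χ j (gE x) = a j := fun j => by rw [key j l hl1]; simp [a]
  have hA : ∑ j ∈ B0 p W, a j ^ 2 = q := by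
    have h1 := col_sylow W P hcomm hxP hxP (hb x hxP hxo)
    obtain ⟨g, hg⟩ := hconj x⁻¹ (inv_mem hxP) x hxP (inv_ne_one.2 hx1) hx1
    rw [if_pos (isConj_iff.2 ⟨g, hg⟩), Nat.card_eq_fintype_card, ← hq] at h1
    simp only [ha', ← pow_two] at h1
    exact_mod_cast h1
  have hpq : p ∣ q := by
    have := (P : Subgroup G).orderOf_dvd_natCard hxP
    rw [hxo] at this
    rwa [hq, ← Nat.card_eq_fintype_card]
  have hq0 : 0 < q := Fintype.card_pos
  have hp3 : p = 3 ∨ 5 ≤ p := by
    have := hp.two_le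
    by_contra h
    have : p = 4 := by omega
    exact absurd (this ▸ hp) (by decide)
  refine pair_false W hp2 ⟨x, hxo⟩ (fun d hd => ?_) (κ := Nat.card (Kz p x)) (fun d hd => ?_)
    (fun y z hy hz => pair_struct P hcomm hy hz (hc y z hy hz)) (fun j => a j) (fun j => ?_)
    (fun j hj hk => ?_) ?_
  · obtain ⟨g, rfl⟩ := hcj d hd
    exact hasNPC_conj g (hb x hxP hxo)
  · obtain ⟨g, rfl⟩ := hcj d hd
    exact card_Kz_conj g x
  · rw [Finset.sum_congr rfl fun d hd => show W.χ j (gE d) = a j by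
      obtain ⟨g, rfl⟩ := hcj d (mem_Dset.1 hd)
      rw [W.χ_gE_conj, ha']]
    simp
  · obtain ⟨j0, hj0⟩ := W.exists_ker_eq_top
    have hne : j ≠ j0 := fun h => hk (h ▸ hj0)
    have h1 : a j0 = 1 := by
      have := ha' j0
      rw [W.χ_gE_of_ker_eq_top hj0] at this
      exact_mod_cast this.symm
    have h2 : a j ^ 2 + 1 ≤ q := by
      rw [← hA, ← Finset.add_sum_erase _ _ (mem_B0_of_ker_eq_top W hj0), h1, add_comm]
      exact add_le_add (by norm_num) (Finset.single_le_sum (f := fun j => a j ^ 2)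
        (fun _ _ => sq_nonneg _) (Finset.mem_erase.2 ⟨hne, hj⟩))
    have h3 : 1 ≤ nL ι W j l := by
      by_contra h
      have h4 : nL ι W j l = 0 := by omega
      have h5 : ι ⟨x, hxP⟩ ∈ W.ker j := mem_ker_of_nL ι W j fun m hm => by
        have h6 := key j m (fun h => hm (by simp [h]))
        rw [key j l hl1, h4, sub_right_inj, Nat.cast_zero, mul_zero] at h6
        exact_mod_cast (mul_eq_zero.1 h6.symm).resolve_left (by exact_mod_cast hq0.ne')
      rcases (W.ker_normal j).eq_bot_or_eq_top with h | h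
      · exact hx1 (by rwa [h, mem_bot] at h5)
      · exact hk h
    have := bound hp3 hpq hq0 h3 (a := a j) (d := W.d j) (by simp [a]) h2 (W.d_pos j)
    exact_mod_cast this
  · have h1 : ∑ j ∈ B0 p W, (a j : ℝ) ^ 2 = q := by exact_mod_cast hA
    have h2 : (p : ℝ) ≤ q := by exact_mod_cast Nat.le_of_dvd hq0 hpq
    have h3 : (3 : ℝ) ≤ p := by exact_mod_cast (by omega : 3 ≤ p)
    rw [h1]; nlinarith

end Cfsg.Agent.S1951
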