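import Cfsg.Statements.S1952
import Cfsg.Agent.H1.Basic
import Cfsg.Agent.H9.Trace
import Cfsg.Agent.H2.Maschke
import Cfsg.Agent.H2.MaxClass
import Mathlib.Data.Nat.Choose.Factorization

set_option autoImplicit false
open Cfsg

namespace Cfsg.Agent.S1952

open Cfsg.Agent.H1
open scoped commutatorElement

theorem iter_le {G : Type*} [Group G] (X Z : Subgroup G) (n : ℕ) :
    iterCommutator X Z n ≤ (⊤ : Subgroup G).lowerCentralSeries n := by
  induction n with
  | zero => exact le_top
  | succ n ih =>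
    rw [H9.iterCommutator_succ, Subgroup.lowerCentralSeries_succ]
    exact Subgroup.commutator_mono ih le_top

theorem card_ge {G : Type*} [Group G] [Finite G] {p : ℕ} [hp : Fact p.Prime] (hG : IsPGroup p G)
    (h : (⊤ : Subgroup G).lowerCentralSeries (p - 1) ≠ ⊥) : p ^ (p + 1) ≤ Nat.card G := by
  have := hG.isNilpotent
  have h2 := hp.out.two_le
  rw [Ne, Subgroup.lowerCentralSeries_eq_bot_iff_nilpotencyClass_le] at h
  have h1 := H2.pow_le_card_lowerCentralSeries hG (p - 1) 1 (by omega)
  have h3 := H2.sq_le_index_commutator hG (fun hc => h (by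
    have := hc.isMulCommutative
    refine le_trans (Subgroup.lowerCentralSeries_eq_bot_iff_nilpotencyClass_le.1 ?_)
      (show 1 ≤ p - 1 by omega)
    exact (_root_.commutator_eq_bot_iff G).2 this))
  rw [← (commutator G).card_mul_index, show p + 1 = p - 1 + 2 by omega, pow_add]
  exact Nat.mul_le_mul h1 h3

/-- Let P be a finite p-group with a normal elementary abelian subgroup A of index p, and let x ∈ A and y ∈ P with y outside A. If the product of the p conjugates y^(-i) x y^i (i = 0, …, p−1) is not the identity, then the wreath product Z_p ≀ Z_p, realised as a Sylow p-subgroup of the symmetric group of degree p², is a homomorphic image of P. -/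
theorem result {P : Type*} [Group P] [Finite P] {p : ℕ} [Fact p.Prime] (hP : IsPGroup p P) (A : Subgroup P) [A.Normal]
    (hA : Cfsg.IsElementaryAbelian p A) (hidx : A.index = p) (x y : P) (hx : x ∈ A) (hy : y ∉ A)
    (hprod : ((List.range p).map (fun i => (y ^ i)⁻¹ * x * y ^ i)).prod ≠ 1) :
    ∃ (Q : Sylow p (Equiv.Perm (Fin (p ^ 2)))) (f : P →* ↥(Q : Subgroup (Equiv.Perm (Fin (p ^ 2))))), Function.Surjective f := by
  have hp := (Fact.out : p.Prime)
  set w := ((List.range p).map (fun i => (y ^ i)⁻¹ * x * y ^ i)).prod with hw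
  have hc : ∀ i : ℕ, (y ^ i)⁻¹ * x * y ^ i ∈ A := fun i => Subgroup.Normal.conj_mem' ‹_› x hx _
  have hwA : w ∈ A := A.list_prod_mem (by
    intro z hz
    obtain ⟨i, -, rfl⟩ := List.mem_map.1 hz
    exact hc i)
  obtain ⟨B, -, hB1, hB2⟩ := H2.exists_complement_of_elementary hA.1 hA.2
    (Subgroup.zpowers_le.2 hwA) bot_le (bot_inf_eq _)
  have hBA : B ≤ A := hB2 ▸ le_sup_left
  have hBi : B.index = p ^ 2 := by
    have h1 := H2.card_sup_mul_card_inf (H := B) (K := Subgroup.zpowers w) (fun b hb =>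
      Subgroup.centralizer_le_normalizer _ fun z hz => congrArg Subtype.val
        (hA.1.is_comm.comm (⟨z, Subgroup.zpowers_le.2 hwA hz⟩ : A) ⟨b, hBA hb⟩))
    rw [hB1, hB2, Subgroup.card_bot, mul_one, Nat.card_zpowers,
      orderOf_eq_prime (hA.2 w hwA) hprod, ← H2.card_mul_relIndex hBA] at h1
    rw [← Subgroup.relIndex_mul_index hBA, hidx, Nat.eq_of_mul_eq_mul_left Nat.card_pos h1, sq]
  have e : P ⧸ B ≃ Fin (p ^ 2) := Finite.equivFinOfCardEq hBi
  let f : P →* Equiv.Perm (Fin (p ^ 2)) :=
    e.permCongrHom.toMonoidHom.comp (MulAction.toPermHom P (P ⧸ B))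
  have hker : f.ker ≤ B := by
    refine le_trans (fun g hg => ?_) B.normalCore_le
    rw [Subgroup.normalCore_eq_ker]
    exact e.permCongrHom.map_eq_one_iff.1 hg
  have hfp : IsPGroup p f.range := hP.of_surjective _ f.rangeRestrict_surjective
  have hcard : p ^ (p + 1) ≤ Nat.card f.range := by
    refine card_ge hfp fun h => hprod ?_
    have h1 : iterCommutator A (Subgroup.zpowers y⁻¹) (p - 1) ≤ f.ker := by
      rw [← f.ker_rangeRestrict, ← Subgroup.map_eq_bot_iff, H9.map_iterCommutator, eq_bot_iff, ← h]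
      exact iter_le _ _ _
    let _ : CommGroup A := { (inferInstance : Group A) with mul_comm := hA.1.is_comm.comm }
    have h2 := H9.prod_conj_eq_one (Z := A) (X := A) (QuotientGroup.mk' (f.ker.subgroupOf A))
      (fun y hy => (QuotientGroup.eq_one_iff y).2 hy)
      (fun x hx => by rw [← map_pow, show x ^ p = 1 from Subtype.ext (hA.2 x hx), map_one]) h1
      (x := ⟨x, hx⟩) hx
    rw [← map_prod, QuotientGroup.mk'_apply, QuotientGroup.eq_one_iff, Subgroup.mem_subgroupOf]
      at h2
    have h3 : ((∏ i ∈ Finset.range p, MulAut.conjNormal (y⁻¹ ^ i) (⟨x, hx⟩ : A) : A) : P) = w := by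
      rw [hw, Finset.prod_range, ← List.prod_ofFn, Subgroup.val_list_prod, List.map_ofFn,
        List.ofFn_eq_map, ← List.map_coe_finRange_eq_range, List.map_map]
      congr 2
      ext i
      simp only [Function.comp, MulAut.conjNormal_apply, inv_pow, inv_inv]
    rw [h3] at h2
    exact Subgroup.mem_bot.1 (hB1 ▸ Subgroup.mem_inf.2 ⟨hker h2, Subgroup.mem_zpowers w⟩)
  obtain ⟨Q, hQ⟩ := hfp.exists_le_sylow
  have hQc : Nat.card Q = p ^ (p + 1) := by
    rw [Q.card_eq_multiplicity, Nat.card_perm, Nat.card_fin, sq, Nat.factorization_factorial_mul hp]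
    conv_lhs => enter [2, 1, 1, 1]; rw [← mul_one p]
    rw [Nat.factorization_factorial_mul hp, add_comm]
    simp
  have h4 : f.range = Q := Subgroup.eq_of_le_of_card_ge hQ (hQc.le.trans hcard)
  exact ⟨Q, f.codRestrict _ fun g => hQ ⟨g, rfl⟩, fun q => by
    obtain ⟨g, hg⟩ : (q : Equiv.Perm (Fin (p ^ 2))) ∈ f.range := h4.ge q.2
    exact ⟨g, Subtype.ext hg⟩⟩

end Cfsg.Agent.S1952
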