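import Cfsg.Statements.S1953
import Cfsg.Agent.H1.NormalInF

set_option autoImplicit false
open Cfsg

namespace Cfsg.Agent.S1953

open Cfsg.Agent.H1
open scoped commutatorElement

open Subgroup

theorem mem_of_coprime_of_relIndex {G : Type*} [Group G] [Finite G] {p k : ℕ} {K X : Subgroup G}
    (hX : X ≤ normalizer (K : Set G)) (hk : K.relIndex X = p ^ k) {x : G} (hx : x ∈ X)
    (hx' : (orderOf x).Coprime p) : x ∈ K := by
  have : (K.subgroupOf X).Normal := normal_subgroupOf_of_le_normalizer hX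
  have h1 : (((⟨x, hx⟩ : X) : X ⧸ K.subgroupOf X)) ^ p ^ k = 1 := by
    rw [← hk]
    exact pow_card_eq_one'
  exact (QuotientGroup.eq_one_iff (⟨x, hx⟩ : X)).1 (eq_one_of_pow_of_coprime h1
    (hx'.coprime_dvd_left ((orderOf_map_dvd (QuotientGroup.mk' _) _).trans
      (orderOf_coe (⟨x, hx⟩ : X)).symm.dvd)))

/-- Let p be an odd prime and P a Sylow p-subgroup of the finite group G, and suppose that for no p-subgroup Q of G does N_G(Q)/C_G(Q) have a section isomorphic to SL₂(p). Call a subgroup Q of P centric-radical when Z(Q) is a Sylow p-subgroup of C_G(Q) and the only normal subgroup X of N_G(Q) containing Q·C_G(Q) such that the index of Q·C_G(Q) in X is a power of p is Q·C_G(Q) itself (that is, N_G(Q)/Q·C_G(Q) has no nontrivial normal p-subgroup). Then there is a centric-radical subgroup Q of P contained in every centric-radical subgroup of P; it is normal in P, and N_G(Q) controls strong fusion in P: whenever a subgroup A of P has g A g⁻¹ ≤ P, the element g is a product h c with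 h in N_G(Q) and c centralizing A. -/
theorem result {G : Type*} [Group G] [Finite G] {p : ℕ} [Fact p.Prime] (hp : p ≠ 2) (P : Sylow p G)
    (hfree : ∀ Q : Subgroup G, IsPGroup p ↥Q → ¬ ∃ (H K : Subgroup G) (_ : (K.subgroupOf H).Normal),
      Subgroup.centralizer (Q : Set G) ≤ K ∧ K ≤ H ∧ H ≤ Subgroup.normalizer (Q : Set G) ∧
      Nonempty ((↥H ⧸ K.subgroupOf H) ≃* Matrix.SpecialLinearGroup (Fin 2) (ZMod p)))
    (cr : Subgroup G → Prop)
    (hcr : ∀ Q : Subgroup G, cr Q ↔ (Q ≤ (P : Subgroup G) ∧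
      (∃ R : Sylow p ↥(Subgroup.centralizer (Q : Set G)),
        (R : Subgroup ↥(Subgroup.centralizer (Q : Set G))).map (Subgroup.centralizer (Q : Set G)).subtype = Q ⊓ Subgroup.centralizer (Q : Set G)) ∧
      ∀ X : Subgroup G, X ≤ Subgroup.normalizer (Q : Set G) →
        (∀ n ∈ Subgroup.normalizer (Q : Set G), X.map (MulAut.conj n).toMonoidHom = X) →
        Q ⊔ Subgroup.centralizer (Q : Set G) ≤ X → (∃ k : ℕ, (Q ⊔ Subgroup.centralizer (Q : Set G)).relIndex X = p ^ k) →
        X = Q ⊔ Subgroup.centralizer (Q : Set G))) :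
    ∃ Q : Subgroup G, cr Q ∧ (∀ R : Subgroup G, cr R → Q ≤ R) ∧ (∀ x ∈ (P : Subgroup G), Q.map (MulAut.conj x).toMonoidHom = Q) ∧
      ∀ A : Subgroup G, A ≤ (P : Subgroup G) → ∀ g : G, A.map (MulAut.conj g).toMonoidHom ≤ (P : Subgroup G) →
        ∃ h ∈ Subgroup.normalizer (Q : Set G), ∃ c ∈ Subgroup.centralizer (A : Set G), g = h * c := by
  have hP := sylow_isSylowIn_top P
  have hno : NoSL2 p G := fun W hW h => hfree W hW h.exists_section
  obtain ⟨Q, ⟨hQP, hPQ, hQ⟩, hmax⟩ := (wellFounded_gt (α := Subgroup G)).has_min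
    {Q | Q ≤ P ∧ (P : Subgroup G) ≤ normalizer (Q : Set G) ∧ Ctl P ⊤ (normalizer (Q : Set G))}
    ⟨⊥, bot_le, le_normalizer_of_normal _ _, Ctl.of_le (le_normalizer_of_normal _ _)⟩
  set M := normalizer (Q : Set G) with hM
  set C := centralizer (Q : Set G) with hC
  have hPM := hP.of_le hPQ le_top
  have hmax' : ∀ V ≤ (P : Subgroup G), (P : Subgroup G) ≤ normalizer (V : Set G) →
      Ctl P M (M ⊓ normalizer (V : Set G)) → V ≤ Q := by
    intro V h1 h2 h3
    by_contra h
    exact hmax (Q ⊔ V) ⟨sup_le hQP h1, H2.le_normalizer_sup hPQ h2,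
      (hQ.trans h3).mono (normalizer_inf_le_sup Q V)⟩ (left_lt_sup.2 h)
  have hcent : (P : Subgroup G) ⊓ C ≤ Q := by
    by_contra h
    have hn : (Q.subgroupOf M).Normal := normal_subgroupOf_of_le_normalizer le_rfl
    obtain ⟨V, h1, h2, h3, h4⟩ := (hno.of_injective M.subtype M.subtype_injective).exists_ctl_not_le
      hp (H9.isSylowIn_subgroupOf (isSylowIn_toH9 hPM)).toH1 (Q := Q.subgroupOf M)
      (comap_mono hQP) fun h' => h fun x hx => h' (x := ⟨x, hPQ hx.1⟩)
        ⟨hx.1, fun y hy => Subtype.ext (hx.2 y hy)⟩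
    have h5 := h4.map_subtype
    have e : ((P : Subgroup G).subgroupOf M).map M.subtype = P := map_subgroupOf_eq_of_le hPQ
    rw [e] at h5
    refine h2 (map_le_iff_le_comap.1 (hmax' _ (e ▸ map_mono h1)
      (e ▸ (map_mono h3).trans (le_normalizer_map _))
      (h5.mono (le_inf (map_subtype_le _) (le_normalizer_map _)))))
  have hCM : C ≤ M := centralizer_le_normalizer _
  have hZ : IsSylowIn p (Q ⊓ C) C := by
    have := hPM.inf_of_normal hCM (normalizer_le_normalizer_centralizer Q)
    rwa [show (P : Subgroup G) ⊓ C = Q ⊓ C from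
      le_antisymm (le_inf hcent inf_le_right) (inf_le_inf_right _ hQP)] at this
  refine ⟨Q, (hcr Q).2 ⟨hQP, ⟨hZ.toSylow, hZ.map_toSylow⟩, ?_⟩, ?_,
    fun x hx => cj_eq_iff_mem_normalizer.2 (hPQ hx), fun A hA g hg => hQ.exists_mul hA trivial hg⟩
  · rintro X hXM hXn hQX ⟨k, hk⟩
    have hMX : M ≤ normalizer (X : Set G) := fun n hn => cj_eq_iff_mem_normalizer.1 (hXn n hn)
    have hE : HasNormalPComplement p C := hZ.hasNormalPComplement_of_normalizer_le
      (inf_le_left.trans (centralizer_le inf_le_left))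
    have hMQC : M ≤ normalizer ((Q ⊔ C : Subgroup G) : Set G) :=
      H2.le_normalizer_sup le_rfl (normalizer_le_normalizer_centralizer Q)
    have h1 : ∀ x ∈ X, (orderOf x).Coprime p → x ∈ pResidualOf p C := by
      intro x hx hx'
      have h2 := mem_of_coprime_of_relIndex (hXM.trans hMQC) hk hx hx'
      have h3 : x ∈ C := by
        obtain ⟨j, hj⟩ := (P.isPGroup'.to_le hQP).exists_card_eq
        obtain ⟨i, -, hi⟩ := (Nat.dvd_prime_pow Fact.out).1
          (hj ▸ relIndex_dvd_card C Q : C.relIndex Q ∣ p ^ j)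
        refine mem_of_coprime_of_relIndex (sup_le (le_normalizer.trans
          (normalizer_le_normalizer_centralizer Q)) le_normalizer) (k := i) ?_ h2 hx'
        rw [H2.relIndex_sup_of_le_normalizer (le_normalizer.trans
          (normalizer_le_normalizer_centralizer Q)), hi]
      exact mem_pResidualOf h3 hx'
    have h2 : (P : Subgroup G) ⊓ X ≤ Q := by
      have hPR : (P : Subgroup G) ≤ normalizer (((P : Subgroup G) ⊓ X : Subgroup G) : Set G) :=
        H2.le_normalizer_inf le_normalizer (hPQ.trans hMX)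
      refine hmax' _ inf_le_left hPR (hPM.ctl_of_cr fun D hD => ?_)
      have h3 := hD.radical (X ⊓ normalizer (D : Set G)) (inf_le_inf_right _ hXM)
        (H2.le_normalizer_inf (inf_le_left.trans hMX) (inf_le_right.trans le_normalizer))
        (pResidualOf_le_iff.2 fun x hx hx' y hy => ?_)
      · have h4 : (P : Subgroup G) ⊓ X ≤ D := le_of_inf_normalizer_le P.isPGroup' inf_le_left hD.le
          (hD.le.trans hPR) (by rwa [inf_assoc])
        exact fun n hn => mem_normalizer_of_conj_mem fun x hx =>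
          ⟨hD.le (conj_mem_of_mem_normalizer hn.2 (h4 hx)),
            conj_mem_of_mem_normalizer (hMX hn.1) hx.2⟩
      have h4 : ⁅y, x⁆ ∈ D := H2.commutator_le_left_of_le_normalizer (zpowers_le.2 hx.2)
        (commutator_mem_commutator hy (mem_zpowers x))
      have h5 : ⁅y, x⁆ ∈ pResidualOf p C := mul_mem (conj_mem_of_mem_normalizer
        (normalizer_le_normalizer_pResidualOf C (normalizer_le_normalizer_centralizer Q
          (hPQ (hD.le hy)))) (h1 x hx.1 hx')) (inv_mem (h1 x hx.1 hx'))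
      obtain ⟨j, hj⟩ := isPGroup_iff_mem.1 P.isPGroup' _ (hD.le h4)
      exact commutatorElement_eq_one_iff_mul_comm.1
        (eq_one_of_pow_of_coprime hj (hasNormalPComplement_subgroup_iff.1 hE _ h5))
    refine le_antisymm ?_ hQX
    rw [← (hPM.inf_of_normal hXM hMX).pResidualOf_sup]
    exact sup_le (pResidualOf_le_iff.2 fun x hx hx' => mem_sup_right (pResidualOf_le C (h1 x hx hx')))
      (h2.trans le_sup_left)
  · intro R hR
    obtain ⟨hRP, ⟨S, hS⟩, hrad⟩ := (hcr R).1 hR
    have hZR : IsSylowIn p (R ⊓ centralizer (R : Set G)) (centralizer (R : Set G)) :=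
      hS ▸ isSylowIn_map_subtype S
    set X₀ := Q ⊓ normalizer (R : Set G) with hX₀
    set E := R ⊔ centralizer (R : Set G) with hE
    have hNE : normalizer (R : Set G) ≤ normalizer (E : Set G) :=
      H2.le_normalizer_sup le_rfl (normalizer_le_normalizer_centralizer R)
    have hEN : E ≤ normalizer (R : Set G) := sup_le le_normalizer (centralizer_le_normalizer _)
    have h1 := hrad (X₀ ⊔ E) (sup_le inf_le_right hEN) (fun n hn => ?_) le_sup_right ?_
    · refine le_of_inf_normalizer_le P.isPGroup' hQP hRP (hRP.trans hPQ) fun x hx => ?_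
      obtain ⟨r, hr, c, hc, rfl⟩ := (mem_sup_iff_of_le_normalizer (le_normalizer.trans
        (normalizer_le_normalizer_centralizer R))).1 (h1.le (mem_sup_left hx))
      refine mul_mem hr ?_
      have h2 := hZR.eq_of_le (P.isPGroup'.to_inf_left (K := centralizer (R : Set G)))
        (inf_le_inf_right _ hRP) inf_le_right
      exact (h2.le ⟨(mul_mem_cancel_left (hRP hr)).1 (hQP hx.1), hc⟩).1
    · obtain ⟨m, hm, c, hc, rfl⟩ := hQ.exists_mul hRP trivial
        ((cj_eq_iff_mem_normalizer.2 hn).le.trans hRP)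
      have hm' : m ∈ normalizer (R : Set G) :=
        (mul_mem_cancel_right (centralizer_le_normalizer _ hc)).1 hn
      refine cj_eq_iff_mem_normalizer.2 (mul_mem ?_ (le_normalizer (mem_sup_right (mem_sup_right hc))))
      exact normalizer_inf_le_sup _ _ ⟨normalizer_inf_le _ _ ⟨hm, le_normalizer hm'⟩, hNE hm'⟩
    · rw [H2.relIndex_sup_of_le_normalizer (inf_le_right.trans hNE)]
      obtain ⟨j, hj⟩ := ((P.isPGroup'.to_le hQP).to_inf_left (K := normalizer (R : Set G))).exists_card_eq
      obtain ⟨i, -, hi⟩ := (Nat.dvd_prime_pow Fact.out).1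
        (hj ▸ relIndex_dvd_card E X₀ : E.relIndex X₀ ∣ p ^ j)
      exact ⟨i, hi⟩

end Cfsg.Agent.S1953
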