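import Cfsg.Statements.S1954
import Cfsg.Agent.H1.NormalInF

set_option autoImplicit false
open Cfsg

namespace Cfsg.Agent.S1954

open Cfsg.Agent.H1
open scoped commutatorElement

/-- Let N be a normal subgroup of the finite group G, P a Sylow p-subgroup of G, and V a subgroup of P ∩ N normal in P ∩ N such that N_N(V) controls strong fusion in P ∩ N with respect to N (whenever a subgroup A of P ∩ N has n A n⁻¹ ≤ P ∩ N for some n in N, then n = h c with h in N_N(V) and c in C_N(A)). Let W be the subgroup generated by the conjugates of V under N_G(P ∩ N). Then N_G(W) controls strong fusion in P with respect to G. -/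
theorem result {G : Type*} [Group G] [Finite G] {p : ℕ} [Fact p.Prime] (N : Subgroup G) [N.Normal] (P : Sylow p G) (V : Subgroup G)
    (hV : V ≤ (P : Subgroup G) ⊓ N) (hVn : ∀ x ∈ (P : Subgroup G) ⊓ N, V.map (MulAut.conj x).toMonoidHom = V)
    (hctrl : ∀ A : Subgroup G, A ≤ (P : Subgroup G) ⊓ N → ∀ n ∈ N, A.map (MulAut.conj n).toMonoidHom ≤ (P : Subgroup G) ⊓ N →
      ∃ h ∈ N ⊓ Subgroup.normalizer (V : Set G), ∃ c ∈ N ⊓ Subgroup.centralizer (A : Set G), n = h * c)
    (W : Subgroup G) (hW : W = Subgroup.closure (⋃ x ∈ Subgroup.normalizer (((P : Subgroup G) ⊓ N : Subgroup G) : Set G),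
      ((V.map (MulAut.conj x).toMonoidHom : Subgroup G) : Set G))) :
    ∀ A : Subgroup G, A ≤ (P : Subgroup G) → ∀ g : G, A.map (MulAut.conj g).toMonoidHom ≤ (P : Subgroup G) →
        ∃ h ∈ Subgroup.normalizer (W : Set G), ∃ c ∈ Subgroup.centralizer (A : Set G), g = h * c := by
  have hP := sylow_isSylowIn_top P
  have hT := sylow_inf_isSylowIn P N
  set T := (P : Subgroup G) ⊓ N with hTdef
  have h1 : Ctl T N (Subgroup.normalizer (V : Set G)) := ctl_of_exists_mul fun A hA n hn hnA => by
    obtain ⟨h, hh, c, hc, e⟩ := hctrl A hA n hn hnA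
    exact ⟨h, hh.2, c, hc.2, e⟩
  have hTV : T ≤ Subgroup.normalizer (V : Set G) := fun x hx =>
    cj_eq_iff_mem_normalizer.1 (hVn x hx)
  have hW' : W = ⨆ x : Subgroup.normalizer (T : Set G), cj (x : G) V := by
    rw [hW, Subgroup.iSup_eq_closure]
    congr 1
    ext y
    simp only [Set.mem_iUnion, Subtype.exists]
    rfl
  have h2 : ∀ x ∈ Subgroup.normalizer (T : Set G), cj x V ≤ T ∧
      T ≤ Subgroup.normalizer ((cj x V : Subgroup G) : Set G) ∧
      Ctl T N (Subgroup.normalizer ((cj x V : Subgroup G) : Set G)) := by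
    intro x hx
    have e := cj_eq_iff_mem_normalizer.2 hx
    refine ⟨e ▸ cj_mono x hV, ?_, ?_⟩
    · rw [← cj_normalizer]
      exact e ▸ cj_mono x hTV
    · have := h1.cj x
      rwa [e, cj_eq_of_normal, cj_normalizer] at this
  have hWT : W ≤ T := hW' ▸ iSup_le fun x => (h2 x x.2).1
  have h3 : Ctl T N (Subgroup.normalizer (W : Set G)) := by
    refine (hT.ctl_of_cr fun D hD g hg => mem_normalizer_of_cj_le ?_).mono inf_le_right
    rw [hW', cj_def, Subgroup.map_iSup]
    refine iSup_mono fun x => ?_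
    obtain ⟨h4, h5, h6⟩ := h2 x x.2
    exact (cj_eq_iff_mem_normalizer.2 ((hD.le_of_ctl hT h4 h5 h6).2 hg)).le
  have h4 := hP.ctl_of_normal le_top (le_normalizer_of_normal ⊤ N) hWT h3 fun g hg =>
    mem_normalizer_of_cj_le (by
      rw [hW', cj_def, Subgroup.map_iSup]
      refine iSup_le fun x => ?_
      rw [← cj_def, ← cj_mul]
      exact le_iSup (fun y : Subgroup.normalizer (T : Set G) => cj (y : G) V) ⟨g * x, mul_mem hg.2 x.2⟩)
  intro A hA g hg
  exact (h4.mono inf_le_right).exists_mul hA trivial hg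

end Cfsg.Agent.S1954
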