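import Cfsg.Statements.S1956
import Cfsg.Agent.H1.Fusion

set_option autoImplicit false
open Cfsg

namespace Cfsg.Agent.S1956

open Cfsg.Agent.H1
open scoped commutatorElement

/-- Let P be a Sylow p-subgroup of the finite group G such that every element of P of order dividing p (dividing 4 when p = 2) is central in P. Then the fusion of these elements is controlled by N_G(P): if such an element a of P has g a g⁻¹ in P, then g = n c with n normalizing P and c commuting with a. -/
theorem result {G : Type*} [Group G] [Finite G] {p : ℕ} [Fact p.Prime] (P : Sylow p G)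
    (hcen : ∀ a ∈ (P : Subgroup G), (a ^ p = 1 ∨ (p = 2 ∧ a ^ 4 = 1)) → ∀ y ∈ (P : Subgroup G), a * y = y * a) :
    ∀ a ∈ (P : Subgroup G), (a ^ p = 1 ∨ (p = 2 ∧ a ^ 4 = 1)) → ∀ g : G, g * a * g⁻¹ ∈ (P : Subgroup G) →
      ∃ n ∈ Subgroup.normalizer ((P : Subgroup G) : Set G), ∃ c : G, c * a = a * c ∧ g = n * c := by
  intro a ha ha' g hg
  have hP := sylow_isSylowIn_top P
  have h1 : (P : Subgroup G) ≤ Subgroup.centralizer {g * a * g⁻¹} := fun y hy =>
    Subgroup.mem_centralizer_singleton_iff.2 (hcen _ hg (by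
      simpa only [conj_pow, conj_eq_one_iff] using ha') y hy).symm
  have h2 : cj g (P : Subgroup G) ≤ Subgroup.centralizer {g * a * g⁻¹} := cj_le_iff.2 fun y hy =>
    Subgroup.mem_centralizer_singleton_iff.2 (by rw [conj_mul, conj_mul, hcen a ha ha' y hy])
  obtain ⟨k, hk, h3⟩ := hP.exists_mul_mem_normalizer le_top trivial h1 h2
  refine ⟨k * g, h3, (k * g)⁻¹ * g, ?_, by group⟩
  have h4 := Subgroup.mem_centralizer_singleton_iff.1 hk
  calc (k * g)⁻¹ * g * a = g⁻¹ * k⁻¹ * (g * a * g⁻¹ * k) * k⁻¹ * g := by group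
    _ = _ := by rw [← h4]; group

end Cfsg.Agent.S1956
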