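import Cfsg.Statements.S1998
import Cfsg.Agent.H9.Chief
import Cfsg.Agent.S2003

set_option autoImplicit false
universe u
open Cfsg

namespace Cfsg.Agent.S1998

open Cfsg.Agent.H9

open Subgroup
open scoped commutatorElement

theorem of_eq_one_iff {G : Type*} [Group G] {M : Subgroup G} (m : M) :
    Abelianization.of m = 1 ↔ (m : G) ∈ ⁅M, M⁆ := by
  rw [← Subgroup.map_subtype_commutator]
  exact (QuotientGroup.eq_one_iff m).trans (mem_map_iff_mem M.subtype_injective).symm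

theorem inf_commutator_le {G : Type*} [Group G] [Finite G] {p : ℕ} [Fact p.Prime]
    {S M : Subgroup G} (hS : IsSylowIn p S ⊤) (hSM : S ≤ M)
    (hM : ∀ H : Subgroup G, S ≤ H → H ≠ ⊤ → H ≤ M) {u : G} (huS : u ∈ S) (huP : u ∉ pCore p G)
    (hu : ∀ U V : Subgroup G, IsChiefFactor U V → U ≤ pCore p G →
      iterCommutator U (zpowers u) (p - 1) ≤ V) :
    pCore p G ⊓ ⁅(⊤ : Subgroup G), ⊤⁆ ≤ ⁅M, M⁆ := by
  by_contra hcon
  obtain ⟨X, hXn, hX, hXM, hmin⟩ := S2003.exists_minimal_normal (fun X => ¬ X ≤ ⁅M, M⁆) hcon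
  obtain ⟨Y, -, hc⟩ := exists_chief_below (bot_lt_iff_ne_bot.2 fun h : X = ⊥ => hXM (h ▸ bot_le))
  have hYn := hc.2.2.1
  have hY : Y ≤ ⁅M, M⁆ := not_not.1 (hmin Y hYn hc.1)
  set P := pCore p G with hP
  have hPM : P ≤ M := (pCore_le_of_isSylowIn hS).trans hSM
  have hXP : X ≤ P := hX.trans inf_le_left
  let ψ : G → (P →* Abelianization M) := fun t =>
    (Abelianization.of.comp (inclusion hPM)).comp (MulAut.conjNormal t⁻¹).toMonoidHom
  have hψ1 : ∀ (t : G) (z : P), ψ t z = Abelianization.of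
      ⟨t⁻¹ * z * t, hPM (Normal.conj_mem' inferInstance _ z.2 t)⟩ := fun t z => by
    simp only [ψ, MonoidHom.comp_apply]
    congr 1
    apply Subtype.ext
    simp
  have hψ2 : ∀ s t : G, (s : G ⧸ M) = t → ψ s = ψ t := by
    intro s t hst
    ext z
    have hm : s⁻¹ * t ∈ M := QuotientGroup.eq.1 hst
    rw [hψ1, hψ1]
    have : (⟨t⁻¹ * z * t, hPM (Normal.conj_mem' inferInstance _ z.2 t)⟩ : M) =
        (⟨_, hm⟩ : M)⁻¹ * ⟨s⁻¹ * z * s, hPM (Normal.conj_mem' inferInstance _ z.2 s)⟩ * ⟨_, hm⟩ :=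
      Subtype.ext (by simp only [coe_mul, coe_inv]; group)
    rw [this, map_mul, map_mul, map_inv, mul_right_comm, inv_mul_cancel, one_mul]
  have hψ3 : ∀ (g t : G) (z : P), ψ (g * t) z = ψ t (MulAut.conjNormal g⁻¹ z) := fun g t z => by
    simp only [ψ, MonoidHom.comp_apply, mul_inv_rev, map_mul]
    rfl
  refine hXM fun x hx => ?_
  letI := M.fintypeQuotientOfFiniteIndex
  let x₀ : P := ⟨x, hXP hx⟩
  have h1 := prod_quotient_eq hS hSM hM huS huP (fun c => ψ c.out x₀) fun k c => by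
    have e : ∀ g : G, ψ (g • c).out x₀ = ψ c.out (MulAut.conjNormal g⁻¹ x₀) := fun g => by
      rw [← hψ3, hψ2 (g • c).out (g * c.out)]
      rw [QuotientGroup.out_eq', ← smul_eq_mul, MulAction.Quotient.coe_smul_out]
    simp only [e, ← inv_pow]
    have hY' : ∀ y : P, (y : G) ∈ Y → ψ c.out y = 1 := fun y hy => by
      rw [hψ1, of_eq_one_iff]
      exact hY (Normal.conj_mem' inferInstance _ hy _)
    refine prod_conj_eq_one (X := X) (Y := Y) (ψ c.out) hY'
      (fun z hz => ?_) ?_ hx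
    · rw [← map_pow]
      exact hY' _ (chief_pow_mem hc ((L.pCore_isPGroup p).to_le hXP) _ hz)
    · rw [zpowers_inv]
      exact iterCommutator_cj_le (hu X Y hc hXP) k
  have h2 : MonoidHom.transfer (Abelianization.of (G := M)) x = ∏ c : G ⧸ M, ψ c.out x₀ := by
    rw [MonoidHom.transfer_def _ default]
    refine Finset.prod_congr rfl fun q _ => ?_
    have hq := (default : M.LeftTransversal).2.quotientGroupMk_leftQuotientEquiv q
    rw [hψ2 q.out _ ((QuotientGroup.out_eq' q).trans hq.symm), hψ1]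
    congr 1
    apply Subtype.ext
    have hx' : x⁻¹ • q = q := by
      obtain ⟨t, rfl⟩ := QuotientGroup.mk_surjective q
      rw [MulAction.Quotient.smul_mk, QuotientGroup.eq]
      have := hPM (Normal.conj_mem' inferInstance _ (hXP hx) t)
      simpa [mul_assoc] using this
    simp only [smul_apply_eq_smul_apply_inv_smul, hx', smul_eq_mul, mul_assoc, x₀]
  have h3 : MonoidHom.transfer (Abelianization.of (G := M)) x = 1 :=
    Abelianization.commutator_subset_ker _ (hX hx).2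
  rw [h2, h1, hψ2 _ 1 (QuotientGroup.out_eq' _), hψ1, of_eq_one_iff] at h3
  simpa using h3

theorem main {G : Type u} [Group G] [Finite G] {p : ℕ} [Fact p.Prime] {S : Subgroup G}
    (hS : IsSylowIn p S ⊤) {𝓦 : Set (∀ (Q : Type u) [Group Q], Subgroup Q)}
    (h𝓦 : ∀ W ∈ 𝓦, IsCharPFunctor.{u} p W) (hne : 𝓦.Nonempty)
    (hsec : ∀ (X : Type u) [Group X] [Finite X], Sec X G → Nat.card X < Nat.card G → CtlT p 𝓦 X)
    (hG : ¬ CtlT p 𝓦 G) {T M : Subgroup G} (hT : T = famFocal (indFam 𝓦 G) ⊤ S)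
    (hM : M = normalizer ((T ⊓ pCore p G : Subgroup G) : Set G)) :
    Constrained p G ∧ (M ≠ ⊤ ∧ ∀ H : Subgroup G, S ≤ H → H ≠ ⊤ → H ≤ M) ∧
      (⁅pCore p G, M⁆ ≤ pCore p G ⊓ ⁅M, M⁆ ∧ pCore p G ⊓ ⁅M, M⁆ ≤ pCore p G ⊓ T) ∧
      ∀ u : G, u ∈ S → u ∉ pCore p G → ∃ U V : Subgroup G, IsChiefFactor U V ∧
        U ≤ pCore p G ∧ ¬ iterCommutator U (zpowers u) (p - 1) ≤ V := by
  have hc : Constrained p G := by
    by_contra h
    exact hG (ctlT_of_not_constrained h𝓦 hsec h)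
  have hprop := focal_proper h𝓦 hsec hS
  rw [← hT] at hprop
  have hG' : ¬ S ⊓ ⁅(⊤ : Subgroup G), ⊤⁆ ≤ T := fun h =>
    hG (familyControlsTransferIn_iff.2 ⟨S, hS, hT ▸ h⟩)
  set P := pCore p G with hP
  have hPS : P ≤ S := pCore_le_of_isSylowIn hS
  have hP0 : P ≠ ⊥ := fun h => hG' (by
    have h1 : (⊤ : Subgroup G) ≤ P := fun x _ => hc fun a (ha : a ∈ P) => by
      rw [h] at ha; rw [mem_bot.1 ha]; simp
    exact inf_le_left.trans (le_top.trans (h1.trans (h.le.trans bot_le))))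
  have hPG : ¬ P ⊓ ⁅(⊤ : Subgroup G), ⊤⁆ ≤ T := fun h =>
    hG' (le_of_le_sup_of_inf_le (focal_le_pCore_sup h𝓦 hS hprop
      (hsec _ (Sec.quotient _) (card_quotient_lt hP0))) (hT ▸ famFocal_le)
      ((inf_le_inf_left _ inf_le_right).trans h))
  obtain ⟨W, hW⟩ := hne
  have hcf := ind_isConjugacyFunctor (G := G) (h𝓦 W hW)
  have hWT := le_famFocal (H := ⊤) (T := S) (𝓦 := indFam 𝓦 G) ⟨W, hW, rfl⟩
  rw [← hT, top_inf_eq] at hWT
  have hNS : normalizer (S : Set G) ≠ ⊤ := fun h => hG' (by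
    rwa [top_le_iff.1 (h.ge.trans (cf_normalizer_le hcf hS.isPGroup))] at hWT)
  have h1 : ∀ H : Subgroup G, S ≤ H → H ≠ ⊤ → ⁅P, H⁆ ≤ T ⊓ P := fun H hSH hH =>
    le_inf (le_trans (le_inf ((commutator_le_left _ _).trans hPS)
      (commutator_mono (hPS.trans hSH) le_rfl)) (hprop H hSH hH)) (commutator_le_left _ _)
  have h2 : ∀ H : Subgroup G, S ≤ H → H ≠ ⊤ → H ≤ M := fun H hSH hH => by
    rw [hM, le_normalizer_iff_commutator_le_left]
    exact (commutator_mono inf_le_right le_rfl).trans (h1 H hSH hH)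
  have hSM : S ≤ M := le_normalizer.trans (h2 _ le_normalizer hNS)
  have hM' : M ≠ ⊤ := by
    intro he
    have hn : (T ⊓ P).Normal := normalizer_eq_top_iff.1 (hM ▸ he)
    have h3 : normalizer (S : Set G) ≤ ck P (T ⊓ P) := le_ck_iff'.2 (h1 _ le_normalizer hNS)
    have h4 : ∀ g : G, g ∈ ck P (T ⊓ P) := fun g => by
      obtain ⟨n, hn, m, hm, rfl⟩ := (hS.mono (le_normalizer.trans h3) le_top).frattini
        (mem_normalizer_of_normal g _)
      exact mul_mem hn (h3 hm)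
    refine hPG fun z hz => mem_of_mem_commutator_of_fusion hS (le_trans
      (le_inf (commutator_le_self S) le_rfl) (hprop S le_rfl fun h => hNS ?_)) (hPS hz.1) hz.2 fun k g _ => ?_
    · rw [h]; exact normalizer_eq_top _
    · have := T.inv_mem ((h4 g⁻¹).2 _ (P.pow_mem hz.1 k)).1
      rw [commutatorElement_inv, commutatorElement_def, inv_inv] at this
      exact this
  have h5 : P ⊓ ⁅M, M⁆ ≤ P ⊓ T :=
    le_inf inf_le_left ((inf_le_inf_right _ hPS).trans (hprop M hSM hM'))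
  refine ⟨hc, ⟨hM', h2⟩, ⟨le_inf (commutator_le_left _ _)
    (commutator_mono (hPS.trans hSM) le_rfl), h5⟩, fun u huS huP => ?_⟩
  by_contra hcon
  push Not at hcon
  exact hPG ((le_inf inf_le_left (inf_commutator_le hS hSM h2 huS huP hcon)).trans
    (h5.trans inf_le_right))


/-- Let p be a prime, G a finite group with Sylow p-subgroup S, and 𝓦 a nonempty set of isomorphism-invariant p-group functors (W assigns to every group Q a subgroup W(Q), nontrivial whenever Q is a nontrivial finite p-group, and every isomorphism from a finite p-group Q onto a group R carries W(Q) onto W(R)). Suppose the induced conjugacy functors control transfer in every section of G other than G itself, but not in G. Let T be the subgroup generated by the S ∩ (N_G(W(S)))', W ∈ 𝓦, and M = N_G(T ∩ O_p(G)). Then: C_G(O_p(G)) ≤ O_p(G); M is a proper subgroup of G containing every proper subgroup of G that contains S (the unique maximal subgroup over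 S); [O_p(G), M] ≤ O_p(G) ∩ M' ≤ O_p(G) ∩ T; and every element u of S outside O_p(G) satisfies [X, u, …, u] ≰ Y with p − 1 entries u, for some chief factor X/Y of G with X ≤ O_p(G). -/
theorem result {G : Type u} [Group G] [Finite G] {p : ℕ} [Fact p.Prime] (S : Sylow p G) (𝓦 : Set (∀ (Q : Type u) [Group Q], Subgroup Q)) (h𝓦 : ∀ W ∈ 𝓦, Cfsg.IsCharPFunctor.{u} p W) (hne : 𝓦.Nonempty) (hsec : ∀ (K R : Subgroup G) [hR : (R.subgroupOf K).Normal], (K = ⊤ → R ≠ ⊥) → Cfsg.FamilyControlsTransferIn p ((fun W => Cfsg.inducedFunctor (G := (↥K ⧸ R.subgroupOf K)) W) '' 𝓦) ⊤) (hG : ¬ Cfsg.FamilyControlsTransferIn p ((fun W => Cfsg.inducedFunctor (G := G) W) '' 𝓦) ⊤) (T M : Subgroup G) (hT : T = (⨆ W ∈ 𝓦, (S : Subgroup G) ⊓ ⁅Subgroup.normalizer ((Cfsg.inducedFunctor (G := G) W (S : Subgroup G) : Subgroup G) : Set G), Subgroup.normalizer ((Cfsg.inducedFunctor (G := G) W (S : Subgroup G) : Subgroup G) : Set G)⁆)) (hM : M = Subgroup.normalizer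 ((T ⊓ Cfsg.pCore p G : Subgroup G) : Set G)) : Subgroup.centralizer ((Cfsg.pCore p G : Subgroup G) : Set G) ≤ Cfsg.pCore p G ∧ (M ≠ ⊤ ∧ ∀ H : Subgroup G, (S : Subgroup G) ≤ H → H ≠ ⊤ → H ≤ M) ∧ (⁅Cfsg.pCore p G, M⁆ ≤ Cfsg.pCore p G ⊓ ⁅M, M⁆ ∧ Cfsg.pCore p G ⊓ ⁅M, M⁆ ≤ Cfsg.pCore p G ⊓ T) ∧ ∀ u : G, u ∈ (S : Subgroup G) → u ∉ Cfsg.pCore p G → ∃ U V : Subgroup G, Cfsg.IsChiefFactor U V ∧ U ≤ Cfsg.pCore p G ∧ ¬ Cfsg.iterCommutator U (Subgroup.zpowers u) (p - 1) ≤ V := by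
  refine main (isSylowIn_top S) h𝓦 hne (fun X _ _ hX hlt => ?_) hG ?_ hM
  · obtain ⟨K, R, hR, h, ⟨e⟩⟩ := hX.exists_equiv_of_card_lt hlt
    exact CtlT.of_equiv h𝓦 e (hsec K R h)
  · rw [hT, famFocal, iSup_image]
    simp only [top_inf_eq]

end Cfsg.Agent.S1998
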