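import Cfsg.Statements.S1984
import Cfsg.Agent.S1972
import Cfsg.Agent.S1983

set_option autoImplicit false
universe u
open Cfsg

namespace Cfsg.Agent.S1984

open Cfsg.Agent.H9

open Subgroup

theorem main {G : Type u} [Group G] [Finite G] {p : ℕ} [Fact p.Prime] (hp : 5 ≤ p) :
    CtlT p {kInfLower} G ∧ CtlT p {kInfUpper} G := by
  obtain ⟨K, R, hR, -, ⟨e⟩⟩ := (Sec.refl G).exists_equiv
  have key : ∀ (X : Type u) [Group X] [Finite X] (T : Sylow p X),
      ¬ (inducedFunctor kInfLower (T : Subgroup X)).Normal ∨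
        ¬ (inducedFunctor kInfUpper (T : Subgroup X)).Normal →
      ∃ g : X, g ∈ (T : Subgroup X) ∧ g ∉ pCore p X ∧ ∀ U V : Subgroup X, IsChiefFactor U V →
        U ≤ pCore p X → iterCommutator U (zpowers g) (p - 1) ≤ V := by
    intro X _ _ T h
    obtain ⟨g, h1, h2, h3, -⟩ := S1983.result T h
    refine ⟨g, h1, h2, fun U V hc hU => le_trans (iterCommutator_anti ?_ (by omega)) (h3 U V hc hU)⟩
    have := hc.2.1
    exact le_normalizer_of_normal
  exact ⟨CtlT.of_equiv (single_cf (isCharPFunctor_kInfLower p)) e (ctlT_single_iff.2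
      (S1972.result _ (isCharPFunctor_kInfLower p) (fun K R _ _ T h => key _ T (Or.inl h)) K R)),
    CtlT.of_equiv (single_cf (isCharPFunctor_kInfUpper p)) e (ctlT_single_iff.2
      (S1972.result _ (isCharPFunctor_kInfUpper p) (fun K R _ _ T h => key _ T (Or.inr h)) K R))⟩


/-- Let p ≥ 5 be a prime and G a finite group. Then the lower K-infinity subgroup controls transfer in G: for some (equivalently, every) Sylow p-subgroup S of G, S ∩ G' = S ∩ (N_G(K))', where K is the lower K-infinity subgroup of S. -/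
theorem result {G : Type u} [Group G] [Finite G] {p : ℕ} [Fact p.Prime] (hp : 5 ≤ p) : Cfsg.ControlsTransferIn p (Cfsg.inducedFunctor (G := G) Cfsg.kInfLower) ⊤ := by
  exact ctlT_single_iff.1 (main hp).1

end Cfsg.Agent.S1984
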