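import Cfsg.Statements.S2001
import Cfsg.Agent.H9.WC

set_option autoImplicit false
open Cfsg

namespace Cfsg.Agent.S2001

open Cfsg.Agent.H9

open Subgroup


/-- Let p be a prime dividing the order of the finite group G, P a Sylow p-subgroup, W a conjugacy functor for p on G with Z(H) ≤ W(H) for every nontrivial p-subgroup H, and V a central functor: a conjugacy functor with V(H) ≤ Z(H), and V(H) ≤ V(K) whenever Z(H) ≤ Z(K), for nontrivial p-subgroups H, K. Say that W with V controls transfer in a subgroup L when some Sylow p-subgroup Q of L satisfies Q ∩ L' = (Q ∩ (N_L(W(Q)))')·(Q ∩ (C_L(V(Q)))') as a product of two subgroups. If W with V controls transfer in N_G(H) for every subgroup H with Z(P) ≤ H ≤ P, then W with V controls transfer in G. -/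
theorem result {G : Type*} [Group G] [Finite G] {p : ℕ} [Fact p.Prime] (hdiv : p ∣ Nat.card G) (P : Sylow p G) (W V : Subgroup G → Subgroup G) (hW : Cfsg.IsConjugacyFunctor p W) (hV : Cfsg.IsConjugacyFunctor p V) (hWZ : ∀ H : Subgroup G, IsPGroup p ↥H → H ⊓ Subgroup.centralizer ((H : Subgroup G) : Set G) ≤ W H) (hVZ : ∀ H : Subgroup G, IsPGroup p ↥H → V H ≤ H ⊓ Subgroup.centralizer ((H : Subgroup G) : Set G)) (hVmono : ∀ H K : Subgroup G, IsPGroup p ↥H → IsPGroup p ↥K → H ≠ ⊥ → K ≠ ⊥ → H ⊓ Subgroup.centralizer ((H : Subgroup G) : Set G) ≤ K ⊓ Subgroup.centralizer ((K : Subgroup G) : Set G) → V H ≤ V K) (hloc : ∀ H : Subgroup G, (P : Subgroup G) ⊓ Subgroup.centralizer (((P : Subgroup G) : Subgroup G) : Set G) ≤ H → H ≤ (P : Subgroup G) → ∃ Q : Subgroup G, Q ≤ Subgroup.normalizer ((H : Subgroup G) : Set G) ∧ IsPGroup p ↥Q ∧ ¬ p ∣ (Q).relIndex (Subgroup.normalizer ((H : Subgroup G) : Set G)) ∧ ∀ x : G, x ∈ Q ⊓ ⁅Subgroup.normalizer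 ((H : Subgroup G) : Set G), Subgroup.normalizer ((H : Subgroup G) : Set G)⁆ ↔ ∃ a ∈ Q ⊓ ⁅Subgroup.normalizer ((H : Subgroup G) : Set G) ⊓ Subgroup.normalizer ((W Q : Subgroup G) : Set G), Subgroup.normalizer ((H : Subgroup G) : Set G) ⊓ Subgroup.normalizer ((W Q : Subgroup G) : Set G)⁆, ∃ b ∈ Q ⊓ ⁅Subgroup.normalizer ((H : Subgroup G) : Set G) ⊓ Subgroup.centralizer ((V Q : Subgroup G) : Set G), Subgroup.normalizer ((H : Subgroup G) : Set G) ⊓ Subgroup.centralizer ((V Q : Subgroup G) : Set G)⁆, x = a * b) : ∃ Q : Subgroup G, IsPGroup p ↥Q ∧ ¬ p ∣ Q.index ∧ ∀ x : G, x ∈ Q ⊓ commutator G ↔ ∃ a ∈ Q ⊓ ⁅Subgroup.normalizer ((W Q : Subgroup G) : Set G), Subgroup.normalizer ((W Q : Subgroup G) : Set G)⁆, ∃ b ∈ Q ⊓ ⁅Subgroup.centralizer ((V Q : Subgroup G) : Set G), Subgroup.centralizer ((V Q : Subgroup G) : Set G)⁆, x = a * b := by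
  have hS := isSylowIn_top P
  have hP0 : (P : Subgroup G) ≠ ⊥ := P.ne_bot_of_dvd_card hdiv
  have hzc : zc (P : Subgroup G) ≠ ⊥ := by
    have := P.isPGroup'.isNilpotent
    exact H2.inf_centralizer_ne_bot_of_nilpotent le_rfl le_normalizer hP0
  refine ⟨P, P.isPGroup', P.not_dvd_index, fun x => ⟨fun hx => ?_, ?_⟩⟩
  swap
  · rintro ⟨a, ha, b, hb, rfl⟩
    exact ⟨mul_mem ha.1 hb.1, mul_mem (commutator_mono le_top le_top ha.2)
      (commutator_mono le_top le_top hb.2)⟩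
  have key := wp_focal hW hS
    ((P : Subgroup G) ⊓ ⁅normalizer (W P : Set G), normalizer (W P : Set G)⁆ ⊔
      (P : Subgroup G) ⊓ ⁅centralizer (V P : Set G), centralizer (V P : Set G)⁆)
    (fun U => zc (P : Subgroup G) ≤ U)
    (fun U hU _ hc => le_trans (inf_le_inf_left _ (centralizer_le hU)) hc)
    (fun U hU _ => (zc_le_inf_normalizer hU.le).trans (hWZ _ P.isPGroup'.to_inf_left))
    (by rw [top_inf_eq]; exact le_sup_left) ?_
  · obtain ⟨a, ha, b, hb, he⟩ := (mem_sup_of_le_normalizer' (fun s hs => by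
      have := cf_le_normalizer hW P.isPGroup' hs.1
      exact mem_normalizer_inf (le_normalizer hs.1)
        (mem_normalizer_commutator (le_normalizer this) (le_normalizer this)))).1 (key hx)
    exact ⟨a, ha, b, hb, he.symm⟩
  intro U hU hΦ
  obtain ⟨Q', h1, h2, h3, h4⟩ := hloc U hΦ hU.le
  have hQ := hU.extremal
  unfold Extremal at hQ
  simp only [top_inf_eq] at hQ ⊢
  obtain ⟨n, hn, hnQ⟩ := IsSylowIn.exists_cj_eq ⟨h1, h2, h3⟩ hQ
  set Q := (P : Subgroup G) ⊓ normalizer (U : Set G) with hQdef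
  have hVQ : V P ≤ V Q := hVmono _ _ P.isPGroup' hQ.isPGroup hP0
    (fun h => hzc (le_bot_iff.1 (h ▸ (zc_le_inf_normalizer hU.le).trans inf_le_left)))
    (zc_le_inf_normalizer hU.le)
  intro y hy
  have hy' : n⁻¹ * y * n ∈ Q' ⊓ ⁅normalizer (U : Set G), normalizer (U : Set G)⁆ := by
    rw [← mem_cj, cj_inf, hnQ, cj_commutator, cj_eq_of_mem hn]; exact hy
  obtain ⟨a, ha, b, hb, he⟩ := (h4 _).1 hy'
  have ha' := conj_mem_cj (g := n) ha
  have hb' := conj_mem_cj (g := n) hb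
  rw [cj_inf, cj_commutator, cj_inf, cj_eq_of_mem hn, cj_normalizer, ← cf_cj hW h2, hnQ] at ha'
  rw [cj_inf, cj_commutator, cj_inf, cj_eq_of_mem hn, cj_centralizer, ← cf_cj hV h2, hnQ] at hb'
  have e : y = (n * a * n⁻¹) * (n * b * n⁻¹) := by
    calc y = n * (n⁻¹ * y * n) * n⁻¹ := by group
      _ = _ := by rw [he]; group
  rw [e]
  refine mul_mem (mem_sup_right ⟨ha'.1, commutator_mono inf_le_right inf_le_right ha'.2⟩)
    (mem_sup_left (mem_sup_right ⟨hb'.1.1, ?_⟩))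
  exact commutator_mono (inf_le_right.trans (centralizer_le hVQ))
    (inf_le_right.trans (centralizer_le hVQ)) hb'.2

end Cfsg.Agent.S2001
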