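import Cfsg.Statements.S2002
import Cfsg.Agent.H9.WC

set_option autoImplicit false
open Cfsg

namespace Cfsg.Agent.S2002

open Cfsg.Agent.H9

open Subgroup

theorem fchain_of_list {G : Type*} [Group G] {E : Set G} {T A : Subgroup G} (l : List G)
    (h1 : ∀ x ∈ l, x⁻¹ ∈ E) (h2 : ∀ k ≤ l.length, cj ((l.take k).prod)⁻¹ A ≤ T) :
    FChain E T A (l.prod)⁻¹ := by
  have : ∀ k ≤ l.length, FChain E T A ((l.take k).prod)⁻¹ := by
    intro k
    induction k with
    | zero =>
      intro _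
      have := h2 0 (Nat.zero_le _)
      simp only [List.take_zero, List.prod_nil, inv_one, cj_one] at this ⊢
      exact .one this
    | succ k ih =>
      intro hk
      have h3 := h2 _ hk
      rw [List.prod_take_succ l k hk, mul_inv_rev] at h3 ⊢
      exact .step (ih (by omega)) (h1 _ (List.getElem_mem _)) h3
  simpa using this _ le_rfl

theorem list_of_fchain {G : Type*} [Group G] {E : Set G} {T A : Subgroup G} {c : G}
    (h : FChain E T A c) : ∃ l : List G, (∀ x ∈ l, x⁻¹ ∈ E) ∧ l.prod = c⁻¹ ∧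
      ∀ k, cj ((l.take k).prod)⁻¹ A ≤ T := by
  induction h with
  | one h => exact ⟨[], by simp, by simp, fun k => by simpa [cj_one] using h⟩
  | @step c x _ hx h ih =>
    obtain ⟨l, h1, h2, h3⟩ := ih
    refine ⟨l ++ [x⁻¹], ?_, by simp [h2], fun k => ?_⟩
    · intro y hy
      rcases List.mem_append.1 hy with hy | hy
      · exact h1 y hy
      · rw [List.mem_singleton.1 hy, inv_inv]; exact hx
    · rcases le_or_gt k l.length with hk | hk
      · rw [List.take_append_of_le_length hk]; exact h3 k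
      · rw [List.take_of_length_le (by simpa using hk)]
        simpa [h2] using h


/-- Let p be a prime dividing the order of the finite group G, P a Sylow p-subgroup, W a conjugacy functor for p on G with Z(H) ≤ W(H) for every nontrivial p-subgroup H, and V a central functor (a conjugacy functor with V(H) ≤ Z(H), and V(H) ≤ V(K) whenever Z(H) ≤ Z(K)). Say that W with V controls strong fusion in a subgroup L when some Sylow p-subgroup Q of L has the property: whenever X ⊆ Q and a ∈ L with a⁻¹Xa ⊆ Q, then a = c b with c ∈ C_L(X) and b = b₁ ⋯ bₙ a product of elements each in N_L(W(Q)) or in C_L(V(Q)) such that every partial conjugate (b₁ ⋯ bₖ)⁻¹ X (b₁ ⋯ bₖ) lies in Q. If W with V controls strong fusion in N_G(H) for every subgroup H with Z(P) ≤ H ≤ P, then W with V controls strong fusion in G. -/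
theorem result {G : Type*} [Group G] [Finite G] {p : ℕ} [Fact p.Prime] (hdiv : p ∣ Nat.card G) (P : Sylow p G) (W V : Subgroup G → Subgroup G) (hW : Cfsg.IsConjugacyFunctor p W) (hV : Cfsg.IsConjugacyFunctor p V) (hWZ : ∀ H : Subgroup G, IsPGroup p ↥H → H ⊓ Subgroup.centralizer ((H : Subgroup G) : Set G) ≤ W H) (hVZ : ∀ H : Subgroup G, IsPGroup p ↥H → V H ≤ H ⊓ Subgroup.centralizer ((H : Subgroup G) : Set G)) (hVmono : ∀ H K : Subgroup G, IsPGroup p ↥H → IsPGroup p ↥K → H ≠ ⊥ → K ≠ ⊥ → H ⊓ Subgroup.centralizer ((H : Subgroup G) : Set G) ≤ K ⊓ Subgroup.centralizer ((K : Subgroup G) : Set G) → V H ≤ V K) (hloc : ∀ H : Subgroup G, (P : Subgroup G) ⊓ Subgroup.centralizer (((P : Subgroup G) : Subgroup G) : Set G) ≤ H → H ≤ (P : Subgroup G) → ∃ Q : Subgroup G, Q ≤ Subgroup.normalizer ((H : Subgroup G) : Set G) ∧ IsPGroup p ↥Q ∧ ¬ p ∣ (Q).relIndex (Subgroup.normalizer ((H : Subgroup G) : Set G)) ∧ ∀ (X : Set G) (a : G), X ⊆ Q → a ∈ Subgroup.normalizer ((H :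 Subgroup G) : Set G) → (fun x => a⁻¹ * x * a) '' X ⊆ Q → ∃ c ∈ Subgroup.normalizer ((H : Subgroup G) : Set G) ⊓ Subgroup.centralizer X, ∃ (n : ℕ) (b : Fin n → G), (∀ i, b i ∈ Subgroup.normalizer ((H : Subgroup G) : Set G) ⊓ Subgroup.normalizer ((W Q : Subgroup G) : Set G) ∨ b i ∈ Subgroup.normalizer ((H : Subgroup G) : Set G) ⊓ Subgroup.centralizer ((V Q : Subgroup G) : Set G)) ∧ a = c * (List.ofFn b).prod ∧ ∀ k : ℕ, k ≤ n → (fun x => (((List.ofFn b).take k).prod)⁻¹ * x * ((List.ofFn b).take k).prod) '' ((fun x => c⁻¹ * x * c) '' X) ⊆ Q) : ∃ Q : Subgroup G, IsPGroup p ↥Q ∧ ¬ p ∣ Q.index ∧ ∀ (X : Set G) (a : G), X ⊆ Q → (fun x => a⁻¹ * x * a) '' X ⊆ Q → ∃ c ∈ Subgroup.centralizer X, ∃ (n : ℕ) (b : Fin n → G), (∀ i, b i ∈ ⊤ ⊓ Subgroup.normalizer ((W Q : Subgroup G) : Set G) ∨ b i ∈ ⊤ ⊓ Subgroup.centralizer ((V Q : Subgroup G) : Set G)) ∧ a = c * (List.ofFn b).prod ∧ ∀ k : ℕ, k ≤ n → (fun x => (((List.ofFn b).take k).prod)⁻¹ * x * ((List.ofFn b).take k).prod)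 '' ((fun x => c⁻¹ * x * c) '' X) ⊆ Q := by
  have hS := isSylowIn_top P
  have hP0 : (P : Subgroup G) ≠ ⊥ := P.ne_bot_of_dvd_card hdiv
  have hzc : zc (P : Subgroup G) ≠ ⊥ := by
    have := P.isPGroup'.isNilpotent
    exact H2.inf_centralizer_ne_bot_of_nilpotent le_rfl le_normalizer hP0
  have key := wp_fctl hW hS
    ((normalizer (W P : Set G) : Set G) ∪ (centralizer (V P : Set G) : Set G))
    (fun U => zc (P : Subgroup G) ≤ U)
    (fun U hU _ hc => le_trans (inf_le_inf_left _ (centralizer_le hU)) hc)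
    (fun U hU _ => (zc_le_inf_normalizer hU.le).trans (hWZ _ P.isPGroup'.to_inf_left))
    (by rw [top_inf_eq]; exact Set.subset_union_left) ?_
  · refine ⟨P, P.isPGroup', P.not_dvd_index, fun X a hX haX => ?_⟩
    obtain ⟨d, hd, he⟩ := key (closure X) ((closure_le _).2 hX) a⁻¹ trivial
      (image_subset_iff_cj_closure_le.1 (by simpa using haX))
    obtain ⟨l, h1, h2, h3⟩ := list_of_fchain hd
    have hc : a * d ∈ centralizer X := by
      intro x hx
      have := he x (subset_closure hx)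
      calc x * (a * d) = a * (a⁻¹ * x * a⁻¹⁻¹) * d := by group
        _ = a * (d * x * d⁻¹) * d := by rw [this]
        _ = _ := by group
    refine ⟨a * d, hc, l.length, l.get, fun i => ?_, by rw [List.ofFn_get, h2]; group,
      fun k _ => ?_⟩
    · rcases h1 _ (List.get_mem l i) with h | h
      · exact Or.inl ⟨trivial, (Subgroup.inv_mem_iff _).1 h⟩
      · exact Or.inr ⟨trivial, (Subgroup.inv_mem_iff _).1 h⟩
    · rw [List.ofFn_get]
      rintro _ ⟨_, ⟨x, hx, rfl⟩, rfl⟩
      have h4 := cj_le_iff.1 (h3 k) x (subset_closure hx)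
      have h5 : (a * d)⁻¹ * x * (a * d) = x := by rw [mul_assoc, hc x hx]; group
      simp only [h5]
      rwa [inv_inv] at h4
  intro U hU hΦ
  obtain ⟨Q', h1, h2, h3, h4⟩ := hloc U hΦ hU.le
  have hQ := hU.extremal
  unfold Extremal at hQ
  simp only [top_inf_eq] at hQ ⊢
  obtain ⟨n, hn, hnQ⟩ := IsSylowIn.exists_cj_eq ⟨h1, h2, h3⟩ hQ
  set Q := (P : Subgroup G) ⊓ normalizer (U : Set G) with hQdef
  have hVQ : V P ≤ V Q := hVmono _ _ P.isPGroup' hQ.isPGroup hP0
    (fun h => hzc (le_bot_iff.1 (h ▸ (zc_le_inf_normalizer hU.le).trans inf_le_left)))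
    (zc_le_inf_normalizer hU.le)
  have h5 : FCtl ((normalizer (W Q' : Set G) : Set G) ∪ (centralizer (V Q' : Set G) : Set G)) Q'
      (normalizer (U : Set G)) := by
    intro A hA g hg hgA
    obtain ⟨c, hc, m, b, hb, he, hk⟩ := h4 A g⁻¹ hA (inv_mem hg) (by
      rw [inv_inv]; exact hgA)
    have hcA : ∀ x ∈ A, c⁻¹ * x * c = x := fun x hx => by rw [mul_assoc, hc.2 x hx]; group
    refine ⟨_, fchain_of_list (List.ofFn b) ?_ (fun k hk' => ?_), fun x hx => ?_⟩
    · intro x hx
      obtain ⟨i, rfl⟩ := List.mem_ofFn.1 hx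
      rcases hb i with h | h
      · exact Or.inl (inv_mem h.2)
      · exact Or.inr (inv_mem h.2)
    · rw [cj_le_iff]
      intro x hx
      have := hk k (by simpa using hk') ⟨_, ⟨x, hx, rfl⟩, rfl⟩
      simp only [hcA x hx] at this
      simpa using this
    · have : g = (List.ofFn b).prod⁻¹ * c⁻¹ := by rw [← mul_inv_rev, ← he, inv_inv]
      rw [this]
      conv_lhs => rw [← hcA x hx]
      group
  have h6 := h5.cj n
  rw [hnQ, cj_eq_of_mem hn] at h6
  refine h6.mono_set ?_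
  rintro _ ⟨y, hy | hy, rfl⟩
  · right
    have := conj_mem_cj (g := n) hy
    rwa [cj_normalizer, ← cf_cj hW h2, hnQ] at this
  · left; right
    have := conj_mem_cj (g := n) hy
    rw [cj_centralizer, ← cf_cj hV h2, hnQ] at this
    exact centralizer_le hVQ this

end Cfsg.Agent.S2002
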