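import Cfsg.Statements.S2015
import Cfsg.Agent.S1984

set_option autoImplicit false
universe u
open Cfsg

namespace Cfsg.Agent.S2015

open Cfsg.Agent.H9

open Subgroup


/-- For p ≥ 5, every finite p-group P has a characteristic subgroup K containing Z(P), depending only on P, whose normalizer controls transfer wherever P is a Sylow subgroup: for every finite group G and every embedding ι of P onto a Sylow p-subgroup of G, the intersection of ι(P) with the derived subgroup of G equals its intersection with the derived subgroup of N_G(ι(K)). -/
theorem result (p : ℕ) [Fact p.Prime] (hp : 5 ≤ p) (P : Type u) [Group P] [Finite P] (hP : IsPGroup p P) : ∃ K : Subgroup P, K.Characteristic ∧ Subgroup.center P ≤ K ∧ ∀ (G : Type u) [Group G] [Finite G] (ι : P →* G), Function.Injective ι → (∃ T : Sylow p G, (T : Subgroup G) = ι.range) → ι.range ⊓ commutator G = ι.range ⊓ (commutator ↥(Subgroup.normalizer ((K.map ι : Subgroup G) : Set G))).map (Subgroup.normalizer ((K.map ι : Subgroup G) : Set G)).subtype := by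
  refine ⟨kInfLower P, characteristic_iff_map_eq.2 fun e => (map_kInf_equiv e).1,
    (center_le_kInf P).1, ?_⟩
  rintro G _ _ ι hι ⟨T, hT⟩
  have h1 := (S1984.main (G := G) hp).1.single_le (isCharPFunctor_kInfLower p) (isSylowIn_top T)
  have h2 : inducedFunctor kInfLower ι.range = (kInfLower P).map ι := by
    unfold inducedFunctor
    rw [← (map_kInf_equiv (MonoidHom.ofInjective hι)).1, Subgroup.map_map]
    rfl
  rw [hT, h2] at h1
  rw [Subgroup.map_subtype_commutator]
  exact le_antisymm (le_inf inf_le_left h1) (inf_le_inf_left _ (commutator_mono le_top le_top))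

end Cfsg.Agent.S2015
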