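import Cfsg.Statements.S2553
import Cfsg.Agent.H4.A8
import Cfsg.Agent.L.PSolv
import Cfsg.Agent.H9.Burnside

set_option autoImplicit false
open Cfsg

set_option maxRecDepth 100000

namespace Cfsg.Agent.S2553

open Cfsg.Agent.H4 MulAction Equiv


/-- No nontrivial solvable normal subgroup. -/
def Rad0 (H : Type*) [Group H] : Prop := ∀ N : Subgroup H, N.Normal → Group.IsSolvable N → N = ⊥

theorem Rad0.of_equiv {H H' : Type*} [Group H] [Group H'] (h : Rad0 H) (e : H ≃* H') : Rad0 H' := by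
  intro N hN hs
  have h1 := h (N.comap e.toMonoidHom) (hN.comap _)
    (Group.isSolvable_of_isSolvable_injective (f := e.toMonoidHom.subgroupComap N)
      fun a b hab => Subtype.ext (e.injective (congrArg Subtype.val hab)))
  rw [← Subgroup.map_comap_eq_self_of_surjective (f := e.toMonoidHom) e.surjective N, h1,
    Subgroup.map_bot]

theorem rad0_of_cores {H : Type*} [Group H] [Finite H] (hO : pPrimeCore 2 H = ⊥)
    (hO2 : pCore 2 H = ⊥) : Rad0 H := by
  intro N hN hs
  by_contra hb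
  have := (Subgroup.nontrivial_iff_ne_bot _).2 hb
  rcases L.core_ne_bot_of_isPSolvable (L.isPSolvable_of_isSolvable (G := N) 2) with h | h
  · have := (L.pClass 2).radOf_le_rad_of_isSubnormal (L := N) hN.isSubnormal
    rw [← L.pCore_eq_rad, hO2, le_bot_iff] at this
    exact h ((Subgroup.map_eq_bot_iff_of_injective _ (Subgroup.subtype_injective _)).1 this)
  · have := (L.p'Class 2).radOf_le_rad_of_isSubnormal (L := N) hN.isSubnormal
    rw [← L.pPrimeCore_eq_rad, hO, le_bot_iff] at this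
    exact h ((Subgroup.map_eq_bot_iff_of_injective _ (Subgroup.subtype_injective _)).1 this)

theorem card_sylow {G : Type*} [Group G] [Finite G] {p : ℕ} [Fact p.Prime] (P : Sylow p G)
    (h1 : p ∣ Nat.card G) (h2 : ¬ p ^ 2 ∣ Nat.card G) : Nat.card P = p := by
  obtain ⟨n, hn⟩ := P.2.exists_card_eq
  have h3 := (P : Subgroup G).card_mul_index
  have h4 : n ≠ 0 := by
    rintro rfl
    rw [hn, pow_zero, one_mul] at h3
    exact P.not_dvd_index (h3 ▸ h1)
  have h5 : ¬ 2 ≤ n := fun h => h2 ((pow_dvd_pow p h).trans (hn ▸ Dvd.intro _ h3))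
  rw [hn, show n = 1 by omega, pow_one]

theorem exists_mem_orderOf {G : Type*} [Group G] [Finite G] {p : ℕ} [Fact p.Prime]
    (P : Subgroup G) (h : p ∣ Nat.card P) : ∃ x ∈ P, orderOf x = p := by
  obtain ⟨x, hx⟩ := exists_prime_orderOf_dvd_card' p h
  exact ⟨x, x.2, by rw [← hx, Subgroup.orderOf_coe]⟩

theorem seven {H : Type*} [Group H] [Finite H] (f : H →* alternatingGroup (Fin 8))
    (hf : Function.Injective f) (h7 : 7 ∣ Nat.card H) (hr : Rad0 H) (hodd : 2 ∣ Nat.card H) :
    Nat.card H = 168 ∨ Nat.card H = 1344 ∨ Nat.card H = 2520 ∨ Nat.card H = 20160 := by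
  have := Fact.mk (show Nat.Prime 7 by norm_num)
  have := Fact.mk (show Nat.Prime 5 by norm_num)
  have hd : Nat.card H ∣ 20160 := card_A8 ▸ Subgroup.card_dvd_of_injective f hf
  obtain ⟨P⟩ : Nonempty (Sylow 7 H) := inferInstance
  have hP := card_sylow P h7 fun h => by have := h.trans hd; norm_num at this
  obtain ⟨x, hx, hx7⟩ := exists_mem_orderOf (p := 7) (P : Subgroup H) hP.symm.dvd
  have hP' : Nat.card ((P : Subgroup H).map f) = 7 := by rw [Subgroup.card_map_of_injective hf, hP]
  let P' : Sylow 7 (alternatingGroup (Fin 8)) := Sylow.ofCard ((P : Subgroup H).map f) (by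
    rw [hP', card_A8]; decide +kernel)
  have h1 := card_normalizer_dvd (alternatingGroup (Fin 8)).subtype Subtype.val_injective
    (by norm_num) _ hP' (Subgroup.mem_map_of_mem f hx)
  rw [card_centralizer_of_prime (p := 7) (by norm_num) (by norm_num)
    (by rw [orderOf_injective _ Subtype.val_injective, orderOf_injective f hf, hx7])] at h1
  have h2 := card_sylow_modEq_one 7 (alternatingGroup (Fin 8))
  rw [P'.card_eq_index_normalizer] at h2
  have h3 := (Subgroup.normalizer (P' : Set (alternatingGroup (Fin 8)))).index_mul_card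
  rw [card_A8] at h3
  have h4 : Nat.card (Subgroup.normalizer (P' : Set (alternatingGroup (Fin 8)))) = 21 := by
    have h5 : ∀ m ∈ Nat.divisors 42, (20160 / m) % 7 = 1 → 7 ∣ m → m = 21 := by decide
    refine h5 _ (Nat.mem_divisors.mpr ⟨h1, by norm_num⟩) ?_
      (hP'.symm.dvd.trans (Subgroup.card_dvd_of_le Subgroup.le_normalizer))
    rw [← h3, Nat.mul_div_cancel _ Nat.card_pos]
    exact h2
  have h5 : Nat.card (Subgroup.normalizer (P : Set H)) ∣ 21 := by
    rw [← h4, ← Subgroup.card_map_of_injective hf]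
    exact Subgroup.card_dvd_of_le (Subgroup.le_normalizer_map f)
  have h6 : 7 ∣ Nat.card (Subgroup.normalizer (P : Set H)) :=
    hP.symm.dvd.trans (Subgroup.card_dvd_of_le Subgroup.le_normalizer)
  have h8 : ∀ m ∈ Nat.divisors 21, 7 ∣ m → m = 7 ∨ m = 21 := by decide
  rcases h8 _ (Nat.mem_divisors.mpr ⟨h5, by norm_num⟩) h6 with h9 | h9
  · exfalso
    have h10 : (P : Subgroup H) = Subgroup.normalizer (P : Set H) :=
      Subgroup.eq_of_le_of_card_ge Subgroup.le_normalizer (h9.trans hP.symm).le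
    have := isCyclic_of_prime_card hP
    have h11 : Subgroup.normalizer (P : Set H) ≤ Subgroup.centralizer (P : Set H) := by
      rw [← h10]; exact Subgroup.le_centralizer _
    have h12 := MonoidHom.ker_transferSylow_isComplement' P h11
    set M := (MonoidHom.transferSylow P h11).ker
    have h13 : M.index = 7 := h12.symm.index_eq_card.trans hP
    have h14 := M.card_mul_index
    rw [h13] at h14
    by_cases h15 : 5 ∣ Nat.card H
    · obtain ⟨Q⟩ : Nonempty (Sylow 5 H) := inferInstance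
      have hQ := card_sylow Q h15 fun h => by have := h.trans hd; norm_num at this
      obtain ⟨y, hy, hy5⟩ := exists_mem_orderOf (p := 5) (Q : Subgroup H) hQ.symm.dvd
      have h16 := card_normalizer_dvd ((alternatingGroup (Fin 8)).subtype.comp f)
        (Subtype.val_injective.comp hf) (by norm_num) _ hQ hy
      rw [card_centralizer_of_prime (p := 5) (by norm_num) (by norm_num)
        (by rw [orderOf_injective _ (Subtype.val_injective.comp hf), hy5])] at h16
      have h17 := Q.normalizer_sup_eq_top' (N := M)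
        (L.le_of_isPGroup_of_coprime_index Q.2 (by rw [h13]; norm_num))
      have h18 := L.card_sup_dvd (Subgroup.normalizer (Q : Set H)) M
      rw [h17, Subgroup.card_top, ← h14, mul_comm] at h18
      have := (Nat.dvd_of_mul_dvd_mul_right Nat.card_pos h18).trans h16
      norm_num [Nat.factorial] at this
    · have h16 : Nat.card M ∣ 2 ^ 6 * 3 ^ 2 := by
        refine (Nat.Coprime.dvd_mul_right (k := Nat.card M) (n := 5) ?_).mp ?_
        · exact ((Nat.Prime.coprime_iff_not_dvd (by norm_num)).mpr fun h =>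
            h15 (h.trans M.card_subgroup_dvd_card)).symm
        · exact Nat.dvd_of_mul_dvd_mul_right (show 0 < 7 by norm_num) (h14 ▸ hd)
      rw [hr M inferInstance (H9.burnside_pq Nat.prime_two Nat.prime_three h16),
        Subgroup.card_bot] at h14
      omega
  · have h10 := card_sylow_modEq_one 7 H
    rw [P.card_eq_index_normalizer] at h10
    have h11 := (Subgroup.normalizer (P : Set H)).index_mul_card
    rw [h9] at h11
    have h12 : ∀ n ∈ Nat.divisors 960, n % 7 = 1 → 2 ∣ n * 21 →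
      n = 8 ∨ n = 64 ∨ n = 120 ∨ n = 960 := by decide +kernel
    have := h12 _ (Nat.mem_divisors.mpr ⟨Nat.dvd_of_mul_dvd_mul_right (show 0 < 21 by norm_num)
      (h11 ▸ hd), by norm_num⟩) h10 (h11 ▸ hodd)
    omega

theorem five (H : Subgroup (Perm (Fin 8))) (hd : Nat.card H ∣ 20160) (h5 : 5 ∣ Nat.card H)
    (h7 : ¬ 7 ∣ Nat.card H) (hr : Rad0 H) : ∃ g : H →* Perm (Fin 6), Function.Injective g := by
  classical
  have := Fact.mk (show Nat.Prime 5 by norm_num)
  obtain ⟨b, hb, hb5⟩ := exists_mem_orderOf (p := 5) H h5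
  have h1 := cycleType_of_prime (by norm_num) (by norm_num) hb5
  have h2 : b.IsCycle := by rw [← Perm.card_cycleType_eq_one, h1]; rfl
  have h3 : b.support.card = 5 := by rw [← b.sum_cycleType, h1]; rfl
  obtain ⟨y, hy, -⟩ := id h2
  have h4 : (b.support : Set (Fin 8)) ⊆ orbit H y := fun z hz => by
    obtain ⟨k, hk⟩ := h2.exists_zpow_eq hy (Perm.mem_support.mp hz)
    exact ⟨⟨b ^ k, H.zpow_mem hb k⟩, hk⟩
  have h6 : (orbit H y).ncard ≤ 6 := by
    have h8 : (orbit H y).ncard ≠ 7 := fun h => h7 (by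
      rw [← h, ← index_stabilizer]; exact Subgroup.index_dvd_card _)
    have h9 : (orbit H y).ncard ≠ 8 := fun h => h7 (by
      have : IsPretransitive H (Fin 8) := (isPretransitive_iff_orbit_eq_univ y).mpr
        ((Set.eq_univ_iff_ncard _).mpr (by simpa using h))
      have h10 := (isMultiplyPretransitive_of_prime (m := 2) (by norm_num) (by norm_num) rfl H hb5
        hb).index_of_fixingSubgroup_mul (s := {0, 1, 2, 3}) (by
          rw [Set.ncard_eq_toFinset_card']; decide)
      have h11 : (fixingSubgroup H ({0, 1, 2, 3} : Set (Fin 8))).index = 1680 := by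
        simp [Nat.factorial] at h10; omega
      exact (show 7 ∣ 1680 by norm_num).trans (h11 ▸ Subgroup.index_dvd_card _))
    have h10 := Set.ncard_le_card (orbit H y)
    simp at h10
    omega
  have h8 : (toPermHom H (orbit H y)).ker = ⊥ := by
    refine hr _ inferInstance (H9.burnside_pq (a := 6) (b := 2) Nat.prime_two Nat.prime_three ?_)
    have h9 : ¬ 5 ∣ Nat.card (toPermHom H (orbit H y)).ker := fun h => by
      obtain ⟨c, hc, hc5⟩ := exists_mem_orderOf _ h
      have h10 : (c : Perm (Fin 8)).support.card = 5 := by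
        rw [← Perm.sum_cycleType, cycleType_of_prime (by norm_num) (by norm_num)
          ((Subgroup.orderOf_coe c).trans hc5)]; rfl
      have h11 : Disjoint b.support (c : Perm (Fin 8)).support := by
        rw [Finset.disjoint_left]
        intro z hz hz'
        exact Perm.mem_support.mp hz' (congrArg Subtype.val (Perm.congr_fun hc ⟨z, h4 hz⟩))
      have := Finset.card_le_univ (b.support.disjUnion _ h11)
      rw [Finset.card_disjUnion, h3, h10] at this
      simp at this
    have h10 := (Subgroup.card_subgroup_dvd_card (toPermHom H (orbit H y)).ker)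
    refine (Nat.Coprime.dvd_mul_right (n := 35) ?_).mp (h10.trans hd)
    exact Nat.Coprime.mul_right (m := 5) (n := 7)
      ((Nat.Prime.coprime_iff_not_dvd (by norm_num)).mpr h9).symm
      ((Nat.Prime.coprime_iff_not_dvd (by norm_num)).mpr fun h => h7 (h.trans h10)).symm
  obtain ⟨ι⟩ : Nonempty (orbit H y ↪ Fin 6) := by
    apply Function.Embedding.nonempty_of_card_le
    rw [← Nat.card_eq_fintype_card, Nat.card_coe_set_eq]
    simpa using h6
  exact ⟨(Perm.viaEmbeddingHom ι).comp (toPermHom H (orbit H y)),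
    (Perm.viaEmbeddingHom_injective ι).comp ((MonoidHom.ker_eq_bot_iff _).mp h8)⟩

theorem six (H : Subgroup (Perm (Fin 6))) (h5 : 5 ∣ Nat.card H) (hr : Rad0 H) :
    Nonempty (H ≃* alternatingGroup (Fin 5)) ∨ Nonempty (H ≃* alternatingGroup (Fin 6)) ∨
      Nonempty (H ≃* Perm (Fin 5)) ∨ Nonempty (H ≃* Perm (Fin 6)) := by
  have hA : Nat.card (alternatingGroup (Fin 6)) = 360 := card_alt_fin 6 (by norm_num)
  have : IsSimpleGroup (alternatingGroup (Fin 6)) := alternatingGroup.isSimpleGroup (by simp)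
  set H0 := (alternatingGroup (Fin 6)).subgroupOf H
  set K := H.subgroupOf (alternatingGroup (Fin 6))
  have h1 : Nat.card K = Nat.card H0 := by
    rw [L.card_subgroupOf, L.card_subgroupOf, inf_comm]
  have h2 : H0.index ∣ 2 := by
    rw [← alternatingGroup.index_eq_two (α := Fin 6)]
    exact Subgroup.relIndex_dvd_index_of_normal _ _
  have h3 := H0.index_mul_card
  have h4 := K.index_mul_card
  rw [hA, h1] at h4
  have h6 : 5 ∣ Nat.card H0 := by
    refine (Nat.Coprime.dvd_mul_left ?_).mp (h3 ▸ h5)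
    exact Nat.Coprime.coprime_dvd_right h2 (by norm_num)
  have h7 : ¬ Group.IsSolvable H0 := fun h => by
    rw [hr H0 inferInstance h] at h6
    simp at h6
  have h8 : ∀ m ∈ Nat.divisors 360, 5 ∣ m → ¬ m ∣ 2 ^ 3 * 5 ^ 1 → ¬ m ∣ 3 ^ 2 * 5 ^ 1 → m ≠ 30 →
      (360 / m ≠ 1 → 360 ∣ (360 / m).factorial) → m = 60 ∨ m = 360 := by decide +kernel
  have h9 : 360 / Nat.card H0 = K.index := by rw [← h4, Nat.mul_div_cancel _ Nat.card_pos]
  have h10 := h8 (Nat.card H0) (Nat.mem_divisors.mpr ⟨Dvd.intro_left _ h4, by norm_num⟩) h6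
    (fun h => h7 (H9.burnside_pq Nat.prime_two Nat.prime_five h))
    (fun h => h7 (H9.burnside_pq Nat.prime_three Nat.prime_five h))
    (fun h => h7 (by
      have : IsZGroup H0 := IsZGroup.of_squarefree (by rw [h]; decide +kernel)
      infer_instance))
    (by rw [h9, ← hA]; exact card_dvd_factorial_of_simple)
  have h11 := H.index_mul_card
  rw [card_perm_fin, ← h3] at h11
  rcases (Nat.dvd_prime Nat.prime_two).mp h2 with h12 | h12
  · have h13 : H ≤ alternatingGroup (Fin 6) :=
      Subgroup.subgroupOf_eq_top.mp (Subgroup.index_eq_one.mp h12)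
    have e := Subgroup.subgroupOfEquivOfLe h13
    rcases h10 with h10 | h10
    · obtain ⟨e'⟩ := equiv_alt_of_index K (n := 5) (by norm_num) (by rw [h10] at h4; omega) (by rw [h1, h10]; rfl)
      exact Or.inl ⟨e.symm.trans e'⟩
    · have h14 : K = ⊤ := Subgroup.index_eq_one.mp (by rw [h10] at h4; omega)
      exact Or.inr (Or.inl ⟨e.symm.trans ((MulEquiv.subgroupCongr h14).trans Subgroup.topEquiv)⟩)
  · rw [h12, show Nat.factorial 6 = 720 from rfl] at h11
    rcases h10 with h10 | h10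
    · exact Or.inr (Or.inr (Or.inl (equiv_perm_of_index (n := 5) (by norm_num) H (by
        rw [h10] at h11; omega))))
    · have h14 : H = ⊤ := Subgroup.index_eq_one.mp (by rw [h10] at h11; omega)
      exact Or.inr (Or.inr (Or.inr ⟨(MulEquiv.subgroupCongr h14).trans Subgroup.topEquiv⟩))

/-- The lower right block. -/
theorem block (H : Subgroup (GL (Fin 4) (ZMod 2))) (hr : Rad0 H)
    (h0 : ∀ g ∈ H, (g : Matrix (Fin 4) (Fin 4) (ZMod 2)) 0 0 = 1)
    (h : ∀ g ∈ H, ∀ k ∈ H, ∀ i j : Fin 3, (g : Matrix (Fin 4) (Fin 4) (ZMod 2)) i.succ 0 *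
      (k : Matrix (Fin 4) (Fin 4) (ZMod 2)) 0 j.succ = 0) :
    ∃ g : H →* GL (Fin 3) (ZMod 2), Function.Injective g := by
  let φ : H →* Matrix (Fin 3) (Fin 3) (ZMod 2) :=
    { toFun := fun g => (g.1 : Matrix (Fin 4) (Fin 4) (ZMod 2)).submatrix Fin.succ Fin.succ
      map_one' := by ext i j; simp [Matrix.one_apply]
      map_mul' := fun g k => by
        ext i j
        simp only [Subgroup.coe_mul, Units.val_mul, Matrix.submatrix_apply, Matrix.mul_apply]
        rw [Fin.sum_univ_succ, h g g.2 k k.2, zero_add] }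
  refine ⟨φ.toHomUnits, (MonoidHom.ker_eq_bot_iff _).mp (hr _ inferInstance ?_)⟩
  have h1 : IsPGroup 2 φ.toHomUnits.ker := by
    rintro ⟨g, hg⟩
    refine ⟨1, Subtype.ext (Subtype.ext (Units.ext ?_))⟩
    have h2 : ∀ i j : Fin 3, (g.1 : Matrix (Fin 4) (Fin 4) (ZMod 2)) i.succ j.succ =
        (1 : Matrix (Fin 3) (Fin 3) (ZMod 2)) i j := fun i j =>
      congrFun (congrFun (show φ g = 1 from congrArg Units.val hg) i) j
    have h3 := h g g.2 g g.2
    have h4 := h0 g g.2
    have h5 : ∀ a : ZMod 2, a + a = 0 := by decide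
    show (g.1 ^ 2 ^ 1 : GL (Fin 4) (ZMod 2)).val = 1
    rw [pow_one, pow_two, Units.val_mul]
    ext i j
    rw [Matrix.mul_apply, Fin.sum_univ_succ]
    refine Fin.cases ?_ (fun i => ?_) i <;> refine Fin.cases ?_ (fun j => ?_) j
    · simp only [h4, mul_comm ((g.1 : Matrix (Fin 4) (Fin 4) (ZMod 2)) 0 (Fin.succ _)), h3]
      simp
    · simp [h4, h2, Matrix.one_apply, h5, (Fin.succ_ne_zero j).symm]
    · simp [h4, h2, Matrix.one_apply, h5]
    · simp only [h3, h2, zero_add]
      simp [Matrix.one_apply]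
  have := h1.isNilpotent
  infer_instance

/-- An element of order seven. -/
def c0 : Matrix (Fin 4) (Fin 4) (ZMod 2) := !![1, 0, 0, 0; 0, 0, 0, 1; 0, 1, 0, 1; 0, 0, 1, 0]

theorem c0_pow : c0 ^ 7 = 1 := by decide +kernel

/-- The element as a unit. -/
def c1 : GL (Fin 4) (ZMod 2) := ⟨c0, c0 ^ 6, by rw [← pow_succ', c0_pow], by rw [← pow_succ, c0_pow]⟩

theorem orderOf_c1 : orderOf c1 = 7 := by
  have := Fact.mk (show Nat.Prime 7 by norm_num)
  refine orderOf_eq_prime (Units.ext c0_pow) fun h => ?_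
  have : c0 = 1 := congrArg Units.val h
  revert this; decide +kernel

theorem orb (x y : Fin 4 → ZMod 2) (h0 : x 0 = y 0) (hx : x ≠ Pi.single 0 (x 0))
    (hy : y ≠ Pi.single 0 (y 0)) : ∃ k : Fin 7, (c0 ^ (k : ℕ)).mulVec x = y := by
  revert x y; decide +kernel

theorem fix (H : Subgroup (GL (Fin 4) (ZMod 2))) (hr : Rad0 H) (hc : c1 ∈ H)
    (h5 : ¬ 5 ∣ Nat.card H) : ∃ g : H →* GL (Fin 3) (ZMod 2), Function.Injective g := by
  classical
  let e : Fin 4 → ZMod 2 := Pi.single 0 1
  have key : (∀ g ∈ H, (g : Matrix (Fin 4) (Fin 4) (ZMod 2)).mulVec e = e) →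
      ∃ g : H →* GL (Fin 3) (ZMod 2), Function.Injective g := fun h => by
    have h1 : ∀ g ∈ H, ∀ i, (g : Matrix (Fin 4) (Fin 4) (ZMod 2)) i 0 = e i := fun g hg i => by
      rw [← h g hg]; simp [e]
    exact block H hr (fun g hg => h1 g hg 0) fun g hg k hk i j => by
      rw [h1 g hg]; simp [e]
  let O : Finset (Fin 4 → ZMod 2) := (orbit H e).toFinset
  have hO : ∀ g ∈ H, ∀ x ∈ O, (g : Matrix (Fin 4) (Fin 4) (ZMod 2)).mulVec x ∈ O := by
    intro g hg x hx
    rw [Set.mem_toFinset] at hx ⊢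
    exact mapsTo_smul_orbit (⟨g, hg⟩ : H) e hx
  have he : e ∈ O := Set.mem_toFinset.mpr (mem_orbit_self e)
  have h0 : (0 : Fin 4 → ZMod 2) ∉ O := fun h => by
    obtain ⟨g, hg⟩ := Set.mem_toFinset.mp h
    have : e = 0 := (smul_eq_zero_iff_eq g).mp hg
    revert this; decide
  have h1 : ∀ x ∈ O, ∀ y, x 0 = y 0 → x ≠ Pi.single 0 (x 0) → y ≠ Pi.single 0 (y 0) → y ∈ O := by
    intro x hx y h2 h3 h4
    obtain ⟨k, rfl⟩ := orb x y h2 h3 h4
    exact hO (c1 ^ (k : ℕ)) (H.pow_mem hc _) x hx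
  have h2 : ∀ x : Fin 4 → ZMod 2, x = 0 ∨ x = e ∨ x ≠ Pi.single 0 (x 0) := by decide +kernel
  have h3 : ∀ a : ZMod 2, a = 0 ∨ a = 1 := by decide
  have hmem : ∀ (a : Fin 4 → ZMod 2), a ≠ Pi.single 0 (a 0) → ∀ y, y 0 = a 0 →
      y ≠ Pi.single 0 (y 0) → (y ∈ O ↔ a ∈ O) := fun a ha y h4 h6 =>
    ⟨fun h => h1 y h a h4 h6 ha, fun h => h1 a h y h4.symm ha h6⟩
  have hA := hmem ![0, 1, 0, 0] (by decide)
  have hB := hmem ![1, 1, 0, 0] (by decide)
  have hO' : ∀ y, y ∈ O ↔ y = e ∨ (y ≠ 0 ∧ y 0 = 0 ∧ ![0, 1, 0, 0] ∈ O) ∨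
      (y 0 = 1 ∧ ![1, 1, 0, 0] ∈ O) := fun y => by
    rcases h2 y with rfl | rfl | h4
    · simp only [h0, false_iff]
      rintro (h | h | h)
      · revert h; decide
      · exact h.1 rfl
      · exact absurd h.1 (by decide)
    · simp [he]
    · have h6 : y ≠ e := by rintro rfl; revert h4; decide
      have h7 : y ≠ 0 := by rintro rfl; revert h4; decide
      rcases h3 (y 0) with h8 | h8
      · rw [hA y h8 h4]; simp [h6, h7, h8]
      · rw [hB y h8 h4]; simp [h6, h8]
  by_cases ha : ![0, 1, 0, 0] ∈ O <;> by_cases hb : ![1, 1, 0, 0] ∈ O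
  · exfalso
    have h4 : O = Finset.univ.erase 0 := by
      ext y; rw [hO']; simp only [ha, hb]; revert y; decide +kernel
    have h6 : (orbit H e).ncard = 15 := by
      rw [Set.ncard_eq_toFinset_card']
      show O.card = 15
      rw [h4]; decide +kernel
    rw [← index_stabilizer] at h6
    exact h5 ((show 5 ∣ 15 by norm_num).trans (h6 ▸ Subgroup.index_dvd_card _))
  · refine key fun g hg => ?_
    have h4 : ∑ x ∈ O, x = e := by
      have : O = Finset.univ.filter fun y => y = e ∨ (y ≠ 0 ∧ y 0 = 0) := by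
        ext y; rw [hO']; simp [ha, hb]
      rw [this]; decide +kernel
    conv_lhs => rw [← h4, Matrix.mulVec_sum]
    rw [← h4]
    have h6 : Function.Injective (g : Matrix (Fin 4) (Fin 4) (ZMod 2)).mulVec :=
      MulAction.injective g
    exact Finset.sum_bij (fun x _ => (g : Matrix (Fin 4) (Fin 4) (ZMod 2)).mulVec x)
      (hO g hg) (fun a _ b _ h => h6 h) (fun y hy => ⟨_, hO g⁻¹ (H.inv_mem hg) y hy,
        smul_inv_smul g y⟩) fun _ _ => rfl
  · have h4 : ∀ y, y ∈ O ↔ y 0 = 1 := fun y => by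
      rw [hO']; simp only [ha, hb]; revert y; decide +kernel
    have h6 : ∀ g ∈ H, (g : Matrix (Fin 4) (Fin 4) (ZMod 2)) 0 0 = 1 := fun g hg => by
      have := (h4 _).mp (hO g hg e he)
      simpa [e] using this
    refine block H hr h6 fun g hg k hk i j => ?_
    have := (h4 _).mp (hO k hk (e + Pi.single j.succ 1) ((h4 _).mpr (by simp [e])))
    rw [Matrix.mulVec_add] at this
    simp [e, h6 k hk] at this
    rw [this, mul_zero]
  · refine key fun g hg => ?_
    simpa [ha, hb] using (hO' _).mp (hO g hg e he)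


/-- Let H be a nontrivial subgroup of GL(4,2) (a group isomorphic to the alternating group of degree 8) whose largest normal 2-subgroup and largest normal subgroup of odd order are both trivial. Then H is isomorphic to an alternating group of degree n for some 5 ≤ n ≤ 8, to the symmetric group of degree 5 or 6, or to GL(3,2). -/
theorem result (H : Subgroup (GL (Fin 4) (ZMod 2))) (hH : H ≠ ⊥) (hO : Cfsg.pPrimeCore 2 ↥H = ⊥) (hO2 : Cfsg.pCore 2 ↥H = ⊥) :
    (∃ n : ℕ, 5 ≤ n ∧ n ≤ 8 ∧ Nonempty (↥H ≃* alternatingGroup (Fin n))) ∨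
    Nonempty (↥H ≃* Equiv.Perm (Fin 5)) ∨ Nonempty (↥H ≃* Equiv.Perm (Fin 6)) ∨ Nonempty (↥H ≃* GL (Fin 3) (ZMod 2)) := by
  have hr := rad0_of_cores hO hO2
  have hnt := (Subgroup.nontrivial_iff_ne_bot _).2 hH
  have h2 : 2 ∣ Nat.card H := by
    by_contra h
    have := L.le_pPrimeCore (p := 2) (N := (⊤ : Subgroup H))
      (by rw [Subgroup.card_top]; exact ((Nat.Prime.coprime_iff_not_dvd Nat.prime_two).mpr h).symm)
    rw [hO] at this
    exact top_ne_bot (le_bot_iff.mp this)
  obtain ⟨e, -⟩ := exists_gl42_equiv (ZMod.card 2) (f2FC (ZMod 2))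
  let f : H →* alternatingGroup (Fin 8) := e.toMonoidHom.comp H.subtype
  have hf : Function.Injective f := e.injective.comp Subtype.val_injective
  have hd : Nat.card H ∣ 20160 := card_A8 ▸ Subgroup.card_dvd_of_injective f hf
  have hG : Nat.card (GL (Fin 4) (ZMod 2)) = 20160 := (Nat.card_congr e.toEquiv).trans card_A8
  by_cases h7 : 7 ∣ Nat.card H
  · have : IsSimpleGroup (alternatingGroup (Fin 8)) := alternatingGroup.isSimpleGroup (by simp)
    have e1 := MonoidHom.ofInjective hf
    have h3 := f.range.index_mul_card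
    rw [card_A8, ← Nat.card_congr e1.toEquiv] at h3
    have h4 : ¬ 5 ∣ Nat.card H → ∃ g : H →* GL (Fin 3) (ZMod 2), Function.Injective g := fun h5 => by
      have := Fact.mk (show Nat.Prime 7 by norm_num)
      obtain ⟨x, hx, hx7⟩ := exists_mem_orderOf (p := 7) H h7
      have h8 : (7 : ℕ) = 7 ^ (Nat.card (GL (Fin 4) (ZMod 2))).factorization 7 := by
        rw [hG]; decide +kernel
      obtain ⟨g, hg⟩ := exists_smul_eq (GL (Fin 4) (ZMod 2))
        (Sylow.ofCard (Subgroup.zpowers x) (by rw [Nat.card_zpowers, hx7]; exact h8))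
        (Sylow.ofCard (Subgroup.zpowers c1) (by rw [Nat.card_zpowers, orderOf_c1]; exact h8))
      have h9 : (Subgroup.zpowers x).map (MulAut.conj g).toMonoidHom = Subgroup.zpowers c1 :=
        congrArg (fun P : Sylow 7 _ => (P : Subgroup (GL (Fin 4) (ZMod 2)))) hg
      have e2 := H.equivMapOfInjective (MulAut.conj g).toMonoidHom (MulAut.conj g).injective
      obtain ⟨φ, hφ⟩ := fix _ (hr.of_equiv e2) (Subgroup.map_mono (Subgroup.zpowers_le.mpr hx)
        (h9 ▸ Subgroup.mem_zpowers c1)) (by rwa [← Nat.card_congr e2.toEquiv])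
      exact ⟨φ.comp e2.toMonoidHom, hφ.comp e2.injective⟩
    have h6 : Nat.card (GL (Fin 3) (ZMod 2)) = 168 := (card_GL_zmod 3 2).trans (by decide)
    rcases seven f hf h7 hr h2 with h | h | h | h
    · obtain ⟨g, hg⟩ := h4 (by omega)
      exact Or.inr (Or.inr (Or.inr ⟨MulEquiv.ofBijective g
        (hg.bijective_of_nat_card_le (by rw [h, h6]))⟩))
    · obtain ⟨g, hg⟩ := h4 (by omega)
      have := Nat.card_le_card_of_injective g hg
      omega
    · obtain ⟨e2⟩ := equiv_alt_of_index f.range (n := 7) (by norm_num) (by rw [h] at h3; omega)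
        (by rw [← Nat.card_congr e1.toEquiv, h]; rfl)
      exact Or.inl ⟨7, by norm_num, by norm_num, ⟨e1.trans e2⟩⟩
    · exact Or.inl ⟨8, by norm_num, le_rfl, ⟨MulEquiv.ofBijective f
        (hf.bijective_of_nat_card_le (by rw [h, card_A8]))⟩⟩
  · have h5 : 5 ∣ Nat.card H := by
      by_contra h5
      have h16 : Nat.card (⊤ : Subgroup H) ∣ 2 ^ 6 * 3 ^ 2 := by
        rw [Subgroup.card_top]
        refine (Nat.Coprime.dvd_mul_right (n := 35) ?_).mp hd
        exact Nat.Coprime.mul_right (m := 5) (n := 7)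
          ((Nat.Prime.coprime_iff_not_dvd (by norm_num)).mpr h5).symm
          ((Nat.Prime.coprime_iff_not_dvd (by norm_num)).mpr h7).symm
      exact top_ne_bot (hr ⊤ inferInstance (H9.burnside_pq Nat.prime_two Nat.prime_three h16))
    have e1 := MonoidHom.ofInjective (f := (alternatingGroup (Fin 8)).subtype.comp f)
      (Subtype.val_injective.comp hf)
    have h3 := Nat.card_congr e1.toEquiv
    obtain ⟨g, hg⟩ := five _ (h3 ▸ hd) (h3 ▸ h5) (h3 ▸ h7) (hr.of_equiv e1)
    have e2 := e1.trans (MonoidHom.ofInjective hg)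
    rcases six _ (Nat.card_congr e2.toEquiv ▸ h5) (hr.of_equiv e2) with ⟨⟨e3⟩⟩ | ⟨⟨e3⟩⟩ | ⟨⟨e3⟩⟩ | ⟨⟨e3⟩⟩
    · exact Or.inl ⟨5, le_rfl, by norm_num, ⟨e2.trans e3⟩⟩
    · exact Or.inl ⟨6, by norm_num, by norm_num, ⟨e2.trans e3⟩⟩
    · exact Or.inr (Or.inl ⟨e2.trans e3⟩)
    · exact Or.inr (Or.inr (Or.inl ⟨e2.trans e3⟩))
end Cfsg.Agent.S2553
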