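import Cfsg.Statements.S2556
import Cfsg.Agent.H7.SzAut

set_option autoImplicit false
open Cfsg

namespace Cfsg.Agent.S2556



/-- Let S be a Sylow 2-subgroup of the Suzuki group Sz(q), q = 2ⁿ with n = 2m + 1 ≥ 3 (realised as 4 × 4 matrices over the field with q elements). Then the largest normal 2-subgroup of the automorphism group of S is elementary abelian of order 2^(n²), and the automorphism group of S has order 2^(n²) · n · (q − 1). -/
theorem result {S : Type*} [Group S] [Finite S] (m : ℕ) (hm : 1 ≤ m)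
    {F : Type*} [Field F] [Fintype F] (hF : Fintype.card F = 2 ^ (2 * m + 1))
    (P : Sylow 2 ↥(Cfsg.Lie.Sz F (2 ^ (m + 1)))) (hS : Nonempty (S ≃* ↥(P : Subgroup ↥(Cfsg.Lie.Sz F (2 ^ (m + 1)))))) :
    Cfsg.IsElementaryAbelian 2 (Cfsg.pCore 2 (MulAut S)) ∧ Nat.card ↥(Cfsg.pCore 2 (MulAut S)) = 2 ^ ((2 * m + 1) ^ 2) ∧
      Nat.card (MulAut S) = 2 ^ ((2 * m + 1) ^ 2) * ((2 * m + 1) * (2 ^ (2 * m + 1) - 1)) := by
  obtain ⟨e⟩ := hS
  haveI : CharP F 2 := by
    obtain ⟨p, hp⟩ := CharP.exists F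
    obtain ⟨n, hpp, hn⟩ := FiniteField.card F p
    have : p ∣ 2 ^ (2 * m + 1) := by rw [← hF, hn]; exact dvd_pow_self _ n.ne_zero
    rwa [(Nat.prime_dvd_prime_iff_eq hpp Nat.prime_two).mp (hpp.dvd_of_dvd_pow this)] at hp
  letI := ZMod.algebra F 2
  have hrk : Module.finrank (ZMod 2) F = 2 * m + 1 := by
    apply Nat.pow_right_injective (le_refl 2)
    have := Module.card_eq_pow_finrank (K := ZMod 2) (V := F)
    rw [hF, ZMod.card] at this
    exact this.symm
  let θ : F ≃ₐ[ZMod 2] F := FiniteField.frobeniusAlgEquivOfAlgebraic (ZMod 2) F ^ (m + 1)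
  have he : ∀ a, (θ : F →+* F) a = a ^ 2 ^ (m + 1) := fun a => by
    have := congrFun (FiniteField.coe_frobeniusAlgEquivOfAlgebraic_iterate (ZMod 2) F (m + 1)) a
    rw [ZMod.card] at this
    exact (congrFun (AlgEquiv.coe_pow _ _) a).trans this
  have hθ : ∀ a, (θ : F →+* F) ((θ : F →+* F) a) = a ^ 2 := fun a => by
    rw [he, he, ← pow_mul, ← pow_add, show m + 1 + (m + 1) = 2 * m + 1 + 1 by ring, pow_succ, pow_mul, ← hF,
      FiniteField.pow_card]
  obtain ⟨e'⟩ := H7.SzA.sylow_equiv hθ he P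
  let c := MulAut.congr (e.trans e')
  let π := (H7.SzA.piA hθ).comp c.toMonoidHom
  have h2 : 2 < Fintype.card F := by
    rw [hF]; exact lt_of_lt_of_le (by norm_num) (Nat.pow_le_pow_right (by norm_num) (by omega : 2 ≤ 2 * m + 1))
  have hr : Nat.card π.range = (2 * m + 1) * (2 ^ (2 * m + 1) - 1) := by
    rw [MonoidHom.range_comp, MonoidHom.range_eq_top.mpr c.surjective, ← MonoidHom.range_eq_map,
      H7.SzA.card_range θ hθ h2 (hrk ▸ odd_two_mul_add_one m), hrk, hF]
  have hk : Nat.card π.ker = 2 ^ ((2 * m + 1) ^ 2) := by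
    rw [← MonoidHom.comap_ker, show Nat.card ((H7.SzA.piA hθ).ker.comap c.toMonoidHom) = Nat.card (H7.SzA.piA hθ).ker from
        Nat.card_congr (c.toEquiv.subtypeEquiv fun _ => Iff.rfl), H7.SzA.card_ker,
      Nat.card_congr (AddMonoidHom.toZModLinearMapEquiv 2).toEquiv, Module.natCard_eq_pow_finrank (K := ZMod 2),
      Module.finrank_linearMap, hrk, Nat.card_zmod, pow_two]
  have hO : Cfsg.pCore 2 (MulAut S) = π.ker := by
    refine le_antisymm (fun α hα => ?_) (L.le_pCore (IsPGroup.of_card hk))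
    obtain ⟨k, hk⟩ := L.pCore_isPGroup 2 ⟨α, hα⟩
    have h3 : orderOf (π.rangeRestrict α) ∣ 2 ^ k := orderOf_dvd_of_pow_eq_one (by
      rw [← map_pow, show α ^ 2 ^ k = 1 from congrArg Subtype.val hk, map_one])
    have h4 : Odd (Nat.card π.range) := by
      rw [hr]
      exact (odd_two_mul_add_one m).mul (Nat.Even.sub_odd Nat.one_le_two_pow (by simp [pow_succ]) odd_one)
    have h5 := Nat.eq_one_of_dvd_coprimes (Nat.Coprime.pow_left k (Nat.coprime_two_left.mpr h4)) h3
      (orderOf_dvd_natCard _)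
    exact congrArg Subtype.val (orderOf_eq_one_iff.mp h5)
  rw [hO]
  refine ⟨⟨⟨⟨fun a b => Subtype.ext (c.injective ?_)⟩⟩, fun a ha => c.injective ?_⟩, hk, ?_⟩
  · simpa using (H7.SzA.ker_comm hθ a.2 b.2).1
  · simpa using (H7.SzA.ker_comm hθ ha ha).2
  · rw [← hk, ← hr, ← Subgroup.index_ker, Subgroup.card_mul_index]

end Cfsg.Agent.S2556
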