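import Cfsg.Statements.S2559
import Cfsg.Agent.H6.Low

set_option autoImplicit false
open Cfsg

namespace Cfsg.Agent.S2559

/-- The number of conjugacy classes of the full orthogonal groups O⁺(2n,q) and O⁻(2n,q), q even, 2n ≥ 4: for F a finite field of even order q and n ≥ 2, the number k of conjugacy classes of the isometry group of the hyperbolic quadratic form Σ xᵢyᵢ on F^{2n}, and likewise of the elliptic form Σ xᵢyᵢ + (z₁² + a z₁z₂ + b z₂²) with anisotropic binary part, satisfies q^n/2 ≤ k ≤ 15·q^n. -/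
theorem result {F : Type*} [Field F] [Fintype F] (heven : Even (Fintype.card F)) (n : ℕ) (hn : 2 ≤ n) (a b : F) (hab : ∀ z₁ z₂ : F, z₁ ^ 2 + a * z₁ * z₂ + b * z₂ ^ 2 = 0 → z₁ = 0 ∧ z₂ = 0) :
    (Fintype.card F ^ n ≤ 2 * Nat.card (ConjClasses ↥(Cfsg.isometryGroup F (Cfsg.quadFormPlus n F))) ∧
      Nat.card (ConjClasses ↥(Cfsg.isometryGroup F (Cfsg.quadFormPlus n F))) ≤ 15 * Fintype.card F ^ n) ∧
    (Fintype.card F ^ n ≤ 2 * Nat.card (ConjClasses ↥(Cfsg.isometryGroup F (Cfsg.quadFormMinus (n - 1) F a b))) ∧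
      Nat.card (ConjClasses ↥(Cfsg.isometryGroup F (Cfsg.quadFormMinus (n - 1) F a b))) ≤ 15 * Fintype.card F ^ n) := by
  have two := H6N.two_eq_zero_of_even heven
  have h1 : Module.finrank F ((Fin (n - 1) ⊕ Fin (n - 1)) ⊕ Fin 2 → F) = 2 * n := by
    rw [H7.finrank_QM]; omega
  have n1 := H7.nd_QP (F := F) n
  have n2 := H7.nd_QM (m := n - 1) (H7.disc_ne_zero_of_aniso hab)
  have a1 := H6N.upper_two two n1 (H7.finrank_QP F n)
  have a2 := H6N.upper_two two n2 h1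
  rw [← H7.coe_QP, ← H7.coe_QM, H6N.card_cc_congr (H7.isoEquiv _), H6N.card_cc_congr (H7.isoEquiv _)]
  exact ⟨⟨H6N.lower_even n1 (H7.finrank_QP F n) hn, by exact_mod_cast a1⟩,
    H6N.lower_even n2 h1 hn, by exact_mod_cast a2⟩

end Cfsg.Agent.S2559
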