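import Cfsg.Statements.S2560
import Cfsg.Agent.H6.OmU

set_option autoImplicit false
open Cfsg

namespace Cfsg.Agent.S2560

/-- The number of conjugacy classes of Ω(2n+1,q), q odd, n ≥ 2: for F a finite field of odd order q, the number k of conjugacy classes of the commutator subgroup of the isometry group of the quadratic form x₀² + Σ xᵢyᵢ on F^{2n+1} satisfies q^n/2 ≤ k ≤ 7.3·q^n. -/
theorem result {F : Type*} [Field F] [Fintype F] (hodd : Odd (Fintype.card F)) (n : ℕ) (hn : 2 ≤ n) :
    Fintype.card F ^ n ≤ 2 * Nat.card (ConjClasses ↥(Cfsg.Omega F (Cfsg.quadFormOdd n F))) ∧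
      10 * Nat.card (ConjClasses ↥(Cfsg.Omega F (Cfsg.quadFormOdd n F))) ≤ 73 * Fintype.card F ^ n := by
  have two := H7.odd_card_two_ne_zero hodd
  rw [← H7.coe_QO]
  exact H6N.omega_bounds two hn (H7.nd_QO two) (H7.finrank_QO F n)
    ((H7.isoEquiv _).toMonoidHom.comp (Subgroup.subtype _))
    ((H7.isoEquiv _).injective.comp Subtype.val_injective) fun g =>
      ⟨by rintro ⟨x, rfl⟩; exact (H7.mem_Omega_iff _).1 x.2, fun h =>
        ⟨⟨(H7.isoEquiv _).symm g, (H7.mem_Omega_iff _).2 (by simpa using h)⟩, by simp⟩⟩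

end Cfsg.Agent.S2560
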