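import Cfsg.Statements.S2648
import Cfsg.Agent.H1.PLinear
import Cfsg.Agent.H2.Dih

set_option autoImplicit false
open Cfsg

namespace Cfsg.Agent.S2648

open Cfsg.Agent.H1
open scoped commutatorElement

open Matrix

theorem derivedSeries_ne_bot_of_injective {A B : Type*} [Group A] [Group B] (f : A →* B)
    (hf : Function.Injective f) {d : ℕ} (h : derivedSeries A d ≠ ⊥) : derivedSeries B d ≠ ⊥ :=
  fun h' => h ((Subgroup.map_eq_bot_iff_of_injective _ hf).1
    (eq_bot_iff.2 (h' ▸ map_derivedSeries_le_derivedSeries f d)))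

theorem wreath {A G : Type*} [Group A] [Group G] [Finite G] (hA : IsPGroup 2 A) {d : ℕ}
    (hd : derivedSeries A d ≠ ⊥) (f : A × A →* G) (hf : Function.Injective f) {t : G}
    (ht : t ^ 2 = 1) (hft : ∀ a b, t * f (a, b) * t⁻¹ = f (b, a)) :
    ∃ H : Subgroup G, IsPGroup 2 H ∧ derivedSeries H (d + 1) ≠ ⊥ := by
  have hn : Subgroup.zpowers t ≤ Subgroup.normalizer (f.range : Set G) :=
    Subgroup.zpowers_le.2 (mem_normalizer_of_conj_mem (by
      rintro _ ⟨⟨a, b⟩, rfl⟩
      exact ⟨_, (hft a b).symm⟩))
  have hAA : IsPGroup 2 (A × A) := by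
    rintro ⟨a, b⟩
    obtain ⟨i, hi⟩ := hA a
    obtain ⟨j, hj⟩ := hA b
    exact ⟨i + j, Prod.ext (by simp [pow_add, pow_mul, hi]) (by
      simp [add_comm i, pow_add, pow_mul, hj])⟩
  let H := Subgroup.zpowers t ⊔ f.range
  refine ⟨H, IsPGroup.to_sup_of_normal_right' (isPGroup_zpowers (k := 1) ht)
    (hAA.of_surjective _ f.rangeRestrict_surjective) hn, ?_⟩
  let f' : A × A →* H := f.codRestrict H fun x => Subgroup.mem_sup_right ⟨x, rfl⟩
  have hf' : Function.Injective f' := fun a b h => hf (congrArg Subtype.val h)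
  let D := (commutator H).comap f'
  have h1 : Function.Surjective ((MonoidHom.fst A A).comp D.subtype) := by
    intro a
    refine ⟨⟨(a, a⁻¹), ?_⟩, rfl⟩
    have : f' (a, a⁻¹) = ⁅f' (a, 1), (⟨t, Subgroup.mem_sup_left (Subgroup.mem_zpowers t)⟩ : H)⁆ := by
      refine Subtype.ext ?_
      change f (a, a⁻¹) = f (a, 1) * t * (f (a, 1))⁻¹ * t⁻¹
      rw [← map_inv, mul_assoc, mul_assoc, ← mul_assoc t, Prod.inv_mk, hft, ← map_mul]
      simp
    change f' _ ∈ commutator H
    rw [this]
    exact Subgroup.commutator_mem_commutator trivial trivial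
  have h2 : derivedSeries D d ≠ ⊥ := fun h => hd (by
    rw [← map_derivedSeries_eq h1, h, Subgroup.map_bot])
  have h3 := derivedSeries_ne_bot_of_injective (f'.subgroupComap (commutator H))
    (fun a b h => Subtype.ext (hf' (congrArg Subtype.val h))) h2
  rw [← map_derivedSeries_commutator]
  exact mt (Subgroup.map_eq_bot_iff_of_injective _ (Subgroup.subtype_injective _)).1 h3

variable {F : Type*} [Field F] {l l' : Type} [Fintype l] [DecidableEq l] [Fintype l']
  [DecidableEq l']

theorem J_sum : J (l ⊕ l') F = (fromBlocks (J l F) 0 0 (J l' F)).submatrix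
    (Equiv.sumSumSumComm l l' l l') (Equiv.sumSumSumComm l l' l l') := by
  ext ((i | i) | (i | i)) ((j | j) | (j | j)) <;> simp [J, one_apply]

def blk : symplecticGroup l F × symplecticGroup l' F →* symplecticGroup (l ⊕ l') F where
  toFun x := ⟨(fromBlocks x.1.1 0 0 x.2.1).submatrix
      (Equiv.sumSumSumComm l l' l l') (Equiv.sumSumSumComm l l' l l'), by
    rw [SymplecticGroup.mem_iff, J_sum, transpose_submatrix, submatrix_mul_equiv,
      submatrix_mul_equiv, fromBlocks_transpose, fromBlocks_multiply, fromBlocks_multiply]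
    simp [SymplecticGroup.mem_iff.1 x.1.2, SymplecticGroup.mem_iff.1 x.2.2]⟩
  map_one' := Subtype.ext (by simp)
  map_mul' x y := Subtype.ext (by
    simp only [Submonoid.mk_mul_mk, submatrix_mul_equiv, fromBlocks_multiply]
    simp)

theorem blk_injective : Function.Injective (blk (F := F) (l := l) (l' := l')) := by
  intro x y h
  have h1 := congrArg (fun M => M.1.submatrix (Equiv.sumSumSumComm l l' l l').symm
    (Equiv.sumSumSumComm l l' l l').symm) h
  simp only [blk, MonoidHom.coe_mk, OneHom.coe_mk, submatrix_submatrix, Equiv.self_comp_symm,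
    submatrix_id_id, fromBlocks_inj] at h1
  exact Prod.ext (Subtype.ext h1.1) (Subtype.ext h1.2.2.2)

def swp : symplecticGroup (l ⊕ l) F :=
  ⟨(fromBlocks 0 1 1 0).submatrix (Equiv.sumSumSumComm l l l l) (Equiv.sumSumSumComm l l l l), by
    rw [SymplecticGroup.mem_iff, J_sum, transpose_submatrix, submatrix_mul_equiv,
      submatrix_mul_equiv, fromBlocks_transpose, fromBlocks_multiply, fromBlocks_multiply]
    simp⟩

def rei (e : l' ≃ l) : symplecticGroup l F →* symplecticGroup l' F where
  toFun x := ⟨x.1.submatrix (e.sumCongr e) (e.sumCongr e), by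
    have : J l' F = (J l F).submatrix (e.sumCongr e) (e.sumCongr e) := by
      ext (i | i) (j | j) <;> simp [J, one_apply]
    rw [SymplecticGroup.mem_iff, this, transpose_submatrix, submatrix_mul_equiv,
      submatrix_mul_equiv, SymplecticGroup.mem_iff.1 x.2]⟩
  map_one' := Subtype.ext (by simp)
  map_mul' x y := Subtype.ext (by simp only [Submonoid.mk_mul_mk, submatrix_mul_equiv]; rfl)

theorem rei_injective (e : l' ≃ l) : Function.Injective (rei (F := F) e) := by
  intro x y h
  have h1 := congrArg (fun M => M.1.submatrix (e.sumCongr e).symm (e.sumCongr e).symm) h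
  simp only [rei, MonoidHom.coe_mk, OneHom.coe_mk, submatrix_submatrix, Equiv.self_comp_symm,
    submatrix_id_id] at h1
  exact Subtype.ext h1

def Good (G : Type*) [Group G] (d : ℕ) : Prop :=
  ∃ H : Subgroup G, IsPGroup 2 H ∧ derivedSeries H d ≠ ⊥

theorem Good.map {A B : Type*} [Group A] [Group B] (f : A →* B) (hf : Function.Injective f)
    {d : ℕ} (h : Good A d) : Good B d := by
  obtain ⟨H, h1, h2⟩ := h
  exact ⟨H.map f, h1.map f, derivedSeries_ne_bot_of_injective
    (H.equivMapOfInjective f hf).toMonoidHom (H.equivMapOfInjective f hf).injective h2⟩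

theorem good_pow [Fintype F] (hF : Odd (Fintype.card F)) (k : ℕ) :
    Good (symplecticGroup (Fin (2 ^ k)) F) (k + 1) := by
  induction k with
  | zero =>
    refine Good.map (rei (l := Unit) (Equiv.ofUnique (Fin 1) Unit)) (rei_injective _) ?_
    have h2 : (2 : F) ≠ 0 := by
      intro h
      have := (FiniteField.even_card_iff_char_two (F := F)).1 (ringChar.eq_iff.2
        ((CharP.charP_iff_prime_eq_zero Nat.prime_two).2 (by exact_mod_cast h)))
      rw [Nat.odd_iff] at hF
      omega
    obtain ⟨p, hp⟩ := CharP.exists F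
    have : NeZero p := ⟨(CharP.char_is_prime F p).ne_zero⟩
    obtain ⟨a, b, hab⟩ := CharP.sq_add_sq F p (-1)
    push_cast at hab
    let c : symplecticGroup Unit F := SymplecticGroup.symJ Unit F
    let t : symplecticGroup Unit F := ⟨fromBlocks (of fun _ _ => (a : F)) (of fun _ _ => (b : F))
      (of fun _ _ => (b : F)) (of fun _ _ => -(a : F)), by
        rw [SymplecticGroup.mem_iff]
        ext (i | i) (j | j) <;> simp [J, mul_apply] <;> grind⟩
    have hc2 : t * t = c ^ 2 := Subtype.ext (by
      ext (i | i) (j | j) <;> simp [t, c, J, mul_apply, sq] <;> grind)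
    have hc4 : c ^ (2 * 2) = 1 := Subtype.ext (by
      rw [pow_mul, sq, sq]
      simp [c, J_squared])
    have htc : t * c * t⁻¹ = c⁻¹ := by
      rw [mul_inv_eq_iff_eq_mul, eq_inv_mul_iff_mul_eq]
      refine Subtype.ext ?_
      ext (i | i) (j | j) <;> simp [t, c, J, mul_apply]
    let φ := H2.quatHom hc4 hc2 htc
    refine ⟨φ.range, (IsPGroup.of_card (n := 3) (by rw [H2.card_quaternion]; rfl)).of_surjective _
      φ.rangeRestrict_surjective, fun h => h2 ?_⟩
    rw [derivedSeries_one, _root_.commutator_eq_bot_iff] at h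
    have h3 : t ∈ φ.range := H2.quatHom_range hc4 hc2 htc ▸
      Subgroup.mem_sup_right (Subgroup.mem_zpowers t)
    have h4 : c ∈ φ.range := H2.quatHom_range hc4 hc2 htc ▸
      Subgroup.mem_sup_left (Subgroup.mem_zpowers c)
    have h5 : t * c = c * t := congrArg Subtype.val (h.is_comm.comm (⟨t, h3⟩ : φ.range) ⟨c, h4⟩)
    rw [h5, mul_inv_cancel_right] at htc
    have h7 : c * c = 1 := mul_eq_one_iff_eq_inv.2 htc
    have h6 := congrArg (fun M : symplecticGroup Unit F => M.1 (Sum.inl ()) (Sum.inl ())) h7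
    simp [c, J_squared] at h6
    linear_combination -h6
  | succ k ih =>
    obtain ⟨H, h1, h2⟩ := ih
    refine Good.map (rei (l := Fin (2 ^ k) ⊕ Fin (2 ^ k)) ((finCongr (by omega)).trans
      finSumFinEquiv.symm)) (rei_injective _) ?_
    refine wreath h1 h2 (blk.comp (H.subtype.prodMap H.subtype))
      (blk_injective.comp (H.subtype_injective.prodMap H.subtype_injective)) (t := swp) ?_ ?_
    · refine Subtype.ext ?_
      simp only [sq, swp, Submonoid.mk_mul_mk, submatrix_mul_equiv, fromBlocks_multiply]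
      simp
    · intro a b
      rw [mul_inv_eq_iff_eq_mul]
      refine Subtype.ext ?_
      simp only [swp, blk, MonoidHom.comp_apply, MonoidHom.coe_mk, OneHom.coe_mk,
        Submonoid.mk_mul_mk, submatrix_mul_equiv, fromBlocks_multiply]
      simp

/-- Let q be odd, F a field with q elements and n ≥ 1. A Sylow 2-subgroup R of the symplectic group Sp_{2n}(F) has derived length exactly k + 1, where 2^k ≤ 2n < 2^{k+1}: the (k+1)-st term of its derived series is trivial and the k-th is not. -/
theorem result {F : Type*} [Field F] [Fintype F] [DecidableEq F] (q : ℕ) (hF : Fintype.card F = q) (hq : Odd q) (n : ℕ) (hn : 1 ≤ n) (R : Sylow 2 ↥(Matrix.symplecticGroup (Fin n) F)) : derivedSeries ↥(R : Subgroup ↥(Matrix.symplecticGroup (Fin n) F)) (Nat.log 2 (2 * n) + 1) = ⊥ ∧ derivedSeries ↥(R : Subgroup ↥(Matrix.symplecticGroup (Fin n) F)) (Nat.log 2 (2 * n)) ≠ ⊥ := by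
  subst hF
  constructor
  · let ρ : Representation F (R : Subgroup (symplecticGroup (Fin n) F)) (Fin n ⊕ Fin n → F) :=
      ((Matrix.toLinAlgEquiv' (R := F) (n := Fin n ⊕ Fin n)).toMonoidHom.comp
        (symplecticGroup (Fin n) F).subtype).comp (R : Subgroup (symplecticGroup (Fin n) F)).subtype
    have := derivedSeries_le_ker_of_finite (p := 2) (fun h => Nat.not_even_iff_odd.2 hq
      (even_iff_two_dvd.2 h)) (Nat.log 2 (2 * n) + 1) R.isPGroup' _ ρ (by
        rw [Module.finrank_fintype_fun_eq_card, Fintype.card_sum, Fintype.card_fin, ← two_mul,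
          hq.natCast_zmod_two, orderOf_one, one_mul]
        exact Nat.lt_pow_succ_log_self one_lt_two _)
    refine eq_bot_iff.2 fun g hg => Subtype.ext (Subtype.ext ?_)
    exact Matrix.toLinAlgEquiv'.injective ((this hg).trans (map_one _).symm)
  · have h1 : 2 ^ Nat.log 2 n ≤ n := Nat.pow_log_le_self 2 (by omega)
    obtain ⟨H, h2, h3⟩ := (good_pow hq (Nat.log 2 n)).map ((rei ((finCongr (Nat.add_sub_of_le
      h1).symm).trans finSumFinEquiv.symm)).comp (blk.comp (MonoidHom.inl _ _)))
      ((rei_injective _).comp (blk_injective.comp fun a b h => congrArg Prod.fst h))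
    obtain ⟨x, -, hx⟩ := (sylow_isSylowIn_top R).exists_cj_le h2 le_top
    rw [mul_comm, Nat.log_mul_base one_lt_two (by omega)]
    exact derivedSeries_ne_bot_of_injective ((Subgroup.inclusion hx).comp
      (H.equivMapOfInjective _ (MulAut.conj x).injective).toMonoidHom)
      ((Subgroup.inclusion_injective hx).comp
        (H.equivMapOfInjective _ (MulAut.conj x).injective).injective) h3

end Cfsg.Agent.S2648
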