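import Cfsg.Statements.S2686
import Cfsg.Agent.H6.BalGr

set_option autoImplicit false
open Cfsg

namespace Cfsg.Agent.S2686

open Matrix H6

variable {F : Type*} [Field F] {n : ℕ}

local notation "κ" => Fin n
local notation "II" => Inn (Matrix.ProjectiveSpecialLinearGroup (Fin n) F)

theorem inn_le : II ≤ (slD κ F).range := inn_psl_eq (F := F) (ι := κ) ▸ Subgroup.map_le_range _ _

theorem mem_inn {y : GL κ F} (h : (y : Matrix κ κ F).det = 1) : slD κ F y ∈ II := by
  obtain ⟨s, rfl⟩ := (mem_slJ_range y).2 h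
  exact ⟨_, (slD_slJ s).symm⟩

theorem conj_inj (hn : 2 ≤ n) :
    Function.Injective (MulAut.conj : Matrix.ProjectiveSpecialLinearGroup (Fin n) F →* _) :=
  conj_injective_of slJ_inj fun s hs =>
    (slD_eq_one_iff (by simpa using hn) _).1 ((slD_slJ s).trans hs)

theorem aut_odd [Finite F] (hn : 2 ≤ n) (α : MulAut (Matrix.ProjectiveSpecialLinearGroup κ F))
    (h : Odd (orderOf α)) : ∃ g σ, α = slD κ F g * slΦ κ F σ := by
  have := slD_range_normal (F := F) hn
  have hm : ∀ g σ, slD κ F g * slΦ κ F σ ∈ (slD κ F).range ⊔ (slΦ κ F).range := fun g σ =>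
    mul_mem (Subgroup.mem_sup_left ⟨g, rfl⟩) (Subgroup.mem_sup_right ⟨σ, rfl⟩)
  have h1 : α ∈ (((slD κ F).range ⊔ (slΦ κ F).range : Subgroup _) : Set _) :=
    mem_of_odd_order _ (slI κ F) (fun β => by
      obtain ⟨g, σ, rfl | rfl⟩ := psl_aut hn β
      · exact Or.inl (hm g σ)
      · refine Or.inr ?_
        rw [mul_assoc, slΦ_mul_slI, ← mul_assoc, ← mul_assoc]
        nth_rw 2 [← slI_inv]
        rw [slI_conj]
        exact hm _ _) h
  rw [Subgroup.normal_mul] at h1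
  obtain ⟨_, ⟨g, rfl⟩, _, ⟨σ, rfl⟩, rfl⟩ := h1
  exact ⟨g, σ, rfl⟩

theorem aut_of_comm [Finite F] (hn : 2 ≤ n) (r : ℕ) [Fact r.Prime] [CharP F r]
    (α : MulAut (Matrix.ProjectiveSpecialLinearGroup κ F))
    (h : ∀ (i j : κ) (y : GL κ F), i ≠ j → y.1 = tv (Pi.single i 1) (Pi.single j 1) →
      α * slD κ F y = slD κ F y * α) : ∃ g σ, α = slD κ F g * slΦ κ F σ := by
  by_cases h2 : n = 2
  · subst h2
    exact psl_aut_two α
  obtain ⟨g, σ, rfl | rfl⟩ := psl_aut hn α
  · exact ⟨g, σ, rfl⟩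
  exfalso
  have : Nonempty κ := ⟨⟨0, by omega⟩⟩
  have key : ∀ i j : κ, i ≠ j → ∃ c : F, g.1 *ᵥ Pi.single j 1 = c • Pi.single i 1 := by
    intro i j hij
    have h0 : (Pi.single j 1 : κ → F) ⬝ᵥ Pi.single i 1 = 0 := by simp [hij.symm]
    have h1 := h i j (slJ κ F (slTv _ _ h0)) hij rfl
    rw [mul_assoc (slD κ F g)] at h1
    have h3 := comm_of_commute (slD κ F) (MonoidHom.id _)
      (fun g => (slD_eq_one_iff (by simpa using hn) g).1) _ (slΦI_conj σ) h1 r (k := 1)
      (by rw [pow_one, ← map_pow, tvAt_pow slSetup.inj r ⟨_, h0, rfl⟩, map_one])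
    have h4 : ((slJ κ F (slTv _ _ h0))⁻¹ : GL κ F).1 = tv (Pi.single i 1) (-Pi.single j 1) :=
      Units.inv_eq_of_mul_eq_one_right (tv_mul_neg h0)
    have h5 : g.1 * (tv (-Pi.single j 1) (Pi.single i 1)).map σ =
        tv (Pi.single i 1) (Pi.single j 1) * g.1 := by
      rw [← tv_transpose, ← h4]
      exact congrArg Units.val h3
    have e1 : ∀ k : κ, (σ : F →+* F) ∘ (Pi.single k 1 : κ → F) = Pi.single k 1 := fun k => by
      funext l; by_cases hk : l = k <;> simp [hk]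
    have h6 := map_tv (σ : F →+* F) (-Pi.single j 1 : κ → F) (Pi.single i 1)
    rw [comp_neg', e1, e1] at h6
    have h7 := congrArg (· *ᵥ Pi.single i 1) (h6 ▸ h5 : g.1 * tv _ _ = _)
    simp only [← mulVec_mulVec, tv_mulVec, single_dotProduct, Pi.single_eq_same, mul_one, one_smul,
      mulVec_add, mulVec_neg, one_mul] at h7
    exact ⟨_, by rw [neg_smul, ← add_left_cancel h7, neg_neg]⟩
  obtain ⟨i, j, k, hij, hik, hjk⟩ := exists_three (ι := κ) (by simp; omega)
  obtain ⟨c, hc⟩ := key i j hij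
  obtain ⟨d, hd⟩ := key i k hik
  have h1 : g.1 *ᵥ (d • Pi.single j 1 - c • Pi.single k 1) = 0 := by
    rw [mulVec_sub, mulVec_smul, mulVec_smul, hc, hd]; module
  have h3 : (d • Pi.single j 1 - c • Pi.single k 1 : κ → F) = 0 :=
    by_contra fun h => gl_mulVec_ne_zero g h h1
  have h4 : c = 0 := by simpa [hjk.symm] using congrFun h3 k
  rw [h4, zero_smul] at hc
  exact gl_mulVec_ne_zero g (by simp) hc

theorem field_type [Fintype F] (r : ℕ) [Fact r.Prime] [CharP F r] (hn : 2 ≤ n) {p : ℕ}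
    [Fact p.Prime] (hpr : p ≠ r) {g : GL κ F} {σ : F ≃+* F}
    (hx : (slD κ F g * slΦ κ F σ) ^ p = 1) (hσ : σ ≠ 1) :
    II ⊓ Subgroup.centralizer {slD κ F g * slΦ κ F σ} ≠ ⊥ ∧
      (Unbal p II (slD κ F g * slΦ κ F σ) →
        (Nat.card ↥(II ⊓ Subgroup.centralizer {slD κ F g * slΦ κ F σ})).Coprime p) := by
  have h2 : 2 ≤ Fintype.card κ := by simpa using hn
  have : Nontrivial κ := Fin.nontrivial_iff_two_le.2 hn
  have hp : p.Prime := Fact.out
  have ho : orderOf σ = p := orderOf_eq_prime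
    (pow_eq_one_of_DΦ _ _ _ slΦ_conj (fun _ => eq_one_of_slΦ_mem h2) hx) hσ
  have := Fintype.ofFinite (fixF σ)
  obtain ⟨e, he⟩ := exists_emb_fixF σ (fixF σ) Nat.card_eq_fintype_card.symm
  obtain ⟨δ, -, hδ⟩ := isConjUnder_of_lang _ _ (slΦ_conj σ)
    (by rw [← map_pow, ← ho, pow_orderOf_eq_one, map_one]) (sl_lang_field h2 ho) hx
  have hjI : ∀ s, slD κ F (GeneralLinearGroup.map e (slJ κ _ s)) ∈ II := fun s => mem_inn (by
    change (s.1.map e).det = 1
    rw [← RingHom.mapMatrix_apply, ← RingHom.map_det, s.2, map_one])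
  rw [hδ, card_inf_cent_conj]
  constructor
  · refine inf_cent_conj_ne_bot _ δ⁻¹ fun h0 => ?_
    rw [show δ⁻¹ * (δ * slΦ κ F σ * δ⁻¹) * δ⁻¹⁻¹ = slΦ κ F σ by group, Subgroup.eq_bot_iff_forall]
      at h0
    obtain ⟨t, f, ht⟩ := exists_isTv_sl (F := fixF σ) h2 (a := 1) one_ne_zero
    obtain ⟨c, hc⟩ := (map_mem_center_iff' e _).1 ((slD_eq_one_iff h2 _).1
      (h0 _ ⟨hjI t, mem_cent_of_fix (slΦ_conj σ) (glField_map he _)⟩))
    exact tv_ne_smul_one ht.1 ht.2.1 ht.2.2.1 c (ht.2.2.2 ▸ hc)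
  · intro h
    have h1 := h.conj δ⁻¹
    rw [show δ⁻¹ * (δ * slΦ κ F σ * δ⁻¹) * δ⁻¹⁻¹ = slΦ κ F σ by group] at h1
    have hr : (slJ κ (fixF σ)).range = (GeneralLinearGroup.det).ker := by
      ext y
      rw [mem_slJ_range, MonoidHom.mem_ker, Units.ext_iff]; rfl
    have : (slJ κ (fixF σ)).range.Normal := hr ▸ inferInstance
    refine field_case (ν := MonoidHom.id _) (ν₀ := MonoidHom.id _) r slΦ_conj
      (fun _ _ => rfl) (slD_eq_one_iff h2) inn_le ho he
      (fun _ => rfl) (glField_map he) (sl_surj_field h2 he) hjI (fun α hα => ?_)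
      (fun G χ hG hs => ?_) ⊤ (k := r) (d := Fintype.card (fixF σ) - 1)
      ((Nat.coprime_primes Fact.out hp).2 hpr.symm)
      (fun M hM m hm h s _ => sl_iwasawa r hm h s) (fun y => ?_) (fun hd => ?_) h1
    · refine aut_of_comm hn r α fun i j y hij hy => ?_
      have := hα (slTv (Pi.single i 1) (Pi.single j 1) (by simp [hij.symm]))
      rwa [show GeneralLinearGroup.map e _ = y from Units.ext ?_] at this
      rw [hy]
      change (tv _ _).map e = _
      ext k l
      simp [tv, vecMulVec_apply, one_apply, Pi.single_apply, apply_ite e]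
    · refine semi_all h2 hG fun a ha => ?_
      obtain ⟨s, f, h⟩ := exists_isTv_sl h2 ha
      have := hs s (by rw [pow_two, pow_mul, tvAt_pow slSetup.inj r ⟨f, h.2.2.1, h.2.2.2⟩, one_pow])
      exact SComm.fix_tv (h.2.2.2 ▸ this) h.2.1
    · obtain ⟨s, hs⟩ : y ^ (Fintype.card (fixF σ) - 1) ∈ (slJ κ (fixF σ)).range := by
        rw [hr, MonoidHom.mem_ker, map_pow, ← Nat.card_eq_fintype_card, ← Nat.card_units,
          pow_card_eq_one']
      exact ⟨s, trivial, hs⟩
    · obtain ⟨s, h2, h3⟩ := sl_exists_elt (ι := κ) hp hd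
      exact ⟨s, trivial, h2, h3⟩

theorem graph_type [Fintype F] (two : (2 : F) ≠ 0) (hn : 3 ≤ n) {g : GL κ F}
    (hx : (slD κ F g * slI κ F) ^ 2 = 1) : ¬ Unbal 2 II (slD κ F g * slI κ F) := by
  have h2 : 2 ≤ Fintype.card κ := by simp; omega
  have : Nonempty κ := ⟨⟨0, by omega⟩⟩
  have hθ : ∀ y, slD κ F g * slI κ F * slD κ F y * (slD κ F g * slI κ F)⁻¹ =
      slD κ F ((MulAut.conj g * glIT κ F) y) := fun y => by
    rw [MulAut.mul_apply, MulAut.conj_apply, map_mul, map_mul, map_inv, ← slI_conj]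
    group
  have hB : (g⁻¹).1ᵀ = (g⁻¹).1 ∨ (g⁻¹).1ᵀ = -(g⁻¹).1 := by
    have h1 : slD κ F (g * glIT κ F g) = 1 := by
      rw [map_mul, ← slI_conj, slI_inv, ← hx, pow_two]
      group
    obtain ⟨c, hc⟩ := (mem_center_gl_iff _).1 ((slD_eq_one_iff h2 _).1 h1)
    have h3 : (g⁻¹).1ᵀ = c • (g⁻¹).1 := by
      rw [← mul_one (g⁻¹).1, ← mul_smul_comm, ← hc, Units.val_mul, Units.inv_mul_cancel_left,
        coe_glIT, mul_one]
    have h4 : (g⁻¹).1 = (c * c) • (g⁻¹).1 := by
      rw [mul_smul, ← h3, ← transpose_smul, ← h3, transpose_transpose]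
    obtain ⟨i, j, hij⟩ := exists_entry_ne_zero g⁻¹
    have h5 : c * c = 1 := mul_right_cancel₀ hij (by
      rw [one_mul]; exact (congrFun (congrFun h4 i) j).symm)
    rcases mul_self_eq_one_iff.1 h5 with rfl | rfl
    · exact Or.inl (by rw [h3, one_smul])
    · exact Or.inr (by rw [h3, neg_smul, one_smul])
  have hid : ∀ y : GL κ F, GeneralLinearGroup.map (RingHom.id F) y = y := fun y => by ext; rfl
  refine (graph_case (ν := MonoidHom.id _) (e := RingHom.id F) two
    (GeneralLinearGroup.det_ne_zero _) hB (by simpa using hn) Function.injective_id slΦ_conj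
    (fun _ _ => rfl) (slD_eq_one_iff h2) (fun _ => eq_one_of_slΦ_mem h2)
    (fun τ h => by rw [show τ = 1 from RingEquiv.ext h, one_pow]) (aut_odd (by omega))
    (soGrp _).subtype 1 (fun s => by simp [hid]) (fun s => ⟨mem_inn (mem_soGrp.1 s.2).2,
      mem_cent_of_fix hθ ?_⟩) fun c hc => ?_).2
  · have h1 : glT s.1 * g⁻¹ * s.1 = g⁻¹ := Units.ext (mem_soGrp.1 s.2).1
    rw [MulAut.mul_apply, MulAut.conj_apply, glIT_apply, glT_inv, Subgroup.coe_subtype]
    nth_rw 2 [← h1]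
    group
  · obtain ⟨y, rfl⟩ := inn_le hc.1
    obtain ⟨u, hu⟩ := (mem_center_gl_iff' _).1 ((slD_eq_one_iff h2 _).1
      ((commute_twisted_iff _ _ _ hθ y).1 hc.2))
    refine ⟨y, 1, y, u, rfl, by simp [hid], ?_⟩
    rw [MulAut.mul_apply, MulAut.conj_apply, glIT_apply, glT_inv] at hu
    have h1 : glT y * g⁻¹ * y = GeneralLinearGroup.scalar κ u * g⁻¹ := by
      have h3 := Subgroup.mem_center_iff.1 (scalar_mem_center (ι := κ) u)
      calc glT y * g⁻¹ * y = (y * g)⁻¹ * (y * (g * (glT y)⁻¹ * g⁻¹)⁻¹) * y := by group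
        _ = _ := by rw [hu, h3]; group
    rw [← coe_scalar_mul, ← h1]
    rfl

theorem graphField_type [Fintype F] (r : ℕ) [Fact r.Prime] [CharP F r] (hr : 2 ≠ r) (hn : 3 ≤ n)
    {g : GL κ F} {σ : F ≃+* F} (hσ : orderOf σ = 2)
    (hx : (slD κ F g * (slΦ κ F σ * slI κ F)) ^ 2 = 1) :
    ¬ Unbal 2 II (slD κ F g * (slΦ κ F σ * slI κ F)) := by
  have h2 : 2 ≤ Fintype.card κ := by simp; omega
  have : Nonempty κ := ⟨⟨0, by omega⟩⟩
  intro h
  obtain ⟨δ, -, hδ⟩ := isConjUnder_of_lang _ _ (slΦI_conj σ) (by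
    rw [Commute.mul_pow (slΦ_mul_slI σ), ← map_pow, ← hσ, pow_orderOf_eq_one, map_one, one_mul, hσ,
      pow_two, slI_mul_self]) (sl_lang_graphField h2 hσ) hx
  have h1 := h.conj δ⁻¹
  rw [hδ, show δ⁻¹ * (δ * (slΦ κ F σ * slI κ F) * δ⁻¹) * δ⁻¹⁻¹ = slΦ κ F σ * slI κ F by group] at h1
  have hF : Fintype.card F = Nat.card (fixF σ) ^ 2 := by
    rw [← hσ, card_fixF_pow, Nat.card_eq_fintype_card]
  generalize Nat.card (fixF σ) = q at hF
  have hτ := eq_pow_of_orderOf_two hF hσ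
  have := suG_normal (n := n) hτ
  have hjI : ∀ s, slD κ F ((GU n F q).subtype (suG F n q s)) ∈ II := fun s => mem_inn s.1.2
  have hfix : ∀ y, (glField κ F σ * glIT κ F) ((GU n F q).subtype y) = (GU n F q).subtype y :=
    fun y => (mem_GU_iff' hτ _).1 y.2
  have h3 := general_case (ν := MonoidHom.id _) (ν₀ := (GU n F q).subtype) (e := RingHom.id F) r
    slΦ_conj (fun _ _ => rfl) (slD_eq_one_iff h2) inn_le (slΦI_conj σ)
    (fun τ h => by rw [show τ = 1 from RingEquiv.ext h, one_pow]) (fun y => by ext; rfl) hfix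
    (sl_surj_graphField (by omega) hσ hτ) hjI
    (fun α hα => aut_odd (by omega) α (Nat.coprime_two_right.1 hα))
    (fun G χ => su_semi hσ hτ hn r G) (uSub σ (jRho (suJ F n q))) (k := r ^ 2) (d := q + 1)
    (((Nat.coprime_primes Fact.out Nat.prime_two).2 hr.symm).pow_left 2)
    (fun M hM m hm h s hs => (suLike hσ hτ).iwasawa h2 r hm h hs) (su_pow hσ hτ hn)
    (su_elt hF hσ hτ hn) h1
  have hodd : Fintype.card F % 2 = 1 := FiniteField.odd_card_of_char_ne_two
    (by rw [ringChar.eq F r]; exact hr.symm)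
  obtain ⟨s, -, h4, h5⟩ := su_elt hF hσ hτ hn (p := 2) (by
    rw [hF, ← Nat.odd_iff, Nat.odd_pow_iff two_ne_zero] at hodd
    exact hodd.add_one.two_dvd)
  have h6 := Subgroup.orderOf_dvd_natCard (II ⊓ Subgroup.centralizer {slΦ κ F σ * slI κ F})
    ⟨hjI s, mem_cent_of_fix (slΦI_conj σ) (hfix _)⟩
  obtain ⟨c, hc⟩ := (mem_center_gl_iff _).1 ((slD_eq_one_iff h2 _).1
    (eq_one_of_pow_of_coprime (h3.pow_right 2) (orderOf_dvd_iff_pow_eq_one.1 h6)
      (by rw [← map_pow, ← map_pow, ← map_pow, h4, map_one, map_one, map_one])))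
  exact h5 c hc

/-- A criterion for the failure of local balance in almost simple groups with linear socle. Let F be a finite field of characteristic r and K = PSL_n(F) (n ≥ 2) simple. Let A be a group of automorphisms of K containing all inner automorphisms (an almost simple group with socle K), and β ∈ A an automorphism of prime order p ≠ r that is not inner-diagonal (not induced by conjugation by an invertible matrix). Then the largest normal subgroup of C_A(β) of order prime to p is nontrivial if and only if β is the composite of an inner-diagonal automorphism with the automorphism induced by a field automorphism applied entrywise (β is of field type) and p does not divide the number of fixed points of β on K. -/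
theorem result
    (F : Type*) [Field F] [Fintype F] (r : ℕ) [Fact r.Prime] [CharP F r] (n : ℕ) (hn : 2 ≤ n)
    (hK : IsSimpleGroup (Matrix.ProjectiveSpecialLinearGroup (Fin n) F))
    (𝒢 : Subgroup (MulAut (Matrix.ProjectiveSpecialLinearGroup (Fin n) F))) (hinn : ∀ k : Matrix.ProjectiveSpecialLinearGroup (Fin n) F, MulAut.conj k ∈ 𝒢)
    (p : ℕ) [Fact p.Prime] (hpr : p ≠ r) (β : MulAut (Matrix.ProjectiveSpecialLinearGroup (Fin n) F)) (hβ : β ∈ 𝒢) (hord : orderOf β = p)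
    (hnot : ¬ Cfsg.IsInnerDiagonalAutPSL β) :
    Cfsg.pPrimeCore p ↥(𝒢 ⊓ Subgroup.centralizer {β}) ≠ ⊥ ↔
      ((∃ γ φ : MulAut (Matrix.ProjectiveSpecialLinearGroup (Fin n) F), Cfsg.IsInnerDiagonalAutPSL γ ∧ Cfsg.IsFieldAutPSL φ ∧ β = φ.trans γ) ∧
        Nat.Coprime p (Nat.card ↥(MonoidHom.eqLocus β.toMonoidHom (MonoidHom.id (Matrix.ProjectiveSpecialLinearGroup (Fin n) F))))) := by
  have hI : Inn _ ≤ 𝒢 := by rintro _ ⟨k, rfl⟩; exact hinn k
  have hx : β ^ p = 1 := hord ▸ pow_orderOf_eq_one _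
  have hne : ∀ g σ, β = slD (Fin n) F g * slΦ (Fin n) F σ → σ ≠ 1 := fun g σ h h1 => hnot (by
    rw [isInnerDiagonalAutPSL_iff, h, h1, map_one, mul_one]
    exact ⟨g, rfl⟩)
  rw [← card_inn_cent (conj_inj hn), Nat.coprime_comm]
  constructor
  · intro h
    have h1 := unbal_of_core hI h
    obtain ⟨g, σ, rfl⟩ : ∃ g σ, β = slD (Fin n) F g * slΦ (Fin n) F σ := by
      by_cases h2 : n = 2
      · subst h2
        exact psl_aut_two β
      by_cases hp : p = 2
      swap
      · exact aut_odd hn β (hord ▸ (Fact.out : p.Prime).odd_of_ne_two hp)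
      subst hp
      obtain ⟨g, σ, rfl | rfl⟩ := psl_aut hn β
      · exact ⟨g, σ, rfl⟩
      exfalso
      by_cases hσ : σ = 1
      · subst hσ
        rw [map_one, mul_one] at hx h1
        exact graph_type (fun h => hpr (CharP.eq F
          ((CharP.charP_iff_prime_eq_zero Nat.prime_two).2 h) ‹_›)) (by omega) hx h1
      rw [mul_assoc] at hx h1
      refine graphField_type r hpr (by omega) (orderOf_eq_prime ?_ hσ) hx h1
      rw [mul_pow_twisted _ _ _ (slΦI_conj σ), Commute.mul_pow (slΦ_mul_slI σ), pow_two (slI _ _),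
        slI_mul_self, mul_one, ← map_pow, mul_eq_one_iff_eq_inv', ← map_inv] at hx
      exact eq_one_of_slΦ_mem (by simpa using hn) ⟨_, hx.symm⟩
    exact ⟨⟨_, _, (isInnerDiagonalAutPSL_iff _).2 ⟨g, rfl⟩, ⟨σ, (eq_slΦ_iff σ _).1 rfl⟩, rfl⟩,
      (field_type r hn hpr hx (hne g σ rfl)).2 h1⟩
  · rintro ⟨⟨γ, φ, h1, ⟨σ, h2⟩, rfl⟩, h⟩
    obtain ⟨g, rfl⟩ := (isInnerDiagonalAutPSL_iff _).1 h1
    obtain rfl := (eq_slΦ_iff σ _).2 h2
    exact core_of_coprime hI (field_type r hn hpr hx (hne g σ rfl)).1 h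

end Cfsg.Agent.S2686
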