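import Cfsg.Statements.S2688
import Cfsg.Agent.LB.Tr4
import Cfsg.Agent.LB.Tr5
import Cfsg.Agent.LB.D4

set_option autoImplicit false
open Cfsg

namespace Cfsg.Agent.S2688

open Cfsg.Agent.LB Cfsg.Agent.H9.Chev Cfsg.Agent.H6A Cfsg.Agent.S2662

/-- A criterion for the failure of local balance in almost simple groups whose socle is one of the Chevalley groups of type G₂, B₂, D₄, F₄, E₆, E₇, E₈ (realised as the explicit matrix group generated by root elements over a finite field F of characteristic r, assumed simple). Let A be a group of automorphisms of that group K containing all inner automorphisms, and β ∈ A an automorphism of prime order p ≠ r that is not inner-diagonal (not induced by conjugation by an element of K times a diagonal automorphism). Then the largest normal subgroup of C_A(β) of order prime to p is nontrivial if and only if β is the composite of an inner-diagonal automorphism with an entrywise field automorphism and p does not divide the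 number of fixed points of β on K. -/
theorem result (D : Cfsg.Lie.ChevalleyDatum)
    (hD : D ∈ [Cfsg.Lie.chevG2, Cfsg.Lie.chevB2, Cfsg.Lie.chevD4, Cfsg.Lie.chevF4, Cfsg.Lie.chevE6, Cfsg.Lie.chevE7, Cfsg.Lie.chevE8])
    (F : Type*) [Field F] [Fintype F] (r : ℕ) [Fact r.Prime] [CharP F r] (hK : IsSimpleGroup ↥(D.group F))
    (𝒢 : Subgroup (MulAut (↥(D.group F)))) (hinn : ∀ k : ↥(D.group F), MulAut.conj k ∈ 𝒢)
    (p : ℕ) [Fact p.Prime] (hpr : p ≠ r) (β : MulAut (↥(D.group F))) (hβ : β ∈ 𝒢) (hord : orderOf β = p)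
    (hnot : ¬ D.IsInnerDiagonalAutOn (D.group F) β) :
    Cfsg.pPrimeCore p ↥(𝒢 ⊓ Subgroup.centralizer {β}) ≠ ⊥ ↔
      ((∃ γ φ : MulAut ↥(D.group F), D.IsInnerDiagonalAutOn (D.group F) γ ∧ Cfsg.Lie.IsEntrywiseFieldAutOn (D.group F) φ ∧
          β = φ.trans γ) ∧
        Nat.Coprime p (Nat.card ↥(MonoidHom.eqLocus β.toMonoidHom (MonoidHom.id (↥(D.group F)))))) := by
  simp only [List.mem_cons, List.not_mem_nil, or_false] at hD
  rcases hD with rfl | rfl | rfl | rfl | rfl | rfl | rfl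
  · exact crit goodG2 cmbG2 r 𝒢 hinn p hpr β hord hnot fun _ π _ _ _ _ _ _ _ h1 _ =>
      .inr (.inl (g2d_cmb _ _ F (tyG2 π h1)))
  · exact crit goodB2 cmbB2 r 𝒢 hinn p hpr β hord hnot fun _ π _ _ _ _ _ _ _ h1 _ =>
      .inl (bfd_cmb _ _ F (tyB2 π h1))
  · refine crit goodD4 cmbD4 r 𝒢 hinn p hpr β hord hnot fun hN π c σ k a hk e s h1 g => ?_
    by_cases h0 : π (0 : Fin 4) = (0 : Fin 4)
    · exact .inr (.inr (.inl (sld_cmb _ _ F (tyD4 π h1 h0 (graph_cmb _ _ F g)))))
    rcases d4_dich r hK 𝒢 hinn p hpr β hβ hord hN with h2 | ⟨α, φ, τ, h2, h3⟩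
    · exfalso
      obtain ⟨k, rfl⟩ := (mem_aut_K _ _).1 hk
      obtain ⟨j, hj⟩ := π.surjective (0 : Fin 4)
      have h3 := s.xn j 1
      rw [hj, dA, aut_x, aut_x, conj_conj,
        (conj_inj (ax0 goodD4 cmbD4 F) (geq goodD4 F)).eq_iff] at h3
      refine mul_ne_zero (Units.ne_zero _) ((map_ne_zero _).2 one_ne_zero) (h2 k a e (fun g => ?_)
        j (fun e => h0 ?_) 1 _ _ rfl (congrArg Subtype.val h3))
      · refine (conj_mem_aut_US (ax0 goodD4 cmbD4 F) (geq goodD4 F)).symm.trans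
          (Iff.trans ?_ (conj_mem_aut_US (ax0 goodD4 cmbD4 F) (geq goodD4 F)))
        rw [← conj_conj]
        exact Subgroup.mem_normalizer_iff.1 s.nU _
      · exact (congrArg π e.symm).trans hj
    · exact .inr (.inr (.inr ⟨α, τ, φ, (isFld_iff _ _).2 h2, h3⟩))
  · exact crit goodF4 cmbF4 r 𝒢 hinn p hpr β hord hnot fun _ π _ _ _ _ _ _ _ h1 g =>
      .inl (bfd_cmb _ _ F (tyF4 π h1 (graph_cmb _ _ F g)))
  · exact crit goodE6 cmbE6 r 𝒢 hinn p hpr β hord hnot fun _ π _ _ _ _ _ _ _ h1 g =>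
      .inr (.inr (.inl (sld_cmb _ _ F (tyE6 π h1 (graph_cmb _ _ F g)))))
  · exact crit goodE7 cmbE7 r 𝒢 hinn p hpr β hord hnot fun _ π _ _ _ _ _ _ _ h1 g =>
      absurd (grE7 π (graph_cmb _ _ F g)) h1
  · exact crit goodE8 cmbE8 r 𝒢 hinn p hpr β hord hnot fun _ π _ _ _ _ _ _ _ h1 g =>
      absurd (grE8 π (graph_cmb _ _ F g)) h1

end Cfsg.Agent.S2688
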