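import Cfsg.Statements.S2709
import Cfsg.Agent.H6.GrU

set_option autoImplicit false
open Cfsg

namespace Cfsg.Agent.S2709

/-- Let T = PSU_n(q) be simple (n ≥ 3, (n,q) ≠ (3,2), q = p^f), realised over the field F with q² elements, G = Inndiag(T) the image of PGU_n(q), and γ an involutory graph automorphism of T. The G-class of γ is the union of exactly c T-classes, where: if n is even and q is odd, c = gcd(n/2, q + 1) when C_G(γ) is isomorphic to PGSp_n(F₀) for a field F₀ with q elements (symplectic type) and c = gcd(n, q + 1)/2 otherwise; and c = gcd(n, q + 1) when n is odd or q is even. -/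
theorem result {F : Type*} [Field F] [Fintype F] {p f q : ℕ} [Fact p.Prime] (hq : q = p ^ f) (hf : 1 ≤ f) (hF : Fintype.card F = q ^ 2) {n : ℕ} (hn : 3 ≤ n) (hs : ¬ (n = 3 ∧ q = 2)) (F₀ : Type*) [Field F₀] [Fintype F₀] (hF₀ : Fintype.card F₀ = q) (γ : MulAut (Cfsg.PSU n F q)) (hγ : Cfsg.IsGraphAutClassPSU γ) (hγ2 : orderOf γ = 2) :
    ((Even n ∧ Odd q ∧ Nonempty (↥(Cfsg.inndiagPSU n F q ⊓ Subgroup.centralizer {γ}) ≃* Cfsg.PGSp (n / 2) F₀)) → Cfsg.splitClassCount (Cfsg.inndiagPSU n F q) (Cfsg.Inn (Cfsg.PSU n F q)) γ = Nat.gcd (n / 2) (q + 1)) ∧ ((Even n ∧ Odd q ∧ ¬ Nonempty (↥(Cfsg.inndiagPSU n F q ⊓ Subgroup.centralizer {γ}) ≃* Cfsg.PGSp (n / 2) F₀)) → Cfsg.splitClassCount (Cfsg.inndiagPSU n F q) (Cfsg.Inn (Cfsg.PSU n F q)) γ = Nat.gcd n (q + 1) / 2) ∧ (¬ (Even n ∧ Odd q) → Cfsg.splitClassCount (Cfsg.inndiagPSU n F q) (Cfsg.Inn (Cfsg.PSU n F q)) γ = Nat.gcd n (q + 1)) := by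
  open H6 Matrix in
  obtain ⟨τ, e, hσ, hτ, he⟩ := exists_unit_data hF hF₀
  have : NeZero n := ⟨by omega⟩
  have h1 : ∀ x : Fˣ, x ∈ normOne F q ↔ x * τ x = 1 := fun x => by
    rw [hτ, ← pow_succ', ← Units.val_pow_eq_pow_val, Units.val_eq_one]; rfl
  have h2 : ∀ c, τ (e c) = e c := fun c => (he _).2 ⟨c, rfl⟩
  have := (grU hF hσ hτ he hn).split (j := (normOne F q).subtype) (δ := guDet n hτ) (n := n)
    (O := Odd q) Subtype.val_injective (guDet_surj hτ) (fun _ => rfl) (fun x => by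
      obtain ⟨l, hl0, hl⟩ := exists_h90_two hσ ((h1 _).1 x.2)
      have h3 := (_root_.map_ne_zero τ).2 hl0
      obtain ⟨c, hc⟩ := (he (l * τ l)⁻¹).1 (by
        rw [map_inv₀, map_mul, sq_of_orderOf_two hσ, mul_comm])
      refine ⟨Units.mk0 l hl0, c, by rw [hc]; exact mul_inv_cancel₀ (mul_ne_zero hl0 h3), ?_⟩
      rw [hc, Units.val_mk0]
      field_simp
      exact hl)
    (fun v c h h' => ⟨⟨v ^ 2 * Units.mk0 (e c) ((_root_.map_ne_zero e).2 h), (h1 _).2 (by
      simp only [Units.val_mul, Units.val_pow_eq_pow_val, Units.val_mk0, map_mul, map_pow, h2]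
      linear_combination (v * τ v * e c + 1) * h')⟩, by simp⟩)
    (fun x => by simpa using (h1 _).1 x.2)
    (fun v c h h' => ⟨⟨v * Units.mk0 (e c) ((_root_.map_ne_zero e).2 h), (h1 _).2 (by
      simp only [Units.val_mul, Units.val_mk0, map_mul, map_pow, h2] at h' ⊢
      linear_combination h')⟩, by simp⟩) (by simp) (by omega)
    ⟨fun h => two_ne_zero_of_odd (hF₀ ▸ h), fun h => by
      classical exact hF₀ ▸ Nat.odd_iff.2 (FiniteField.odd_card_of_char_ne_two fun h' => h (by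
        simpa [h'] using ringChar.Nat.cast_ringChar (R := F₀)))⟩
    (fun h => by rw [card_normOne hF]; exact h.add_one) ⟨hγ, hγ2⟩
  rwa [← inn_psu_eq, ← inndiagPSU_eq, card_normOne hF] at this

end Cfsg.Agent.S2709
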