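import Cfsg.Statements.S2730
import Cfsg.Agent.H6.BalLib

set_option autoImplicit false
open Cfsg

namespace Cfsg.Agent.S2730

open Matrix H6

/-- the inclusion of the symplectic group in the conformal symplectic group -/
def spG (F : Type*) [Field F] (m : ℕ) : Matrix.symplecticGroup (Fin m) F →* GSp m F :=
  (spJ F m).codRestrict _ spJ_mem_GSp

theorem spG_range (F : Type*) [Field F] (m : ℕ) [NeZero m] : (spG F m).range = (gspMul F m).ker := by
  ext g
  constructor
  · rintro ⟨s, rfl⟩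
    refine Units.ext (gspMul_eq ?_)
    rw [Units.val_one, one_smul]
    exact (mem_spJ_range _).1 ⟨s, rfl⟩
  · intro h
    have := gspMul_spec g
    rw [MonoidHom.mem_ker.1 h, Units.val_one, one_smul] at this
    obtain ⟨s, hs⟩ := (mem_spJ_range _).2 this
    exact ⟨s, Subtype.ext hs⟩

theorem map_tv' {F F₀ ι : Type*} [Field F] [Field F₀] [DecidableEq ι] (e : F₀ →+* F) (a f : ι → F₀) :
    (tv a f).map e = tv (e ∘ a) (e ∘ f) := by
  ext i j
  by_cases h : i = j <;> simp [tv, vecMulVec_apply, h]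

theorem exists_lift {F F₀ : Type*} [Field F] [Field F₀] {m : ℕ} [NeZero m] (e : F₀ →+* F)
    (s : Matrix.symplecticGroup (Fin m) F₀) : ∃ t, (gspMap m e (spG F₀ m s)).1 = spJ F m t := by
  obtain ⟨t, ht⟩ := (mem_spJ_range (gspMap m e (spG F₀ m s)).1).2 (by
    have h1 := congrArg (·.map e) ((mem_spJ_range (spJ F₀ m s)).1 ⟨s, rfl⟩)
    have h2 := map_smul_J (m := m) e 1
    rw [one_smul, map_one, one_smul] at h2
    simp only [map_gramJ, h2] at h1
    exact h1)
  exact ⟨t, ht.symm⟩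

/-- A criterion for the failure of local balance in almost simple groups whose socle is a projective symplectic group PSp_{2m}(F) (m ≥ 2, (2m, |F|) ≠ (4, 2)). Let F be a finite field of characteristic r and K the (simple) group in question; let A be a group of automorphisms of K containing all inner automorphisms, and x ∈ A an automorphism of prime order p ≠ r that is not inner-diagonal (not induced by a conformal symplectic matrix). Then the largest normal subgroup of C_A(x) of order prime to p is nontrivial if and only if x is a field automorphism of K (conjugate under Aut(K) to a non-identity standard field automorphism) and p does not divide the number of fixed points of x on K. -/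
theorem result {F : Type*} [Field F] [Fintype F] {r : ℕ} [Fact r.Prime] [CharP F r] {m : ℕ} (hm : 2 ≤ m) (hs : m = 2 → 3 ≤ Fintype.card F) (hK : IsSimpleGroup (Cfsg.PSp m F)) (A : Subgroup (MulAut (Cfsg.PSp m F))) (hinn : ∀ k : Cfsg.PSp m F, MulAut.conj k ∈ A) {p : ℕ} [Fact p.Prime] (hpr : p ≠ r) (x : MulAut (Cfsg.PSp m F)) (hxA : x ∈ A) (hord : orderOf x = p) (hnot : ¬ Cfsg.IsInnerDiagonalAutPSp x) :
    Cfsg.pPrimeCore p ↥(A ⊓ Subgroup.centralizer {x}) ≠ ⊥ ↔ (Cfsg.IsFieldAutClassPSp x ∧ Nat.Coprime p (Nat.card ↥(MonoidHom.eqLocus x.toMonoidHom (MonoidHom.id (Cfsg.PSp m F))))) := by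
  have : NeZero m := ⟨by omega⟩
  have hp : p.Prime := Fact.out
  have hI : Inn (PSp m F) ≤ A := by rintro _ ⟨k, rfl⟩; exact hinn k
  obtain ⟨g, σ, rfl⟩ := psp_aut_odd hm x fun h2 => by
    rw [hord]
    refine hp.odd_of_ne_two fun h => hpr ?_
    have : CharP F 2 := (CharP.charP_iff_prime_eq_zero Nat.prime_two).2 h2
    rw [h, CharP.eq F this ‹CharP F r›]
  have hx : (spD F m g * spΦ F m σ) ^ p = 1 := hord ▸ pow_orderOf_eq_one _
  have ho : orderOf σ = p := orderOf_eq_prime
    (pow_eq_one_of_DΦ _ _ _ spΦ_conj (fun _ => eq_one_of_spΦ_mem) hx) fun h => hnot (by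
      rw [isInnerDiagonalAutPSp_iff, h, map_one, mul_one]
      exact ⟨g, rfl⟩)
  have := Fintype.ofFinite (fixF σ)
  obtain ⟨e, he⟩ := exists_emb_fixF σ (fixF σ) Nat.card_eq_fintype_card.symm
  obtain ⟨δ, -, hδ⟩ := isConjUnder_of_lang _ _ (spΦ_conj σ)
    (by rw [← map_pow, ← ho, pow_orderOf_eq_one, map_one]) (sp_lang_field he ho) hx
  have hjI : ∀ s, spD F m (gspMap m e (spG _ m s)) ∈ Inn (PSp m F) := fun s => by
    obtain ⟨t, ht⟩ := exists_lift e s
    exact ⟨_, (diagAut_j spJ_inj gsp_normalizes ht).symm⟩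
  have U := spLike (F := fixF σ) (m := m)
  obtain ⟨t, f, ht⟩ := U.exists_isTv (a := Pi.single (Sum.inl 0) 1) (by simp)
  rw [← card_inn_cent psp_conj_inj, hδ, card_inf_cent_conj, Nat.coprime_comm]
  constructor
  · intro h
    refine ⟨⟨δ⁻¹, σ, fun h1 => hp.one_lt.ne' (by rw [← ho, h1]; exact orderOf_one),
      (isStdFieldAutPSp_iff _ _).2 (by group)⟩, ?_⟩
    have h1 := (unbal_of_core hI h).conj δ⁻¹
    rw [show δ⁻¹ * (δ * spΦ F m σ * δ⁻¹) * δ⁻¹⁻¹ = spΦ F m σ by group] at h1
    have : (spG (fixF σ) m).range.Normal := spG_range (fixF σ) m ▸ inferInstance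
    refine field_case (ν := (GSp m F).subtype) (ν₀ := (GSp m _).subtype) r spΦ_conj
      (fun _ _ => rfl) spD_eq_one_iff (inn_psp_eq (F := F) (m := m) ▸ Subgroup.map_le_range _ _) ho he
      (fun _ => rfl) (gspField_gspMap he) (sp_surj_field he) hjI (fun n hn => ?_)
      (fun G χ hG hs => ?_) ⊤ (k := r) (d := Fintype.card (fixF σ) - 1)
      ((Nat.coprime_primes Fact.out hp).2 hpr.symm)
      (fun M hM m hm h s _ => U.iwasawa r hm h s) (fun y => ?_) (fun hd => ?_) h1
    · obtain ⟨t', ht'⟩ := exists_lift e t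
      refine psp_aut_of_fix hm n (t := t') (a := e ∘ Pi.single (Sum.inl 0) 1) (f := e ∘ f)
        ⟨cne e ht.1, cne e ht.2.1, by rw [cdot, ht.2.2.1, map_zero], ?_⟩ ht' (hn t)
      rw [← map_tv', ← ht.2.2.2]
      exact congrArg Units.val ht'.symm
    · refine semi_all (by rw [card_sum_fin]; omega) hG fun a ha => ?_
      obtain ⟨s, f, h⟩ := U.exists_isTv ha
      have := hs s (by rw [pow_two, pow_mul, tvAt_pow U.inj r ⟨f, h.2.2.1, h.2.2.2⟩, one_pow])
      exact SComm.fix_tv (h.2.2.2 ▸ this) h.2.1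
    · obtain ⟨s, hs⟩ : y ^ (Fintype.card (fixF σ) - 1) ∈ (spG (fixF σ) m).range := by
        rw [spG_range, MonoidHom.mem_ker, map_pow, ← Nat.card_eq_fintype_card, ← Nat.card_units,
          pow_card_eq_one']
      exact ⟨s, trivial, hs⟩
    · obtain ⟨s, h2, h3⟩ := U.exists_elt hp hd
      exact ⟨s, trivial, h2, h3⟩
  · rintro ⟨-, h⟩
    refine core_of_coprime hI ?_ (by rwa [card_inf_cent_conj])
    refine inf_cent_conj_ne_bot _ δ⁻¹ fun h0 => ?_
    rw [show δ⁻¹ * (δ * spΦ F m σ * δ⁻¹) * δ⁻¹⁻¹ = spΦ F m σ by group, Subgroup.eq_bot_iff_forall]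
      at h0
    obtain ⟨c, hc⟩ := (map_mem_center_iff' e _).1 ((spD_eq_one_iff _).1
      (h0 _ ⟨hjI t, mem_cent_of_fix (spΦ_conj σ) (gspField_gspMap he _)⟩))
    exact tv_ne_smul_one ht.1 ht.2.1 ht.2.2.1 c (ht.2.2.2 ▸ hc)

end Cfsg.Agent.S2730
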