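import Cfsg.Statements.S2731
import Cfsg.Agent.H7.BalB

set_option autoImplicit false
open Cfsg

namespace Cfsg.Agent.S2731

open H7

/-- A criterion for the failure of local balance in almost simple groups whose socle is an odd-dimensional orthogonal group Ω_{2m+1}(F) (m ≥ 3, |F| odd; the form x₀² + Σ xᵢ yᵢ). Let F be a finite field of characteristic r and K the (simple) group in question; let A be a group of automorphisms of K containing all inner automorphisms, and x ∈ A an automorphism of prime order p ≠ r that is not inner-diagonal (not induced by a similarity of the form). Then the largest normal subgroup of C_A(x) of order prime to p is nontrivial if and only if x is a field automorphism of K (conjugate under Aut(K) to a non-identity standard field automorphism) and p does not divide the number of fixed points of x on K. -/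
theorem result {F : Type*} [Field F] [Fintype F] {r : ℕ} [Fact r.Prime] [CharP F r] (hodd : Odd (Fintype.card F)) {m : ℕ} (hm : 3 ≤ m) (hK : IsSimpleGroup (Cfsg.POmega F (Cfsg.quadFormOdd m F))) (A : Subgroup (MulAut (Cfsg.POmega F (Cfsg.quadFormOdd m F)))) (hinn : ∀ k : Cfsg.POmega F (Cfsg.quadFormOdd m F), MulAut.conj k ∈ A) {p : ℕ} [Fact p.Prime] (hpr : p ≠ r) (x : MulAut (Cfsg.POmega F (Cfsg.quadFormOdd m F))) (hxA : x ∈ A) (hord : orderOf x = p) (hnot : ¬ Cfsg.IsInnerDiagonalAutPOmegaOdd m x) :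
    Cfsg.pPrimeCore p ↥(A ⊓ Subgroup.centralizer {x}) ≠ ⊥ ↔ (Cfsg.IsFieldAutClassPOmega (Cfsg.quadFormOdd m F) x ∧ Nat.Coprime p (Nat.card ↥(MonoidHom.eqLocus x.toMonoidHom (MonoidHom.id (Cfsg.POmega F (Cfsg.quadFormOdd m F)))))) := by
  have h2 := odd_card_two_ne_zero hodd
  have hQ := nd_QO (m := m) h2
  have ho : Odd (Module.finrank F (Unit ⊕ (Fin m ⊕ Fin m) → F)) := by rw [finrank_QO]; simp
  have hI : Inn (POmega F ⇑(QO F m)) ≤ A := by rintro _ ⟨k, rfl⟩; exact hinn k
  obtain ⟨γ, rfl⟩ := actP_surjective_QO h2 hm x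
  have h1 : γ.σ ≠ 1 := fun h => hnot ((isInnDiagOdd_iff _).2 ⟨γ, h, rfl⟩)
  have ha := ker_actP hQ (by simp; omega)
  have hσ := orderOf_σ_eq ha Fact.out hord h1
  have e := H6.card_inn_cent (conj_injective_POmega hQ (by simp; omega)) (actP (QO F m) γ)
  constructor
  · intro h
    refine ⟨?_, Nat.coprime_comm.1 (e ▸ coprime_of_unbal hQ (by simp; omega) r hpr hord h1
      (H6.unbal_of_core hI h))⟩
    obtain ⟨α, -, h3⟩ := isConjUnder_odd hQ (γ := γ) (γ' := SS.std γ.σ (std_QO m γ.σ)) rfl hσ
      (pow_mem_ZS ha hord) (by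
        rw [SS.std_pow_eq_one hQ _ (hσ ▸ pow_orderOf_eq_one _)]; exact one_mem _) ha h2 ho
    exact ⟨α, _, γ.σ, h1, ((hasMat_std γ.σ (std_QO m γ.σ)).isField_iff _).2 rfl, h3.symm⟩
  · rintro ⟨-, h⟩
    exact H6.core_of_coprime hI (inn_cent_ne_bot hQ (by simp; omega) Fact.out hord h1)
      (e ▸ Nat.coprime_comm.1 h)

end Cfsg.Agent.S2731
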