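import Cfsg.Statements.S2733
import Cfsg.Agent.H7.BalH

set_option autoImplicit false
open Cfsg

namespace Cfsg.Agent.S2733

open H7

/-- A criterion for the failure of local balance in almost simple groups whose socle is a minus-type orthogonal group PΩ⁻_{2m+2}(F) (m ≥ 3; the form Σ xᵢ yᵢ + z₁² + a z₁ z₂ + b z₂² with anisotropic binary part). Let F be a finite field of characteristic r and K the (simple) group in question; let A be a group of automorphisms of K containing all inner automorphisms, and x ∈ A an automorphism of prime order p ≠ r that is not inner-diagonal (not induced by a class-preserving similarity, classes read over a quadratic extension). Then the largest normal subgroup of C_A(x) of order prime to p is nontrivial if and only if x is a field automorphism of K (conjugate under Aut(K) to a non-identity standard field automorphism) and p does not divide the number of fixed points of x on K. -/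
theorem result {F : Type*} [Field F] [Fintype F] {r : ℕ} [Fact r.Prime] [CharP F r] {m : ℕ} (hm : 3 ≤ m) (a b : F) (hab : (∀ z₁ z₂ : F, z₁ ^ 2 + a * z₁ * z₂ + b * z₂ ^ 2 = 0 → z₁ = 0 ∧ z₂ = 0)) (hK : IsSimpleGroup (Cfsg.POmega F (Cfsg.quadFormMinus m F a b))) (A : Subgroup (MulAut (Cfsg.POmega F (Cfsg.quadFormMinus m F a b)))) (hinn : ∀ k : Cfsg.POmega F (Cfsg.quadFormMinus m F a b), MulAut.conj k ∈ A) {p : ℕ} [Fact p.Prime] (hpr : p ≠ r) (x : MulAut (Cfsg.POmega F (Cfsg.quadFormMinus m F a b))) (hxA : x ∈ A) (hord : orderOf x = p) (hnot : ¬ Cfsg.IsInnerDiagonalAutPOmegaMinus m a b x) :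
    Cfsg.pPrimeCore p ↥(A ⊓ Subgroup.centralizer {x}) ≠ ⊥ ↔ (Cfsg.IsFieldAutClassPOmegaMinus m x ∧ Nat.Coprime p (Nat.card ↥(MonoidHom.eqLocus x.toMonoidHom (MonoidHom.id (Cfsg.POmega F (Cfsg.quadFormMinus m F a b)))))) := by
  have hQ := nd_QM (m := m) (disc_ne_zero_of_aniso hab)
  have hk := finrank_QM F m
  have hev : Even (Module.finrank F ((Fin m ⊕ Fin m) ⊕ Fin 2 → F)) := hk ▸ even_two_mul _
  have hI : Inn (POmega F ⇑(QM F m a b)) ≤ A := by rintro _ ⟨k, rfl⟩; exact hinn k
  have hs := actP_surjective_QM hm hab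
  have ha := ker_actP hQ (by simp; omega)
  have e := H6.card_inn_cent (conj_injective_POmega hQ (by simp; omega)) x
  constructor
  · intro h
    have hU := H6.unbal_of_core hI h
    obtain ⟨γ, rfl⟩ := hs x
    have h1 : γ.σ ≠ 1 := fun h1 => by
      have : ((KS (QM F m a b)).map (actP _)).Normal := inn_eq_KS (Q := QM F m a b) ▸ inferInstance
      rw [inn_eq_KS] at hU
      exact not_unbal_graph ha hQ hk (by omega) (fun n _ _ _ _ _ _ _ _ => hs n) (fun _ => hs) r hpr
        hord h1 (fun h2 => hnot ((isInnDiagMinus_iff hab (by omega) _).2 ⟨γ, h2, rfl⟩)) hU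
    exact ⟨fieldClassMinus_of hm hab Fact.out hord h1, Nat.coprime_comm.1 (e ▸ coprime_of_unbal hQ (by simp; omega) r hpr hord h1 hU)⟩
  · rintro ⟨h1, h⟩
    obtain ⟨γ, h2, rfl⟩ := exists_of_fieldClassMinus hm hab h1
    exact H6.core_of_coprime hI (inn_cent_ne_bot hQ (by simp; omega) Fact.out hord h2)
      (e ▸ Nat.coprime_comm.1 h)

end Cfsg.Agent.S2733
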