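import Cfsg.Statements.S4365
import Cfsg.Agent.H2.MaxClass
import Cfsg.Agent.H2.Class2
import Cfsg.Agent.H3.Invol

set_option autoImplicit false
open Cfsg

namespace Cfsg.Agent.S4365

open Subgroup Cfsg.Agent.H2
open scoped commutatorElement Pointwise


/-- Let P be a finite p-group whose conjugacy class sizes are exactly 1 and pᵃ for some a ≥ 1. Then every element of P has its p-th power in the center of P (P/Z(P) has exponent p). -/
theorem result {P : Type*} [Group P] [Finite P] (p : ℕ) [Fact p.Prime]
    (hP : IsPGroup p P) (a : ℕ) (ha : 1 ≤ a)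
    (hcs : {k : ℕ | ∃ x : P, (Subgroup.centralizer ({x} : Set P)).index = k} = {1, p ^ a}) (x : P) :
    x ^ p ∈ Subgroup.center P := by
  have hp : p.Prime := Fact.out
  by_contra hx
  have h1 : ∀ g : P, g ∉ center P → (centralizer {g}).index = p ^ a := fun g hg => by
    have : (centralizer {g}).index ∈ ({1, p ^ a} : Set ℕ) := hcs ▸ ⟨g, rfl⟩
    refine this.resolve_left fun h => hg (mem_center_iff.mpr fun y => ?_)
    exact mem_centralizer_singleton_iff.mp ((index_eq_one.mp h).ge (mem_top y))
  have h2 : ∀ g h : P, g ∉ center P → h ∉ center P → centralizer {g} ≤ centralizer {h} →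
      centralizer ({g} : Set P) = centralizer {h} := fun g h hg hh hle =>
    eq_of_le_of_card_ge hle (Nat.le_of_mul_le_mul_right (c := p ^ a) (by
      conv_lhs => rw [← h1 h hh, card_mul_index]
      rw [← h1 g hg, card_mul_index]) (pow_pos hp.pos a))
  have h3 : ∀ g : P, g ^ p ∉ center P → centralizer ({g} : Set P) = centralizer {g ^ p} :=
    fun g hg => h2 g _ (fun h => hg (pow_mem h p)) hg fun y hy => mem_centralizer_singleton_iff.mpr
      (Commute.pow_right (mem_centralizer_singleton_iff.mp hy) p)
  have h4 : ∀ g y : P, g ^ p ∉ center P → ⁅y, g⁆ ∈ center P → y ∈ centralizer {g} := fun g y hg h => by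
    by_contra hy
    obtain ⟨k, hk⟩ := hP y
    obtain ⟨j, h5, h6⟩ := exists_pow_not_mem_pow_mem (p := p) hy (k := k) (hk ▸ one_mem _)
    have h7 : ⁅y ^ p ^ j, g⁆ ∈ center P := by
      rw [commutator_pow_left_of_commute (mem_center_iff.mp h y)]
      exact pow_mem h _
    refine h5 (h3 g hg ▸ mem_centralizer_singleton_iff.mpr ?_)
    rw [← commutatorElement_eq_one_iff_mul_comm, commutator_pow_right_of_commute
      (mem_center_iff.mp h7 _), ← commutator_pow_left_of_commute (mem_center_iff.mp h7 _),
      commutatorElement_eq_one_iff_mul_comm]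
    exact mem_centralizer_singleton_iff.mp h6
  have hxZ : x ∉ center P := fun h => hx (pow_mem h p)
  obtain ⟨z, -, hz, hzp, hzc⟩ := exists_mem_not_mem_pow_mem_top hP (K := ⊤) (M := center P)
    fun h => hxZ (h (mem_top x))
  have h5 : ∀ g w : P, w ∈ center P →
      centralizer ({g * w} : Set P) = centralizer {g} := fun g w hw => by
    ext y
    rw [mem_centralizer_singleton_iff, mem_centralizer_singleton_iff, mul_assoc g,
      ← mem_center_iff.mp hw y, ← mul_assoc, ← mul_assoc, mul_left_inj]
  have h6 : ∀ g : P, g ^ p ∉ center P → centralizer ({g} : Set P) = centralizer {z} := fun g hg => by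
    have h6 : (g ^ p)⁻¹ * (g * z) ^ p ∈ center P := by
      rw [← QuotientGroup.eq, QuotientGroup.mk_pow, QuotientGroup.mk_pow, QuotientGroup.mk_mul,
        Commute.mul_pow, ← QuotientGroup.mk_pow _ z, (QuotientGroup.eq_one_iff _).mpr hzp, mul_one]
      refine (commutatorElement_eq_one_iff_commute.mp ?_).symm
      exact (QuotientGroup.eq_one_iff _).mpr (hzc g)
    have h7 := h3 (g * z) fun h => hg (inv_mem_iff.mp ((mul_mem_cancel_right h).mp h6))
    rw [← mul_inv_cancel_left (g ^ p) ((g * z) ^ p), h5 _ _ h6, ← h3 g hg] at h7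
    refine h2 g z (fun h => hg (pow_mem h p)) hz fun y hy => mem_centralizer_singleton_iff.mpr ?_
    have h8 := mem_centralizer_singleton_iff.mp (h7.ge hy)
    rwa [← mul_assoc, mem_centralizer_singleton_iff.mp hy, mul_assoc, mul_assoc,
      mul_right_inj] at h8
  set A := centralizer ({x} : Set P) with hA
  have hxA : x ∈ A := mem_centralizer_singleton_iff.mpr rfl
  have hAn : A.Normal := ⟨fun c hc g => by
    have hAz : A = centralizer {z} := h6 x hx
    rw [hAz] at hc ⊢
    have h0 : g⁻¹ * z * g = z * ⁅z⁻¹, g⁻¹⁆ := by group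
    have h00 : ⁅z⁻¹, g⁻¹⁆ ∈ center P := by
      have := (inferInstance : (center P).Normal).conj_mem _ (inv_mem (hzc g⁻¹)) z⁻¹
      convert this using 1
      group
    rw [← h5 z _ h00, ← h0, mem_centralizer_singleton_iff] at hc
    rw [mem_centralizer_singleton_iff]
    calc g * c * g⁻¹ * z = g * (c * (g⁻¹ * z * g)) * g⁻¹ := by group
      _ = z * (g * c * g⁻¹) := by rw [hc]; group⟩
  have h7 : ∀ c ∈ A, A ≤ centralizer {c} := fun c hc => by
    by_cases h : c ^ p ∈ center P
    · have hcx : Commute c x := mem_centralizer_singleton_iff.mp hc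
      have h7 := h6 (c * x) (by
        rw [hcx.mul_pow]
        exact fun h' => hx ((mul_mem_cancel_left h).mp h'))
      intro y hy
      have h8 := mem_centralizer_singleton_iff.mp ((h7.trans (h6 x hx).symm).ge hy)
      rw [mul_assoc, ← mem_centralizer_singleton_iff.mp hy, ← mul_assoc, ← mul_assoc,
        mul_left_inj] at h8
      exact mem_centralizer_singleton_iff.mpr h8
    · exact ((h6 x hx).trans (h6 c h).symm).le
  obtain ⟨y, hy⟩ := not_forall.mp (mt mem_center_iff.mpr hxZ)
  have h8 : (center P).relIndex A ≤ p ^ a := by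
    have hyZ : y ∉ center P := fun h => hy (mem_center_iff.mp h x).symm
    rw [← h1 y hyZ]
    refine le_trans (relIndex_le_of_le_left (H := centralizer {y} ⊓ A) (fun c hc => ?_)
      (relIndex_ne_zero' _ _)) ((inf_relIndex_right _ _).trans_le ((relIndex_le_of_le_right le_top (relIndex_ne_zero' _ _)).trans_eq (relIndex_top_right _)))
    by_contra h
    exact hy (mem_centralizer_singleton_iff.mp ((h2 x c hxZ h (h7 c hc.2)).ge
      (mem_centralizer_singleton_iff.mpr (mem_centralizer_singleton_iff.mp hc.1).symm)))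
  set f := QuotientGroup.mk' (center P) with hf
  have h9 : (centralizer {f x}).comap f = A := by
    ext g
    rw [mem_comap, mem_centralizer_singleton_iff, ← commutatorElement_eq_one_iff_mul_comm,
      ← map_commutatorElement, hf, QuotientGroup.mk'_apply, QuotientGroup.eq_one_iff]
    exact ⟨h4 x g hx, fun h => by
      rw [commutatorElement_eq_one_iff_mul_comm.mpr (mem_centralizer_singleton_iff.mp h)]
      exact one_mem _⟩
  have h10 := H3.card_class_eq_index (f x)
  rw [← index_comap_of_surjective _ (QuotientGroup.mk'_surjective _), h9, h1 x hxZ] at h10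
  rw [← QuotientGroup.ker_mk' (center P), relIndex_ker, ← h10] at h8
  refine h8.not_gt (Set.ncard_lt_ncard (s := {y | IsConj (f x) y}) (t := A.map f) ⟨?_, fun h => ?_⟩)
  · intro u hu
    obtain ⟨g, rfl⟩ := isConj_iff.mp hu
    obtain ⟨g, rfl⟩ := QuotientGroup.mk'_surjective _ g
    exact ⟨_, hAn.conj_mem x hxA g, by simp [hf]⟩
  · exact hxZ ((QuotientGroup.eq_one_iff x).mp (isConj_one_left.mp (h (one_mem _))))

end Cfsg.Agent.S4365
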