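import Cfsg.Statements.S4370
import Cfsg.Agent.H2.NoFour
import Cfsg.Agent.H1.Transfer
import Cfsg.Agent.L.Core
import Mathlib.GroupTheory.NoncommCoprod
import Mathlib.GroupTheory.SpecificGroups.ZGroup

set_option autoImplicit false
open Cfsg

namespace Cfsg.Agent.S4370

open Subgroup Cfsg.Agent.H2
open scoped commutatorElement Pointwise


/-- Let G be a finite non-abelian nilpotent group. Then the centralizer of every non-central element of G is cyclic if and only if G is isomorphic to the direct product of a generalized quaternion group and a cyclic group of odd order. -/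
theorem result {G : Type*} [Group G] [Finite G] (hG : Group.IsNilpotent G)
    (hna : ¬ IsMulCommutative G) :
    (∀ x : G, x ∉ Subgroup.center G → IsCyclic (Subgroup.centralizer ({x} : Set G))) ↔
      ∃ (k m : ℕ), 1 ≤ k ∧ Odd m ∧ Nonempty (G ≃* QuaternionGroup (2 ^ k) × Multiplicative (ZMod m)) := by
  constructor
  · intro h
    have h1 : ∀ A : Subgroup G, IsMulCommutative A → IsCyclic A := fun A hA => by
      by_cases h1 : A ≤ center G
      · obtain ⟨x, hx⟩ : ∃ x, x ∉ center G := by
          by_contra h2
          push Not at h2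
          exact hna ⟨⟨fun a b => mem_center_iff.mp (h2 b) a⟩⟩
        have := h x hx
        exact isCyclic_of_le (h1.trans (center_le_centralizer {x}))
      · obtain ⟨x, hx, hx'⟩ := SetLike.not_le_iff_exists.mp h1
        have := h x hx'
        exact isCyclic_of_le (H' := centralizer {x}) fun a ha =>
          mem_centralizer_singleton_iff.mpr (setLike_mul_comm (s := A) ha hx)
    have h2 : ∀ (H : Subgroup G) (A : Subgroup H), IsMulCommutative A → IsCyclic A := fun H A hA =>
      (A.equivMapOfInjective _ H.subtype_injective).isCyclic.mpr (h1 _ inferInstance)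
    obtain ⟨P⟩ : Nonempty (Sylow 2 G) := inferInstance
    set O := pResidual 2 G with hO
    have hO2 : ¬ 2 ∣ Nat.card O :=
      H1.hasNormalPComplement_iff_not_dvd.mp H1.hasNormalPComplement_of_isNilpotent
    have hOc : IsCyclic O := by
      have : IsZGroup O := ⟨fun p hp Q => by
        have := Fact.mk hp
        by_contra hnc
        rcases eq_or_ne p 2 with rfl | hp2
        · have := Nontrivial.of_not_isCyclic hnc
          exact hO2 ((Q.isPGroup'.card_eq_or_dvd.resolve_left Finite.one_lt_card.ne').trans
            (card_subgroup_dvd_card _))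
        obtain ⟨A, -, h3, h4, h5⟩ := exists_normal_elementary_sq hp2 Q Q.isPGroup' hnc
        have h6 : IsCyclic A := (A.equivMapOfInjective _ (Q : Subgroup O).subtype_injective).isCyclic.mpr
          (h2 _ _ inferInstance)
        have h7 := Nat.le_of_dvd hp.pos (Monoid.exponent_dvd_of_forall_pow_eq_one
          fun x : A => Subtype.ext (h4 x x.2))
        rw [IsCyclic.exponent_eq_card, h5] at h7
        have := hp.two_le
        nlinarith⟩
      infer_instance
    have hPO : ∀ (x : (P : Subgroup G)) (y : O), Commute ((P : Subgroup G).subtype x) (O.subtype y) :=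
      fun x y => commutatorElement_eq_one_iff_commute.mp (mem_bot.mp
        ((L.commutator_eq_bot_of_coprime le_normalizer_of_normal le_normalizer_of_normal
          (L.coprime_card_of_isPGroup P.isPGroup' ((Nat.Prime.coprime_iff_not_dvd Nat.prime_two).mpr
            hO2).symm)).le (commutator_mem_commutator x.2 y.2)))
    have h3 : Function.Bijective (MonoidHom.noncommCoprod _ _ hPO) := by
      constructor
      · rw [MonoidHom.noncommCoprod_injective, range_subtype, range_subtype]
        exact ⟨Subtype.val_injective, Subtype.val_injective, disjoint_iff.mpr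
          (L.inf_eq_bot_of_isPGroup P.isPGroup' ((Nat.Prime.coprime_iff_not_dvd Nat.prime_two).mpr
            hO2).symm)⟩
      · rw [← MonoidHom.range_eq_top, MonoidHom.noncommCoprod_range, range_subtype, range_subtype,
          sup_comm, H1.pResidual_sup_sylow]
    rcases isCyclic_or_maxCl P.isPGroup' fun A _ => h2 _ A with h4 | ⟨c, t, k, hm⟩
    · refine absurd ⟨⟨fun a b => ?_⟩⟩ hna
      obtain ⟨a, rfl⟩ := h3.2 a
      obtain ⟨b, rfl⟩ := h3.2 b
      rw [← map_mul, ← map_mul, mul_comm' a]
    have h4 := hm.rel_of_uniqInv fun a b ha hb hab => by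
      by_contra hne
      exact not_isCyclic_of_two_involutions (mem_sup_left (mem_zpowers a))
        (mem_sup_right (mem_zpowers b)) (H3.ne_one_of_orderOf_two ha) (H3.ne_one_of_orderOf_two hb)
        (orderOf_dvd_iff_pow_eq_one.mp ha.dvd) (orderOf_dvd_iff_pow_eq_one.mp hb.dvd) hne (h2 _ _
          (isMulCommutative_sup_zpowers inferInstance (H1.mem_centralizer_zpowers_iff.mpr hab.symm)))
    obtain ⟨e⟩ := nonempty_equiv_quaternion (n := 2 ^ (k + 1)) (by rw [hm.ord]; ring) h4.1 h4.2
      hm.notMem (by rw [hm.card]; ring)
    exact ⟨k + 1, Nat.card O, by omega, Nat.not_even_iff_odd.mp (mt even_iff_two_dvd.mp hO2),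
      ⟨(MulEquiv.ofBijective _ h3).symm.trans (e.prodCongr (zmodCyclicMulEquiv hOc).symm)⟩⟩
  · rintro ⟨k, m, hk, hm, ⟨e⟩⟩ x hx
    obtain ⟨k, rfl⟩ := Nat.exists_eq_add_of_le' hk
    have h := maxCl_quaternion k
    have := h.finite
    have h1 : (e x).1 ∉ center _ := fun h1 => hx (mem_center_iff.mpr fun g => e.injective (by
      rw [map_mul, map_mul]
      exact Prod.ext (mem_center_iff.mp h1 _) (mul_comm _ _)))
    obtain ⟨u, hu⟩ : ∃ u, centralizer {(e x).1} ≤ zpowers u := by
      by_cases h2 : (e x).1 ∈ zpowers (QuaternionGroup.a 1)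
      · refine ⟨QuaternionGroup.a 1, fun g hg => by_contra fun h3 => h1 ?_⟩
        rcases h.eq_of_commute h3 h2 (mem_centralizer_singleton_iff.mp hg) with h4 | h4
        · exact h4 ▸ one_mem _
        · exact h4 ▸ h.z_mem_center
      · refine ⟨(e x).1, (eq_of_le_of_card_ge (zpowers_le.mpr
          (mem_centralizer_singleton_iff.mpr rfl)) ((h.card_centralizer_le h2).trans_eq ?_)).ge⟩
        have h3 := h.sq_eq_of_quaternion (by simp) (by
          rw [mul_inv_eq_iff_eq_mul, eq_inv_mul_iff_mul_eq]; simp) h2
        rw [Nat.card_zpowers, orderOf_eq_prime_pow (p := 2) (n := 1) (by rw [pow_one, h3]; exact h.z_ne_one)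
          (by rw [show 2 ^ (1 + 1) = 2 * 2 from rfl, pow_mul, h3, h.z_sq])]
        rfl
    have h2 : IsCyclic ((zpowers u).prod (⊤ : Subgroup (Multiplicative (ZMod m)))) :=
      (prodEquiv _ _).isCyclic.mpr (Group.isCyclic_prod_iff.mpr ⟨inferInstance, inferInstance,
        L.coprime_card_of_isPGroup (h.isPGroup.to_subgroup _) (by
          rw [card_top, Nat.card_congr Multiplicative.toAdd, Nat.card_zmod]
          exact Nat.coprime_two_right.mpr hm)⟩)
    refine isCyclic_of_injective (G' := (zpowers u).prod (⊤ : Subgroup (Multiplicative (ZMod m))))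
      ((e.toMonoidHom.comp (centralizer {x}).subtype).codRestrict _ fun g =>
        mem_prod.mpr ⟨hu (mem_centralizer_singleton_iff.mpr ?_), mem_top _⟩) fun a b hab =>
          Subtype.ext (e.injective (congrArg Subtype.val hab))
    have := congrArg (fun y => (e y).1) (mem_centralizer_singleton_iff.mp g.2)
    simpa using this

end Cfsg.Agent.S4370
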