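import Cfsg.Statements.S4372
import Cfsg.Agent.H1.BS16

set_option autoImplicit false
open Cfsg

namespace Cfsg.Agent.S4372

/-- Let the finite solvable group A act faithfully by automorphisms on the finite group K with the orders of A and K coprime. Then there are two elements x, y of K such that only the identity of A fixes both. -/
theorem result {A K : Type*} [Group A] [Finite A] [Group K] [Finite K]
    [MulDistribMulAction A K] [FaithfulSMul A K] (hA : Group.IsSolvable A) (hcop : (Nat.card A).Coprime (Nat.card K)) :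
    ∃ x y : K, ∀ a : A, a • x = x → a • y = y → a = 1 := by
  let φ := MulDistribMulAction.toMulAut A K
  obtain ⟨_, ⟨x, -, rfl⟩, _, ⟨y, -, rfl⟩, h⟩ := H1.BS.pair_coprime
    (H2.map_inr_le_normalizer_iff.2 (H2.isInv_top (φ := φ) ⊤))
    (by rwa [H2.card_map_inl, H2.card_map_inr, Subgroup.card_top, Subgroup.card_top])
    (H2.isSolvable_map_inj inferInstance _)
  have h1 : ∀ (a : A) (k : K), (SemidirectProduct.inr a * SemidirectProduct.inl k : K ⋊[φ] A) =
      SemidirectProduct.inl k * SemidirectProduct.inr a ↔ a • k = k := fun a k => by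
    rw [← mul_inv_eq_iff_eq_mul, H2.inr_mul_inl_mul_inv, SemidirectProduct.inl_inj]; rfl
  exact ⟨x, y, fun a e1 e2 => FaithfulSMul.eq_of_smul_eq_smul (α := K) fun k => by
    rw [(h1 a k).1 (h _ ⟨a, trivial, rfl⟩ ((h1 a x).2 e1) ((h1 a y).2 e2) _ ⟨k, trivial, rfl⟩),
      one_smul]⟩

end Cfsg.Agent.S4372
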