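import Cfsg.Statements.S4373
import Cfsg.Agent.H1.BS16

set_option autoImplicit false
open Pointwise
open Cfsg

namespace Cfsg.Agent.S4373

open Subgroup

section Aux

variable {G : Type*} [Group G] [Finite G] {π : Set ℕ}

omit [Finite G] in
lemma relIndex_eq (A B : Subgroup G) [A.Normal] :
    A.relIndex B = Nat.card (B.map (QuotientGroup.mk' A)) := by
  rw [← relIndex_ker, QuotientGroup.ker_mk']

omit [Finite G] in
lemma relIndex_dvd {A B C : Subgroup G} [A.Normal] (h : C ≤ B) : A.relIndex C ∣ A.relIndex B := by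
  rw [relIndex_eq, relIndex_eq]
  exact card_dvd_of_le (map_mono h)

theorem aux (hG : ∀ P : Subgroup G → Prop, P ⊥ → (∀ A B : Subgroup G, A.Normal → B.Normal → P A →
      ((∃ p ∈ π, p.Prime ∧ ∃ k : ℕ, A.relIndex B ∣ p ^ k) ∨
        ∀ q : ℕ, q.Prime → q ∣ A.relIndex B → q ∉ π) → P B) → P ⊤)
    (h0 : piCore π G = ⊥) {H : Subgroup G} (hH : ∀ p : ℕ, p.Prime → p ∣ Nat.card H → p ∈ π) :
    ∃ x y : G, H ⊓ MulAut.conj x • H ⊓ MulAut.conj y • H = ⊥ := by
  have h1 : Group.IsSolvable H := inf_top_eq H ▸ hG (fun A => Group.IsSolvable (H ⊓ A : Subgroup G))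
    (by rw [inf_bot_eq]; infer_instance) fun A B _ _ hA h => by
      obtain ⟨p, hp, k, e⟩ : ∃ p : ℕ, p.Prime ∧ ∃ k,
          Nat.card ((H ⊓ B).map (QuotientGroup.mk' A)) ∣ p ^ k := by
        have e := relIndex_dvd (A := A) (inf_le_right : H ⊓ B ≤ B)
        rw [relIndex_eq] at e
        rcases h with ⟨p, -, hp, k, e'⟩ | h
        · exact ⟨p, hp, k, e.trans e'⟩
        · exact ⟨2, Nat.prime_two, 0, (Nat.eq_one_iff_not_exists_prime_dvd.2 fun q hq e' =>
            h q hq (e'.trans e) (hH q hq (e'.trans ((card_map_dvd _ _).trans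
              (card_dvd_of_le inf_le_left))))).dvd⟩
      have := Fact.mk hp
      obtain ⟨j, -, e⟩ := (Nat.dvd_prime_pow hp).1 e
      have := L.isSolvable_of_isPGroup (IsPGroup.of_card e)
      have := H1.BS.solv_le hA (inf_le_left : H ⊓ A ⊓ B ≤ H ⊓ A)
      exact Group.isSolvable_of_ker_le_range (inclusion (inf_le_inf_right B inf_le_left))
        ((QuotientGroup.mk' A).subgroupMap (H ⊓ B)) fun x hx => ⟨⟨x, ⟨x.2.1,
          (QuotientGroup.eq_one_iff _).1 (congrArg Subtype.val hx)⟩, x.2.2⟩, rfl⟩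
  let F := piCore πᶜ G
  have h2 := hG (fun A => centralizer (F : Set G) ⊓ A ≤ F) (by simp) fun A B _ _ hA h => by
    set D := centralizer (F : Set G) ⊓ B
    have e : F.relIndex D ∣ A.relIndex B := by
      rw [← inf_relIndex_right]
      exact (relIndex_dvd_of_le_left D (le_inf (fun x hx => hA ⟨hx.2.1, hx.1⟩)
        inf_le_right : A ⊓ D ≤ F ⊓ D)).trans (inf_relIndex_right A D ▸ relIndex_dvd inf_le_right)
    rcases h with ⟨p, hπ, hp, k, e'⟩ | h
    · have := Fact.mk hp
      obtain ⟨Q⟩ : Nonempty (Sylow p D) := inferInstance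
      have e1 : (Q : Subgroup D).Normal := by
        rw [← normalizer_eq_top_iff, ← index_eq_one]
        refine (Nat.coprime_self _).1 ?_
        refine Nat.Coprime.coprime_dvd_left (index_dvd_of_le le_normalizer)
          (Nat.Coprime.coprime_dvd_right ((index_dvd_of_le (H := F.subgroupOf D) fun x hx =>
            centralizer_le_normalizer _ fun y _ => Subtype.ext (y.2.1 _ hx).symm).trans (e.trans e'))
            ((hp.coprime_iff_not_dvd.2 Q.not_dvd_index).symm.pow_right k))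
      have e2 := Q.characteristic_of_normal e1
      have e3 := L.le_piCore (π := π) (N := (Q : Subgroup D).map D.subtype) fun q hq e => by
        obtain ⟨n, hn⟩ := IsPGroup.iff_card.1 Q.isPGroup'
        rw [L.card_map_subtype, hn] at e
        exact (Nat.prime_dvd_prime_iff_eq hq hp).1 (hq.dvd_of_dvd_pow e) ▸ hπ
      rw [h0, le_bot_iff, map_eq_bot_iff_of_injective _ D.subtype_injective] at e3
      have e4 := Q.not_dvd_index
      rw [e3, index_bot] at e4
      exact relIndex_eq_one.1 (((hp.coprime_iff_not_dvd.2 fun e5 =>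
        e4 (e5.trans (relIndex_dvd_card _ _))).symm.pow_right k).eq_one_of_dvd (e.trans e'))
    · refine L.le_piCore fun q hq e' => ?_
      rw [← L.relIndex_mul_card (inf_le_right : F ⊓ D ≤ D), inf_relIndex_right] at e'
      exact (hq.dvd_mul.1 e').elim (fun e' => h q hq (e'.trans e))
        fun e' => L.piCore_mem _ q hq (e'.trans (card_dvd_of_le inf_le_left))
  have h3 : (Nat.card H).Coprime (Nat.card F) := Nat.coprime_of_dvd fun q hq e e' =>
    L.piCore_mem _ q hq e' (hH q hq e)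
  have h4 := disjoint_iff.1 (disjoint_of_coprime_natCard h3)
  have h5 : ∀ x ∈ F, ∀ a ∈ H, a ∈ MulAut.conj x • H → a * x = x * a := by
    rintro x hx _ ha ⟨b, hb, rfl⟩
    have : MulAut.conj x • b * b⁻¹ ∈ H ⊓ F := ⟨H.mul_mem ha (H.inv_mem hb), by
      simpa [mul_assoc] using mul_mem hx ((inferInstance : F.Normal).conj_mem _ (inv_mem hx) b)⟩
    rw [h4, mem_bot, mul_inv_eq_one] at this
    change MulAut.conj x • b * x = x * MulAut.conj x • b
    rw [this]
    exact (mul_inv_eq_iff_eq_mul.1 this).symm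
  obtain ⟨x, hx, y, hy, h⟩ := H1.BS.pair_coprime (K := F) le_normalizer_of_normal h3 h1
  exact ⟨x, y, eq_bot_iff.2 fun a ha => h4.le ⟨ha.1.1, h2 ⟨fun k hk =>
    (h a ha.1.1 (h5 x hx a ha.1.1 ha.1.2) (h5 y hy a ha.1.1 ha.2) k hk).symm, trivial⟩⟩⟩

end Aux

/-- Let π be a set of primes and G a finite π-solvable group: G has a chain of normal subgroups from 1 to G in which each successive index is a power of a prime in π or is divisible by no prime in π. Let H be a Hall π-subgroup of G. Then there are x, y ∈ G with H ∩ xHx⁻¹ ∩ yHy⁻¹ = O_π(G), the largest normal π-subgroup. -/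
theorem result {G : Type*} [Group G] [Finite G] (π : Set ℕ)
    (hsolv : (∃ (n : ℕ) (N : Fin (n + 1) → Subgroup G), N 0 = ⊥ ∧ N (Fin.last n) = ⊤ ∧ Monotone N ∧ (∀ i, (N i).Normal) ∧
      ∀ i : Fin n, (∃ p ∈ π, p.Prime ∧ ∃ k : ℕ, (N i.castSucc).relIndex (N i.succ) = p ^ k) ∨
        (∀ q : ℕ, q.Prime → q ∣ (N i.castSucc).relIndex (N i.succ) → q ∉ π))) (H : Subgroup G) (hH : Cfsg.IsPiHall π H) :
    ∃ x y : G, H ⊓ MulAut.conj x • H ⊓ MulAut.conj y • H = Cfsg.piCore π G := by
  obtain ⟨n, N, h0, h1, -, h2, h3⟩ := hsolv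
  let f := QuotientGroup.mk' (piCore π G)
  have hf := QuotientGroup.mk'_surjective (piCore π G)
  obtain ⟨x, y, h⟩ := aux (π := π) (H := H.map f) (fun P e0 e => by
    have : ∀ i, P ((N i).map f) := Fin.induction (by simpa [h0] using e0) fun i ih => by
      have e1 : ((N i.castSucc).map f).relIndex ((N i.succ).map f) ∣
          (N i.castSucc).relIndex (N i.succ) :=
        relIndex_comap _ f _ ▸ relIndex_dvd_of_le_left _ (le_comap_map _ _)
      exact e _ _ ((h2 _).map f hf) ((h2 _).map f hf) ih ((h3 i).imp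
        (fun ⟨p, e2, e3, k, e4⟩ => ⟨p, e2, e3, k, e4 ▸ e1⟩) fun e2 q hq e3 => e2 q hq (e3.trans e1))
    simpa [h1, map_top_of_surjective f hf] using this (Fin.last n)) (L.piCore_quotient π)
    fun p hp e => hH.1 p hp (e.trans (card_map_dvd _ _))
  obtain ⟨x, rfl⟩ := hf x
  obtain ⟨y, rfl⟩ := hf y
  have h4 : piCore π G ≤ H := inf_eq_right.1 (H2.IsPiHallOf.eq_of_le (H2.IsPiHallOf.inf
    (H2.isPiHallOf_top.2 hH) le_top le_normalizer_of_normal) le_rfl (L.piCore_mem π)
    inf_le_right).symm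
  have h5 : ∀ x : G, piCore π G ≤ MulAut.conj x • H := fun x a ha =>
    ⟨_, h4 ((inferInstance : (piCore π G).Normal).conj_mem' a ha x), by simp [mul_assoc]⟩
  have h6 : ∀ x a : G, a ∈ MulAut.conj x • H → f a ∈ MulAut.conj (f x) • H.map f := by
    rintro x _ ⟨b, hb, rfl⟩
    exact ⟨_, ⟨b, hb, rfl⟩, by simp⟩
  exact ⟨x, y, le_antisymm (fun a ha => (QuotientGroup.eq_one_iff a).1 (h.le
    ⟨⟨⟨a, ha.1.1, rfl⟩, h6 x a ha.1.2⟩, h6 y a ha.2⟩)) (le_inf (le_inf h4 (h5 x)) (h5 y))⟩

end Cfsg.Agent.S4373
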