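import Cfsg.Statements.S4376
import Cfsg.Agent.H4.Count

set_option autoImplicit false
open Cfsg

set_option maxRecDepth 100000

namespace Cfsg.Agent.S4376

open Cfsg.Agent.H4

open scoped commutatorElement

/-- The number of solutions of `g ^ n = 1`. -/
noncomputable def EE (G : Type) [Group G] (n : ℕ) : ℕ := Nat.card {g : G // g ^ n = 1}

theorem EE_prod (G H : Type) [Group G] [Group H] (n : ℕ) : EE (G × H) n = EE G n * EE H n := by
  rw [EE, EE, EE, ← Nat.card_prod]
  exact Nat.card_congr ((Equiv.subtypeEquivRight fun g => Prod.ext_iff).trans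
    (Equiv.subtypeProdEquivProd (p := fun g : G => g ^ n = 1) (q := fun g : H => g ^ n = 1)))

theorem card_orderOf_eq (G H : Type) [Group G] [Group H] [Finite G] [Finite H]
    (h : ∀ n, EE G n = EE H n) (n : ℕ) :
    Nat.card {g : G // orderOf g = n} = Nat.card {h : H // orderOf h = n} := by
  classical
  have := Fintype.ofFinite G
  have := Fintype.ofFinite H
  have hG := @sum_card_orderOf_eq_card_pow_eq_one G
  have hH := @sum_card_orderOf_eq_card_pow_eq_one H
  simp only [EE, Nat.card_eq_fintype_card, Fintype.card_subtype] at h ⊢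
  induction n using Nat.strong_induction_on with
  | _ n ih =>
    rcases Nat.eq_zero_or_pos n with rfl | hn
    · simp [(orderOf_pos _).ne']
    · have h1 := h n
      have h1 := ((hG hn.ne').trans h1).trans (hH hn.ne').symm
      rw [← Nat.cons_self_properDivisors hn.ne', Finset.sum_cons, Finset.sum_cons,
        Finset.sum_congr rfl fun m hm => ih m (Nat.mem_properDivisors.mp hm).2] at h1
      exact Nat.add_right_cancel h1

/-- A finite group with prescribed solvability and numbers of solutions of `g ^ n = 1`. -/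
def Real (s : Prop) (f : ℕ → ℕ) : Prop :=
  ∃ (G : Type) (_ : Group G) (_ : Finite G), (Group.IsSolvable G ↔ s) ∧
    ∀ n, EE G n = f (Nat.gcd n 168)

theorem Real.mul {s : Prop} {f g : ℕ → ℕ} (h : Real True f) (h' : Real s g) :
    Real s fun n => f n * g n := by
  obtain ⟨G, _, _, h1, h2⟩ := h
  obtain ⟨H, _, _, h3, h4⟩ := h'
  refine ⟨G × H, inferInstance, inferInstance, ⟨fun h5 => h3.mp ?_, fun h5 => ?_⟩,
    fun n => by rw [EE_prod, h2, h4]⟩
  · exact Group.isSolvable_of_surjective (f := MonoidHom.snd G H) Prod.snd_surjective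
  · have := h1.mpr trivial
    have := h3.mpr h5
    infer_instance

/-- The divisors of `168`. -/
def divs : List ℕ := [1, 2, 3, 4, 6, 7, 8, 12, 14, 21, 24, 28, 42, 56, 84, 168]

theorem gcd_mem_divs (n : ℕ) : Nat.gcd n 168 ∈ divs := by
  have h1 : ∀ d, d < 169 → d ∣ 168 → d ∈ divs := by decide +kernel
  exact h1 _ (Nat.lt_succ_of_le (Nat.gcd_le_right _ (by norm_num))) (Nat.gcd_dvd_right _ _)

/-- The check on the list of element orders. -/
def oCheck (O : List ℕ) (t : List (ℕ × ℕ)) : Bool :=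
  band (allL O (memL divs))
    (allL divs fun d => Nat.beq (countL O fun k => Nat.beq (Nat.mod d k) 0) (findL 0 t d))

/-- The check for one group. -/
def eCheck (M : CG Unit ℕ) (n : ℕ) (L : List (CG.Level ℕ)) (t : List (ℕ × ℕ)) : Bool :=
  band (band (allL (CG.gensOf L) (isPerm n 4)) (band (M.lbCheck L) (M.ssCheck L)))
    (oCheck ((M.elems L).map (M.ord 90)) t)

theorem EE_eq (n : ℕ) [NeZero n] (hw : n ≤ 2 ^ 4) (L : List (CG.Level ℕ)) (t : List (ℕ × ℕ))
    (h : eCheck (scg n 4 hw).triv n L t = true) (k : ℕ) :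
    EE ((scg n 4 hw).gen (CG.gensOf L)) k = findL 0 t (Nat.gcd k 168) := by
  simp only [eCheck, oCheck, band_eq, Bool.and_eq_true] at h
  obtain ⟨⟨h1, h2, h3⟩, h4, h5⟩ := h
  rw [← Nat.eq_of_beq_eq_true (allL_iff.mp h5 _ (gcd_mem_divs k)), countL_eq, List.countP_map,
    ← countL_eq]
  refine (scg_keyed n 4 hw).card_eq_countL (scg_uniq n 4 hw) (scg_valid n 4 hw h1) h2 h3 _ _
    fun x c hc hx => ?_
  have h6 : (scg n 4 hw).ord 90 c ∈ divs :=
    memL_iff.mp (allL_iff.mp h4 _ (List.mem_map_of_mem hc))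
  have h7 : ∀ d ∈ divs, d ≠ 0 ∧ d ∣ 168 := by decide +kernel
  have h8 := (scg_complete n 4 hw).ord_spec hx (h7 _ h6).1
  rw [← orderOf_dvd_iff_pow_eq_one, ← Subgroup.orderOf_coe, h8]
  show _ ↔ Nat.beq (Nat.gcd k 168 % (scg n 4 hw).ord 90 c) 0 = true
  rw [Nat.beq_eq, ← Nat.dvd_iff_mod_eq_zero, Nat.dvd_gcd_iff]
  exact ⟨fun h => ⟨h, (h7 _ h6).2⟩, fun h => h.1⟩

theorem real_of (n : ℕ) [NeZero n] (hw : n ≤ 2 ^ 4) (L : List (CG.Level ℕ))
    (Ls : List (List (CG.Level ℕ))) (t : List (ℕ × ℕ))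
    (h : band (eCheck (scg n 4 hw).triv n L t)
      ((scg n 4 hw).solvCheck (isPerm n 4) Ls (CG.gensOf L)) = true) : Real True (findL 0 t) := by
  rw [band_eq, Bool.and_eq_true] at h
  exact ⟨_, inferInstance, inferInstance,
    iff_true_intro ((scg n 4 hw).isSolvable_gen (scg_vt n 4 hw) h.2), EE_eq n hw L t h.1⟩

theorem real_of' (n : ℕ) [NeZero n] (hw : n ≤ 2 ^ 4) (L : List (CG.Level ℕ)) (a b : ℕ)
    (prog : List (ℕ × ℕ)) (t : List (ℕ × ℕ))
    (h : band (band (eCheck (scg n 4 hw).triv n L t) (allL (CG.gensOf L) (isPerm n 4)))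
      (band (band ((scg n 4 hw).perfCheck [a, b] prog)
        (bnot ((scg n 4 hw).isOne ((scg n 4 hw).mul a (scg n 4 hw).one))))
        (allL [a, b] fun c => band (isPerm n 4 c) ((scg n 4 hw).sift ((scg n 4 hw).transOf L) c))) =
          true) : Real False (findL 0 t) := by
  simp only [band_eq, Bool.and_eq_true, bnot_eq, Bool.not_eq_true'] at h
  obtain ⟨⟨h1, h2⟩, ⟨h3, h4⟩, h5⟩ := h
  refine ⟨_, inferInstance, inferInstance, iff_false_intro ?_, EE_eq n hw L t h1⟩
  have hv : ((scg n 4 hw).sub ((scg n 4 hw).gen (CG.gensOf L))).Valid [a, b] := fun c hc => by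
    have h6 := allL_iff.mp h5 c hc
    rw [Bool.and_eq_true] at h6
    obtain ⟨g, hg⟩ := scg_vt n 4 hw c h6.1
    exact ⟨⟨g, (scg n 4 hw).mem_of_sift (scg_valid n 4 hw h2) hg h6.2⟩, hg⟩
  obtain ⟨g, hg⟩ := hv a List.mem_cons_self
  refine not_isSolvable_of_mem_derivedSeries (g := g) (fun h6 => ?_) fun k => ?_
  · have := scg_complete n 4 hw _ _ _ _ hg (scg n 4 hw).rep_one (by rw [h6]; simp)
    rw [h4] at this
    cases this
  · obtain ⟨g', h6, h7⟩ := CG.in_derivedSeries _ hv (prog := prog) h3 k a List.mem_cons_self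
    rwa [((scg_uniq n 4 hw).sub _) _ _ _ hg h7]

/-- The table of group number 0. -/
def t0 : List (ℕ × ℕ) := [(1, 1), (2, 86), (3, 9), (4, 92), (6, 102), (7, 7), (8, 176), (12, 108), (14, 98), (21, 63), (24, 192), (28, 140), (42, 210), (56, 224), (84, 252), (168, 336)]

theorem r0 : Real True (findL 0 t0) :=
  real_of 15 (by norm_num)
   [(7, [0xeb8da7c93456012],
     [(0, 0), (1, 0), (2, 1), (3, 2), (1, 2), (2, 3), (0, 3)]),
   (0, [0xdce9ba870654321],
     [(0, 0), (0, 0), (1, 1), (0, 1), (1, 2), (0, 1)]),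
   (9, [0xba9edc871234560, 0x9badce871234560],
     [(0, 0), (1, 1), (1, 1), (0, 1), (0, 1)])]
   [[(7, [0xa7d8ebc90654321],
     [(0, 0), (0, 0), (2, 1), (0, 1), (0, 1), (0, 1), (2, 1)]),
   (0, [0xedcba9870654321],
     [(0, 0), (0, 0), (0, 0), (0, 0), (0, 0), (0, 0)]),
   (9, [0xdce9ba876543210],
     [(0, 0), (0, 0)])], [(7, [0x89dc7bae6543210, 0xc8a79ebd6543210],
     [(0, 0), (1, 1), (0, 1), (1, 2), (0, 2), (0, 2), (1, 3)])], [(7, [0xab9dec786543210],
     [(0, 0)])]] _ (by decide +kernel)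

/-- The table of group number 1. -/
def t1 : List (ℕ × ℕ) := [(1, 1), (2, 86), (3, 3), (4, 88), (6, 90), (7, 7), (8, 88), (12, 96), (14, 98), (21, 21), (24, 96), (28, 112), (42, 126), (56, 112), (84, 168), (168, 168)]

theorem r1 : Real True (findL 0 t1) :=
  real_of 14 (by norm_num)
   [(0, [0xdcb7a981065432],
     [(0, 0), (0, 0), (2, 1), (0, 1), (2, 2), (0, 1)]),
   (7, [0xdcb987a6543210],
     [(0, 0), (0, 0), (1, 1)]),
   (11, [0xdbc89a71234560],
     [(0, 0), (1, 0)]),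
   (1, [0xcdb89a71234560],
     [(0, 0)])]
   [[(0, [0xcbd87a92106543],
     [(0, 0), (0, 0), (0, 0), (0, 0), (0, 0), (0, 0)]),
   (11, [0xbdc87a96543210],
     [(0, 0), (0, 0)]),
   (7, [0xdcb87a96543210],
     [(0, 0)])]] _ (by decide +kernel)

/-- The table of group number 2. -/
def t2 : List (ℕ × ℕ) := [(1, 1), (2, 6), (3, 15), (4, 36), (6, 90), (7, 7), (8, 64), (12, 204), (14, 42), (21, 21), (24, 288), (28, 84), (42, 126), (56, 112), (84, 252), (168, 336)]

theorem r2 : Real True (findL 0 t2) :=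
  real_of 15 (by norm_num)
   [(7, [0x9e7ac8bd6135024],
     [(0, 0), (0, 0), (3, 1), (3, 1), (0, 1), (0, 1), (0, 1)]),
   (0, [0xedcba9870654321],
     [(0, 0), (0, 0), (0, 0), (1, 1), (1, 1), (0, 1)]),
   (1, [0xedcba9875316420],
     [(0, 0), (0, 0)]),
   (9, [0xa9bced876543210],
     [(0, 0)])]
   [[(0, [0x7cb98dea3210654],
     [(0, 0), (0, 0), (0, 0), (0, 0), (0, 0), (0, 0)]),
   (7, [0x7cb98dea6543210],
     [(0, 0), (0, 0), (0, 0)])]] _ (by decide +kernel)

/-- The table of group number 3. -/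
def t3 : List (ℕ × ℕ) := [(1, 1), (2, 18), (3, 15), (4, 32), (6, 102), (7, 7), (8, 32), (12, 144), (14, 42), (21, 21), (24, 144), (28, 56), (42, 126), (56, 56), (84, 168), (168, 168)]

theorem r3 : Real True (findL 0 t3) :=
  real_of 11 (by norm_num)
   [(0, [0x87a93456012],
     [(0, 0), (1, 0), (0, 0), (1, 1), (1, 0), (0, 0)]),
   (1, [0x87a92461350],
     [(0, 0), (0, 0), (0, 0), (0, 0), (0, 0)]),
   (7, [0x9a786543210],
     [(0, 0)]),
   (9, [0x9a876543210],
     [(0, 0)])]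
   [[(0, [0x9a784321065],
     [(0, 0), (0, 0), (0, 0), (0, 0), (0, 0), (0, 0)]),
   (7, [0x9a786543210],
     [(0, 0)])]] _ (by decide +kernel)

/-- The table of group number 4. -/
def t4 : List (ℕ × ℕ) := [(1, 1), (2, 2), (3, 3), (4, 44), (6, 6), (7, 7), (8, 44), (12, 48), (14, 14), (21, 21), (24, 48), (28, 56), (42, 42), (56, 56), (84, 84), (168, 84)]

theorem r4 : Real True (findL 0 t4) :=
  real_of 14 (by norm_num)
   [(0, [0xdbc987a4560123],
     [(0, 0), (1, 0), (0, 0), (1, 0), (0, 0), (1, 0)]),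
   (7, [0xdbc7a981234560],
     [(0, 0), (0, 0), (0, 0)]),
   (11, [0xbdca9876543210],
     [(0, 0), (0, 0)])]
   [[(0, [0xbdca9872106543],
     [(0, 0), (0, 0), (0, 0), (0, 0), (0, 0), (0, 0)]),
   (11, [0xbdca9876543210],
     [(0, 0), (0, 0)])]] _ (by decide +kernel)

/-- The table of group number 5. -/
def t5 : List (ℕ × ℕ) := [(1, 1), (2, 8), (3, 57), (4, 8), (6, 120), (7, 49), (8, 8), (12, 120), (14, 56), (21, 105), (24, 120), (28, 56), (42, 168), (56, 56), (84, 168), (168, 168)]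

theorem r5 : Real True (findL 0 t5) :=
  real_of 8 (by norm_num)
   [(0, [0x53712406],
     [(0, 0), (0, 0), (1, 1), (2, 2), (0, 2), (0, 2), (1, 3)]),
   (1, [0x17423560],
     [(0, 0), (0, 0), (1, 1), (1, 1), (0, 1), (1, 1)]),
   (2, [0x54327610],
     [(0, 0), (0, 0)])]
   [[(0, [0x37045162],
     [(0, 0), (0, 0), (1, 1), (0, 1), (0, 1), (1, 2), (0, 1)]),
   (1, [0x42351760],
     [(0, 0), (0, 0), (0, 0), (0, 0), (0, 0), (0, 0)])], [(0, [0x10325476, 0x67452301, 0x45670123],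
     [(0, 0), (1, 1), (2, 2), (1, 2), (2, 3), (2, 3), (2, 2)])]] _ (by decide +kernel)

/-- The table of group number 6. -/
def t6 : List (ℕ × ℕ) := [(1, 1), (2, 50), (3, 3), (4, 64), (6, 54), (7, 7), (8, 64), (12, 96), (14, 98), (21, 21), (24, 96), (28, 112), (42, 126), (56, 112), (84, 168), (168, 168)]

theorem r6 : Real True (findL 0 t6) :=
  real_of 14 (by norm_num)
   [(0, [0xdbc89a74321065],
     [(0, 0), (0, 0), (1, 1), (0, 1), (1, 2), (0, 1)]),
   (7, [0xdcb7a981234560],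
     [(0, 0), (0, 0), (1, 1)]),
   (11, [0xbcd89a76543210],
     [(0, 0), (1, 0)]),
   (8, [0xcdb89a76543210],
     [(0, 0)])]
   [[(0, [0xbdca9875432106],
     [(0, 0), (0, 0), (0, 0), (0, 0), (0, 0), (0, 0)]),
   (11, [0xcbd87a96543210],
     [(0, 0), (0, 0)]),
   (7, [0xdcb87a96543210],
     [(0, 0)])]] _ (by decide +kernel)

/-- The table of group number 7. -/
def t7 : List (ℕ × ℕ) := [(1, 1), (2, 1), (3, 15), (4, 1), (6, 15), (7, 7), (8, 1), (12, 15), (14, 7), (21, 21), (24, 15), (28, 7), (42, 21), (56, 7), (84, 21), (168, 21)]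

theorem r7 : Real True (findL 0 t7) :=
  real_of 7 (by norm_num)
   [(0, [0x5140362],
     [(0, 0), (0, 0), (1, 1), (1, 1), (1, 1), (0, 1)]),
   (1, [0x5316420],
     [(0, 0), (0, 0)])]
   [[(0, [0x3210654],
     [(0, 0), (0, 0), (0, 0), (0, 0), (0, 0), (0, 0)])]] _ (by decide +kernel)

/-- The table of group number 8. -/
def t8 : List (ℕ × ℕ) := [(1, 1), (2, 4), (3, 9), (4, 4), (6, 12), (7, 1), (8, 4), (12, 12), (14, 4), (21, 9), (24, 12), (28, 4), (42, 12), (56, 4), (84, 12), (168, 12)]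

theorem r8 : Real True (findL 0 t8) :=
  real_of 4 (by norm_num)
   [(0, [0x123],
     [(0, 0), (1, 0), (0, 0)]),
   (1, [0x1320],
     [(0, 0), (0, 0)])]
   [[(0, [0x123, 0x1032],
     [(0, 0), (1, 1), (1, 1)])]] _ (by decide +kernel)

/-- The table of group number 9. -/
def t9 : List (ℕ × ℕ) := [(1, 1), (2, 6), (3, 1), (4, 36), (6, 6), (7, 7), (8, 64), (12, 36), (14, 42), (21, 7), (24, 64), (28, 84), (42, 42), (56, 112), (84, 84), (168, 112)]

theorem r9 : Real True (findL 0 t9) :=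
  real_of 15 (by norm_num)
   [(7, [0x7edcba981234560],
     [(0, 0), (0, 0), (2, 1), (2, 1), (0, 1), (0, 1), (0, 1)]),
   (0, [0xedcba9874321065],
     [(0, 0), (0, 0), (0, 0), (0, 0), (0, 0), (0, 0)]),
   (8, [0xc9eb8da76543210],
     [(0, 0)])]
   [[(0, [0xcba987ed1065432],
     [(0, 0), (0, 0), (0, 0), (0, 0), (0, 0), (0, 0)]),
   (7, [0x87edcba96543210],
     [(0, 0), (0, 0), (0, 0)])]] _ (by decide +kernel)

/-- The table of group number 10. -/
def t10 : List (ℕ × ℕ) := [(1, 1), (2, 30), (3, 1), (4, 32), (6, 30), (7, 7), (8, 32), (12, 32), (14, 42), (21, 7), (24, 32), (28, 56), (42, 42), (56, 56), (84, 56), (168, 56)]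

theorem r10 : Real True (findL 0 t10) :=
  real_of 11 (by norm_num)
   [(0, [0x9a783210654],
     [(0, 0), (0, 0), (1, 1), (0, 1), (1, 2), (0, 1)]),
   (7, [0x789a1234560],
     [(0, 0), (1, 0), (0, 0)]),
   (1, [0x9a871234560],
     [(0, 0)])]
   [[(0, [0x9a780654321],
     [(0, 0), (0, 0), (0, 0), (0, 0), (0, 0), (0, 0)]),
   (7, [0x9a786543210],
     [(0, 0)])]] _ (by decide +kernel)

/-- The table of group number 11. -/
def t11 : List (ℕ × ℕ) := [(1, 1), (2, 18), (3, 1), (4, 32), (6, 18), (7, 7), (8, 32), (12, 32), (14, 42), (21, 7), (24, 32), (28, 56), (42, 42), (56, 56), (84, 56), (168, 56)]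

theorem r11 : Real True (findL 0 t11) :=
  real_of 11 (by norm_num)
   [(0, [0x9a781065432],
     [(0, 0), (0, 0), (1, 1), (0, 1), (1, 2), (0, 1)]),
   (7, [0x879a1234560],
     [(0, 0), (0, 0), (1, 1)]),
   (1, [0x9a871234560],
     [(0, 0)])]
   [[(0, [0xa9872106543],
     [(0, 0), (0, 0), (0, 0), (0, 0), (0, 0), (0, 0)]),
   (7, [0x9a786543210],
     [(0, 0)])]] _ (by decide +kernel)

/-- The table of group number 12. -/
def t12 : List (ℕ × ℕ) := [(1, 1), (2, 2), (3, 1), (4, 4), (6, 2), (7, 1), (8, 4), (12, 4), (14, 2), (21, 1), (24, 4), (28, 4), (42, 2), (56, 4), (84, 4), (168, 4)]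

theorem r12 : Real True (findL 0 t12) :=
  real_of 4 (by norm_num)
   [(0, [0x321],
     [(0, 0), (0, 0), (0, 0)])]
   [] _ (by decide +kernel)

/-- The table of group number 13. -/
def t13 : List (ℕ × ℕ) := [(1, 1), (2, 2), (3, 1), (4, 2), (6, 2), (7, 1), (8, 2), (12, 2), (14, 2), (21, 1), (24, 2), (28, 2), (42, 2), (56, 2), (84, 2), (168, 2)]

theorem r13 : Real True (findL 0 t13) :=
  real_of 2 (by norm_num)
   [(0, [0x1],
     [(0, 0)])]
   [] _ (by decide +kernel)

/-- The table of group number 14. -/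
def t14 : List (ℕ × ℕ) := [(1, 1), (2, 2), (3, 3), (4, 8), (6, 6), (7, 1), (8, 8), (12, 12), (14, 2), (21, 3), (24, 12), (28, 8), (42, 6), (56, 8), (84, 12), (168, 12)]

theorem r14 : Real True (findL 0 t14) :=
  real_of 7 (by norm_num)
   [(0, [0x4560321],
     [(0, 0), (0, 0), (0, 0)]),
   (4, [0x5463210],
     [(0, 0), (0, 0)])]
   [[(4, [0x5463210],
     [(0, 0), (0, 0)])]] _ (by decide +kernel)

/-- The table of group number 15. -/
def t15 : List (ℕ × ℕ) := [(1, 1), (2, 2), (3, 1), (4, 16), (6, 2), (7, 7), (8, 16), (12, 16), (14, 14), (21, 7), (24, 16), (28, 28), (42, 14), (56, 28), (84, 28), (168, 28)]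

theorem r15 : Real True (findL 0 t15) :=
  real_of 11 (by norm_num)
   [(0, [0xa9873210654],
     [(0, 0), (0, 0), (1, 1), (0, 1), (1, 2), (0, 1)]),
   (7, [0x987a1234560],
     [(0, 0), (0, 0), (0, 0)])]
   [[(0, [0xa9872106543],
     [(0, 0), (0, 0), (0, 0), (0, 0), (0, 0), (0, 0)])]] _ (by decide +kernel)

/-- The table of group number 16. -/
def t16 : List (ℕ × ℕ) := [(1, 1), (2, 2), (3, 57), (4, 8), (6, 114), (7, 7), (8, 8), (12, 120), (14, 14), (21, 63), (24, 120), (28, 56), (42, 126), (56, 56), (84, 168), (168, 168)]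

theorem r16 : Real True (findL 0 t16) :=
  real_of 15 (by norm_num)
   [(7, [0x89dc7bae1065432],
     [(0, 0), (0, 0), (1, 1), (2, 2), (0, 2), (0, 1), (2, 1)]),
   (0, [0xceda9b874036251],
     [(0, 0), (0, 0), (1, 1), (1, 1), (1, 1), (0, 1)]),
   (1, [0xdce9ba875316420],
     [(0, 0), (0, 0)])]
   [[(7, [0xc8a79ebd3210654, 0xda7eb8c95432106],
     [(0, 0), (1, 1), (0, 1), (1, 2), (0, 2), (0, 2), (1, 3)]),
   (0, [0xedcba9872106543],
     [(0, 0), (0, 0), (0, 0), (0, 0), (0, 0), (0, 0)])], [(7, [0xab9dec786543210],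
     [(0, 0)])]] _ (by decide +kernel)

/-- The table of group number 17. -/
def t17 : List (ℕ × ℕ) := [(1, 1), (2, 30), (3, 15), (4, 32), (6, 114), (7, 7), (8, 32), (12, 144), (14, 42), (21, 21), (24, 144), (28, 56), (42, 126), (56, 56), (84, 168), (168, 168)]

theorem r17 : Real True (findL 0 t17) :=
  real_of 11 (by norm_num)
   [(0, [0x9a871526304],
     [(0, 0), (0, 0), (1, 1), (0, 1), (0, 1), (1, 0)]),
   (1, [0x789a2461350],
     [(0, 0), (0, 0), (0, 0), (0, 0), (0, 0)]),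
   (7, [0x879a6543210],
     [(0, 0), (0, 0), (0, 0)])]
   [[(0, [0x9a780654321],
     [(0, 0), (0, 0), (0, 0), (0, 0), (0, 0), (0, 0)]),
   (7, [0x9a786543210],
     [(0, 0)])]] _ (by decide +kernel)

/-- The table of group number 18. -/
def t18 : List (ℕ × ℕ) := [(1, 1), (2, 4), (3, 57), (4, 4), (6, 60), (7, 7), (8, 4), (12, 60), (14, 28), (21, 63), (24, 60), (28, 28), (42, 84), (56, 28), (84, 84), (168, 84)]

theorem r18 : Real True (findL 0 t18) :=
  real_of 11 (by norm_num)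
   [(0, [0x87a93210654],
     [(0, 0), (0, 0), (1, 1), (0, 1), (0, 1), (0, 0)]),
   (7, [0x7a893625140],
     [(0, 0), (0, 0), (1, 1)]),
   (1, [0x98a73625140],
     [(0, 0), (0, 0)])]
   [[(0, [0x9a782106543],
     [(0, 0), (0, 0), (0, 0), (0, 0), (0, 0), (0, 0)]),
   (7, [0x789a6543210, 0x87a96543210],
     [(0, 0), (1, 1), (1, 1)])]] _ (by decide +kernel)

/-- The table of group number 19. -/
def t19 : List (ℕ × ℕ) := [(1, 1), (2, 2), (3, 9), (4, 8), (6, 18), (7, 1), (8, 8), (12, 24), (14, 2), (21, 9), (24, 24), (28, 8), (42, 18), (56, 8), (84, 24), (168, 24)]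

theorem r19 : Real True (findL 0 t19) :=
  real_of 8 (by norm_num)
   [(0, [0x47136025],
     [(0, 0), (0, 0), (1, 1), (0, 1), (0, 1), (1, 1), (0, 0)]),
   (2, [0x57632410],
     [(0, 0), (0, 0)])]
   [[(0, [0x20715364, 0x63074152],
     [(0, 0), (1, 1), (0, 1), (1, 2), (0, 2), (0, 2), (1, 3)])], [(0, [0x34267501],
     [(0, 0)])]] _ (by decide +kernel)

/-- The table of group number 20. -/
def t20 : List (ℕ × ℕ) := [(1, 1), (2, 50), (3, 57), (4, 92), (6, 162), (7, 49), (8, 176), (12, 204), (14, 98), (21, 105), (24, 288), (28, 140), (42, 210), (56, 224), (84, 252), (168, 336)]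

theorem r20 : Real False (findL 0 t20) :=
  real_of' 8 (by norm_num)
   [(0, [0x30524167],
     [(0, 0), (0, 0), (1, 1), (2, 2), (0, 2), (1, 2), (2, 2)]),
   (1, [0x61745320],
     [(0, 0), (0, 0), (1, 1), (0, 1), (1, 2), (1, 2)]),
   (2, [0x53267410],
     [(0, 0), (0, 0), (0, 0), (0, 0), (0, 0)])]
   0x57204631 0x41260375 [(1, 1), (2, 1), (0, 4), (1, 3)] _ (by decide +kernel)


/-- There are finite groups G and H having the same number of elements of each order (the same order type) with G solvable and H not solvable. -/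
theorem result :
    ∃ (G : Type) (_ : Group G) (_ : Finite G) (H : Type) (_ : Group H) (_ : Finite H),
      Group.IsSolvable G ∧ ¬ Group.IsSolvable H ∧ ∀ n : ℕ, Nat.card {g : G // orderOf g = n} = Nat.card {h : H // orderOf h = n} := by
  obtain ⟨G, _, _, h1, h2⟩ := r0.mul (r2.mul (r4.mul (r5.mul (r6.mul (r11.mul (r12.mul (r17.mul (r18.mul (r19)))))))))
  obtain ⟨H, _, _, h3, h4⟩ := r1.mul (r3.mul (r7.mul (r8.mul (r8.mul (r9.mul (r10.mul (r13.mul (r14.mul (r15.mul (r16.mul (r20)))))))))))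
  refine ⟨G, inferInstance, inferInstance, H, inferInstance, inferInstance, h1.mpr trivial, h3.mp,
    card_orderOf_eq G H fun n => ?_⟩
  have h5 : ∀ d ∈ divs, findL 0 t0 d * (findL 0 t2 d * (findL 0 t4 d * (findL 0 t5 d * (findL 0 t6 d * (findL 0 t11 d * (findL 0 t12 d * (findL 0 t17 d * (findL 0 t18 d * (findL 0 t19 d))))))))) =
      findL 0 t1 d * (findL 0 t3 d * (findL 0 t7 d * (findL 0 t8 d * (findL 0 t8 d * (findL 0 t9 d * (findL 0 t10 d * (findL 0 t13 d * (findL 0 t14 d * (findL 0 t15 d * (findL 0 t16 d * (findL 0 t20 d))))))))))) := by decide +kernel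
  rw [h2, h4]
  exact h5 _ (gcd_mem_divs n)

end Cfsg.Agent.S4376
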