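import Cfsg.Statements.S4381
import Cfsg.Agent.H2.Maschke

set_option autoImplicit false
open Pointwise
open Cfsg

namespace Cfsg.Agent.S4381

open Subgroup Cfsg.Agent.H2
open scoped commutatorElement Pointwise


/-- Let the finite group A act by automorphisms on the finite group G with the orders of A and G coprime, and assume that A or G is solvable. Call a proper A-invariant subgroup of G maximal A-invariant when no A-invariant subgroup lies strictly between it and G. Then all maximal A-invariant subgroups of G are conjugate under elements of the fixed-point subgroup C_G(A) if and only if G is a p-group for some prime p and A leaves invariant no subgroup strictly between the Frattini subgroup of G and G. In that case, if G is nontrivial, the Frattini subgroup is the only maximal A-invariant subgroup (a trivial G has none). -/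
theorem result {A G : Type*} [Group A] [Finite A]
    [Group G] [Finite G] [MulDistribMulAction A G] (hcop : (Nat.card A).Coprime (Nat.card G)) (hsol : Group.IsSolvable A ∨ Group.IsSolvable G) :
    ((∀ M N : Subgroup G, (M ≠ ⊤ ∧ (∀ a : A, ∀ x ∈ M, a • x ∈ M) ∧ ∀ L : Subgroup G, M < L → (∀ a : A, ∀ x ∈ L, a • x ∈ L) → L = ⊤) → (N ≠ ⊤ ∧ (∀ a : A, ∀ x ∈ N, a • x ∈ N) ∧ ∀ L : Subgroup G, N < L → (∀ a : A, ∀ x ∈ L, a • x ∈ L) → L = ⊤) →
        ∃ c : G, (∀ a : A, a • c = c) ∧ N = MulAut.conj c • M) ↔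
      ((∃ p : ℕ, p.Prime ∧ IsPGroup p G) ∧ ∀ L : Subgroup G, frattini G < L → (∀ a : A, ∀ x ∈ L, a • x ∈ L) → L = ⊤)) ∧
    (((∃ p : ℕ, p.Prime ∧ IsPGroup p G) ∧ ∀ L : Subgroup G, frattini G < L → (∀ a : A, ∀ x ∈ L, a • x ∈ L) → L = ⊤) →
      ∀ M : Subgroup G, (M ≠ ⊤ ∧ (∀ a : A, ∀ x ∈ M, a • x ∈ M) ∧ ∀ L : Subgroup G, M < L → (∀ a : A, ∀ x ∈ L, a • x ∈ L) → L = ⊤) ↔ (M = frattini G ∧ M ≠ ⊤)) := by
  set φ := MulDistribMulAction.toMulAut A G with hφ
  have hΦ : ∀ a : A, ∀ x ∈ frattini G, a • x ∈ frattini G := fun a x hx =>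
    isInv_of_characteristic (φ := φ) (frattini G) ⊤ a (mem_top a) x hx
  have hsup : ∀ M N : Subgroup G, (∀ a : A, ∀ x ∈ M, a • x ∈ M) → (∀ a : A, ∀ x ∈ N, a • x ∈ N) →
      ∀ a : A, ∀ x ∈ M ⊔ N, a • x ∈ M ⊔ N := fun M N hM hN a x hx =>
    IsInv.sup (φ := φ) (B := ⊤) (fun a _ => hM a) (fun a _ => hN a) a (mem_top a) x hx
  have hex : ∀ H : Subgroup G, H ≠ ⊤ → (∀ a : A, ∀ x ∈ H, a • x ∈ H) → ∃ M : Subgroup G, H ≤ M ∧
      M ≠ ⊤ ∧ (∀ a : A, ∀ x ∈ M, a • x ∈ M) ∧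
      ∀ L : Subgroup G, M < L → (∀ a : A, ∀ x ∈ L, a • x ∈ L) → L = ⊤ := fun H h1 h2 => by
    obtain ⟨M, h3, ⟨h4, h5⟩, h6⟩ := Finite.exists_le_maximal
      (p := fun M : Subgroup G => M ≠ ⊤ ∧ ∀ a : A, ∀ x ∈ M, a • x ∈ M) (a := H) ⟨h1, h2⟩
    exact ⟨M, h3, h4, h5, fun L hL h7 => by_contra fun h => hL.not_ge (h6 ⟨h, h7⟩ hL.le)⟩
  have hfr : ∀ p : ℕ, p.Prime → IsPGroup p G → ∀ M : Subgroup G, M ≠ ⊤ →
      (∀ a : A, ∀ x ∈ M, a • x ∈ M) →
      (∀ L : Subgroup G, M < L → (∀ a : A, ∀ x ∈ L, a • x ∈ L) → L = ⊤) → frattini G ≤ M :=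
    fun p hp hG M h1 h2 h3 => by
      by_contra h
      exact h1 (frattini_nongenerating (h3 _ (left_lt_sup.mpr h) (hsup _ _ h2 hΦ)))
  have h2 : ((∃ p : ℕ, p.Prime ∧ IsPGroup p G) ∧
      ∀ L : Subgroup G, frattini G < L → (∀ a : A, ∀ x ∈ L, a • x ∈ L) → L = ⊤) →
      ∀ M : Subgroup G, (M ≠ ⊤ ∧ (∀ a : A, ∀ x ∈ M, a • x ∈ M) ∧ ∀ L : Subgroup G, M < L →
        (∀ a : A, ∀ x ∈ L, a • x ∈ L) → L = ⊤) ↔ (M = frattini G ∧ M ≠ ⊤) := by
    rintro ⟨⟨p, hp, hG⟩, h⟩ M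
    constructor
    · rintro ⟨h1, h2, h3⟩
      exact ⟨((hfr p hp hG M h1 h2 h3).eq_or_lt.resolve_right fun h4 => h1 (h M h4 h2)).symm, h1⟩
    · rintro ⟨rfl, h1⟩
      exact ⟨h1, hΦ, h⟩
  refine ⟨⟨fun h => ?_, fun h M N hM hN => ⟨1, fun a => smul_one a, ?_⟩⟩, h2⟩
  · rcases subsingleton_or_nontrivial G with hG | hG
    · exact ⟨⟨2, Nat.prime_two, fun g => ⟨0, Subsingleton.elim _ _⟩⟩,
        fun L _ _ => Subsingleton.elim _ _⟩
    obtain ⟨M, -, hM⟩ := hex ⊥ bot_ne_top fun a x hx => by rw [mem_bot.mp hx, smul_one]; exact one_mem _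
    obtain ⟨p, hp, hpG⟩ : ∃ p : ℕ, p.Prime ∧ IsPGroup p G := by
      by_contra hcon
      obtain ⟨p, hp, hpM⟩ := Nat.exists_prime_and_dvd (mt index_eq_one.mp hM.1)
      have := Fact.mk hp
      obtain ⟨P, -, -, h1, h2, h3⟩ := act_exists_invariant_sylow_ge (φ := φ) (p := p) (K := ⊤)
        (B := ⊤) (isInv_top _) (by rwa [card_top, card_top])
        (hsol.imp (isSolvable_of_mulEquiv topEquiv.symm) (isSolvable_of_mulEquiv topEquiv.symm)) (Q := ⊥) bot_le IsPGroup.of_bot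
        (isInv_of_characteristic _ _)
      obtain ⟨N, h4, hN⟩ := hex P (by
        rintro rfl
        exact hcon ⟨p, hp, h1.of_equiv topEquiv⟩) fun a => h3 a (mem_top a)
      obtain ⟨c, -, rfl⟩ := h M N hM hN
      rw [relIndex_top_right] at h2
      refine h2 (hpM.trans (Dvd.dvd.trans ?_ (index_dvd_of_le h4)))
      exact (index_map_of_bijective (MulAut.conj c).bijective M).symm.dvd
    have := Fact.mk hp
    have h3 := hfr p hp hpG M hM.1 hM.2.1 hM.2.2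
    have hMn : M.Normal := Subgroup.Normal.of_commutator_le G ((commutator_le_frattini hpG).trans h3)
    have h4 : ∀ N : Subgroup G, N ≠ ⊤ → (∀ a : A, ∀ x ∈ N, a • x ∈ N) → N ≤ M := fun N h1 h2 => by
      obtain ⟨L, h5, hL⟩ := hex N h1 h2
      obtain ⟨c, -, rfl⟩ := h M L hM hL
      rwa [conj_smul_eq_iff.mpr (by rw [normalizer_eq_top]; exact mem_top c)] at h5
    obtain ⟨U, h5, h6, h7⟩ := act_maschke_quot (p := p) φ (hcop.coprime_dvd_right
      (hpG.card_eq_or_dvd.resolve_left Finite.one_lt_card.ne')) hΦ (commutator_le_frattini hpG)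
      (pow_mem_frattini hpG) h3 hM.2.1
    have h8 : U = ⊤ := by_contra fun h => hM.1 (by rw [← h7, sup_eq_right.mpr (h4 U h h5)])
    rw [h8, top_inf_eq] at h6
    exact ⟨⟨p, hp, hpG⟩, h6 ▸ hM.2.2⟩
  · rw [((h2 h M).mp hM).1, ((h2 h N).mp hN).1, map_one, one_smul]

end Cfsg.Agent.S4381
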