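import Cfsg.Statements.S4383
import Cfsg.Agent.FT.Pi

set_option autoImplicit false
open Pointwise
open Cfsg

namespace Cfsg.Agent.S4383

open Subgroup Cfsg.Agent.FT Cfsg.Agent.H1

universe u

theorem dvd_of_orbits {Q α : Type*} [Group Q] [MulAction Q α] [Finite α] {d : ℕ} (a : α)
    (h0 : ∀ q : Q, q • a = a) (h : ∀ b ≠ a, d ∣ (MulAction.stabilizer Q b).index) :
    d ∣ Nat.card α - 1 := by
  classical
  haveI := Fintype.ofFinite (MulAction.orbitRel.Quotient Q α)
  rw [Nat.card_congr (MulAction.selfEquivSigmaOrbits' Q α), Nat.card_sigma,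
    ← Finset.add_sum_erase _ _ (Finset.mem_univ (Quotient.mk'' a))]
  have e : Nat.card (MulAction.orbitRel.Quotient.orbit
      (Quotient.mk'' a : MulAction.orbitRel.Quotient Q α)) = 1 := by
    rw [MulAction.orbitRel.Quotient.orbit_mk, Nat.card_coe_set_eq, ← MulAction.index_stabilizer,
      index_eq_one]
    exact eq_top_iff.2 fun q _ => h0 q
  rw [e, Nat.add_sub_cancel_left]
  refine Finset.dvd_sum fun ω hω => ?_
  induction ω using Quotient.inductionOn' with | h b => ?_
  rw [MulAction.orbitRel.Quotient.orbit_mk, Nat.card_coe_set_eq, ← MulAction.index_stabilizer]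
  exact h b fun e => Finset.ne_of_mem_erase hω (by rw [e])

variable {G : Type u} [Group G] [Finite G] {M N : Subgroup G}

/-- every proper subgroup lies in a conjugate of `M` or of `N` -/
def Cov (M N : Subgroup G) : Prop := ∀ H : Subgroup G, H ≠ ⊤ → ∃ g, H ≤ cj g M ∨ H ≤ cj g N

/-- no nontrivial normal subgroup of prime power order -/
def NoP (G : Type u) [Group G] : Prop :=
  ∀ (q : ℕ) [Fact q.Prime] (X : Subgroup G), IsPGroup q X → X ≠ ⊥ → 𝐍(X) ≠ ⊤

theorem Cov.norm (h : Cov M N) (hO : NoP G) {q : ℕ} [Fact q.Prime] {X : Subgroup G}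
    (h1 : IsPGroup q X) (h2 : ¬ ♯X ∣ ♯N) : ∃ g, 𝐍(X) ≤ cj g M := by
  obtain ⟨g, e | e⟩ := h _ (hO q X h1 fun e => h2 (by rw [e, card_bot]; exact one_dvd _))
  · exact ⟨g, e⟩
  · exact absurd (card_cj g N ▸ card_dvd_of_le (le_normalizer.trans e)) h2

theorem Cov.uniq (h : Cov M N) (hO : NoP G) {q : ℕ} [Fact q.Prime] (X : Subgroup G) :
    IsPGroup q X → ¬ ♯X ∣ ♯N → ∀ y z, X ≤ cj y M → X ≤ cj z M → y⁻¹ * z ∈ M := by
  induction X using WellFoundedGT.induction with | ind X ih => ?_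
  intro h1 h2
  obtain ⟨g, hg⟩ := h.norm hO h1 h2
  have k : ∀ y, X ≤ cj y M → y⁻¹ * g ∈ M := fun y hy => by
    obtain ⟨T, t1, t2⟩ := exists_syl_ge h1 hy
    rcases t2.eq_or_lt with rfl | e
    · obtain ⟨a, a1, a2⟩ := t1.exists_cj_le (isPGroup_cj (y * g⁻¹) h1) (by
        rw [cj_mul]; exact cj_mono _ (cj_le_iff_le_cj_inv.2
          (by rw [inv_inv]; exact le_normalizer.trans hg)))
      rw [← cj_mul] at a2
      have := mul_mem (mem_cj.1 a1) (inv_mem (mem_cj.1 (hg (mem_normalizer_of_cj_le a2))))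
      convert this using 1
      group
    · have e1 := lt_inf_normalizer_of_isPGroup t1.isPGroup e
      exact ih _ e1 (t1.isPGroup.to_le inf_le_left) (fun e2 => h2 ((card_dvd_of_le e1.le).trans e2))
        y g (inf_le_left.trans t1.le) (inf_le_right.trans hg)
  intro y z hy hz
  have := mul_mem (k y hy) (inv_mem (k z hz))
  convert this using 1
  group

theorem Cov.dvd (h : Cov M N) (hO : NoP G) : N.index ∣ M.index - 1 := by
  refine (Nat.dvd_iff_prime_pow_dvd_dvd _ _).2 fun q k hq hk => ?_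
  haveI := Fact.mk hq
  obtain ⟨Q, hQ⟩ := exists_syl q (⊤ : Subgroup G)
  have k1 : ∀ X ≤ Q, ♯X ∣ ♯N → q ^ k ∣ X.relIndex Q := fun X x1 x2 => by
    have e1 := mul_dvd_mul x2 hk
    rw [card_mul_index, ← card_top (G := G), ← hQ.card_mul_relIndex, ← relIndex_bot_left (H := Q),
      ← relIndex_mul_relIndex ⊥ X Q bot_le x1, relIndex_bot_left, mul_assoc] at e1
    exact (((Nat.Prime.coprime_iff_not_dvd hq).2 hQ.not_dvd).pow_left k).dvd_of_dvd_mul_right
      (Nat.dvd_of_mul_dvd_mul_left Nat.card_pos e1)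
  by_cases e : ♯Q ∣ ♯N
  · have := k1 Q le_rfl e
    rw [relIndex_self] at this
    exact this.trans (one_dvd _)
  obtain ⟨g, hg⟩ := h.norm hO hQ.isPGroup e
  have k2 : ∀ (y : G) (x : Q), x • (y : G ⧸ M) = y ↔ (x : G) ∈ cj y M := fun y x => by
    rw [mem_cj, eq_comm]
    change (y : G ⧸ M) = ((x * y : G) : G ⧸ M) ↔ _
    rw [QuotientGroup.eq, mul_assoc]
  refine dvd_of_orbits (Q := Q) (g : G ⧸ M) (fun x => (k2 g x).2 (hg (le_normalizer x.2)))
    fun b hb => ?_
  induction b using QuotientGroup.induction_on with | H y => ?_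
  have e1 : MulAction.stabilizer Q (y : G ⧸ M) = (Q ⊓ cj y M).subgroupOf Q := by
    rw [inf_subgroupOf_left]; exact Subgroup.ext fun x => k2 y x
  rw [e1]
  refine k1 _ inf_le_left (by_contra fun e2 => hb (QuotientGroup.eq.2 ?_))
  exact h.uniq hO _ (hQ.isPGroup.to_le inf_le_left) e2 y g inf_le_right
    (inf_le_left.trans (le_normalizer.trans hg))

theorem Cov.false (h : Cov M N) (hO : NoP G) (hM : M ≠ ⊤) (hN : N ≠ ⊤) : False := by
  have h' : Cov N M := fun H hH => (h H hH).imp fun _ e => e.symm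
  have e1 : M.index ≠ 1 := mt index_eq_one.1 hM
  have e2 : N.index ≠ 1 := mt index_eq_one.1 hN
  have e3 : M.index ≠ 0 := index_ne_zero_of_finite
  have e4 : N.index ≠ 0 := index_ne_zero_of_finite
  have e5 := Nat.le_of_dvd (by omega) (h.dvd hO)
  have e6 := Nat.le_of_dvd (by omega) (h'.dvd hO)
  omega

theorem solv (n : ℕ) : ∀ (G : Type u) [Group G] [Finite G], Nat.card G = n →
    ∀ M N : Subgroup G, M ≠ ⊤ → N ≠ ⊤ → Cov M N → Group.IsSolvable G := by
  classical
  induction n using Nat.strong_induction_on with | _ n ih => ?_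
  intro G _ _ hn M N hM hN h
  by_contra hs
  refine h.false (fun q _ X x1 x2 x3 => hs ?_) hM hN
  haveI := normalizer_eq_top_iff.1 x3
  haveI : Group.IsSolvable X := isSolvable_of_isPGroup x1
  set f := QuotientGroup.mk' X
  have f1 : Function.Surjective f := QuotientGroup.mk'_surjective X
  have f2 : f.ker = X := QuotientGroup.ker_mk' X
  haveI : Group.IsSolvable (G ⧸ X) := by
    rcases subsingleton_or_nontrivial (G ⧸ X) with e | e
    · infer_instance
    have k1 : ∀ M : Subgroup G, M ≠ ⊤ → (if X ≤ M then M.map f else ⊥) ≠ ⊤ := fun M hM => by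
      split_ifs with e1
      · exact fun e2 => hM (by rw [← comap_map_eq_self (f2.le.trans e1), e2, comap_top])
      · exact bot_ne_top
    have k2 : ∀ (M : Subgroup G) (H : Subgroup (G ⧸ X)) (g : G), H.comap f ≤ cj g M →
        H ≤ cj (f g) (if X ≤ M then M.map f else ⊥) := fun M H g e1 => by
      rw [if_pos (cj_le_cj_iff.1 ((cj_eq_of_normal g X).le.trans
        (f2.ge.trans ((ker_le_comap f H).trans e1))))]
      intro z hz
      obtain ⟨x, rfl⟩ := f1 z
      exact mem_cj.2 ⟨_, mem_cj.1 (e1 hz), by rw [map_mul, map_mul, map_inv]⟩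
    refine ih _ ?_ _ rfl _ _ (k1 M hM) (k1 N hN) fun H hH => ?_
    · rw [← hn, card_eq_card_quotient_mul_card_subgroup X]
      exact lt_mul_of_one_lt_right Nat.card_pos (one_lt_card.2 x2)
    obtain ⟨g, e1⟩ := h (H.comap f) fun e1 =>
      hH (by rw [← map_comap_eq_self_of_surjective f1 H, e1, map_top_of_surjective f f1])
    exact ⟨f g, e1.imp (k2 M H g) (k2 N H g)⟩
  exact Group.isSolvable_of_ker_le_range X.subtype f (by rw [f2, range_subtype])

/-- A finite group with exactly two conjugacy classes of maximal subgroups is solvable and its order has exactly two prime divisors. -/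
theorem result {G : Type*} [Group G] [Finite G]
    (M₁ M₂ : Subgroup G) (h1 : IsCoatom M₁) (h2 : IsCoatom M₂) (hne : ∀ g : G, M₂ ≠ MulAut.conj g • M₁)
    (hall : ∀ M : Subgroup G, IsCoatom M → ∃ g : G, M = MulAut.conj g • M₁ ∨ M = MulAut.conj g • M₂) :
    Group.IsSolvable G ∧ (Nat.card G).primeFactors.card = 2 := by
  classical
  have h : Cov M₁ M₂ := fun H hH => by
    obtain ⟨M, m1, m2⟩ := (eq_top_or_exists_le_coatom H).resolve_left hH
    obtain ⟨g, e⟩ := hall M m1
    exact ⟨g, e.imp (fun e => m2.trans e.le) fun e => m2.trans e.le⟩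
  have hs := solv _ G rfl M₁ M₂ h1.1 h2.1 h
  refine ⟨hs, le_antisymm ?_ (not_lt.1 fun e => ?_)⟩
  · refine (Finset.card_le_card (t := {M₁.index.minFac, M₂.index.minFac}) fun p hp => ?_).trans
      Finset.card_le_two
    have p1 := Nat.prime_of_mem_primeFactors hp
    obtain ⟨H, e⟩ := exists_hall {p}ᶜ (K := (⊤ : Subgroup G)) inferInstance
    have k : ∀ (M : Subgroup G) (g : G), M ≠ ⊤ → H ≤ cj g M → p = M.index.minFac :=
      fun M g m1 m2 => by
        have e1 := relIndex_dvd_of_le_left ⊤ m2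
        rw [← cj_top g, relIndex_cj, relIndex_top_right, cj_top] at e1
        have := e.idx _ (Nat.minFac_prime (mt index_eq_one.1 m1)) ((Nat.minFac_dvd _).trans e1)
        rw [compl_compl] at this
        exact this.symm
    obtain ⟨g, e1⟩ := h H fun e1 => (piNum_compl_singleton p1).1 e.piG
      (by rw [e1, card_top]; exact Nat.dvd_of_mem_primeFactors hp)
    rw [Finset.mem_insert, Finset.mem_singleton]
    exact e1.imp (k _ g h1.1) (k _ g h2.1)
  have n1 : ¬ M₁ ≤ M₂ := fun e1 => hne 1 (by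
    rw [map_one, one_smul]; exact ((h1.le_iff_eq h2.1).1 e1))
  have n2 : ¬ M₂ ≤ M₁ := fun e1 => hne 1 (by
    rw [map_one, one_smul]; exact ((h2.le_iff_eq h1.1).1 e1).symm)
  obtain ⟨p, p1, p2⟩ := exists_prime_dvd_card (H := (⊤ : Subgroup G)) fun e1 =>
    n1 (le_top.trans (e1.le.trans bot_le))
  haveI := Fact.mk p1
  have p3 : IsPGroup p (⊤ : Subgroup G) := piG_singleton_iff.1 fun q q1 q2 =>
    Finset.card_le_one.1 (Nat.lt_succ_iff.1 e) q
      (Nat.mem_primeFactors.2 ⟨q1, card_top (G := G) ▸ q2, Nat.card_pos.ne'⟩) p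
      (Nat.mem_primeFactors.2 ⟨p1, card_top (G := G) ▸ p2, Nat.card_pos.ne'⟩)
  have k : ∀ M : Subgroup G, IsCoatom M → ∀ g, cj g M = M := fun M hM g =>
    cj_eq_iff_mem_normalizer.2 ((hM.2 _ (lt_inf_normalizer_of_isPGroup p3 hM.lt_top)).ge
      (mem_top g)).2
  obtain ⟨a, a1, a2⟩ := SetLike.not_le_iff_exists.1 n1
  obtain ⟨b, b1, b2⟩ := SetLike.not_le_iff_exists.1 n2
  have c1 : zpowers (a * b) = ⊤ := by
    by_contra e1
    obtain ⟨g, e2 | e2⟩ := h _ e1
    · exact b2 ((mul_mem_cancel_left a1).1 ((k _ h1 g).le (e2 (mem_zpowers _))))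
    · exact a2 ((mul_mem_cancel_right b1).1 ((k _ h2 g).le (e2 (mem_zpowers _))))
  have c2 : IsCyclic (⊤ : Subgroup G) := c1 ▸ inferInstance
  obtain ⟨i, hi⟩ := (p3.to_le (le_top (a := M₁))).exists_card_eq
  obtain ⟨j, hj⟩ := (p3.to_le (le_top (a := M₂))).exists_card_eq
  rcases le_total i j with e1 | e1
  · exact n1 (le_of_card_dvd_of_le_cyclic c2 le_top le_top (by rw [hi, hj]; exact pow_dvd_pow p e1))
  · exact n2 (le_of_card_dvd_of_le_cyclic c2 le_top le_top (by rw [hi, hj]; exact pow_dvd_pow p e1))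

end Cfsg.Agent.S4383
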