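import Cfsg.Statements.S4385
import Cfsg.Agent.H1.Tutte4
-- import your own Cfsg.Agent.* helpers here

set_option autoImplicit false
open Pointwise
open Cfsg

namespace Cfsg.Agent.S4385
open Subgroup FT H1 H1.Tu

theorem loc_map {G G' : Type*} [Group G] [Group G'] {v Q T : Subgroup G} {r : G}
    (h : Loc v Q T r) (f : G →* G') (hf : Function.Injective f) :
    Loc (v.map f) (Q.map f) (T.map f) (f r) where
  i2 := ⟨map_mono h.i2.1, fun e => h.i2.2.1 ((map_le_map_iff_of_injective hf).1 e), by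
    rintro _ ⟨x, hx, rfl⟩ _ ⟨y, hy, rfl⟩ h1 h2
    rw [← map_mul]
    exact mem_map_of_mem f (h.i2.2.2 x hx y hy (fun e => h1 (mem_map_of_mem f e))
      (fun e => h2 (mem_map_of_mem f e)))⟩
  Tv := map_mono h.Tv
  nQ := (Nrm.map ⟨h.i2.1.trans h.Tv, h.nQ⟩ f).norm
  pT := h.pT.map f
  rv := mem_map_of_mem f h.rv
  odd := by rw [orderOf_injective f hf]; exact h.odd
  dec := by
    rintro _ ⟨k, hk, rfl⟩
    obtain ⟨i, t, ht, rfl⟩ := h.dec k hk
    exact ⟨i, f t, mem_map_of_mem f ht, by simp⟩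
  inv := by
    rintro _ ⟨a, ha, rfl⟩ h1
    simpa using mem_map_of_mem f (h.inv a ha fun e => h1 (mem_map_of_mem f e))

theorem exists_loc {X : Type*} [Group X] [Finite X] {n : ℕ} (hn : 2 ≤ n)
    (e : X ⧸ pCore 2 X ≃* DihedralGroup n) {P : Subgroup X} (hP : Syl 2 P ⊤) :
    ∃ r, Loc ⊤ (pCore 2 X) P r := by
  have : NeZero n := ⟨by omega⟩
  let π : X →* DihedralGroup n := e.toMonoidHom.comp (QuotientGroup.mk' _)
  have hs : Function.Surjective π := e.surjective.comp (QuotientGroup.mk'_surjective _)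
  have hk : ∀ {x}, π x = 1 ↔ x ∈ pCore 2 X := fun {x} =>
    (map_eq_one_iff e e.injective).trans (QuotientGroup.eq_one_iff x)
  have QP : pCore 2 X ≤ P := hP.le_of_normal (L.pCore_isPGroup 2) le_top
    (H1.le_normalizer_of_normal _ _)
  have odd : Odd n := by
    by_contra h
    obtain ⟨m, rfl⟩ := Nat.not_odd_iff_even.1 h
    have c : (m : ZMod (m + m)) + m = 0 := by rw [← Nat.cast_add, ZMod.natCast_self]
    have hz : (DihedralGroup.r m : DihedralGroup (m + m)) ∈ center _ := mem_center_iff.2 fun g => by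
      cases g with
      | r i => simp [add_comm]
      | sr i => simp [sub_eq_add_neg, neg_eq_of_add_eq_zero_left c]
    have : (zpowers (DihedralGroup.r m : DihedralGroup (m + m))).Normal :=
      nrm_top_iff.1 (nrm_of_le_cent le_top (by
        rw [zpowers_le]; exact mem_cent_iff.2 fun g _ => mem_center_iff.1 hz g))
    have := Normal.map this e.symm.toMonoidHom e.symm.surjective
    have h1 := L.le_pCore (N := (zpowers (DihedralGroup.r m : DihedralGroup (m + m))).map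
      e.symm.toMonoidHom) (p := 2)
      ((isPGroup_zpowers (k := 1) (by simp [pow_two, c])).map _)
    rw [L.pCore_quotient, le_bot_iff, map_eq_bot_iff_of_injective _ e.symm.injective,
      zpowers_eq_bot, DihedralGroup.one_def, DihedralGroup.r.injEq, ZMod.natCast_eq_zero_iff] at h1
    have := Nat.le_of_dvd (by omega) h1
    omega
  have rot : ∀ a ∈ P, ∀ i, π a = DihedralGroup.r i → a ∈ pCore 2 X := fun a ha i h => by
    obtain ⟨k, h1⟩ := isPGroup_iff_mem.1 hP.isPGroup a ha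
    refine hk.1 (eq_one_of_pow_of_coprime (p := 2) (k := k) (by rw [← map_pow, h1, map_one]) ?_)
    refine Nat.coprime_two_right.2 (odd.of_dvd_nat (orderOf_dvd_of_pow_eq_one ?_))
    rw [h, DihedralGroup.r_pow]; simp
  have refl : ∀ a ∈ P, a ∉ pCore 2 X → ∃ j, π a = DihedralGroup.sr j := fun a ha h => by
    cases h1 : π a with
    | r i => exact absurd (rot a ha i h1) h
    | sr j => exact ⟨j, rfl⟩
  have nl : ¬ P ≤ pCore 2 X := fun h => by
    have h1 := (hP.map π).eq_bot_iff.1 (eq_bot_iff.2 (by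
      rintro _ ⟨a, ha, rfl⟩; exact hk.2 (h ha)))
    rw [map_top_of_surjective π hs, card_top, DihedralGroup.nat_card] at h1
    exact h1 (Dvd.intro _ rfl)
  obtain ⟨x, hx⟩ := hs (DihedralGroup.r 1)
  obtain ⟨k, hk2⟩ := exists_pow_coprime (p := 2) x
  have hr : π (x ^ 2 ^ k) = DihedralGroup.r (2 ^ k : ℕ) := by
    rw [map_pow, hx, DihedralGroup.r_one_pow]
  have pw : ∀ i, ∃ j : ℕ, π ((x ^ 2 ^ k) ^ j) = DihedralGroup.r i := fun i => by
    let u := ZMod.unitOfCoprime (2 ^ k) ((Nat.coprime_two_left.2 odd).pow_left k)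
    refine ⟨((u⁻¹ : (ZMod n)ˣ) * i : ZMod n).val, ?_⟩
    rw [map_pow, hr, DihedralGroup.r_pow, ZMod.natCast_zmod_val, ← mul_assoc]
    exact congrArg _ ((congrArg (· * i) u.mul_inv).trans (one_mul i))
  refine ⟨x ^ 2 ^ k, ⟨QP, nl, fun a ha b hb h1 h2 => ?_⟩, le_top,
    H1.le_normalizer_of_normal _ _, hP.isPGroup, trivial, Nat.coprime_two_right.1 hk2,
    fun g _ => ?_, fun a ha h => ?_⟩
  · obtain ⟨i, hi⟩ := refl a ha h1
    obtain ⟨j, hj⟩ := refl b hb h2
    exact rot _ (mul_mem ha hb) (j - i) (by rw [map_mul, hi, hj]; rfl)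
  · have key : ∀ g i, π g = DihedralGroup.r i → ∃ j : ℕ, ∃ t ∈ P, g = (x ^ 2 ^ k) ^ j * t :=
      fun g i h => by
        obtain ⟨j, hj⟩ := pw i
        exact ⟨j, ((x ^ 2 ^ k) ^ j)⁻¹ * g, QP (hk.1 (by rw [map_mul, map_inv, hj, h]; simp)),
          by simp⟩
    cases h1 : π g with
    | r i => exact key g i h1
    | sr i =>
      obtain ⟨a, ha, h2⟩ := SetLike.not_le_iff_exists.1 nl
      obtain ⟨j, hj⟩ := refl a ha h2
      obtain ⟨l, t, ht, h3⟩ := key (g * a⁻¹) (j - i) (by rw [map_mul, map_inv, h1, hj]; rfl)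
      exact ⟨l, t * a, mul_mem ht ha, by rw [← mul_assoc, ← h3]; simp⟩
  · obtain ⟨j, hj⟩ := refl a ha h
    exact hk.1 (by rw [map_mul, map_mul, map_mul, map_inv, hj, hr]; simp)

/-- Let H be a subgroup of a finite group G whose largest normal 2-subgroup O_2(H) is nontrivial and such that H/O_2(H) is a dihedral group of order at least 4. Let P be a Sylow 2-subgroup of H and S a Sylow 2-subgroup of G containing P. Suppose y ∈ S lies outside P, normalizes P, has y² in the product of P with the centralizer of P in G, and normalizes no non-identity normal subgroup of H contained in P. Then P has order 4, 8 or 16, and H modulo its largest normal subgroup of odd order is isomorphic to the four-group, to the symmetric group of degree 4, or to the direct product of the symmetric group of degree 4 with a group of order 2. -/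
theorem result {G : Type*} [Group G] [Finite G]
    (H : Subgroup G) (hO : Cfsg.pCore 2 ↥H ≠ ⊥) (n : ℕ) (hn : 2 ≤ n) (hdih : Nonempty (↥H ⧸ Cfsg.pCore 2 ↥H ≃* DihedralGroup n))
    (P : Subgroup G) (hPH : P ≤ H) (hP : IsPGroup 2 P) (hPsyl : ¬ 2 ∣ P.relIndex H)
    (S : Sylow 2 G) (hPS : P ≤ (S : Subgroup G)) (y : G) (hyS : y ∈ (S : Subgroup G)) (hyP : y ∉ P)
    (hy2 : y ^ 2 ∈ P ⊔ Subgroup.centralizer (P : Set G)) (hyN : MulAut.conj y • P = P)
    (hyQ : ∀ Q : Subgroup G, Q ≤ P → (Q.subgroupOf H).Normal → MulAut.conj y • Q = Q → Q = ⊥) :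
    (Nat.card P = 4 ∨ Nat.card P = 8 ∨ Nat.card P = 16) ∧
    (Nonempty (↥H ⧸ Cfsg.oddCore ↥H ≃* Multiplicative (ZMod 2) × Multiplicative (ZMod 2)) ∨
     Nonempty (↥H ⧸ Cfsg.oddCore ↥H ≃* Equiv.Perm (Fin 4)) ∨
     Nonempty (↥H ⧸ Cfsg.oddCore ↥H ≃* Equiv.Perm (Fin 4) × Multiplicative (ZMod 2))) := by
  obtain ⟨e⟩ := hdih
  obtain ⟨r, D⟩ := exists_loc hn e (P := P.subgroupOf H) ⟨le_top, isPGroup_subgroupOf hP H, by
    rwa [relIndex_top_right]⟩
  have inj := subtype_injective H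
  have eP : (P.subgroupOf H).map H.subtype = P := map_subgroupOf_eq_of_le hPH
  have eH : (⊤ : Subgroup H).map H.subtype = H := by rw [← MonoidHom.range_eq_map, range_subtype]
  have D' := loc_map D H.subtype inj
  rw [eP, eH] at D'
  have A : Am H ((pCore 2 H).map H.subtype) P r y := ⟨D', cj_eq_iff_mem_normalizer.1 hyN,
    pow_two y ▸ hy2, fun U h1 h2 h3 => hyQ U h1 (Nrm.normal ⟨h1.trans hPH, h2⟩) h3⟩
  have cP : ♯(P.subgroupOf H) = ♯P := by rw [← card_map_of_injective inj, eP]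
  have cen : ∀ {x : H}, (x : G) ∈ 𝐂((pCore 2 H).map H.subtype) ↔ x ∈ 𝐂(pCore 2 H) := fun {x} =>
    ⟨fun h => mem_cent_iff.2 fun q hq => Subtype.ext (mem_cent_iff.1 h _ (mem_map_of_mem _ hq)),
      fun h => mem_cent_iff.2 (by
        rintro _ ⟨q, hq, rfl⟩; exact congrArg Subtype.val (mem_cent_iff.1 h q hq))⟩
  by_cases hB : P ⊓ 𝐂((pCore 2 H).map H.subtype) ≤ (pCore 2 H).map H.subtype
  · obtain ⟨h1, h2, h3, h4, h5, a, ha, haQ, haa⟩ := AmB.fin ⟨A, hB⟩
    have eC : (pCore 2 H ⊓ 𝐂((⊤ : Subgroup H))).map H.subtype =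
        (pCore 2 H).map H.subtype ⊓ 𝐂(H) := by
      refine le_antisymm ?_ ?_
      · rintro _ ⟨x, hx, rfl⟩
        exact ⟨mem_map_of_mem _ hx.1, mem_cent_iff.2 fun h hh =>
          congrArg Subtype.val (mem_cent_iff.1 hx.2 ⟨h, hh⟩ trivial)⟩
      · rintro _ ⟨⟨x, hx, rfl⟩, h⟩
        exact mem_map_of_mem _ ⟨hx, mem_cent_iff.2 fun k _ => Subtype.ext (mem_cent_iff.1 h k k.2)⟩
    rw [← eC, card_map_of_injective inj] at h4 h5
    rw [card_map_of_injective inj] at h4
    have h6 := D.i2.card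
    rw [cP, h4] at h6
    rcases D.sfour (a := ⟨a, hPH ha⟩) (fun q hq => Subtype.ext (h1 _ (mem_map_of_mem _ hq)))
      (cen.1 h2) (fun h => h3 (cen.2 h)) rfl h4 h5 ha (fun h => haQ (mem_map_of_mem _ h))
      (Subtype.ext haa) with ⟨h, h'⟩ | ⟨h, h'⟩
    · exact ⟨Or.inr (Or.inl (by rw [h6, h])), Or.inr (Or.inl h')⟩
    · exact ⟨Or.inr (Or.inr (by rw [h6, h])), Or.inr (Or.inr h')⟩
  · obtain ⟨a, ha, haQ⟩ := SetLike.not_le_iff_exists.1 hB
    obtain ⟨h1, h2, h3⟩ := A.caseA (by rwa [Ne, map_eq_bot_iff_of_injective _ inj]) ha.1 haQ ha.2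
    exact ⟨Or.inl h2, Or.inl (D.klein (fun x _ => cen.1 (h1 x.2)) (cP.trans h2)
      fun p hp => Subtype.ext (h3 _ hp))⟩

end Cfsg.Agent.S4385
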