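import Cfsg.Statements.S4387
import Cfsg.Agent.H2.Misc

set_option autoImplicit false
open Pointwise
open Cfsg

namespace Cfsg.Agent.S4387

open Subgroup Cfsg.Agent.H2
open scoped commutatorElement Pointwise


/-- Let G be a non-trivial finite group in which any two maximal subgroups are conjugate. Then G is cyclic of prime-power order. -/
theorem result {G : Type*} [Group G] [Finite G] [Nontrivial G]
    (h : ∀ M N : Subgroup G, IsCoatom M → IsCoatom N → ∃ g : G, N = MulAut.conj g • M) :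
    IsCyclic G ∧ IsPrimePow (Nat.card G) := by
  have key : ∀ H : Subgroup G, H ≠ ⊤ → ∃ M, IsCoatom M ∧ H ≤ M := fun H hH =>
    (eq_top_or_exists_le_coatom H).resolve_left hH
  obtain ⟨M, hM, -⟩ := key ⊥ bot_ne_top
  obtain ⟨g, hg⟩ := exists_forall_conj_not_mem hM.1
  have h1 : zpowers g = ⊤ := by
    by_contra h1
    obtain ⟨N, hN, h2⟩ := key _ h1
    obtain ⟨x, rfl⟩ := h M N hM hN
    exact hg x⁻¹ (by simpa [mem_pointwise_smul_iff_inv_smul_mem] using h2 (mem_zpowers g))
  have hc : IsCyclic G := isCyclic_iff_exists_zpowers_eq_top.mpr ⟨g, h1⟩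
  refine ⟨hc, ?_⟩
  let _ := IsCyclic.commGroup (α := G)
  have h2 : ∀ N : Subgroup G, IsCoatom N → N = M := fun N hN => by
    obtain ⟨x, rfl⟩ := h M N hM hN
    exact conj_smul_eq_iff.mpr (by rw [normalizer_eq_top]; exact mem_top x)
  by_contra hcon
  have h3 : ∀ p : ℕ, p.Prime → ∀ P : Sylow p G, (P : Subgroup G) ≤ M := fun p hp P => by
    have := Fact.mk hp
    refine ((key P fun h => hcon ?_).imp fun N hN => h2 N hN.1 ▸ hN.2).elim fun _ h => h
    obtain ⟨k, hk⟩ := IsPGroup.iff_card.mp P.isPGroup'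
    rw [h, card_top] at hk
    refine (isPrimePow_nat_iff _).mpr ⟨p, k, hp, Nat.pos_of_ne_zero ?_, hk.symm⟩
    rintro rfl
    exact Finite.one_lt_card.ne' hk
  refine hM.1 (eq_top_iff.mpr (le_of_forall_prime_exists fun q hq _ => ?_))
  have := Fact.mk hq
  obtain ⟨P⟩ : Nonempty (Sylow q G) := inferInstance
  exact ⟨P, le_top, by rw [relIndex_top_right]; exact P.not_dvd_index, h3 q hq P⟩

end Cfsg.Agent.S4387
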