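import Cfsg.Statements.S4396
import Cfsg.Agent.H2.FrobMod
import Cfsg.Agent.L.Core

set_option autoImplicit false
open Cfsg

namespace Cfsg.Agent.S4396

open Subgroup Cfsg.Agent.H2
open scoped commutatorElement Pointwise


/-- Let the finite group A act faithfully and linearly on a finite-dimensional vector space V over a field k, and suppose A is a Frobenius group with nilpotent kernel F (every Frobenius kernel is nilpotent) and complement H such that F fixes no nonzero vector. Then V is free as a module for H: there is a subspace W with V the direct sum of the translates hW, h ∈ H. (No assumption on the characteristic of k.) -/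
theorem result {k V A : Type*} [Field k] [AddCommGroup V] [Module k V] [FiniteDimensional k V] [Group A] [Finite A] [DecidableEq A]
    (ρ : Representation k A V) (hρ : Function.Injective ρ)
    (Fk Hc : Subgroup A) [Fk.Normal] (hHc : Cfsg.IsFrobeniusComplement Hc) (hker : Cfsg.frobeniusKernel Hc = (Fk : Set A)) (hnil : Group.IsNilpotent ↥Fk)
    (hCF : ∀ v : V, (∀ f ∈ Fk, ρ f v = v) → v = 0) :
    ∃ W : Submodule k V, DirectSum.IsInternal (fun h : ↥Hc => W.map (ρ (h : A))) := by
  obtain ⟨p, hp⟩ := ExpChar.exists k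
  obtain ⟨N, hNn, hNF, hN, hpow⟩ : ∃ N : Subgroup A, N.Normal ∧ N ≤ Fk ∧ (Nat.card N : k) ≠ 0 ∧
      ∀ x ∈ Fk, ∃ j, x ^ p ^ j ∈ N := by
    cases hp with
    | zero => exact ⟨Fk, inferInstance, le_rfl, Nat.cast_ne_zero.mpr Nat.card_pos.ne', fun x hx =>
        ⟨0, by simpa using hx⟩⟩
    | prime hp =>
      haveI := Fact.mk hp
      refine ⟨Fk ⊓ pPrimeCore p A, inferInstance, inf_le_left, fun h => ?_, fun x hx => ?_⟩
      · exact (hp.coprime_iff_not_dvd.mp (L.pPrimeCore_coprime (G := A) p).symm)
          (((CharP.cast_eq_zero_iff k p _).mp h).trans (card_dvd_of_le inf_le_right))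
      · obtain ⟨a, ha, b, hb, rfl⟩ := mem_sup_of_normal_right.mp
          (L.fitting_le_pCore_sup_pPrimeCore p (L.le_fitting hnil hx))
        obtain ⟨j, hj⟩ := L.pCore_isPGroup p ⟨a, ha⟩
        refine ⟨j, pow_mem hx _, (QuotientGroup.eq_one_iff _).mp ?_⟩
        rw [QuotientGroup.mk_pow, QuotientGroup.mk_mul, (QuotientGroup.eq_one_iff _).mpr hb,
          mul_one, ← QuotientGroup.mk_pow, show a ^ p ^ j = 1 from congrArg Subtype.val hj,
          QuotientGroup.mk_one]
  haveI := Fintype.ofFinite N
  haveI : Group.IsSolvable N :=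
    Group.isSolvable_of_isSolvable_injective (Subgroup.inclusion_injective hNF)
  refine exists_isInternal_of_solvable (fun h : Hc => MulAut.conjNormal (H := N) (h : A)⁻¹) hN
    (fun h hh n hn => ?_) (ρ.comp N.subtype) (ρ.comp Hc.subtype) (fun n h => ?_) ?_
  · have h1 : (n : A) ∈ frobeniusKernel Hc := hker ▸ hNF n.2
    refine Subtype.ext (h1.resolve_right fun h2 => hh (Subtype.ext ?_))
    have h3 : (h : A)⁻¹ * n * h = n := by simpa using congrArg Subtype.val hn
    refine mem_bot.mp ((hHc.2.2 n (by simpa using h2 1)).le (mem_inf.mpr ⟨h.2, ?_⟩))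
    rw [mem_pointwise_smul_iff_inv_smul_mem, ← map_inv, MulAut.smul_def, MulAut.conj_apply,
      inv_inv]
    convert h.2 using 1
    calc (n : A)⁻¹ * h * n = (n : A)⁻¹ * h * ((h : A)⁻¹ * n * h) := by rw [h3]
      _ = h := by group
  · simp only [MonoidHom.comp_apply, ← map_mul]
    congr 1
    simp [mul_assoc]
  · refine LinearMap.ext fun v => ?_
    by_contra hv
    obtain ⟨w, hw, h1⟩ := exists_fixed_of_pow_mem p ρ hNF le_normalizer_of_normal hpow hv
      fun n hn => LinearMap.congr_fun (mul_sum_eq ρ N hn) v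
    exact hw (hCF w h1)

end Cfsg.Agent.S4396
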