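import Cfsg.Statements.S4398
import Cfsg.Agent.H2.Meta
import Cfsg.Agent.H3.Invol

set_option autoImplicit false
open Cfsg

namespace Cfsg.Agent.S4398

open Subgroup Cfsg.Agent.H2
open scoped commutatorElement Pointwise

theorem aux {S : Type*} [Group S] [Finite S] (h2 : IsPGroup 2 S) {a g u v z : S}
    [(zpowers a).Normal] (h : zpowers a ⊔ zpowers g = ⊤) (hu : u ∈ zpowers a) (hz1 : z ≠ 1)
    (hz : z ^ 2 = 1) (hu2 : u ^ 2 ∈ zpowers z) (hv2 : v ^ 2 ∈ zpowers z)
    (huv : v * u * v⁻¹ = u * z) : ∃ c t : S, ∃ k, MaxCl c t k := by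
  have hzA : z ∈ zpowers a := by
    have := mul_mem (inv_mem hu) ((inferInstance : (zpowers a).Normal).conj_mem u hu v)
    rwa [huv, inv_mul_cancel_left] at this
  have hne : v * u ≠ u * v := fun h => hz1 (by
    rw [h, mul_inv_cancel_right] at huv
    exact (mul_eq_left.mp huv.symm))
  have hu1 : u ≠ 1 := by
    rintro rfl
    simp at hne
  obtain ⟨n, hn⟩ := IsPGroup.iff_orderOf.mp h2 a
  rcases n with _ | n
  · rw [orderOf_eq_one_iff.mp hn, zpowers_one_eq_bot] at hu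
    exact absurd hu hu1
  have h3 : u ^ 2 = z := by
    obtain ⟨i, hi⟩ := hu2
    refine hi ▸ (zpow_eq_one_or_self hz i).resolve_left fun h => ?_
    simp only [h] at hi
    have h4 := ((eq_one_or_eq_of_sq_eq_one hn hu hi.symm).resolve_left hu1).trans
      ((eq_one_or_eq_of_sq_eq_one hn hzA hz).resolve_left hz1).symm
    rw [← h4, ← sq, ← hi, conj_eq_one_iff] at huv
    exact hu1 huv
  have h4 : orderOf u = 2 ^ 2 := orderOf_eq_prime_pow (by rw [pow_one, h3]; exact hz1)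
    (by rw [pow_succ, pow_mul, pow_one, h3, hz])
  have : (zpowers u).Normal := normal_of_le_zpowers (zpowers_le.mpr hu)
  have h5 : g ^ 2 * u = u * g ^ 2 := by
    have h5 := pow_card_eq_one' (x := (MulAut.conjNormal g : MulAut (zpowers u)))
    rw [IsCyclic.card_mulAut, Nat.card_zpowers, h4, ← map_pow] at h5
    exact mul_inv_eq_iff_eq_mul.mp
      (congrArg (fun e : MulAut (zpowers u) => (e ⟨u, mem_zpowers u⟩ : S)) h5)
  obtain ⟨i, j, hv⟩ := exists_eq_zpow_mul_zpow h v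
  have hj : ¬ (2 : ℤ) ∣ j := by
    rintro ⟨j, rfl⟩
    refine hne ?_
    rw [hv, zpow_mul]
    exact ((commute_of_mem_zpowers (zpow_mem (mem_zpowers a) i) hu).mul_left
      ((show Commute (g ^ (2 : ℤ)) u by exact_mod_cast h5).zpow_left j)).eq
  have h6 : zpowers a ⊔ zpowers v = ⊤ := by
    rw [eq_top_iff, ← h]
    refine sup_le le_sup_left (zpowers_le.mpr ?_)
    have h6 : g ^ j ∈ zpowers a ⊔ zpowers v := (mul_mem_cancel_left
      (mem_sup_left (zpow_mem (mem_zpowers a) i))).mp (hv ▸ mem_sup_right (mem_zpowers _))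
    obtain ⟨m, hm⟩ := IsPGroup.iff_orderOf.mp h2 g
    refine zpowers_le.mpr h6 (mem_zpowers_zpow_iff.mpr ?_)
    rw [hm, ← Int.isCoprime_iff_gcd_eq_one]
    push_cast
    exact (Int.prime_two.coprime_iff_not_dvd.mpr hj).symm.pow_right
  have hvA : v ∉ zpowers a := fun h => hne (commute_of_mem_zpowers h hu)
  have h7 := card_sup_zpowers_eq (p := 2) (le_normalizer_of_normal (mem_top v)) hvA
    (zpowers_le.mpr hzA hv2)
  rw [h6, card_top, Nat.card_zpowers, hn] at h7
  rcases n with _ | n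
  · have := Nat.le_of_dvd (orderOf_pos a) (orderOf_dvd_of_mem_zpowers hu)
    omega
  obtain ⟨l, rfl⟩ := hu
  rcases cyclic_index_two_cases h7 hn with h8 | ⟨h8, h9⟩ | ⟨t, ht⟩
  · exact absurd (mem_center_iff.mp (zpow_mem h8 l) v) hne
  · exfalso
    have h10 : ((2 ^ (n + 2) : ℕ) : ℤ) ∣ l * (2 ^ 2 : ℕ) := by
      rw [← hn, orderOf_dvd_iff_zpow_eq_one, zpow_mul, zpow_natCast, ← h4, pow_orderOf_eq_one]
    obtain ⟨n, rfl⟩ := Nat.exists_eq_add_of_le' h8
    obtain ⟨r, hr⟩ := h10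
    have h11 : l = 2 * (2 ^ n * r) := by
      push_cast at hr
      have : l * 4 = 2 * (2 ^ n * r) * 4 := by rw [hr]; ring
      omega
    refine hne (mul_inv_eq_iff_eq_mul.mp ?_)
    simp only
    rw [← conj_zpow, h9 v hvA, ((Commute.refl a).pow_right _).mul_zpow, h11, zpow_mul (a ^ _),
      zpow_ofNat, ← pow_mul, ← pow_succ, ← hn, pow_orderOf_eq_one, one_zpow, mul_one]
  · exact ⟨a, t, n, ht⟩

theorem aux2 {S : Type*} [Group S] [Finite S] (h2 : IsPGroup 2 S) (hm : IsMetacyclic S) {Q : Type*}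
    [Group Q] (f : Q →* S) (hf : Function.Injective f) {c t z : Q} (hz1 : z ≠ 1) (hz : z ^ 2 = 1)
    (hc : c ^ 2 = z) (ht : t ^ 2 = 1 ∨ t ^ 2 = z) (hct : (c * t) ^ 2 = 1 ∨ (c * t) ^ 2 = z)
    (h1 : t * c * t⁻¹ = c * z) (h3 : c * t * c⁻¹ = t * z) (h4 : c * (c * t) * c⁻¹ = c * t * z) :
    ∃ c t : S, ∃ k, MaxCl c t k := by
  obtain ⟨a, g, _, h⟩ := isMetacyclic_iff.mp hm
  have key : ∀ x, x ^ 2 = 1 ∨ x ^ 2 = z → f x ^ 2 ∈ zpowers (f z) := fun x hx => by
    rw [← map_pow]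
    rcases hx with h | h <;> simp [h]
  have key2 : ∀ u v, f u ∈ zpowers a → u ^ 2 = 1 ∨ u ^ 2 = z → v ^ 2 = 1 ∨ v ^ 2 = z →
      v * u * v⁻¹ = u * z → ∃ c t : S, ∃ k, MaxCl c t k := fun u v hu h1 h3 h4 =>
    aux h2 h hu (z := f z) (v := f v) (fun h => hz1 (hf (h.trans (map_one f).symm)))
      (by rw [← map_pow, hz, map_one]) (key u h1) (key v h3) (by simpa using congrArg f h4)
  set π := (QuotientGroup.mk' (zpowers a)).comp f with hπ
  have : IsCyclic (S ⧸ zpowers a) := isCyclic_iff_exists_zpowers_eq_top.mpr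
    ⟨QuotientGroup.mk' _ g, by
      rw [← MonoidHom.map_zpowers, ← map_top_of_surjective _ (QuotientGroup.mk'_surjective _), ← h,
        Subgroup.map_sup, (Subgroup.map_eq_bot_iff _).mpr (QuotientGroup.ker_mk' _).ge, bot_sup_eq]⟩
  have h5 : π z = 1 := by
    have := congrArg π h1
    rw [map_mul, map_mul, map_mul, map_inv, mul_comm' (π t), mul_inv_cancel_right] at this
    exact mul_eq_left.mp this.symm
  have h6 : ∀ x, x ^ 2 = 1 ∨ x ^ 2 = z → π x ≠ 1 → orderOf (π x) = 2 := fun x hx h =>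
    orderOf_eq_prime (by rw [← map_pow]; rcases hx with h | h <;> simp [h, h5]) h
  by_cases h7 : π c = 1
  · exact key2 c t ((QuotientGroup.eq_one_iff _).mp h7) (Or.inr hc) ht h1
  by_cases h8 : π t = 1
  · exact key2 t c ((QuotientGroup.eq_one_iff _).mp h8) ht (Or.inr hc) h3
  refine key2 (c * t) c ((QuotientGroup.eq_one_iff _).mp (?_ : π (c * t) = 1)) hct (Or.inr hc) h4
  rw [map_mul, ← H3.involution_unique_of_isCyclic (h6 c (Or.inr hc) h7) (h6 t ht h8), ← sq,
    ← map_pow, hc, h5]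

/-- Let S be a finite 2-group of sectional 2-rank at most 2 that contains a subgroup isomorphic to the dihedral group of order 8 or to the quaternion group of order 8. Then S is dihedral of order at least 8, semidihedral of order at least 16 (order 2^(k+4) with an element a of order 2^(k+3) and an involution b with b a b⁻¹ = a^(2^(k+2)−1)), or generalized quaternion of order at least 8. -/
theorem result {S : Type*} [Group S] [Finite S] (h2 : IsPGroup 2 S) (hr : Cfsg.SectionalPRankLE 2 2 S)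
    (hsub : ∃ H : Subgroup S, Nonempty (↥H ≃* DihedralGroup 4) ∨ Nonempty (↥H ≃* QuaternionGroup 2)) :
    ((∃ k : ℕ, Nonempty (S ≃* DihedralGroup (2 ^ (k + 2)))) ∨
      (∃ k : ℕ, Nat.card S = 2 ^ (k + 4) ∧ ∃ a b : S, orderOf a = 2 ^ (k + 3) ∧ orderOf b = 2 ∧ b * a * b⁻¹ = a ^ (2 ^ (k + 2) - 1)) ∨
      (∃ k : ℕ, Nonempty (S ≃* QuaternionGroup (2 ^ (k + 1))))) := by
  have hm := isMetacyclic_of_SR _ S le_rfl h2 (sectionalPRankLE_iff.mp hr)
  obtain ⟨H, ⟨⟨e⟩⟩ | ⟨⟨e⟩⟩⟩ := hsub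
  · obtain ⟨c, t, k, h⟩ := aux2 h2 hm (H.subtype.comp e.symm.toMonoidHom)
      (H.subtype_injective.comp e.symm.injective) (c := .r 1) (t := .sr 0) (z := .r 2)
      (by decide) (by decide) (by decide) (by decide) (by decide) (by decide) (by decide) (by decide)
    exact h.classify
  · obtain ⟨c, t, k, h⟩ := aux2 h2 hm (H.subtype.comp e.symm.toMonoidHom)
      (H.subtype_injective.comp e.symm.injective) (c := .a 1) (t := .xa 0) (z := .a 2)
      (by decide) (by decide) (by decide) (by decide) (by decide) (by decide) (by decide) (by decide)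
    exact h.classify

end Cfsg.Agent.S4398
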