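import Cfsg.Statements.S4400
import Cfsg.Agent.H2.SR4

set_option autoImplicit false
open Cfsg

namespace Cfsg.Agent.S4400

open Subgroup Cfsg.Agent.H2
open scoped commutatorElement Pointwise


/-- Let S be a finite 2-group of sectional 2-rank at most 4, and let P and Q be normal non-abelian subgroups of S whose centres have order 2 and are different. Then P and Q commute elementwise and intersect trivially, and PQ contains its own centralizer in S. -/
theorem result {S : Type*} [Group S] [Finite S] (h2 : IsPGroup 2 S) (hr : Cfsg.SectionalPRankLE 2 4 S)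
    (P Q : Subgroup S) [P.Normal] [Q.Normal] (hP : ¬ IsMulCommutative ↥P) (hQ : ¬ IsMulCommutative ↥Q)
    (hZP : Nat.card ↥(Subgroup.center ↥P) = 2) (hZQ : Nat.card ↥(Subgroup.center ↥Q) = 2)
    (hne : (Subgroup.center ↥P).map P.subtype ≠ (Subgroup.center ↥Q).map Q.subtype) :
    ⁅P, Q⁆ = ⊥ ∧ P ⊓ Q = ⊥ ∧ Subgroup.centralizer ((P ⊔ Q : Subgroup S) : Set S) ≤ P ⊔ Q := by
  have h1 : ∀ X : Subgroup S, Nat.card (center X) = 2 →
      Nat.card (X ⊓ centralizer (X : Set S) : Subgroup S) = 2 := fun X h => by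
    rw [← L.map_subtype_center, L.card_map_subtype, h]
  rw [L.map_subtype_center, L.map_subtype_center] at hne
  have h3 := inf_eq_bot_of_center_ne (h2.to_subgroup ⊤) le_top le_top le_normalizer_of_normal
    le_normalizer_of_normal (h1 P hZP) (h1 Q hZQ) hne
  have h4 : ⁅P, Q⁆ = ⊥ := eq_bot_iff.mpr (h3 ▸ commutator_le_inf P Q)
  exact ⟨h4, h3, (sectionalPRankLE_iff.mp hr).centralizer_sup_le h2 hP hQ (h1 P hZP) (h1 Q hZQ)
    (commutator_eq_bot_iff_le_centralizer.mp h4) h3⟩

end Cfsg.Agent.S4400
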