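import Cfsg.Statements.S4401
import Cfsg.Agent.H2.SR4
import Cfsg.Agent.H1.Fusion

set_option autoImplicit false
open Cfsg

namespace Cfsg.Agent.S4401

open Subgroup Cfsg.Agent.H2
open scoped commutatorElement Pointwise


/-- Let S be a finite 2-group of sectional 2-rank at most 4 and P a proper non-abelian subgroup whose centre has order 2. Let S₀ be the centralizer in S of Z(P) and suppose P is normal in S₀. Then either S₀ = S, or P has sectional 2-rank at most 2 and S₀ has index 2 in S. -/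
theorem result {S : Type*} [Group S] [Finite S] (h2 : IsPGroup 2 S) (hr : Cfsg.SectionalPRankLE 2 4 S)
    (P : Subgroup S) (hPlt : P ≠ ⊤) (hP : ¬ IsMulCommutative ↥P) (hZP : Nat.card ↥(Subgroup.center ↥P) = 2)
    (S₀ : Subgroup S) (hS₀ : S₀ = Subgroup.centralizer (((Subgroup.center ↥P).map P.subtype : Subgroup S) : Set S))
    (hPn : ∀ s ∈ S₀, ∀ x ∈ P, s * x * s⁻¹ ∈ P) :
    S₀ = ⊤ ∨ (Cfsg.SectionalPRankLE 2 2 ↥P ∧ S₀.index = 2) := by
  have hr' := sectionalPRankLE_iff.mp hr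
  rw [L.map_subtype_center] at hS₀
  have hP1 : Nat.card (P ⊓ centralizer (P : Set S) : Subgroup S) = 2 := by
    rw [← L.map_subtype_center, L.card_map_subtype, hZP]
  obtain ⟨z, hz, hz'⟩ := exists_eq_zpowers_of_card_eq_prime hP1
  have hz2 : z ^ 2 = 1 := hz ▸ pow_orderOf_eq_one z
  have hz1 : z ≠ 1 := fun h => by simp [h] at hz
  have hmem : ∀ s, s ∈ S₀ ↔ s * z * s⁻¹ = z := fun s => by
    rw [hS₀, hz', H1.mem_centralizer_zpowers_iff, mul_inv_eq_iff_eq_mul]
  obtain ⟨hzP, hzC⟩ := mem_inf.mp (hz'.ge (mem_zpowers z))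
  have hPS : P ≤ S₀ := fun a ha => (hmem a).mpr (mul_inv_eq_iff_eq_mul.mpr (hzC a ha))
  have hSP : S₀ ≤ normalizer (P : Set S) := le_normalizer_of_conj_mem hPn
  refine (eq_or_ne S₀ ⊤).imp_right fun hne => ?_
  have := (h2.to_subgroup ⊤).isNilpotent
  obtain ⟨x, hx, hxS⟩ := SetLike.exists_of_lt (lt_inf_normalizer_of_nilpotent hne.lt_top)
  replace hx := (mem_inf.mp hx).2
  set Q := H1.cj x P with hQ
  set z' := x * z * x⁻¹ with hz'def
  have hxS' := H1.cj_eq_iff_mem_normalizer.mpr hx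
  have hQS : Q ≤ S₀ := hxS' ▸ H1.cj_mono x hPS
  have hSQ : S₀ ≤ normalizer (Q : Set S) := by
    rw [← H1.cj_normalizer, ← hxS']
    exact H1.cj_mono x hSP
  have hQZ : Q ⊓ centralizer (Q : Set S) = zpowers z' := by
    rw [← H1.cj_centralizer, ← H1.cj_inf, hz', H1.cj_zpowers]
  have hQ1 : Nat.card (Q ⊓ centralizer (Q : Set S) : Subgroup S) = 2 := by
    rw [← H1.cj_centralizer, ← H1.cj_inf, H1.card_cj, hP1]
  have hzz : z' ≠ z := fun h => hxS ((hmem x).mpr h)
  have hz'1 : z' ≠ 1 := fun h => hz1 (conj_eq_one_iff.mp h)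
  have hz'2 : z' ^ 2 = 1 := by rw [conj_pow, hz2, mul_one, mul_inv_cancel]
  have hz'Q : z' ∈ Q := H1.conj_mem_cj hzP
  have hcase : ∀ w : S, w ^ 2 = 1 → ∀ u ∈ zpowers w, u = 1 ∨ u = w := by
    rintro w hw _ ⟨i, rfl⟩
    exact zpow_eq_one_or_self hw i
  have hPQ : P ⊓ Q = ⊥ := inf_eq_bot_of_center_ne (h2.to_subgroup S₀) hPS hQS hSP hSQ hP1 hQ1 (by
    rw [hz', hQZ]
    intro h
    exact (hcase z hz2 z' (h ▸ mem_zpowers z')).elim hz'1 hzz)
  have hPQ' : ∀ a ∈ P, a ∈ Q → a = 1 := fun a h1 h2 => mem_bot.mp (hPQ ▸ mem_inf.mpr ⟨h1, h2⟩)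
  have hc : P ≤ centralizer (Q : Set S) := commutator_eq_bot_iff_le_centralizer.mp (eq_bot_iff.mpr
    (hPQ ▸ le_inf (commutator_le_left_of_le_normalizer (hQS.trans hSP))
      (commutator_comm Q P ▸ commutator_le_left_of_le_normalizer (hPS.trans hSQ))))
  have hQc : ¬ IsMulCommutative Q := fun h => hP ⟨⟨fun a b => Subtype.ext (by
    have := setLike_mul_comm (s := Q) (H1.conj_mem_cj (g := x) a.2) (H1.conj_mem_cj b.2)
    rwa [conj_mul, conj_mul, mul_left_inj, mul_right_inj] at this)⟩⟩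
  have hC := hr'.centralizer_sup_le h2 hP hQc hP1 hQ1 hc hPQ
  have hU : ∀ c ∈ centralizer ((P ⊔ Q : Subgroup S) : Set S),
      c = 1 ∨ c = z ∨ c = z' ∨ c = z * z' := fun c h => by
    obtain ⟨a, ha, b, hb, rfl⟩ :=
      (mem_sup_of_le_normalizer (le_normalizer_of_le_centralizer hc)).mp (hC h)
    rw [centralizer_sup] at h
    rcases hcase z hz2 a (hz' ▸ mem_inf.mpr
      ⟨ha, (mul_mem_cancel_right (le_centralizer_iff.mp hc hb)).mp h.1⟩) with rfl | rfl <;>
    rcases hcase z' hz'2 b (hQZ ▸ mem_inf.mpr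
      ⟨hb, (mul_mem_cancel_left (hc ha)).mp h.2⟩) with rfl | rfl <;> simp
  set N := normalizer (S₀ : Set S) with hN
  have hSN : S₀ ≤ N := le_normalizer
  have hC1 : centralizer (S₀ : Set S) ≤ centralizer ((P ⊔ Q : Subgroup S) : Set S) :=
    centralizer_le (SetLike.coe_subset_coe.mpr (sup_le hPS hQS))
  have hC2 : centralizer (N : Set S) ≤ centralizer (S₀ : Set S) :=
    centralizer_le (SetLike.coe_subset_coe.mpr hSN)
  have hZN : ∀ u ∈ centralizer (N : Set S), u = 1 ∨ u = z * z' := fun u hu => by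
    rcases hU u (hC1 (hC2 hu)) with h | rfl | rfl | h
    · exact Or.inl h
    · exact absurd (mul_inv_eq_iff_eq_mul.mpr (hu x hx)) hzz
    · have := hu x hx
      rw [hz'def, inv_mul_cancel_right, mul_right_inj] at this
      exact absurd this hzz
    · exact Or.inr h
  have hzK : z ∈ S₀ ⊓ centralizer (S₀ : Set S) :=
    mem_inf.mpr ⟨hPS hzP, fun s hs => mul_inv_eq_iff_eq_mul.mp ((hmem s).mp hs)⟩
  have hNK : N ≤ normalizer ((S₀ ⊓ centralizer (S₀ : Set S) : Subgroup S) : Set S) :=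
    le_normalizer_inf le_rfl (le_normalizer_centralizer le_rfl)
  have ht : z * z' ∈ centralizer (N : Set S) := by
    have := (h2.to_subgroup N).isNilpotent
    obtain ⟨⟨u, hu⟩, hu1⟩ := ne_bot_iff_exists_ne_one.mp (inf_centralizer_ne_bot_of_nilpotent
      (inf_le_left.trans hSN) hNK fun h => hz1 (mem_bot.mp (h ▸ hzK)))
    exact (hZN u (mem_inf.mp hu).2).resolve_left (fun h => hu1 (Subtype.ext h)) ▸ (mem_inf.mp hu).2
  have hzt : z ≠ z * z' := fun h => hz'1 (left_eq_mul.mp h)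
  have h1 : ∀ n ∈ N, n * z * n⁻¹ = z ∨ n * z * n⁻¹ = z' := fun n hn => by
    rcases hU _ (hC1 (mem_inf.mp (conj_mem_of_le_normalizer hNK hn hzK)).2) with h | h | h | h
    · exact absurd (conj_eq_one_iff.mp h) hz1
    · exact Or.inl h
    · exact Or.inr h
    · rw [mul_inv_eq_iff_eq_mul, ← ht n hn, mul_right_inj] at h
      exact absurd h hzt
  have h3 : ∀ n, n * z * n⁻¹ = z' → x⁻¹ * n ∈ S₀ := fun n h => (hmem _).mpr (by
    rw [show x⁻¹ * n * z * (x⁻¹ * n)⁻¹ = x⁻¹ * (n * z * n⁻¹) * x by group, h, hz'def]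
    group)
  have hNtop : N = ⊤ := by
    by_contra hne'
    obtain ⟨y, hy, hyN⟩ := SetLike.exists_of_lt (lt_inf_normalizer_of_nilpotent (Ne.lt_top hne'))
    replace hy := (mem_inf.mp hy).2
    have ht1 : z * z' ≠ 1 := fun h => hzz (by
      rw [eq_inv_of_mul_eq_one_right h, inv_eq_of_mul_eq_one_right ((sq z).symm.trans hz2)])
    have h4 : y * (z * z') * y⁻¹ = z * z' := (hZN _ (conj_mem_of_le_normalizer
      (le_normalizer_centralizer (zpowers_le.mpr hy)) (mem_zpowers y) ht)).resolve_left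
        fun h => ht1 (conj_eq_one_iff.mp h)
    set w := y * z * y⁻¹ with hw
    have hwN : w ∈ N := H1.conj_mem_of_mem_normalizer hy (hSN (hPS hzP))
    have h5 : ∀ a ∈ N, w * a * w⁻¹ = a ∨ w * a * w⁻¹ = a * (z * z') := fun a ha => by
      have h5 : w * a * w⁻¹ = a * (y * ((y⁻¹ * a⁻¹ * y) * z * (y⁻¹ * a⁻¹ * y)⁻¹ * z⁻¹) * y⁻¹) := by
        rw [hw]; group
      rcases h1 _ (H1.conj_mem_of_mem_normalizer' hy (inv_mem ha)) with h | h
      · left
        rw [h5, h]; group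
      · right
        rw [h5, h, ← h4, inv_eq_of_mul_eq_one_right ((sq z).symm.trans hz2),
          (mem_inf.mp hzK).2 z' (hQS hz'Q)]
    rcases h1 w hwN with h | h
    · have hwS := (hmem w).mpr h
      have h6 : w ∈ centralizer ((P ⊔ Q : Subgroup S) : Set S) := by
        rw [centralizer_sup]
        refine mem_inf.mpr ⟨fun a ha => (mul_inv_eq_iff_eq_mul.mp ((h5 a (hSN (hPS ha))).resolve_right
          fun h => hz'1 (hPQ' _ ?_ hz'Q))).symm, fun a ha => (mul_inv_eq_iff_eq_mul.mp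
            ((h5 a (hSN (hQS ha))).resolve_right fun h => hz1 (hPQ' _ hzP ?_))).symm⟩
        · exact (mul_mem_cancel_left hzP).mp ((mul_mem_cancel_left ha).mp (h ▸ hPn w hwS a ha))
        · exact (mul_mem_cancel_right hz'Q).mp ((mul_mem_cancel_left ha).mp
            (h ▸ conj_mem_of_le_normalizer hSQ hwS ha))
      rcases hU w h6 with h | h | h | h
      · exact hz1 (conj_eq_one_iff.mp h)
      · exact hyN (hSN ((hmem y).mpr h))
      · exact hyN ((mul_mem_cancel_left (inv_mem hx)).mp (hSN (h3 y h)))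
      · rw [← h4, hw, mul_left_inj, mul_right_inj] at h
        exact hzt h
    · refine hP ⟨⟨fun a b => Subtype.ext (commutatorElement_eq_one_iff_mul_comm.mp (hPQ' _
        (commutator_le_left_of_le_normalizer le_normalizer (commutator_mem_commutator a.2 b.2)) ?_))⟩⟩
      have h6 : ∀ a ∈ P, w * a * w⁻¹ ∈ Q := fun a ha => by
        rw [show w * a * w⁻¹ = x * (x⁻¹ * w * a * (x⁻¹ * w)⁻¹) * x⁻¹ by group]
        exact H1.conj_mem_cj (hPn _ (h3 w h) a ha)
      have h7 := commutator_le_left_of_le_normalizer le_normalizer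
        (commutator_mem_commutator (h6 a a.2) (h6 b b.2))
      have h8 : ∀ u ∈ N, ∀ v ∈ N, ⁅u * (z * z'), v⁆ = ⁅u, v⁆ := fun u hu v hv => by
        rw [commutatorElement_def, commutatorElement_def, mul_assoc u, ← ht v hv]
        group
      have h9 : ∀ u ∈ N, ∀ v ∈ N, ⁅u, v * (z * z')⁆ = ⁅u, v⁆ := fun u hu v hv => by
        rw [← commutatorElement_inv, h8 v hv u hu, commutatorElement_inv]
      have haN := hSN (hPS a.2)
      have hbN := hSN (hPS b.2)
      rcases h5 a haN with h10 | h10 <;> rcases h5 b hbN with h11 | h11 <;> rw [h10, h11] at h7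
      · exact h7
      · rwa [h9 _ haN _ hbN] at h7
      · rwa [h8 _ haN _ hbN] at h7
      · rwa [h8 _ haN _ (mul_mem hbN (hSN (mul_mem (hPS hzP) (hQS hz'Q)))), h9 _ haN _ hbN] at h7
  refine ⟨sectionalPRankLE_iff.mpr fun V M h4 h5 h6 => ?_, index_eq_two_iff'.mpr ⟨x⁻¹, fun b => ?_⟩⟩
  · have h7 : ⁅V.map P.subtype, V.map P.subtype⁆ ≤ M.map P.subtype :=
      Subgroup.map_commutator V V P.subtype ▸ map_mono h5
    have h8 : ∀ a ∈ V.map P.subtype, a ^ 2 ∈ M.map P.subtype := by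
      rintro _ ⟨a, ha, rfl⟩
      exact ⟨_, h6 a ha, rfl⟩
    have h9 := hr'.mul_relIndex_le (A := V.map P.subtype) (B := H1.cj x (V.map P.subtype))
      ((map_subtype_le _).trans (hc.trans (centralizer_le (SetLike.coe_subset_coe.mpr
        (H1.cj_mono x (map_subtype_le _))))))
      (eq_bot_iff.mpr (hPQ ▸ inf_le_inf (map_subtype_le _) (H1.cj_mono x (map_subtype_le _))))
      (map_mono h4) (H1.cj_mono x (map_mono h4)) h7 (H1.cj_commutator x _ _ ▸ H1.cj_mono x h7) h8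
      fun a ha => by
        rw [H1.mem_cj] at ha ⊢
        have := h8 _ ha
        rwa [show (x⁻¹ * a * x) ^ 2 = x⁻¹ * a ^ 2 * x by rw [sq, sq]; group] at this
    rw [H1.relIndex_cj, relIndex_map_map_of_injective _ _ P.subtype_injective] at h9
    nlinarith
  · rcases h1 b (hNtop ▸ mem_top b) with h | h
    · have := (hmem b).mpr h
      exact Or.inr ⟨this, fun h => hxS (inv_mem_iff.mp ((mul_mem_cancel_right this).mp h))⟩
    · exact Or.inl ⟨h3 b h, fun h' => hzz (h.symm.trans ((hmem b).mp h'))⟩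

end Cfsg.Agent.S4401
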