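import Cfsg.Statements.S4402
import Cfsg.Agent.H3.Wr8
import Cfsg.Agent.H2.Class2

set_option autoImplicit false
open Cfsg

namespace Cfsg.Agent.S4402

open Subgroup H3 H3.Wr8

variable {S : Type*} [Group S] [Finite S] {ι : Wr8 →* S}

omit [Finite S] in
theorem exists_aut (hι : Function.Injective ι) {x : S} (hx : x ∈ normalizer (ι.range : Set S)) :
    ∃ α : Wr8 ≃* Wr8, ∀ w, ι (α w) = x * ι w * x⁻¹ := by
  let e := ι.ofInjective hι
  refine ⟨(e.trans (ι.range.normalizerMonoidHom ⟨x, hx⟩)).trans e.symm, fun w => ?_⟩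
  exact congrArg Subtype.val (e.apply_symm_apply _)

theorem not_typeI (hr : Cfsg.SectionalPRankLE 2 4 S) (hι : Function.Injective ι) {x : S}
    (hx1 : x ∉ ι.range) (hx2 : x * x ∈ ι.range) (β : Wr8 ≃* Wr8)
    (hβ : ∀ w, ι (β w) = x * ι w * x⁻¹) (h : ∀ b ∈ B, b⁻¹ * β b ∈ V1 ⊓ V2) : False := by
  have hco : ∀ b ∈ B, co b (β b) := fun b hb => by
    rw [co, Bool.and_eq_true]; exact h b hb
  have hz1 : β z1 = z1 := by
    rw [show z1 = (a1 * b1) ^ 2 by decide, map_pow, map_mul]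
    exact (by decide +kernel : ∀ u, co a1 u → ∀ v, co b1 v → (u * v) ^ 2 = (a1 * b1) ^ 2) _
      (hco _ rfl) _ (hco _ rfl)
  have hz2 : β z2 = z2 := by
    rw [show z2 = (a2 * b2) ^ 2 by decide, map_pow, map_mul]
    exact (by decide +kernel : ∀ u, co a2 u → ∀ v, co b2 v → (u * v) ^ 2 = (a2 * b2) ^ 2) _
      (hco _ rfl) _ (hco _ rfl)
  have hZ : ∀ c ∈ V1 ⊓ V2, β c = c := fun c hc => by
    rcases (by decide +kernel : ∀ c, v1 c → v2 c → c = 1 ∨ c = z1 ∨ c = z2 ∨ c = z1 * z2) c hc.1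
      hc.2 with rfl | rfl | rfl | rfl <;> simp [hz1, hz2]
  obtain ⟨w, hw⟩ := hx2
  have hwZ : w ∈ V1 ⊓ V2 := by
    have h1 : ∀ b ∈ B, w * b = b * w := fun b hb => by
      have h2 : β (β b) = b := by
        have h3 := hZ _ (h b hb)
        rw [map_mul, map_inv, inv_mul_eq_iff_eq_mul] at h3
        rw [h3]
        calc _ = b * (b⁻¹ * β b * (b⁻¹ * β b)) := by group
          _ = b := by rw [e16_V1.sq _ (h b hb).1, mul_one]
      apply hι
      rw [map_mul, map_mul, hw, ← mul_inv_eq_iff_eq_mul]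
      nth_rewrite 2 [← h2]
      rw [hβ, hβ]; group
    exact (by decide +kernel : ∀ w, w * a1 = a1 * w → w * b1 = b1 * w → w * a2 = a2 * w →
      w * b2 = b2 * w → v1 w ∧ v2 w) w (h1 _ rfl) (h1 _ rfl) (h1 _ rfl) (h1 _ rfl)
  have hZB : V1 ⊓ V2 ≤ B := fun c hc => (by decide +kernel : ∀ c, v1 c → c.e = false) c hc.1
  have hBB : ∀ b ∈ B, b * b ∈ V1 ⊓ V2 :=
    (by decide +kernel : ∀ b : Wr8, b.e = false → v1 (b * b) ∧ v2 (b * b))
  have hxB : zpowers x ≤ normalizer (B.map ι : Set S) :=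
    zpowers_le.mpr (H1.mem_normalizer_of_conj_mem (by
      rintro _ ⟨b, hb, rfl⟩
      exact ⟨β b, (mul_mem_cancel_left (inv_mem hb)).mp (hZB (h b hb)), hβ b⟩))
  set H := B.map ι ⊔ zpowers x with hH
  have hsq : ∀ g ∈ H, g * g ∈ (V1 ⊓ V2).map ι := fun g hg => by
    obtain ⟨_, ⟨b, hb, rfl⟩, _, ⟨i, rfl⟩, rfl⟩ := (H2.mem_sup_of_le_normalizer' hxB).1 hg
    rcases Int.even_or_odd' i with ⟨m, rfl | rfl⟩
    · refine ⟨_, hBB _ (mul_mem hb (zpow_mem (hZB hwZ) m)), ?_⟩
      simp only [map_mul, map_zpow, hw, zpow_mul, zpow_two]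
    · have hb' := mul_mem hb (zpow_mem (hZB hwZ) m)
      refine ⟨_, mul_mem (mul_mem (hBB _ hb') (h _ hb')) hwZ, ?_⟩
      simp only [zpow_add_one, zpow_mul, zpow_two]
      rw [← hw, ← map_zpow, ← mul_assoc (ι b), ← map_mul, mul_assoc (b * w ^ m),
        mul_inv_cancel_left, map_mul, map_mul, hβ, hw]
      group
  haveI : (((V1 ⊓ V2).map ι).subgroupOf H).Normal :=
    normal_subgroupOf_of_le_normalizer (sup_le (by
      rintro _ ⟨b, -, rfl⟩
      refine H1.mem_normalizer_of_conj_mem ?_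
      rintro _ ⟨c, hc, rfl⟩
      exact ⟨_, ⟨e16_V1.norm b c hc.1, e16_V2.norm b c hc.2⟩, by simp⟩)
      (zpowers_le.mpr (H1.mem_normalizer_of_conj_mem (by
        rintro _ ⟨c, hc, rfl⟩
        exact ⟨c, hc, by rw [← hβ, hZ c hc]⟩))))
  have hq : ∀ q : H ⧸ ((V1 ⊓ V2).map ι).subgroupOf H, q * q = 1 := fun q => by
    obtain ⟨g, rfl⟩ := QuotientGroup.mk_surjective q
    rw [← QuotientGroup.mk_mul, QuotientGroup.eq_one_iff]
    exact hsq g g.2
  have h1 := hr H (((V1 ⊓ V2).map ι).subgroupOf H) ⊤ ⟨⟨fun a b => Subtype.ext (by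
    have h2 := hq (a.1 * b.1)
    rw [← inv_eq_iff_mul_eq_one, mul_inv_rev, inv_eq_of_mul_eq_one_right (hq a.1),
      inv_eq_of_mul_eq_one_right (hq b.1)] at h2
    exact h2.symm)⟩⟩ fun a _ => (sq a).trans (hq a)
  have h2 := card_eq_card_quotient_mul_card_subgroup (((V1 ⊓ V2).map ι).subgroupOf H)
  have h3 : Nat.card (((V1 ⊓ V2).map ι).subgroupOf H) = 4 := by
    rw [Nat.card_congr (subgroupOfEquivOfLe ((map_mono hZB).trans le_sup_left)).toEquiv,
      card_map_of_injective hι]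
    change Nat.card {w // v1 w ∧ v2 w} = 4
    rw [Nat.card_eq_fintype_card]; decide +kernel
  have h4 : Nat.card (B.map ι) = 64 := by
    rw [card_map_of_injective hι]
    change Nat.card {w : Wr8 // w.e = false} = 64
    rw [Nat.card_eq_fintype_card]; decide +kernel
  rw [card_top] at h1
  have h5 : B.map ι = H := eq_of_le_of_card_ge le_sup_left (by rw [h2, h3, h4]; omega)
  exact hx1 (map_le_range ι B (h5 ▸ mem_sup_right (mem_zpowers x)))

theorem mem_range (h2 : IsPGroup 2 S) (hr : Cfsg.SectionalPRankLE 2 4 S)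
    (hι : Function.Injective ι) {V : Subgroup Wr8} (hV : E16 V) {x : S}
    (hx : x ∈ normalizer (ι.range : Set S)) (hxV : x ∈ normalizer (V.map ι : Set S)) :
    x ∈ ι.range := by
  classical
  by_contra hx'
  have hex : ∃ n, x ^ 2 ^ n ∈ ι.range := by
    obtain ⟨n, hn⟩ := h2 x
    exact ⟨n, hn ▸ one_mem _⟩
  have h0 : Nat.find hex ≠ 0 := fun h0 => hx' (by
    have := Nat.find_spec hex
    rwa [h0, pow_zero, pow_one] at this)
  obtain ⟨m, hm⟩ := Nat.exists_eq_succ_of_ne_zero h0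
  have h1 := Nat.find_min hex (m := m) (by omega)
  have h3 := Nat.find_spec hex
  rw [hm, pow_succ, pow_mul, sq] at h3
  replace hx := pow_mem hx (2 ^ m)
  replace hxV := pow_mem hxV (2 ^ m)
  generalize x ^ 2 ^ m = y at hx hxV h1 h3
  obtain ⟨α, hα⟩ := exists_aut hι hx
  have hαV : ∀ w ∈ V, α w ∈ V := fun w hw => (mem_map_iff_mem hι).mp
    (hα w ▸ H1.conj_mem_of_mem_normalizer hxV (mem_map_of_mem ι hw))
  rcases aut_cases α with ⟨k1, k2⟩ | ⟨k1, k2⟩
  · obtain ⟨p, hp⟩ := typeI α k1 k2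
    refine not_typeI hr hι (x := ι p * y) (fun h => h1 ((mul_mem_cancel_left (show ι p ∈ ι.range from ⟨p, rfl⟩)).mp h)) ?_
      (α.trans (MulAut.conj p)) (fun w => by simp [hα, mul_assoc]) hp
    have := mul_mem (show ι (p * α p) ∈ ι.range from ⟨_, rfl⟩) h3
    rw [map_mul, hα] at this
    convert this using 1; group
  · rcases hV.eq with rfl | rfl
    · exact absurd ((k2 a1).mp (hαV a1 (show v1 a1 by decide))) (by decide)
    · exact absurd ((k1 b1).mp (hαV b1 (show v2 b1 by decide))) (by decide)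

theorem normalizer_eq (h2 : IsPGroup 2 S) (hr : Cfsg.SectionalPRankLE 2 4 S)
    (hι : Function.Injective ι) {V : Subgroup Wr8} (hV : E16 V) :
    normalizer (V.map ι : Set S) = ι.range := by
  haveI : Fact (Nat.Prime 2) := ⟨Nat.prime_two⟩
  have h1 : ι.range ≤ normalizer (V.map ι : Set S) := by
    rintro _ ⟨g, rfl⟩
    refine H1.mem_normalizer_of_conj_mem ?_
    rintro _ ⟨v, hv, rfl⟩
    exact ⟨_, hV.norm g v hv, by simp⟩
  by_contra hne
  obtain ⟨x, ⟨hx1, hx2⟩, hx3⟩ := SetLike.exists_of_lt (H1.lt_inf_normalizer_of_isPGroup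
    (h2.to_subgroup _) (lt_of_le_of_ne h1 (Ne.symm hne)))
  exact hx3 (mem_range h2 hr hι hV hx2 hx1)

/-- Let S be a finite 2-group of sectional 2-rank at most 4 and P a proper subgroup isomorphic to the wreath product of the dihedral group of order 8 by a group of order 2 (equivalently, to a Sylow 2-subgroup of the symmetric group of degree 8; order 128). Then Z(S) = Z(P) has order 2, P has index 2 in its normalizer N_S(P), N_S(P)/Z(S) is again isomorphic to that wreath product, and every elementary abelian subgroup V of order 16 that is normal in P satisfies N_S(V) = P. -/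
theorem result {S : Type*} [Group S] [Finite S] (h2 : IsPGroup 2 S) (hr : Cfsg.SectionalPRankLE 2 4 S)
    (P : Subgroup S) (hPlt : P ≠ ⊤) (hP : ∃ T : Sylow 2 (Equiv.Perm (Fin 8)), Nonempty (↥P ≃* ↥(T : Subgroup (Equiv.Perm (Fin 8))))) :
    Subgroup.center S = (Subgroup.center ↥P).map P.subtype ∧ Nat.card ↥(Subgroup.center S) = 2 ∧
    P.relIndex (Subgroup.normalizer (P : Set S)) = 2 ∧
    (∃ (_ : ((Subgroup.center S).subgroupOf (Subgroup.normalizer (P : Set S))).Normal) (T : Sylow 2 (Equiv.Perm (Fin 8))),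
      Nonempty (↥(Subgroup.normalizer (P : Set S)) ⧸ (Subgroup.center S).subgroupOf (Subgroup.normalizer (P : Set S)) ≃*
        ↥(T : Subgroup (Equiv.Perm (Fin 8))))) ∧
    ∀ V : Subgroup S, V ≤ P → (∀ g ∈ P, ∀ v ∈ V, g * v * g⁻¹ ∈ V) → Cfsg.IsElementaryAbelian 2 V → Nat.card ↥V = 16 →
      Subgroup.normalizer (V : Set S) = P := by
  haveI : Fact (Nat.Prime 2) := ⟨Nat.prime_two⟩
  obtain ⟨T, ⟨e0⟩⟩ := hP
  obtain ⟨e1⟩ := sylow T
  obtain ⟨ι, hι, rfl⟩ : ∃ ι : Wr8 →* S, Function.Injective ι ∧ ι.range = P :=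
    ⟨P.subtype.comp (e1.trans e0.symm).toMonoidHom,
      P.subtype_injective.comp (e1.trans e0.symm).injective, by
        rw [MonoidHom.range_comp, MonoidHom.range_eq_top.mpr (e1.trans e0.symm).surjective,
          ← MonoidHom.range_eq_map, range_subtype]⟩
  have hZ : center S = zpowers (ι z) := by
    have h1 : ∀ c ∈ center S, c = 1 ∨ c = ι z := fun c hc => by
      obtain ⟨w, rfl⟩ : c ∈ ι.range :=
        normalizer_eq h2 hr hι e16_V1 ▸ center_le_normalizer _ hc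
      have h3 : w ∈ center Wr8 := mem_center_iff.mpr fun g => hι (by
        rw [map_mul, map_mul, mem_center_iff.mp hc])
      rcases mem_zpowers_z (center_eq ▸ h3) with rfl | rfl <;> simp
    haveI : Nontrivial S := ⟨ι z, ι 1, fun h => absurd (hι h) (by decide)⟩
    haveI := h2.center_nontrivial
    obtain ⟨c, hc⟩ := exists_ne (1 : center S)
    refine le_antisymm (fun c hc => ?_) (zpowers_le.mpr ?_)
    · rcases h1 c hc with rfl | rfl
      · exact one_mem _
      · exact mem_zpowers _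
    · exact (h1 c c.2).resolve_left (fun h => hc (Subtype.ext h)) ▸ c.2
  obtain ⟨x, ⟨-, hx⟩, hxP⟩ := SetLike.exists_of_lt (H1.lt_inf_normalizer_of_isPGroup
    (h2.to_subgroup ⊤) (lt_top_iff_ne_top.mpr hPlt))
  have hswap : ∀ y ∈ normalizer (ι.range : Set S), y ∉ ι.range → ∀ α : Wr8 ≃* Wr8,
      (∀ w, ι (α w) = y * ι w * y⁻¹) → (∀ w, v2 (α w) ↔ v1 w) ∧ ∀ w, v1 (α w) ↔ v2 w :=
    fun y hy hyP α hα => (aut_cases α).resolve_left fun h => hyP (mem_range h2 hr hι e16_V1 hy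
      (H1.mem_normalizer_of_conj_mem (by
        rintro _ ⟨v, hv, rfl⟩
        exact ⟨α v, (h.1 v).mpr hv, hα v⟩)))
  have hmul : ∀ y ∈ normalizer (ι.range : Set S), y ∉ ι.range →
      ∀ x ∈ normalizer (ι.range : Set S), x ∉ ι.range → y * x ∈ ι.range := by
    intro y hy hyP x hx hxP
    obtain ⟨α, hα⟩ := exists_aut hι hx
    obtain ⟨β, hβ⟩ := exists_aut hι hy
    refine mem_range h2 hr hι e16_V1 (mul_mem hy hx) (H1.mem_normalizer_of_conj_mem ?_)
    rintro _ ⟨v, hv, rfl⟩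
    exact ⟨β (α v), ((hswap y hy hyP β hβ).2 _).mpr (((hswap x hx hxP α hα).1 v).mpr hv), by
      rw [hβ, hα]; group⟩
  refine ⟨?_, by rw [hZ, Nat.card_zpowers, orderOf_injective ι hι, orderOf_z], ?_,
    ⟨inferInstance, T, ?_⟩, fun V hVP hVn hVe hVc => ?_⟩
  · rw [hZ]
    refine le_antisymm (zpowers_le.mpr ⟨⟨ι z, z, rfl⟩, mem_center_iff.mpr ?_, rfl⟩) ?_
    · rintro ⟨_, w, rfl⟩
      exact Subtype.ext (by simp [← map_mul, z_comm])
    · rintro _ ⟨⟨_, w, rfl⟩, hw, rfl⟩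
      have h3 : w ∈ center Wr8 := mem_center_iff.mpr fun g => hι (by
        rw [map_mul, map_mul]
        exact congrArg Subtype.val (mem_center_iff.mp hw ⟨ι g, g, rfl⟩))
      rw [center_eq] at h3
      exact MonoidHom.map_zpowers ι z ▸ mem_map_of_mem ι h3
  · rw [relIndex, index_eq_two_iff]
    refine ⟨⟨x, hx⟩, fun y => ?_⟩
    simp only [mem_subgroupOf, coe_mul]
    by_cases hy : (y : S) ∈ ι.range
    · exact Or.inr ⟨hy, fun h => hxP ((mul_mem_cancel_left hy).mp h)⟩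
    · exact Or.inl ⟨hmul y y.2 hy x hx hxP, hy⟩
  · obtain ⟨α, hα⟩ := exists_aut hι hx
    obtain ⟨p, c1, c2, c3, c4⟩ := typeII α (hswap x hx hxP α hα).1 (hswap x hx hxP α hα).2
    have hy : ι p * x ∈ normalizer (ι.range : Set S) := mul_mem (le_normalizer ⟨p, rfl⟩) hx
    have hyP : ι p * x ∉ ι.range := fun h => hxP ((mul_mem_cancel_left (show ι p ∈ ι.range from ⟨p, rfl⟩)).mp h)
    obtain ⟨β, hβ, c1, c2, c3, c4⟩ : ∃ β : Wr8 ≃* Wr8, (∀ w, ι (β w) = ι p * x * ι w * (ι p * x)⁻¹) ∧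
        cz b2 (β a1) ∧ cz a2 (β b1) ∧ cz b1 (β a2) ∧ cz a1 (β b2) :=
      ⟨α.trans (MulAut.conj p), fun w => by simp [hα, mul_assoc], c1, c2, c3, c4⟩
    generalize ι p * x = y at hy hyP hβ
    have hz1 : β z1 = z2 := by
      rw [show z1 = (a1 * b1) ^ 2 by decide, map_pow, map_mul]
      exact (by decide +kernel : ∀ u, cz b2 u → ∀ v, cz a2 v → (u * v) ^ 2 = z2) _ c1 _ c2
    have hz2 : β z2 = z1 := by
      rw [show z2 = (a2 * b2) ^ 2 by decide, map_pow, map_mul]
      exact (by decide +kernel : ∀ u, cz b1 u → ∀ v, cz a1 v → (u * v) ^ 2 = z1) _ c3 _ c4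
    have hz : β z = z := by rw [show z = z1 * z2 by decide, map_mul, hz1, hz2]; decide
    have hcz : ∀ c c' v, cz c v → cz c' (β c) → cz c' (β v) := fun c c' v h h' => by
      simp only [cz, Bool.or_eq_true, decide_eq_true_eq] at h h' ⊢
      rcases h with rfl | rfl
      · exact h'
      · rw [map_mul, hz]
        rcases h' with h' | h' <;> rw [h']
        · exact Or.inr rfl
        · exact Or.inl (by rw [mul_assoc, show z * z = 1 by decide, mul_one])
    obtain ⟨w, hw⟩ := hmul y hy hyP y hy hyP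
    have hww : ∀ v, β (β v) = w * v * w⁻¹ := fun v => hι (by
      rw [hβ, hβ, map_mul, map_mul, map_inv, hw]; group)
    have hwz : w = 1 ∨ w = z := by
      have h3 : β w = w := hι (by rw [hβ, hw]; group)
      rcases (by decide +kernel : ∀ w, cz a1 (w * a1 * w⁻¹) → cz b1 (w * b1 * w⁻¹) →
        cz a2 (w * a2 * w⁻¹) → cz b2 (w * b2 * w⁻¹) → (w = 1 ∨ w = z) ∨ w = z1 ∨ w = z2) w
        (hww _ ▸ hcz _ _ _ c1 c4) (hww _ ▸ hcz _ _ _ c2 c3) (hww _ ▸ hcz _ _ _ c3 c2)
        (hww _ ▸ hcz _ _ _ c4 c1) with h | rfl | rfl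
      · exact h
      · exact absurd (hz1.symm.trans h3) (by decide)
      · exact absurd (hz2.symm.trans h3) (by decide)
    have c5 : cz τ (β τ) := (by decide +kernel : ∀ u, cz b2 u → ∀ v, cz a2 v → ∀ t, t * t = 1 →
        cz b1 (t * u * t) → cz a1 (t * v * t) → cz τ t) _ c1 _ c2 _
      (by rw [← map_mul]; exact map_one β) (by rw [← map_mul, ← map_mul]; exact c3)
      (by rw [← map_mul, ← map_mul]; exact c4)
    let π := QuotientGroup.mk' ((center S).subgroupOf (normalizer (ι.range : Set S)))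
    let ρ := π.comp (ι.codRestrict _ fun w => le_normalizer (H := ι.range) ⟨w, rfl⟩)
    have hρ : ∀ w, ρ w = 1 ↔ w = 1 ∨ w = z := fun w => by
      change π _ = 1 ↔ _
      rw [QuotientGroup.mk'_apply, QuotientGroup.eq_one_iff, mem_subgroupOf, hZ,
        ← MonoidHom.map_zpowers]
      refine (mem_map_iff_mem hι).trans ⟨mem_zpowers_z, ?_⟩
      rintro (rfl | rfl)
      · exact one_mem _
      · exact mem_zpowers _
    have hρz : ∀ c v, cz c v → ρ v = ρ c := fun c v h => by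
      simp only [cz, Bool.or_eq_true, decide_eq_true_eq] at h
      rcases h with rfl | rfl
      · rfl
      · rw [map_mul, (hρ z).mpr (Or.inr rfl), mul_one]
    obtain ⟨A, hA, hAA, hgen⟩ : ∃ A, (∀ v, A * ρ v * A⁻¹ = ρ (β v)) ∧ A * A = 1 ∧
        ∀ q, ∃ v, q = ρ v ∨ q = ρ v * A := by
      refine ⟨π ⟨y, hy⟩, fun v => ?_, ?_, fun q => ?_⟩
      · rw [← map_inv]
        exact congrArg π (Subtype.ext (hβ v).symm)
      · exact (congrArg π (Subtype.ext hw.symm)).trans ((hρ w).mpr hwz)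
      · obtain ⟨g, rfl⟩ := QuotientGroup.mk'_surjective _ q
        by_cases hg : (g : S) ∈ ι.range
        · obtain ⟨v, hv⟩ := hg
          exact ⟨v, Or.inl (congrArg π (Subtype.ext hv.symm))⟩
        · obtain ⟨v, hv⟩ := hmul g g.2 hg y⁻¹ (inv_mem hy) (by rwa [inv_mem_iff])
          exact ⟨v, Or.inr (congrArg π (Subtype.ext (eq_mul_of_mul_inv_eq hv.symm) :
            g = ⟨ι v, le_normalizer (H := ι.range) ⟨v, rfl⟩⟩ * ⟨y, hy⟩))⟩
    have k1 : A * ρ a1 * A⁻¹ = ρ b2 := (hA _).trans (hρz _ _ c1)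
    have k2 : A * ρ b2 * A⁻¹ = ρ a1 := (hA _).trans (hρz _ _ c4)
    have k3 : A * ρ τ * A⁻¹ = ρ τ := (hA _).trans (hρz _ _ c5)
    have hAi : A⁻¹ = A := inv_eq_of_mul_eq_one_right hAA
    have k4 : (A * ρ (a1 * τ * a1)) ^ 2 = ρ (b2 * τ * b2 * (a1 * τ * a1)) := by
      rw [map_mul _ (b2 * τ * b2), map_mul _ (b2 * τ), map_mul _ b2, ← k1]
      nth_rewrite 1 [← k3]
      rw [conj_mul, conj_mul, hAi, sq]
      simp only [map_mul, mul_assoc]
    obtain ⟨φ, f1, f2, f3⟩ := exists_lift (a := A) (b := ρ (a1 * τ * a1)) (t := ρ a1) hAA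
      (by rw [← map_mul, hρ]; decide)
      (by rw [show 4 = 2 * 2 from rfl, pow_mul, k4, ← map_pow, hρ]; decide)
      (by rw [← map_mul, hρ]; decide)
      (by
        have h3 : ρ a1 * A * ρ a1 = ρ (a1 * b2) * A := by rw [map_mul, ← k1]; group
        rw [h3]
        refine Commute.mul_right (mul_inv_eq_iff_eq_mul.mp ?_) rfl
        rw [map_mul, ← conj_mul, k1, k2, ← map_mul, ← map_mul]
        congr 1)
      (by
        rw [← map_mul, ← map_mul, show a1 * (a1 * τ * a1) * a1 = τ by decide]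
        exact mul_inv_eq_iff_eq_mul.mp k3)
      (by
        rw [← map_mul, ← map_mul]
        exact Commute.map (show _ = _ by decide) ρ)
    have hinj : Function.Injective φ := injective_of (by
      rw [show z = (a1 * b1) ^ 2 * (τ * (a1 * b1) ^ 2 * τ) by decide]
      simp only [map_mul φ, map_pow φ, f1, f2, f3, k4]
      rw [← map_mul, ← map_mul, ← map_mul, Ne, hρ]
      decide)
    have hsurj : Function.Surjective φ := fun q => by
      have m1 : A ∈ φ.range := ⟨_, f1⟩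
      have m2 : ρ a1 ∈ φ.range := ⟨_, f3⟩
      have m3 : ρ τ ∈ φ.range := by
        rw [show τ = a1 * (a1 * τ * a1) * a1 by decide, map_mul, map_mul]
        exact mul_mem (mul_mem m2 ⟨_, f2⟩) m2
      have m4 : ρ b1 ∈ φ.range := by
        rw [show b1 = τ * b2 * τ by decide, map_mul, map_mul, ← k1]
        exact mul_mem (mul_mem m3 (mul_mem (mul_mem m1 m2) (inv_mem m1))) m3
      have m5 : ∀ v, ρ v ∈ φ.range := mem_of_gen (K := φ.range.comap ρ) m2 m4 m3
      obtain ⟨v, rfl | rfl⟩ := hgen q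
      · exact m5 v
      · exact mul_mem (m5 v) m1
    exact ⟨(MulEquiv.ofBijective φ ⟨hinj, hsurj⟩).symm.trans e1⟩
  · have h1 : (V.comap ι).map ι = V := map_comap_eq_self hVP
    rw [← h1]
    refine normalizer_eq h2 hr hι ⟨fun g v hv => ?_, fun v hv w hw => hι ?_, fun v hv => hι ?_, ?_⟩
    · rw [mem_comap, map_mul, map_mul, map_inv]
      exact hVn _ ⟨g, rfl⟩ _ hv
    · rw [map_mul, map_mul]
      haveI := hVe.1
      exact setLike_mul_comm (s := V) hv hw
    · rw [map_mul, map_one, ← sq]; exact hVe.2 _ hv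
    · rw [← card_map_of_injective hι, h1, hVc]

end Cfsg.Agent.S4402
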