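import Cfsg.Statements.S4403
import Cfsg.Agent.H2.MaxClass
import Cfsg.Agent.H2.Omega
import Cfsg.Agent.L.PSolv
import Cfsg.Agent.H1.Fusion
import Mathlib.GroupTheory.SpecificGroups.ZGroup

set_option autoImplicit false
open Cfsg

namespace Cfsg.Agent.S4403

open Subgroup Cfsg.Agent.H2
open scoped commutatorElement Pointwise


/-- Let K be a finite group, p a prime dividing its order with O_{p'}(K) = 1 (no nontrivial normal subgroup of order prime to p), and P a cyclic Sylow p-subgroup of K. Then either P is normal and self-centralizing in K with K/P cyclic of order dividing p − 1 (so K is the semidirect product of P by a group of automorphisms of P of order dividing p − 1), or the generalized Fitting subgroup F*(K) is a non-abelian simple group and p does not divide the index of F*(K) in K. -/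
theorem result {K : Type*} [Group K] [Finite K] (p : ℕ) [Fact p.Prime] (hp : p ∣ Nat.card K) (hO : Cfsg.pPrimeCore p K = ⊥)
    (P : Sylow p K) (hP : IsCyclic ↥(P : Subgroup K)) :
    ((P : Subgroup K).Normal ∧ Subgroup.centralizer ((P : Subgroup K) : Set K) = (P : Subgroup K) ∧
      (∀ (_ : (P : Subgroup K).Normal), IsCyclic (K ⧸ (P : Subgroup K))) ∧ (P : Subgroup K).index ∣ p - 1) ∨
    (IsSimpleGroup ↥(Cfsg.generalizedFittingSubgroup K) ∧ ¬ IsMulCommutative ↥(Cfsg.generalizedFittingSubgroup K) ∧
      ¬ p ∣ (Cfsg.generalizedFittingSubgroup K).index) := by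
  have hp' : p.Prime := Fact.out
  have hF := L.fitting_eq_pCore hO
  by_cases h0 : pCore p K = ⊥
  · right
    have : Nontrivial K := by
      rw [← Finite.one_lt_card_iff_nontrivial]
      exact hp'.one_lt.trans_le (Nat.le_of_dvd Nat.card_pos hp)
    have hE : generalizedFittingSubgroup K = layer K := by
      rw [generalizedFittingSubgroup, hF, h0, sup_bot_eq]
    have hdvd : ∀ X, IsComponent X → p ∣ Nat.card X := fun X hX => by
      by_contra h
      exact L.qs_ne_bot hX.2 (eq_bot_iff.mpr ((L.le_pPrimeCore_of_isSubnormal hX.1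
        ((Nat.Prime.coprime_iff_not_dvd hp').mpr h).symm).trans hO.le))
    have hZ : ∀ X, IsComponent X → X ⊓ centralizer (X : Set K) = ⊥ := fun X hX => by
      rw [eq_bot_iff, ← h0, ← hF]
      refine L.le_fitting_of_isSubnormal (L.SN.top_iff.mp ((L.SN.top_iff.mpr hX.1).trans
        (L.SN_inf_centralizer le_normalizer))) (L.isNilpotent_of_le_centralizer ?_)
      exact inf_le_right.trans (centralizer_le (SetLike.coe_subset_coe.mpr inf_le_left))
    obtain ⟨X, hX⟩ : ∃ X : Subgroup K, IsComponent X := by
      by_contra hcon
      apply L.gf_ne_bot (G := K)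
      rw [hE, eq_bot_iff, L.layer_le_iff]
      exact fun X hX => absurd ⟨X, hX⟩ hcon
    have hEX : layer K = X := by
      refine le_antisymm (L.layer_le_iff.mpr fun Y hY => le_of_eq ?_) (L.le_layer hX)
      by_contra hne
      have h1 := (L.compIn_top_iff.mpr hY).le_centralizer_of_ne (L.compIn_top_iff.mpr hX) hne
      obtain ⟨⟨x, hx⟩, hxp⟩ := exists_prime_orderOf_dvd_card' p (hdvd X hX)
      obtain ⟨⟨y, hy⟩, hyp⟩ := exists_prime_orderOf_dvd_card' p (hdvd Y hY)
      rw [← orderOf_coe] at hxp hyp
      simp only at hxp hyp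
      have h2 : zpowers y ≤ centralizer (zpowers x : Set K) :=
        (zpowers_le.mpr hy).trans (h1.trans (centralizer_le
          (SetLike.coe_subset_coe.mpr (zpowers_le.mpr hx))))
      have h3 := card_sup_mul_card_inf (le_normalizer_of_le_centralizer h2)
      have h4 : zpowers y ⊓ zpowers x = ⊥ := by
        rw [eq_bot_iff, ← hZ X hX]
        exact le_inf (inf_le_right.trans (zpowers_le.mpr hx))
          (inf_le_left.trans ((zpowers_le.mpr hy).trans h1))
      rw [h4, card_bot, mul_one, Nat.card_zpowers, Nat.card_zpowers, hxp, hyp, sup_comm] at h3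
      have h5 : ∀ z : K, orderOf z = p → ∀ a ∈ zpowers z, a ^ p = 1 := by
        rintro z hz _ ⟨i, rfl⟩
        simp only
        rw [← zpow_natCast, ← zpow_mul, mul_comm, zpow_mul, zpow_natCast, ← hz, pow_orderOf_eq_one,
          one_zpow]
      have h6 := pow_eq_one_of_mem_sup (h5 x hxp) (h5 y hyp) h2
      obtain ⟨Q, hQ⟩ := (IsPGroup.of_card (n := 2) (h3.trans (sq p).symm)).exists_le_sylow
      have : IsCyclic Q := isCyclic_of_surjective _ (Sylow.equiv P Q).surjective
      obtain ⟨g, hg⟩ := isCyclic_iff_exists_orderOf_eq_natCard.mp (isCyclic_of_le hQ)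
      have h7 := Nat.le_of_dvd hp'.pos (orderOf_dvd_of_pow_eq_one (x := g)
        (Subtype.ext (h6 g g.2)))
      rw [hg, h3] at h7
      have := hp'.two_le
      nlinarith
    rw [hE, hEX]
    have hXn : X.Normal := hEX ▸ inferInstance
    obtain ⟨h1, h2, h3⟩ := L.isQuasisimple_iff.mp hX.2
    have hc : center X = ⊥ := by
      rw [← Subgroup.map_eq_bot_iff_of_injective _ X.subtype_injective, L.map_subtype_center,
        hZ X hX]
    refine ⟨⟨fun N hN => (h3 N hN).symm.imp_left fun h => eq_bot_iff.mpr (h.trans hc.le)⟩,
      fun h => L.qs_not_le_centralizer hX.2 (le_centralizer X), fun h => ?_⟩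
    set H := X ⊔ (P : Subgroup K) with hH
    have hPH : (P : Subgroup K) ≤ H := le_sup_right
    have : IsCyclic (P.subtype hPH) :=
      isCyclic_of_surjective _ (subgroupOfEquivOfLe hPH).symm.surjective
    have h4 : ⁅H, H⁆ = X := by
      refine le_antisymm (commutator_sup_left_le le_normalizer_of_normal le_normalizer_of_normal
        (commutator_le_left _ _) (commutator_sup_right_le le_normalizer_of_normal
          le_normalizer_of_normal (commutator_le_right _ _) ?_))
        ((L.qs_commutator hX.2).ge.trans (commutator_mono le_sup_left le_sup_left))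
      rw [commutator_self_eq_bot_iff.mpr inferInstance]
      exact bot_le
    have h5 : commutator H = X.subgroupOf H := by
      rw [← h4, ← map_subtype_commutator, ← comap_subtype,
        comap_map_eq_self_of_injective H.subtype_injective]
    rcases (P.subtype hPH).not_dvd_card_commutator_or_not_dvd_index_commutator with h6 | h6
    · rw [h5, L.card_subgroupOf_of_le le_sup_left] at h6
      exact h6 (hdvd X hX)
    · rw [h5] at h6
      rw [← relIndex_mul_index (le_sup_left : X ≤ H)] at h
      rcases (Nat.Prime.dvd_mul hp').mp h with h | h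
      · exact h6 h
      · exact P.not_dvd_index (h.trans (index_dvd_of_le hPH))
  · left
    have hOP := L.pCore_le_sylow P
    obtain ⟨c, hc⟩ := (Subgroup.isCyclic_iff_exists_zpowers_eq_top _).mp (isCyclic_of_le hOP)
    obtain ⟨⟨z, hz⟩, hzp⟩ := exists_prime_orderOf_dvd_card' p
      (((L.pCore_isPGroup (G := K) p).card_eq_or_dvd).resolve_left (mt card_eq_one.mp h0))
    rw [← orderOf_coe] at hzp
    simp only at hzp
    have : (zpowers c).Normal := hc ▸ inferInstance
    have hZn : (zpowers z).Normal := normal_of_le_zpowers (c := c) (hc ▸ zpowers_le.mpr hz)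
    set Z := zpowers z with hZ
    have hZc : Nat.card Z = p := by rw [hZ, Nat.card_zpowers, hzp]
    have hZP : Z ≤ P := zpowers_le.mpr (hOP hz)
    set C := centralizer (Z : Set K) with hC
    have hPC : (P : Subgroup K) ≤ C :=
      (le_centralizer _).trans (centralizer_le (SetLike.coe_subset_coe.mpr hZP))
    have h1 : HasNormalPComplement p C := by
      apply (H1.sylow_isSylowIn P hPC).hasNormalPComplement_of_normalizer_le
      set H := C ⊓ normalizer ((P : Subgroup K) : Set K)
      have hPH : (P : Subgroup K) ≤ H := le_inf hPC le_normalizer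
      have hc1 : (Nat.card P).Coprime ((P : Subgroup K).relIndex H) :=
        P.card_coprime_index.coprime_dvd_right (relIndex_dvd_index_of_le hPH)
      obtain ⟨B, hB, -, hB2, hB3⟩ := exists_complement_inf (H := H) (N := P) inf_le_right
        (by rwa [inf_eq_left.mpr hPH])
      rw [← hB2]
      refine sup_le ?_ (inf_le_left.trans (le_centralizer _))
      rcases P.isPGroup'.commutator_eq_bot_or_commutator_eq_self (hB.trans inf_le_right)
        (hB3 ▸ hc1) with h | h
      · exact commutator_eq_bot_iff_le_centralizer.mp h
      · have := centralizer_inf_commutator_eq_bot (hB.trans inf_le_right) (hB3 ▸ hc1.symm)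
          inferInstance
        rw [commutator_comm, h] at this
        have h2 : Z ≤ ⊥ := this ▸ le_inf (le_centralizer_iff.mp (hB.trans inf_le_left)) hZP
        rw [le_bot_iff.mp h2, card_bot] at hZc
        exact absurd hZc hp'.one_lt.ne
    have h2 : C = P := by
      have : (H1.pResidualOf p C).Normal := by
        rw [← normalizer_eq_top_iff, eq_top_iff, ← normalizer_eq_top C]
        exact H1.normalizer_le_normalizer_pResidualOf C
      have h3 := (L.le_pPrimeCore ((Nat.Prime.coprime_iff_not_dvd hp').mpr
        (H1.hasNormalPComplement_subgroup_iff_not_dvd.mp h1)).symm).trans hO.le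
      exact P.is_maximal' (H1.pResidualOf_eq_bot_iff.mp (le_bot_iff.mp h3)) hPC
    have hker : (MulAut.conjNormal : K →* MulAut Z).ker = P := by
      rw [← h2]
      ext g
      rw [MonoidHom.mem_ker, MulEquiv.ext_iff]
      constructor
      · intro h a ha
        exact (mul_inv_eq_iff_eq_mul.mp (congrArg Subtype.val (h ⟨a, ha⟩))).symm
      · intro h a
        exact Subtype.ext (mul_inv_eq_iff_eq_mul.mpr (h a a.2).symm)
    have : Fact (Nat.card Z).Prime := ⟨hZc ▸ hp'⟩
    have : IsCyclic (MulAut Z) :=
      isCyclic_of_surjective _ (IsCyclic.mulAutMulEquiv Z).symm.surjective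
    refine ⟨h2 ▸ inferInstance, le_antisymm ((centralizer_le
      (SetLike.coe_subset_coe.mpr hZP)).trans h2.le) (le_centralizer _), fun _ => ?_, ?_⟩
    · exact isCyclic_of_injective (QuotientGroup.lift _ MulAut.conjNormal hker.ge)
        ((QuotientGroup.injective_lift_iff _ _ _).mpr hker.symm)
    · rw [← hker, index_ker, ← Nat.totient_prime hp', ← hZc, ← IsCyclic.card_mulAut]
      exact card_subgroup_dvd_card _

end Cfsg.Agent.S4403
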