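import Cfsg.Statements.S4404
import Cfsg.Agent.H2.Small
import Cfsg.Agent.H2.Elem2
import Cfsg.Agent.H1.Frobenius

set_option autoImplicit false
open Cfsg

namespace Cfsg.Agent.S4404

open Subgroup Cfsg.Agent.H2
open scoped commutatorElement Pointwise

section

variable {M : Type*} [Group M] [Finite M]

/-- `[M, a]`. -/
abbrev cm (a : MulAut M) : Subgroup M := actComm (MonoidHom.id _) ⊤ (zpowers a)

omit [Finite M] in
theorem cm_conj (g a : MulAut M) : cm (g * a * g⁻¹) = (cm a).map g.toMonoidHom := by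
  have key : ∀ g a : MulAut M, cm a ≤ (cm (g * a * g⁻¹)).comap g.toMonoidHom := fun g a =>
    actComm_le.mpr (by
      rintro m - _ ⟨i, rfl⟩
      have := mem_actComm (φ := MonoidHom.id _) (mem_top (g m))
        (zpow_mem (mem_zpowers (g * a * g⁻¹)) i)
      simpa [conj_zpow] using this)
  refine le_antisymm (fun m hm => ⟨g⁻¹ m, ?_, by simp⟩) (map_le_iff_le_comap.mpr (key g a))
  simpa [mul_assoc] using key g⁻¹ _ hm

theorem exists_of_card_two {U : Subgroup M} (h : Nat.card U = 2) :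
    ∃ w ∈ U, w ≠ 1 ∧ ∀ s ∈ U, s ≠ 1 → s = w := by
  obtain ⟨w, h1, h2⟩ := (Nat.card_eq_two_iff' 1).mp h
  exact ⟨w, w.2, fun h => h1 (Subtype.ext h), fun s hs h =>
    congrArg Subtype.val (h2 ⟨s, hs⟩ fun h' => h (congrArg Subtype.val h'))⟩

theorem card_cases {U W : Subgroup M} (h : U ≤ W) (h4 : Nat.card W = 4) :
    U = ⊥ ∨ Nat.card U = 2 ∨ U = W := by
  obtain ⟨k, hk, h1⟩ := (Nat.dvd_prime_pow Nat.prime_two (m := 2)).mp
    ((card_dvd_of_le h).trans h4.dvd)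
  interval_cases k
  exacts [.inl (card_eq_one.mp h1), .inr (.inl h1),
    .inr (.inr (eq_of_le_of_card_ge h (h4.trans h1.symm).le))]

theorem le_of_two_mem {L U : Subgroup M} (h4 : Nat.card L = 4) {s t : M} (hs : s ∈ L ⊓ U)
    (ht : t ∈ L ⊓ U) (hs1 : s ≠ 1) (ht1 : t ≠ 1) (hst : s ≠ t) : L ≤ U := by
  rcases card_cases (inf_le_left (b := U)) h4 with h | h | h
  · exact (hs1 (mem_bot.mp (h.le hs))).elim
  · obtain ⟨w, -, -, h⟩ := exists_of_card_two h
    exact (hst ((h s hs hs1).trans (h t ht ht1).symm)).elim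
  · exact inf_eq_left.mp h

variable (hM : IsMulCommutative M) (h2 : ∀ m : M, m ^ 2 = 1)
include hM h2

omit hM in
theorem cop {K : Subgroup (MulAut M)} (hK : Odd (Nat.card K)) (U : Subgroup M) :
    (Nat.card K).Coprime (Nat.card U) := by
  obtain ⟨k, hk⟩ := (isPGroup_of_pow_eq_one (N := U) fun m _ => h2 m).exists_card_eq
  rw [hk]
  exact (Nat.coprime_two_right.mpr hK).pow_right k

theorem fix_eq_one {K : Subgroup (MulAut M)} (hK : Odd (Nat.card K)) {w : M}
    (hw : w ∈ actComm (MonoidHom.id _) ⊤ K) (h : ∀ k ∈ K, k w = w) : w = 1 :=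
  mem_bot.mp ((act_fixedPts_inf_actComm_eq_bot (φ := MonoidHom.id _) (isInv_top _) (cop h2 hK _)
    ⟨⟨fun a b => Subtype.ext (mul_comm' a.1 b.1)⟩⟩).le (mem_inf.mpr ⟨h, hw⟩))

theorem fix_eq_one' {a : MulAut M} (ha : a ^ 3 = 1) {w : M} (hw : w ∈ cm a) (h : a w = w) :
    w = 1 :=
  fix_eq_one hM h2 (by
    rw [Nat.card_zpowers]; exact Odd.of_dvd_nat (by decide) (orderOf_dvd_of_pow_eq_one ha)) hw
    (mem_fixedPts_zpowers.mpr h)

theorem card_sup_le {a b : MulAut M} (ha : Nat.card (cm a) = 4) (hb : Nat.card (cm b) = 4) :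
    Nat.card (cm a ⊔ cm b : Subgroup M) * Nat.card (cm a ⊓ cm b : Subgroup M) = 16 := by
  rw [card_sup_mul_card_inf le_normalizer_of_normal, ha, hb]

omit [Finite M] hM h2 in
theorem actComm_sup_le (a b : MulAut M) :
    actComm (MonoidHom.id _) ⊤ (zpowers a ⊔ zpowers b) ≤ cm a ⊔ cm b := by
  let D : Subgroup (MulAut M) :=
    { carrier := {k | ∀ m, m⁻¹ * k m ∈ cm a ⊔ cm b}
      one_mem' := fun m => by simp
      mul_mem' := fun {k l} hk hl m => by simpa [mul_assoc] using mul_mem (hl m) (hk (l m))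
      inv_mem' := fun {k} hk m => by simpa using inv_mem (hk (k⁻¹ m)) }
  have : zpowers a ⊔ zpowers b ≤ D := sup_le
    (fun k hk m => mem_sup_left (mem_actComm (mem_top m) hk))
    fun k hk m => mem_sup_right (mem_actComm (mem_top m) hk)
  exact actComm_le.mpr fun m _ k hk => this hk m

theorem card_dvd {a b : MulAut M} (ha : Nat.card (cm a) = 4) (hb : Nat.card (cm b) = 4)
    (hK : Odd (Nat.card (zpowers a ⊔ zpowers b : Subgroup _))) :
    Nat.card (zpowers a ⊔ zpowers b : Subgroup _) ∣ 20160 := by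
  refine (card_dvd_card_mulAut (card_top (G := M) ▸ cop h2 hK ⊤) (actComm_sup_le a b)).trans
    (card_mulAut_dvd_of_le_sixteen inferInstance (fun v => Subtype.ext (h2 v)) ?_)
  exact (Nat.le_mul_of_pos_right _ Nat.card_pos).trans_eq (card_sup_le hM h2 ha hb)

theorem fix_of_three {R : Subgroup (MulAut M)} (hR : IsPGroup 3 R) {a g : MulAut M} (haR : a ∈ R)
    (hg : g ∈ R) (ha : a ^ 3 = 1) (h4 : Nat.card (cm a) = 4) (hne : cm (g * a * g⁻¹) ≠ cm a) :
    ∀ w ∈ cm a, (g * a * g⁻¹) w = w := by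
  set b := g * a * g⁻¹
  have h4' : Nat.card (cm b) = 4 := by rw [cm_conj, card_map_of_injective g.injective, h4]
  have hK : IsPGroup 3 (zpowers a ⊔ zpowers b : Subgroup _) := hR.to_le
    (sup_le (zpowers_le.mpr haR) (zpowers_le.mpr (mul_mem (mul_mem hg haR) (inv_mem hg))))
  obtain ⟨k, hk⟩ := hK.exists_card_eq
  have h1 := card_dvd hM h2 h4 h4' (hk ▸ Odd.pow (by decide))
  have h3 : IsMulCommutative (zpowers a ⊔ zpowers b : Subgroup _) := by
    have : k ≤ 2 := by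
      by_contra h
      exact absurd ((pow_dvd_pow 3 (show 3 ≤ k by omega)).trans (hk ▸ h1)) (by decide)
    interval_cases k
    · rw [card_eq_one.mp hk]; infer_instance
    · haveI := isCyclic_of_prime_card (p := 3) hk
      infer_instance
    · exact isMulCommutative_of_card_eq_prime_sq hk
  have hab : a * b = b * a := setLike_mul_comm (s := zpowers a ⊔ zpowers b)
    (mem_sup_left (mem_zpowers a)) (mem_sup_right (mem_zpowers b))
  have h5 : ∀ w ∈ cm a, b w ∈ cm a := fun w hw => by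
    have := (cm_conj b a).ge ⟨w, hw, rfl⟩
    rwa [← hab, mul_inv_cancel_right] at this
  have h6 : ∀ w ∈ cm b, a w ∈ cm b := fun w hw => by
    have := (cm_conj a b).ge ⟨w, hw, rfl⟩
    rwa [hab, mul_inv_cancel_right] at this
  rcases card_cases (inf_le_left (a := cm a) (b := cm b)) h4 with h | h | h
  · exact fun w hw => (inv_mul_eq_one.mp (mem_bot.mp (h.le (mem_inf.mpr
      ⟨mul_mem (inv_mem hw) (h5 w hw), mem_actComm (mem_top w) (mem_zpowers b)⟩)))).symm
  · obtain ⟨w, hw, hw1, h⟩ := exists_of_card_two h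
    exact (hw1 (fix_eq_one' hM h2 ha hw.1 (h _ ⟨isInv_actComm (φ := MonoidHom.id _) _ _ a
      (mem_zpowers a) w hw.1, h6 w hw.2⟩ ((map_ne_one_iff _ a.injective).mpr hw1)))).elim
  · exact (hne (eq_of_le_of_card_ge (inf_eq_left.mp h) (h4'.trans h4.symm).le).symm).elim

theorem inf_ne_bot {p : ℕ} [hp : Fact p.Prime] (hp2 : p ≠ 2) (hp3 : p ≠ 3)
    {P : Subgroup (MulAut M)} (hP : IsPGroup p P) {a g : MulAut M}
    (haP : a ∈ normalizer (P : Set (MulAut M))) (hg : g ∈ P) (ha : a ^ 3 = 1)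
    (h4 : Nat.card (cm a) = 4) : cm a ⊓ cm (g * a * g⁻¹) ≠ ⊥ := fun h0 => by
  set b := g * a * g⁻¹ with hb
  have h4' : Nat.card (cm b) = 4 := by rw [cm_conj, card_map_of_injective g.injective, h4]
  obtain ⟨n, hn⟩ := hP.exists_card_eq
  have ha3 : Nat.card (zpowers a) ∣ 3 := Nat.card_zpowers a ▸ orderOf_dvd_of_pow_eq_one ha
  set K := zpowers a ⊔ zpowers b
  have hu : a⁻¹ * b ∈ P := by
    rw [hb, ← mul_assoc, ← mul_assoc]
    exact mul_mem (conj_mem_of_le_normalizer' le_rfl haP hg) (inv_mem hg)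
  have hK : Odd (Nat.card K) := by
    refine Odd.of_dvd_nat ?_ ((card_dvd_of_le (sup_le le_sup_left (zpowers_le.mpr
      ((mul_mem_cancel_left (mem_sup_left (inv_mem (mem_zpowers a)))).mp
        (mem_sup_right hu))))).trans (L.card_sup_dvd_of_le_normalizer (zpowers_le.mpr haP)))
    exact (Odd.of_dvd_nat (by decide) ha3).mul (hn ▸ (hp.out.odd_of_ne_two hp2).pow)
  have huK : a⁻¹ * b ∈ K := mul_mem (mem_sup_left (inv_mem (mem_zpowers a)))
    (mem_sup_right (mem_zpowers b))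
  obtain ⟨k, hk⟩ := hP ⟨_, hu⟩
  replace hk : (a⁻¹ * b) ^ p ^ k = 1 := congrArg Subtype.val hk
  have h1 := card_modEq_card_inf_fixedPts hk (W := cm a ⊔ cm b) fun w hw =>
    (mul_mem_cancel_left (inv_mem hw)).mp (actComm_sup_le a b (mem_actComm (mem_top w) huK))
  have h3 : (cm a ⊔ cm b) ⊓ fixedPts (MonoidHom.id _) (zpowers (a⁻¹ * b)) = ⊥ := by
    refine eq_bot_iff.mpr fun v hv => fix_eq_one hM h2 hK (sup_le (actComm_mono le_rfl le_sup_left)
      (actComm_mono le_rfl le_sup_right) hv.1) ?_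
    have h3 : b v = a v := by
      have := mem_fixedPts_zpowers.mp hv.2
      rwa [MulAut.mul_apply, MulAut.inv_apply, MulEquiv.symm_apply_eq] at this
    have h5 : a v = v := (inv_mul_eq_one.mp (mem_bot.mp (h0.le ⟨mem_actComm (mem_top v)
      (mem_zpowers a), h3 ▸ mem_actComm (φ := MonoidHom.id _) (mem_top v) (mem_zpowers b)⟩))).symm
    exact (sup_le (zpowers_le.mpr h5) (zpowers_le.mpr (h3.trans h5)) :
      K ≤ MulAction.stabilizer _ v)
  have h5 := card_sup_le hM h2 h4 h4'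
  rw [h0, card_bot, mul_one] at h5
  rw [h3, h5, card_bot] at h1
  obtain rfl : p = 5 := (Nat.prime_dvd_prime_iff_eq hp.out Nat.prime_five).mp
    ((hp.out.dvd_mul.mp (show p ∣ 3 * 5 from (Nat.modEq_iff_dvd' (by decide)).mp
      h1.symm)).resolve_left (mt (Nat.prime_dvd_prime_iff_eq hp.out Nat.prime_three).mp hp3))
  obtain ⟨j, hj⟩ := (hP.to_le (inf_le_left (b := K))).exists_card_eq
  have h6 := (card_dvd_of_le (inf_le_right (a := P))).trans (card_dvd hM h2 h4 h4' hK)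
  have h7 : j ≤ 1 := by
    by_contra h
    exact absurd ((pow_dvd_pow 5 (show 2 ≤ j by omega)).trans (hj ▸ h6)) (by decide)
  have h8 : a⁻¹ * b ≠ 1 := fun h => by
    rw [← inv_mul_eq_one.mp h, inf_idem] at h0
    rw [h0, card_bot] at h4
    omega
  interval_cases j
  · exact h8 (mem_bot.mp ((card_eq_one.mp hj).le ⟨hu, huK⟩))
  haveI := isCyclic_of_prime_card (p := 5) hj
  have h9 := relIndex_centralizer_dvd (A := zpowers a) (V := P ⊓ K) (le_normalizer_inf
    (zpowers_le.mpr haP) (le_sup_left.trans le_normalizer))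
  rw [IsCyclic.card_mulAut, hj] at h9
  have h10 := relIndex_eq_one.mp (Nat.eq_one_of_dvd_coprimes (by decide) h9
    ((relIndex_dvd_card _ _).trans ha3)) (mem_zpowers a) _ ⟨hu, huK⟩
  have h11 : (a⁻¹ * b) ^ 3 = 1 := by
    have : b ^ 3 = 1 := by rw [hb, conj_pow, ha, mul_one, mul_inv_cancel]
    rwa [← mul_inv_cancel_left a b, Commute.mul_pow h10.symm, ha, one_mul] at this
  exact h8 (orderOf_eq_one_iff.mp (Nat.eq_one_of_dvd_coprimes
    ((show Nat.Coprime 3 5 by decide).pow_right k) (orderOf_dvd_of_pow_eq_one h11)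
    (orderOf_dvd_of_pow_eq_one hk)))

theorem exists_inv {p : ℕ} [hp : Fact p.Prime] (hp2 : p ≠ 2) (hp3 : p ≠ 3)
    {P : Subgroup (MulAut M)} (hP : IsPGroup p P) {a : MulAut M}
    (haP : a ∈ normalizer (P : Set (MulAut M))) (ha : a ^ 3 = 1) (h4 : Nat.card (cm a) = 4) :
    ∃ U : Subgroup M, cm a ≤ U ∧ Nat.card U ≤ 8 ∧ ∀ g ∈ P, ∀ u ∈ U, g u ∈ U := by
  obtain ⟨f, hf⟩ : ∃ f : MulAut M → Subgroup M, ∀ g s, s ∈ f g ↔ ∃ t ∈ cm a, g t = s :=
    ⟨fun g => (cm a).map g.toMonoidHom, fun _ _ => Iff.rfl⟩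
  have hf' : ∀ g, f g = (cm a).map g.toMonoidHom := fun g => Subgroup.ext (hf g)
  have hf4 : ∀ g, Nat.card (f g) = 4 := fun g =>
    hf' g ▸ (card_map_of_injective g.injective).trans h4
  have hfm : ∀ g h : MulAut M, ∀ w ∈ f h, g w ∈ f (g * h) := fun g h w hw => by
    obtain ⟨w', hw', rfl⟩ := (hf _ _).mp hw
    exact (hf _ _).mpr ⟨w', hw', rfl⟩
  have hf1 : f 1 = cm a := (hf' 1).trans (Subgroup.map_id _)
  have h1 : ∀ g ∈ P, ∀ h ∈ P, ∃ s ∈ f g ⊓ f h, s ≠ 1 := fun g hg h hh => by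
    obtain ⟨s, hs, hs1⟩ := (bot_or_exists_ne_one _).resolve_left
      (inf_ne_bot hM h2 hp2 hp3 hP haP (mul_mem (inv_mem hg) hh) ha h4)
    rw [cm_conj, ← hf'] at hs
    exact ⟨g s, ⟨(hf _ _).mpr ⟨s, hs.1, rfl⟩, by simpa using hfm g _ s hs.2⟩,
      (map_ne_one_iff _ g.injective).mpr hs1⟩
  refine ⟨⨆ g : P, f g, le_iSup_of_le 1 hf1.ge, ?_, fun g hg u hu =>
    (iSup_le fun h w hw => mem_iSup_of_mem ((⟨g, hg⟩ : P) * h) (hfm g h w hw) :
      (⨆ g : P, f g) ≤ (⨆ g : P, f g).comap g.toMonoidHom) hu⟩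
  by_cases h3 : ∀ g ∈ P, f g = cm a
  · exact (card_le_of_le (iSup_le fun g : P => (h3 g g.2).le)).trans (by omega)
  push Not at h3
  obtain ⟨g, hg, h3⟩ := h3
  obtain ⟨s₀, hs₀, hs₀'⟩ := h1 1 (one_mem P) g hg
  rw [hf1] at hs₀
  have h5 : Nat.card (cm a ⊓ f g : Subgroup M) = 2 :=
    ((card_cases inf_le_left h4).resolve_left fun h => hs₀' (mem_bot.mp (h.le hs₀))).resolve_right
      fun h => h3 (eq_of_le_of_card_ge (inf_eq_left.mp h) ((hf4 g).trans h4.symm).le).symm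
  obtain ⟨w, hw, hw1, h6⟩ := exists_of_card_two h5
  have hinv : ∀ b ∈ zpowers a, ∀ w ∈ cm a, b w ∈ cm a := isInv_actComm (φ := MonoidHom.id _) _ _
  have hg' : a * g * a⁻¹ ∈ P := conj_mem_of_le_normalizer le_rfl haP hg
  have h7 : ∀ s ∈ f (a * g * a⁻¹), a⁻¹ s ∈ f g := fun s hs => by
    obtain ⟨s', hs', rfl⟩ := (hf _ _).mp hs
    exact (hf _ _).mpr ⟨_, hinv _ (inv_mem (mem_zpowers a)) s' hs', by simp⟩
  have h8 : w ∉ f (a * g * a⁻¹) := fun h => hw1 (fix_eq_one' hM h2 ha hw.1 (by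
    have := h6 _ ⟨hinv _ (inv_mem (mem_zpowers a)) w hw.1, h7 w h⟩
      ((map_ne_one_iff _ (a⁻¹).injective).mpr hw1)
    simpa using (congrArg a this).symm))
  have key : ∀ h ∈ P, w ∉ f h → f h ≤ cm a ⊔ f g := fun h hh hwh => by
    obtain ⟨s, hs, hs1⟩ := h1 h hh 1 (one_mem P)
    obtain ⟨t, ht, ht1⟩ := h1 h hh g hg
    rw [hf1] at hs
    exact le_of_two_mem (hf4 h) ⟨hs.1, mem_sup_left hs.2⟩ ⟨ht.1, mem_sup_right ht.2⟩ hs1 ht1
      fun h => hwh (h6 s ⟨hs.2, h ▸ ht.2⟩ hs1 ▸ hs.1)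
  refine (card_le_of_le (iSup_le fun h => ?_ : _ ≤ cm a ⊔ f g)).trans ?_
  · by_cases hwh : w ∈ f h
    · obtain ⟨t, ht, ht1⟩ := h1 h h.2 _ hg'
      exact le_of_two_mem (hf4 h) ⟨hwh, mem_sup_left hw.1⟩ ⟨ht.1, key _ hg' h8 ht.2⟩ hw1 ht1
        fun h => h8 (h ▸ ht.2)
    · exact key h h.2 hwh
  · have := card_sup_mul_card_inf (H := cm a) (K := f g) le_normalizer_of_normal
    rw [h5, h4, hf4] at this
    omega

end

theorem not_isCyclic {S : Type*} [Group S] [Finite S] {r : ℕ} (hr : r.Prime) (hr2 : r ≠ 2)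
    {F U W : Subgroup S} (hF : ∀ x ∈ F, x ^ r = 1) (hF3 : Nat.card F = r ^ 3) (hWU : W ≤ U)
    (hFU : F ≤ normalizer (U : Set S)) (hU : IsMulCommutative U) (hU2 : ∀ u ∈ U, u ^ 2 = 1)
    (h8 : Nat.card U ≤ 8) : ¬ IsCyclic ↥(F ⊓ centralizer (W : Set S)) := fun h => by
  have h1 := (relIndex_centralizer_dvd hFU).trans (card_mulAut_dvd_of_le_eight hU
    (fun u => Subtype.ext (hU2 u u.2)) h8)
  obtain ⟨k, -, hk⟩ := (Nat.dvd_prime_pow hr).mp (hF3 ▸ relIndex_dvd_card (centralizer (U : Set S)) F)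
  have h2 : k ≤ 1 := by
    by_contra h
    have h2 := (pow_dvd_pow r (show 2 ≤ k by omega)).trans (hk ▸ h1)
    have h3 : r ∣ 2 ^ 3 * 3 * 7 := (dvd_pow_self r two_ne_zero).trans h2
    rw [hr.dvd_mul, hr.dvd_mul, Nat.prime_dvd_prime_iff_eq hr Nat.prime_three,
      Nat.prime_dvd_prime_iff_eq hr Nat.prime_seven] at h3
    rcases h3 with (h3 | rfl) | rfl
    · exact hr2 ((Nat.prime_dvd_prime_iff_eq hr Nat.prime_two).mp (hr.dvd_of_dvd_pow h3))
    · exact absurd h2 (by decide)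
    · exact absurd h2 (by decide)
  have h3 := card_inf_mul_relIndex (centralizer (U : Set S)) F
  have h4 : Nat.card ↥(F ⊓ centralizer (W : Set S)) ≤ r := by
    rw [← IsCyclic.exponent_eq_card]
    exact Nat.le_of_dvd hr.pos (Monoid.exponent_dvd_of_forall_pow_eq_one
      fun x => Subtype.ext (hF x x.2.1))
  have h5 := (card_le_of_le (inf_comm _ F ▸ inf_le_inf_left F (centralizer_le hWU))).trans h4
  rw [hk, hF3] at h3
  have h6 := h3.ge.trans (Nat.mul_le_mul h5 (Nat.pow_le_pow_right hr.pos h2))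
  rw [pow_one, ← sq, Nat.pow_le_pow_iff_right hr.one_lt] at h6
  omega

/-- Let S be a finite solvable group and M a normal elementary abelian 2-subgroup of S. Suppose S contains an elementary abelian subgroup of order p³ for some odd prime p, and a cyclic 3-subgroup Q such that the cubes of the elements of Q centralize M and the commutator subgroup [Q, M] has order 4 (a four-group inside M). Then S contains an elementary abelian subgroup F of order r³, for some odd prime r, whose centralizer of [Q, M] in F — the subgroup C_F([Q, M]) — is not cyclic. -/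
theorem result {S : Type*} [Group S] [Finite S]
    [Group.IsSolvable S] (M : Subgroup S) [M.Normal] (hM : Cfsg.IsElementaryAbelian 2 M)
    (p : ℕ) (hp : p.Prime) (hp2 : p ≠ 2) (E : Subgroup S) (hE : Cfsg.IsElementaryAbelian p E) (hE3 : Nat.card ↥E = p ^ 3)
    (Q : Subgroup S) (hQc : IsCyclic ↥Q) (hQ3 : IsPGroup 3 ↥Q)
    (hQ1 : ∀ x ∈ Q, x ^ 3 ∈ Subgroup.centralizer (M : Set S)) (hQM : Nat.card ↥⁅Q, M⁆ = 4) :
    ∃ (r : ℕ) (F : Subgroup S), r.Prime ∧ r ≠ 2 ∧ Cfsg.IsElementaryAbelian r F ∧ Nat.card ↥F = r ^ 3 ∧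
      ¬ IsCyclic ↥(F ⊓ Subgroup.centralizer ((⁅Q, M⁆ : Subgroup S) : Set S)) := by
  haveI := Fact.mk hp
  obtain ⟨x, rfl⟩ := (Subgroup.isCyclic_iff_exists_zpowers_eq_top _).mp hQc
  set φ : S →* MulAut M := MulAut.conjNormal
  have h2 : ∀ m : M, m ^ 2 = 1 := fun m => Subtype.ext (hM.2 m m.2)
  have hW : ⁅zpowers x, M⁆ = (cm (φ x)).map M.subtype := by
    refine le_antisymm (commutator_le.mpr ?_) (map_le_iff_le_comap.mpr (actComm_le.mpr ?_))
    · rintro _ ⟨i, rfl⟩ m hm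
      exact ⟨_, inv_mem (mem_actComm (mem_top ⟨m, hm⟩⁻¹) (zpow_mem (mem_zpowers _) i)), by
        simp [φ, ← map_zpow, commutatorElement_def]⟩
    · rintro m - _ ⟨i, rfl⟩
      have := inv_mem (commutator_mem_commutator (zpow_mem (mem_zpowers x) i) (inv_mem m.2))
      rw [mem_comap]
      simpa [φ, ← map_zpow, commutatorElement_def, mul_assoc] using this
  have h4 : Nat.card (cm (φ x)) = 4 := by rw [← L.card_map_subtype, ← hW, hQM]
  have h3 : φ x ^ 3 = 1 := by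
    rw [← map_pow]
    exact MulEquiv.ext fun m => Subtype.ext (mul_inv_eq_iff_eq_mul.mpr
      (hQ1 x (mem_zpowers x) m m.2).symm)
  have hmain : ∀ r : ℕ, r.Prime → r ≠ 2 → ∀ F : Subgroup S, (∀ x ∈ F, x ^ r = 1) →
      Nat.card F = r ^ 3 → ∀ U : Subgroup M, cm (φ x) ≤ U → Nat.card U ≤ 8 →
      (∀ g ∈ F, ∀ u ∈ U, φ g u ∈ U) →
      ¬ IsCyclic ↥(F ⊓ centralizer ((⁅zpowers x, M⁆ : Subgroup S) : Set S)) :=
    fun r hr hr2 F h5 h6 U h7 h8 h9 => not_isCyclic hr hr2 h5 h6 (hW.trans_le (map_mono h7))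
      (le_normalizer_of_conj_mem (by
        rintro g hg _ ⟨u, hu, rfl⟩
        exact ⟨_, h9 g hg u hu, rfl⟩)) (isMulCommutative_of_le (map_subtype_le U) hM.1)
      (fun u hu => hM.2 u (map_subtype_le U hu)) ((L.card_map_subtype U).trans_le h8)
  obtain ⟨H, hH, hQH⟩ := exists_hallOf_ge (π := {2}ᶜ) (K := ⊤) inferInstance le_top
    (piNum_card_of_isPGroup hQ3 (by simp))
  have hH2 : ¬ 2 ∣ Nat.card H :=
    (piNum_compl_singleton_iff Nat.prime_two).mp (isPiHallOf_iff.mp hH).2.1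
  have hconj : ∀ {r : ℕ} {E P : Subgroup S} {k : S}, IsElementaryAbelian r E →
      (∀ x ∈ E, k * x * k⁻¹ ∈ P) → ∃ F ≤ P, IsElementaryAbelian r F ∧ Nat.card F = Nat.card E :=
    fun {r E P k} hE h => by
      haveI := hE.1
      refine ⟨E.map (MulAut.conj k).toMonoidHom, ?_, ⟨inferInstance, ?_⟩,
        card_map_of_injective (MulAut.conj k).injective⟩
      · rintro _ ⟨y, hy, rfl⟩
        exact h y hy
      · rintro _ ⟨y, hy, rfl⟩
        rw [← map_pow, hE.2 y hy, map_one]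
  by_cases h27 : ∀ A ≤ H, IsMulCommutative A → (∀ a ∈ A, a ^ 3 = 1) → Nat.card A ≤ 3 ^ 2
  · obtain ⟨g, -, hg⟩ := exists_conj_le_hallOf inferInstance hH le_top
      (piNum_card_of_isPGroup (isPGroup_of_pow_eq_one hE.2) (by simpa))
    obtain ⟨E₁, hE₁H, hE₁, hE₁'⟩ := hconj hE hg
    have hp3 : p ≠ 3 := by
      rintro rfl
      have := h27 E₁ hE₁H hE₁.1 hE₁.2
      omega
    have h5 : HasNormalPComplement 3 H := by
      by_contra h
      obtain ⟨D, hDH, hD, q, hq, hq3, g, hg, ⟨k, hk⟩, hgN, hgC⟩ :=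
        H1.exists_of_not_hasNormalPComplement h
      haveI := Fact.mk hq
      have h5 := mulAut_eq_one_of_rank_two hD (fun A h1 h2 => by
        rw [← L.card_map_subtype]
        refine h27 _ ((map_subtype_le A).trans hDH) inferInstance ?_
        rintro _ ⟨a, ha, rfl⟩
        exact congrArg Subtype.val (h2 a ha)) (q := q) (k := k) (by
          rintro rfl
          refine hgC ?_
          rw [orderOf_eq_one_iff.mp (Nat.eq_one_of_dvd_coprimes
            ((Nat.prime_two.coprime_iff_not_dvd.mpr hH2).pow_left k) (orderOf_dvd_of_pow_eq_one hk)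
            (orderOf_dvd_natCard H hg))]
          exact one_mem _) hq3 (α := D.normalizerMonoidHom ⟨g, hgN⟩)
        (by rw [← map_pow, show (⟨g, hgN⟩ : normalizer (D : Set S)) ^ q ^ k = 1 from
          Subtype.ext hk, map_one])
      exact hgC (mem_subgroupOf.mp ((normalizerMonoidHom_ker D).le h5))
    have h6 := H1.hasNormalPComplement_subgroup_iff_not_dvd.mp h5
    obtain ⟨P, hPL, hP, hP', hQP⟩ := exists_invariant_sylow p
      (hQH.trans (H1.le_normalizer_pResidualOf H))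
      (L.coprime_card_of_isPGroup hQ3 (Nat.prime_three.coprime_iff_not_dvd.mpr h6).symm)
      (.inl inferInstance)
    obtain ⟨k, -, hk⟩ := exists_conj_le_sylow (isPGroup_of_pow_eq_one hE₁.2)
      (fun e he => H1.mem_pResidualOf (hE₁H he) (((Nat.coprime_primes hp Nat.prime_three).mpr
        hp3).coprime_dvd_left (orderOf_dvd_of_pow_eq_one (hE₁.2 e he)))) hP hP'
    obtain ⟨F, hFP, hF, hF'⟩ := hconj hE₁ hk
    obtain ⟨U, h7, h8, h9⟩ := exists_inv hM.1 h2 hp2 hp3 (hP.map φ)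
      (le_normalizer_map φ (mem_map_of_mem φ (hQP (mem_zpowers x)))) h3 h4
    exact ⟨p, F, hp, hp2, hF, hF'.trans (hE₁'.trans hE3), hmain p hp hp2 F hF.2
      (hF'.trans (hE₁'.trans hE3)) U h7 h8 fun g hg => h9 _ (mem_map_of_mem φ (hFP hg))⟩
  push Not at h27
  obtain ⟨A, hAH, hA, hA3, hA'⟩ := h27
  obtain ⟨R, hQR, hRH, hR, hR'⟩ := exists_sylow_le hQ3 hQH
  obtain ⟨k, -, hk⟩ := exists_conj_le_sylow (isPGroup_of_pow_eq_one hA3) hAH hR hR'
  obtain ⟨A₁, hA₁R, hA₁, hA₁'⟩ := hconj ⟨hA, hA3⟩ hk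
  obtain ⟨B', hB'n, hB', hB'3, hB'c⟩ : ∃ B : Subgroup R, B.Normal ∧ IsMulCommutative B ∧
      (∀ a ∈ B, a ^ 3 = 1) ∧ Nat.card B = 3 ^ 3 := by
    by_contra! h
    haveI := hA₁.1
    have := card_le_sq_of_no_normal_rank_three (by decide) hR h (A₁.subgroupOf R) inferInstance
      fun e he => Subtype.ext (hA₁.2 e he)
    rw [L.card_subgroupOf_of_le hA₁R] at this
    omega
  set B := B'.map R.subtype
  have hB3 : ∀ b ∈ B, b ^ 3 = 1 := by
    rintro _ ⟨b, hb, rfl⟩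
    exact congrArg Subtype.val (hB'3 b hb)
  have hBc : Nat.card B = 3 ^ 3 := (L.card_map_subtype B').trans hB'c
  refine ⟨3, B, Nat.prime_three, by decide, ⟨inferInstance, hB3⟩, hBc, hmain 3 Nat.prime_three
    (by decide) B hB3 hBc _ le_rfl (by omega) fun b hb => ?_⟩
  have hxR := mem_map_of_mem φ (hQR (mem_zpowers x))
  have hbR := mem_map_of_mem φ (map_subtype_le B' hb)
  have key : ∀ g : MulAut M, cm (g * φ x * g⁻¹) = cm (φ x) → ∀ u ∈ cm (φ x), g u ∈ cm (φ x) :=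
    fun g h u hu => h.le ((cm_conj g _).ge ⟨u, hu, rfl⟩)
  by_contra hcon
  have h5 := fix_of_three hM.1 h2 (hR.map φ) hxR hbR h3 h4 fun h => hcon (key _ h)
  have h6 := fix_of_three hM.1 h2 (hR.map φ) hxR (mul_mem hbR hbR) h3 h4 fun h => hcon fun u hu => by
    have := key _ h _ (key _ h u hu)
    rwa [← map_mul, ← MulAut.mul_apply, ← map_mul, show b * b * (b * b) = b ^ 3 * b by simp [pow_succ, mul_assoc], hB3 b hb,
      one_mul] at this
  have h7 : b * (x⁻¹ * b * x * b⁻¹) = x⁻¹ * b * x * b⁻¹ * b := setLike_mul_comm (s := B) hb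
    (mul_mem (conj_mem_of_le_normalizer' (L.le_normalizer_map_subtype B')
      (hQR (mem_zpowers x)) hb) (inv_mem hb))
  have h8 : x = b * x * b⁻¹ * (b * b * x * (b * b)⁻¹)⁻¹ * (b * x * b⁻¹) := by
    calc x = x * (x⁻¹ * b * x * b⁻¹ * b) * (b * (x⁻¹ * b * x * b⁻¹))⁻¹ := by rw [← h7]; group
      _ = _ := by group
  obtain ⟨w, hw, hw1⟩ := (bot_or_exists_ne_one (cm (φ x))).resolve_left fun h => by
    rw [h, card_bot] at h4; omega
  refine hw1 (fix_eq_one' hM.1 h2 h3 hw ?_)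
  have h9 : φ x ∈ MulAction.stabilizer (MulAut M) w := by
    rw [h8]
    simp only [map_mul, map_inv]
    exact mul_mem (mul_mem (h5 w hw) (inv_mem (h6 w hw))) (h5 w hw)
  exact h9

end Cfsg.Agent.S4404
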