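import Cfsg.Statements.S4405
import Cfsg.Agent.H2.Minus
import Cfsg.Agent.H2.Schmidt
import Cfsg.Agent.H2.Elem2
import Cfsg.Agent.H9.Burnside
import Cfsg.Agent.L.Comp

set_option autoImplicit false
open Cfsg

namespace Cfsg.Agent.S4405

open Subgroup Cfsg.Agent.H2
open scoped commutatorElement Pointwise

theorem card_modEq {Q : Type*} [Group Q] [Finite Q] {q : ℕ} [Fact q.Prime] {τ : MulAut Q}
    (hτ : τ ^ q = 1) {W : Subgroup Q} (hW : ∀ w ∈ W, τ w ∈ W) :
    Nat.card W ≡ Nat.card (W ⊓ fixedPts (MonoidHom.id _) (zpowers τ) : Subgroup Q) [MOD q] := by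
  classical
  haveI := Fintype.ofFinite W
  let f : Function.End W := fun w => ⟨τ w, hW w w.2⟩
  have h1 : ∀ n (w : W), ((f ^ n) w : Q) = (τ ^ n) w := fun n => by
    induction n with
    | zero => exact fun _ => rfl
    | succ n ih => exact fun w => by rw [pow_succ, pow_succ]; exact ih (f w)
  have h2 := Equiv.Perm.card_fixedPoints_modEq (f := f) (p := q) (n := 1)
    (funext fun w => Subtype.ext (by rw [h1, pow_one, hτ]; rfl))
  rw [← Nat.card_eq_fintype_card, ← Nat.card_eq_fintype_card] at h2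
  exact h2.trans (congrArg (· % q) (Nat.card_congr
    ⟨fun w => ⟨w.1, w.1.2, mem_fixedPts_zpowers.mpr (congrArg Subtype.val w.2)⟩,
      fun w => ⟨⟨w.1, w.2.1⟩, Subtype.ext (mem_fixedPts_zpowers.mp w.2.2)⟩, fun _ => rfl,
      fun _ => rfl⟩))

/-- Let G be a finite group of order 320 = 64·5 whose largest normal 2-subgroup H = O₂(G) equals the Fitting subgroup F(G) and is extraspecial of order 32 containing no elementary abelian subgroup of order 8 (so H is the central product of a quaternion group and a dihedral group of order 8). If T is an involution of G outside H whose centralizer in H contains an elementary abelian subgroup of order 4, then C_H(T) itself is elementary abelian of order 4. -/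
theorem result {G : Type*} [Group G] [Finite G]
    (hG : Nat.card G = 320) (hHF : Cfsg.pCore 2 G = Cfsg.fittingSubgroup G)
    (hex : Cfsg.IsExtraspecial 2 ↥(Cfsg.pCore 2 G)) (h32 : Nat.card ↥(Cfsg.pCore 2 G) = 32)
    (hminus : ∀ A : Subgroup G, A ≤ Cfsg.pCore 2 G → Cfsg.IsElementaryAbelian 2 A → Nat.card ↥A ≤ 4)
    (T : G) (hT : orderOf T = 2) (hTH : T ∉ Cfsg.pCore 2 G)
    (V : Subgroup G) (hV : V ≤ Cfsg.pCore 2 G ⊓ Subgroup.centralizer ({T} : Set G)) (hV4 : Nat.card ↥V = 4) (hVe : Cfsg.IsElementaryAbelian 2 V) :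
    Nat.card ↥(Cfsg.pCore 2 G ⊓ Subgroup.centralizer ({T} : Set G)) = 4 ∧
      Cfsg.IsElementaryAbelian 2 (Cfsg.pCore 2 G ⊓ Subgroup.centralizer ({T} : Set G)) := by
  haveI : Group.IsSolvable G := H9.burnside_pq (a := 6) (b := 1) Nat.prime_two Nat.prime_five
    (hG ▸ dvd_rfl)
  haveI : Fact (Nat.Prime 5) := ⟨Nat.prime_five⟩
  have hC : centralizer (pCore 2 G : Set G) ≤ pCore 2 G := hHF ▸ L.centralizer_fitting_le
  set H := pCore 2 G
  obtain ⟨z, h⟩ := exists_minus hex h32 fun A hA => by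
    rw [← L.card_map_subtype]
    refine hminus _ (map_subtype_le A) ⟨?_, ?_⟩
    · haveI := hA.1
      infer_instance
    · rintro _ ⟨a, ha, rfl⟩
      exact congrArg Subtype.val (hA.2 a ha)
  set φ : G →* MulAut H := MulAut.conjNormal
  set ψ := (cenAct H).comp φ
  have hQ : Nat.card (H ⧸ center H) = 16 := by
    have := card_mul_index (center H)
    rw [h.es.card_center, h32, index_eq_card] at this
    omega
  have hψH : ∀ g ∈ H, ψ g = 1 := fun g hg => MulEquiv.ext fun q => by
    obtain ⟨x, rfl⟩ := QuotientGroup.mk_surjective q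
    refine (QuotientGroup.eq.mpr (?_ : x⁻¹ * φ g x ∈ _)).symm
    rw [show x⁻¹ * φ g x = ⁅x⁻¹, ⟨g, hg⟩⁆ from Subtype.ext (by simp [φ, commutatorElement_def,
      mul_assoc]), h.es.cen]
    exact h.es.comm _ _
  set F := fun g => fixedPts (MonoidHom.id _) (zpowers (ψ g)) with hF
  have h1 : ∀ d : G, orderOf d = 5 → F d = ⊥ := fun d hd => by
    have h1 := card_modEq (q := 5) (τ := ψ d) (W := ⊤)
      (by rw [← map_pow, ← hd, pow_orderOf_eq_one, map_one]) fun _ _ => trivial
    rw [card_top, top_inf_eq, hQ] at h1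
    have h2 : Nat.card (F d) ∣ 2 ^ 4 := (card_subgroup_dvd_card _).trans hQ.dvd
    obtain ⟨k, hk, h2⟩ := (Nat.dvd_prime_pow Nat.prime_two).mp h2
    rw [h2] at h1
    interval_cases k
    · exact card_eq_one.mp h2
    · exact absurd h1 (by decide)
    · exact absurd h1 (by decide)
    · exact absurd h1 (by decide)
    have h3 := eq_top_of_card_eq _ (h2.trans hQ.symm)
    have h4 := act_fixed_of_frattini (φ := φ) (B := zpowers d) (by
      rw [Nat.card_zpowers, hd, h32]; decide) fun g a ha => hex.1.2.1 ▸ QuotientGroup.eq.mp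
        (h3.ge (mem_top (g : H ⧸ center H)) _ (MonoidHom.map_zpowers ψ d ▸ mem_map_of_mem ψ ha)).symm
    have h5 : d ∈ H := hC fun x hx => (mul_inv_eq_iff_eq_mul.mp (congrArg Subtype.val
      (h4.ge (mem_top ⟨x, hx⟩) d (mem_zpowers d)))).symm
    exact absurd (hd ▸ h32 ▸ orderOf_dvd_natCard H h5) (by decide)
  have h2 : ψ T ≠ 1 := fun h2 => by
    refine hTH (L.le_pCore (N := ψ.ker) ?_ h2)
    have h3 : ¬ 5 ∣ Nat.card ψ.ker := fun h3 => by
      obtain ⟨d, hd⟩ := exists_prime_orderOf_dvd_card' 5 h3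
      have h4 : F d = ⊤ := eq_top_iff.mpr fun q _ => mem_fixedPts_zpowers.mpr (by
        rw [show ψ d = 1 from d.2, MulAut.one_apply])
      have h5 := congrArg (fun K : Subgroup _ => Nat.card K) (h1 d ((orderOf_coe d).trans hd))
      simp only [h4, card_top, hQ, card_bot] at h5
      exact absurd h5 (by decide)
    obtain ⟨k, -, hk⟩ := (Nat.dvd_prime_pow Nat.prime_two).mp
      ((Nat.prime_five.coprime_iff_not_dvd.mpr h3).symm.dvd_of_dvd_mul_right
        (show _ ∣ 2 ^ 6 * 5 from (card_subgroup_dvd_card ψ.ker).trans hG.dvd))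
    exact IsPGroup.of_card hk
  have hT2 : T ^ 2 = 1 := hT ▸ pow_orderOf_eq_one T
  have h3 : Nat.card (F T) ≤ 4 := by
    have h3 : Nat.card (F T) ∣ 2 ^ 4 := (card_subgroup_dvd_card _).trans hQ.dvd
    obtain ⟨k, hk, h3⟩ := (Nat.dvd_prime_pow Nat.prime_two).mp h3
    rw [h3]
    interval_cases k
    · decide
    · decide
    · decide
    swap
    · exact (h2 (MulEquiv.ext fun q => mem_fixedPts_zpowers.mp
        ((eq_top_of_card_eq _ (h3.trans hQ.symm)).ge (mem_top q)))).elim
    exfalso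
    obtain ⟨d, hd⟩ := exists_prime_orderOf_dvd_card' (G := G) 5 (by rw [hG]; decide)
    have h4 : Nat.card (H ⊔ zpowers T : Subgroup G) = Nat.card H * 2 :=
      card_sup_zpowers_eq (le_normalizer_of_normal (mem_top T)) hTH (hT2 ▸ one_mem H)
    have h5 : F (d * T * d⁻¹) = (F T).map (ψ d).toMonoidHom := by
      ext q
      rw [mem_map_equiv, mem_fixedPts_zpowers, mem_fixedPts_zpowers, map_mul, map_mul, map_inv,
        MulAut.mul_apply, MulAut.mul_apply, ← MulEquiv.eq_symm_apply]
      rfl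
    by_cases h6 : d * T * d⁻¹ ∈ H ⊔ zpowers T
    · have h7 := hψH _ (inv_mul_mem_of_card_eq_mul_two le_sup_left h4 h6
        (mem_sup_right (mem_zpowers T))
        (fun h => hTH (by simpa [mul_assoc] using (inferInstance : H.Normal).conj_mem' _ h d)) hTH)
      rw [map_mul, map_inv, inv_mul_eq_one] at h7
      have h8 := card_modEq (q := 5) (τ := ψ d) (W := F T)
        (by rw [← map_pow, ← hd, pow_orderOf_eq_one, map_one]) fun w hw => by
          have : F T = F (d * T * d⁻¹) := by simp only [hF, h7]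
          exact (this.trans h5).ge ⟨w, hw, rfl⟩
      rw [h3, show fixedPts _ _ = ⊥ from h1 d hd, inf_bot_eq, card_bot] at h8
      exact absurd h8 (by decide)
    · have h7 : IsCoatom (H ⊔ zpowers T) := isCoatom_of_index_eq_prime (p := 5) (by
        have := card_mul_index (H ⊔ zpowers T)
        rw [h4, h32, hG] at this
        omega)
      have h8 : F T ⊓ F (d * T * d⁻¹) = ⊥ := eq_bot_iff.mpr fun q hq => (h1 d hd).le
        (mem_fixedPts_zpowers.mpr ((h7.2 ((MulAction.stabilizer _ q).comap ψ) (lt_of_le_not_ge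
          (sup_le (fun g hg => show ψ g q = q by rw [hψH g hg, MulAut.one_apply])
            (zpowers_le.mpr (mem_fixedPts_zpowers.mp hq.1)))
          fun h => h6 (h (mem_fixedPts_zpowers.mp hq.2)))).ge (mem_top d)))
      have h9 := index_inf_le (H := F T) (K := F (d * T * d⁻¹))
      have h10 := card_mul_index (F T)
      rw [h8, h5, MulEquiv.toMonoidHom_eq_coe, index_map_equiv, index_bot, hQ] at h9
      rw [h3, hQ] at h10
      rw [show (F T).index = 2 by omega] at h9
      omega
  obtain ⟨a, ha⟩ := not_forall.mp fun h4 => h2 (h.cenAct_eq_one (α := φ T) h4)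
  obtain ⟨x, hx, hx', hxa⟩ := a.exists_rep
  obtain ⟨-, hy⟩ := (φ T • a).2
  have hxy : ⁅x, φ T x⁆ = z := h.comm_eq hx hx' (by rw [← map_pow, hx, map_one])
    (fun h4 => hx' (by simpa using (isInv_of_characteristic (φ := φ) _ ⊤ T⁻¹ (mem_top _) _ h4)))
    fun h4 => ha (Subtype.ext (by rw [InvCl.smul_val, ← hxa, cenAct_mk, ← h4]))
  have h4 : φ T (x * φ T x) = φ T x * x := by
    rw [map_mul, ← MulAut.mul_apply, ← map_mul, ← sq, hT2, map_one, MulAut.one_apply]
  set C := fixedPts φ (zpowers T)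
  have hCm : ∀ c, c ∈ C ↔ φ T c = c := fun c => ⟨fun h => h T (mem_zpowers T), fun h _ ha =>
    (zpowers_le (H := (MulAction.stabilizer (MulAut H) c).comap φ)).mpr h ha⟩
  have h5 : C.map (QuotientGroup.mk' (center H)) < F T := by
    refine lt_of_le_not_ge ?_ fun h5 => ?_
    · rintro _ ⟨c, hc, rfl⟩
      exact mem_fixedPts_zpowers.mpr (congrArg _ ((hCm c).mp hc))
    · obtain ⟨c, hc, h6⟩ := h5 (mem_fixedPts_zpowers.mpr (show ψ T ((x * φ T x : H) : _ ⧸ _) = _ by
        change ((φ T _ : H) : H ⧸ center H) = _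
        rw [h4, QuotientGroup.eq, show (φ T x * x)⁻¹ * (x * φ T x) = ⁅x⁻¹, (φ T x)⁻¹⁆ by group,
          h.es.cen]
        exact h.es.comm _ _))
      have h7 := QuotientGroup.eq.mp h6
      have h8 : c⁻¹ * (x * φ T x) ∈ C := by
        rw [h.es.cen] at h7
        refine (zpowers_le.mpr ((hCm z).mpr ?_)) h7
        have h8 := isInv_of_characteristic (φ := φ) _ ⊤ T (mem_top _) _ h.es.mem_center
        rw [h.es.cen, h.es.mem_zpowers_iff_two, map_eq_one_iff _ (φ T).injective] at h8
        exact h8.resolve_left h.es.ne_one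
      have h9 := (hCm _).mp ((mul_mem_cancel_left (inv_mem hc)).mp h8)
      rw [h4] at h9
      exact h.es.ne_one (hxy ▸ commutatorElement_eq_one_iff_mul_comm.mpr h9.symm)
  have h6 := mul_card_le_of_lt ((h.es.isPGroup.to_quotient _).to_subgroup _) h5
  have h7 := L.card_eq_card_map_mul_card_inf_ker (QuotientGroup.mk' (center H)) C
  have h8 := (card_le_of_le (inf_le_left (a := (QuotientGroup.mk' (center H)).ker) (b := C))).trans_eq
    (by rw [QuotientGroup.ker_mk', h.es.card_center])
  have h9 : Nat.card C ≤ 4 := h7.trans_le ((Nat.mul_le_mul_left _ h8).trans (h6.trans h3))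
  have h10 : V = H ⊓ centralizer {T} := eq_of_le_of_card_ge hV (by
    rw [hV4]
    refine le_trans (card_le_of_le fun g hg => ?_) ((L.card_map_subtype C).trans_le h9)
    exact ⟨⟨g, hg.1⟩, (hCm _).mpr (Subtype.ext (mul_inv_eq_iff_eq_mul.mpr
      (mem_centralizer_singleton_iff.mp hg.2).symm)), rfl⟩)
  exact h10 ▸ ⟨hV4, hVe⟩

end Cfsg.Agent.S4405
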