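import Cfsg.Statements.S4406
import Cfsg.Agent.H2.Omega
import Cfsg.Agent.H3.Klein
import Cfsg.Agent.H1.Basic
import Mathlib.GroupTheory.SpecificGroups.Alternating.KleinFour

set_option autoImplicit false
open Cfsg

namespace Cfsg.Agent.S4406

open Subgroup Cfsg.Agent.H2
open scoped commutatorElement Pointwise

theorem a1 : ∀ x : alternatingGroup (Fin 4), x ^ 4 = 1 → x * x = 1 := by decide +kernel

set_option synthInstance.maxSize 1000 in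
theorem a2 : ∀ a : alternatingGroup (Fin 4), a ^ 3 = 1 → a ≠ 1 →
    ∀ x : alternatingGroup (Fin 4), x * x = 1 → x ≠ 1 →
    ∀ y : alternatingGroup (Fin 4), y * y = 1 → y ≠ 1 → x ≠ y →
    ∃ c, (c = a ∨ c = a⁻¹) ∧ c * x * c⁻¹ = y ∧ c * y * c⁻¹ = x * y ∧ c * (x * y) * c⁻¹ = x := by
  decide +kernel

theorem a3 {G : Type*} [Group G] [Finite G] (Q : Sylow 3 G) (N : Subgroup G) [N.Normal]
    (h : 3 ∣ Nat.card N) : ∃ x ∈ (Q : Subgroup G) ⊓ N, x ^ 3 = 1 ∧ x ≠ 1 := by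
  have h1 := H1.sylow_inf_isSylowIn Q N
  obtain ⟨x, hx⟩ := exists_prime_orderOf_dvd_card' 3 (h1.isPGroup.card_eq_or_dvd.resolve_left
    fun h2 => h1.eq_bot_iff.mp (card_eq_one.mp h2) h)
  rw [← orderOf_coe] at hx
  refine ⟨x, x.2, orderOf_dvd_iff_pow_eq_one.mp hx.dvd, fun h => ?_⟩
  rw [h, orderOf_one] at hx
  omega

/-- In the direct product P = A₄ × A₄, let X be the Sylow 2-subgroup, X₁ and X₂ its intersections with the two direct factors, Q a Sylow 3-subgroup and Q₁, Q₂ its intersections with the two factors. Then every subgroup B of X of order 4 either meets X₁ or X₂ nontrivially, or is normalized by one of the two subgroups of Q of order 3 other than Q₁ and Q₂. -/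
theorem result
    (X : Sylow 2 (↥(alternatingGroup (Fin 4)) × ↥(alternatingGroup (Fin 4))))
    (Q : Sylow 3 (↥(alternatingGroup (Fin 4)) × ↥(alternatingGroup (Fin 4))))
    (B : Subgroup (↥(alternatingGroup (Fin 4)) × ↥(alternatingGroup (Fin 4)))) (hBX : B ≤ (X : Subgroup _)) (hB4 : Nat.card ↥B = 4) :
    B ⊓ ((X : Subgroup _) ⊓ Subgroup.prod ⊤ ⊥) ≠ ⊥ ∨ B ⊓ ((X : Subgroup _) ⊓ Subgroup.prod ⊥ ⊤) ≠ ⊥ ∨
      ∃ R : Subgroup (↥(alternatingGroup (Fin 4)) × ↥(alternatingGroup (Fin 4))), R ≤ (Q : Subgroup _) ∧ Nat.card ↥R = 3 ∧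
        R ≠ (Q : Subgroup _) ⊓ Subgroup.prod ⊤ ⊥ ∧ R ≠ (Q : Subgroup _) ⊓ Subgroup.prod ⊥ ⊤ ∧ R ≤ Subgroup.normalizer (B : Set _) := by
  by_contra hcon
  push Not at hcon
  obtain ⟨h1, h2, h3⟩ := hcon
  have h12 : Nat.card (alternatingGroup (Fin 4)) = 12 :=
    alternatingGroup.card_of_card_eq_four (by simp)
  have h4 : ∀ b ∈ B, b * b = 1 := fun b hb => by
    have : b ^ 4 = 1 := pow_eq_one_of_card_eq hB4 hb
    exact Prod.ext (a1 _ (congrArg Prod.fst this)) (a1 _ (congrArg Prod.snd this))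
  have h5 : ∀ b ∈ B, b.2 = 1 → b = 1 := fun b hb h => mem_bot.mp
    (h1 ▸ mem_inf.mpr ⟨hb, mem_inf.mpr ⟨hBX hb, mem_prod.mpr ⟨mem_top _, h⟩⟩⟩)
  have h6 : ∀ b ∈ B, b.1 = 1 → b = 1 := fun b hb h => mem_bot.mp
    (h2 ▸ mem_inf.mpr ⟨hb, mem_inf.mpr ⟨hBX hb, mem_prod.mpr ⟨h, mem_top _⟩⟩⟩)
  have : Nontrivial B := Finite.one_lt_card_iff_nontrivial.mp (by omega)
  have hK : IsKleinFour B := ⟨hB4, (Monoid.exponent_eq_prime_iff Nat.prime_two).mpr fun g hg =>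
    orderOf_eq_prime (Subtype.ext (by rw [sq]; exact h4 g g.2)) hg⟩
  obtain ⟨x, y, hx, hy, hx2, hy2, -, hxy, -, h7⟩ := H3.klein_elems hK
  have hx1 := H3.ne_one_of_orderOf_two hx2
  have hy1 := H3.ne_one_of_orderOf_two hy2
  have hxy1 : x⁻¹ * y ≠ 1 := fun h => hxy (inv_mul_eq_one.mp h)
  obtain ⟨a, ha, ha3, ha1⟩ := a3 Q (Subgroup.prod ⊤ ⊥) (by
    rw [Nat.card_congr (prodEquiv _ _).toEquiv, Nat.card_prod, card_top, h12, card_bot]; decide)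
  obtain ⟨b, hb, hb3, hb1⟩ := a3 Q (Subgroup.prod ⊥ ⊤) (by
    rw [Nat.card_congr (prodEquiv _ _).toEquiv, Nat.card_prod, card_top, h12, card_bot]; decide)
  have ha2 : a.2 = 1 := (mem_inf.mp ha).2.2
  have hb2 : b.1 = 1 := (mem_inf.mp hb).2.1
  have ha4 : a.1 ≠ 1 := fun h => ha1 (Prod.ext h ha2)
  have hb4 : b.2 ≠ 1 := fun h => hb1 (Prod.ext hb2 h)
  obtain ⟨c, hc, hc1, hc2, hc3⟩ := a2 a.1 (congrArg Prod.fst ha3) ha4 x.1
    (congrArg Prod.fst (h4 x hx)) (fun h => hx1 (h6 x hx h)) y.1 (congrArg Prod.fst (h4 y hy))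
    (fun h => hy1 (h6 y hy h)) fun h => hxy1 (h6 _ (mul_mem (inv_mem hx) hy) (inv_mul_eq_one.mpr h))
  obtain ⟨d, hd, hd1, hd2, hd3⟩ := a2 b.2 (congrArg Prod.snd hb3) hb4 x.2
    (congrArg Prod.snd (h4 x hx)) (fun h => hx1 (h5 x hx h)) y.2 (congrArg Prod.snd (h4 y hy))
    (fun h => hy1 (h5 y hy h)) fun h => hxy1 (h5 _ (mul_mem (inv_mem hx) hy) (inv_mul_eq_one.mpr h))
  have h8 : ∃ u ∈ Q.1, u ^ 3 = 1 ∧ u = (c, 1) ∧ c ≠ 1 := by
    rcases hc with rfl | rfl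
    · exact ⟨a, (mem_inf.mp ha).1, ha3, Prod.ext rfl ha2, ha4⟩
    · exact ⟨a⁻¹, inv_mem (mem_inf.mp ha).1, by rw [inv_pow, ha3, inv_one],
        Prod.ext rfl (inv_eq_one.mpr ha2), inv_ne_one.mpr ha4⟩
  have h9 : ∃ u ∈ Q.1, u ^ 3 = 1 ∧ u = (1, d) ∧ d ≠ 1 := by
    rcases hd with rfl | rfl
    · exact ⟨b, (mem_inf.mp hb).1, hb3, Prod.ext hb2 rfl, hb4⟩
    · exact ⟨b⁻¹, inv_mem (mem_inf.mp hb).1, by rw [inv_pow, hb3, inv_one],
        Prod.ext (inv_eq_one.mpr hb2) rfl, inv_ne_one.mpr hb4⟩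
  obtain ⟨_, hu, hu3, rfl, hc4⟩ := h8
  obtain ⟨_, hv, hv3, rfl, hd4⟩ := h9
  have h10 : (c, d) ∈ (Q : Subgroup _) := by simpa using mul_mem hu hv
  refine h3 (zpowers (c, d)) (zpowers_le.mpr h10) ?_ (fun h => hd4 ?_) (fun h => hc4 ?_)
    (zpowers_le.mpr (H1.mem_normalizer_of_conj_mem fun z hz => ?_))
  · rw [Nat.card_zpowers]
    exact orderOf_eq_prime (Prod.ext (congrArg Prod.fst hu3 :) (congrArg Prod.snd hv3 :))
      fun h => hc4 (congrArg Prod.fst h)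
  · exact (mem_inf.mp (h.le (mem_zpowers (c, d)))).2.2
  · exact (mem_inf.mp (h.le (mem_zpowers (c, d)))).2.1
  · rcases h7 z hz with rfl | rfl | rfl | rfl
    · rwa [mul_one, mul_inv_cancel]
    · exact (Prod.ext hc1 hd1 : (c, d) * z * (c, d)⁻¹ = y) ▸ hy
    · exact (Prod.ext hc2 hd2 : (c, d) * z * (c, d)⁻¹ = x * z) ▸ mul_mem hx hy
    · rwa [(Prod.ext hc3 hd3 : (c, d) * (x * y) * (c, d)⁻¹ = x)]

end Cfsg.Agent.S4406
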