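import Cfsg.Statements.S4407
import Cfsg.Agent.H2.PGroup
import Mathlib.GroupTheory.SpecificGroups.Cyclic

set_option autoImplicit false
open Cfsg

namespace Cfsg.Agent.S4407

open Subgroup Cfsg.Agent.H2
open scoped commutatorElement Pointwise

open DihedralGroup

/-- The two four-subgroups of the dihedral group of order eight. -/
def V (i : ZMod 4) : Subgroup (DihedralGroup 4) where
  carrier := {x | x = 1 ∨ x = r 2 ∨ x = sr i ∨ x = sr (i + 2)}
  one_mem' := .inl rfl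
  mul_mem' := by revert i; simp only [Set.mem_ofPred_eq]; decide
  inv_mem' := by revert i; simp only [Set.mem_ofPred_eq]; decide

theorem card_V (i : ZMod 4) : Nat.card (V i) = 4 := by
  change Nat.card {x // x = 1 ∨ x = r 2 ∨ x = sr i ∨ x = sr (i + 2)} = 4
  rw [Nat.card_eq_fintype_card]
  revert i; decide

theorem eq_V {B : Subgroup (DihedralGroup 4)} (h4 : Nat.card B = 4) (h2 : ∀ b ∈ B, b ^ 2 = 1) :
    B = V 0 ∨ B = V 1 := by
  by_contra! h
  obtain ⟨x, hx, hx'⟩ := SetLike.not_le_iff_exists.mp fun h' =>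
    h.1 (eq_of_le_of_card_ge h' ((card_V 0).trans h4.symm).le)
  obtain ⟨y, hy, hy'⟩ := SetLike.not_le_iff_exists.mp fun h' =>
    h.2 (eq_of_le_of_card_ge h' ((card_V 1).trans h4.symm).le)
  have : ∀ x y : DihedralGroup 4, x ^ 2 = 1 ∧ y ^ 2 = 1 ∧ (x * y) ^ 2 = 1 →
      ¬ (x = 1 ∨ x = r 2 ∨ x = sr 0 ∨ x = sr (0 + 2)) →
        (y = 1 ∨ y = r 2 ∨ y = sr 1 ∨ y = sr (1 + 2)) := by decide
  exact hy' (this x y ⟨h2 x hx, h2 y hy, h2 _ (mul_mem hx hy)⟩ hx')

/-- An outer automorphism. -/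
def θ : DihedralGroup 4 ≃* DihedralGroup 4 where
  toFun | r i => r i | sr i => sr (i + 1)
  invFun | r i => r i | sr i => sr (i - 1)
  left_inv := by decide
  right_inv := by decide
  map_mul' := by decide

variable {S : Type*} [Group S] {M : Type*} [AddCommGroup M] [Module (ZMod 2) M]
  (ρ : Representation (ZMod 2) S M)

theorem fix_iff (φ : DihedralGroup 4 →* S) (i : ZMod 4) (m : M) :
    (∀ b ∈ (V i).map φ, ρ b m = m) ↔ ρ (φ (r 2)) m = m ∧ ρ (φ (sr i)) m = m := by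
  refine ⟨fun h => ⟨h _ ⟨_, .inr (.inl rfl), rfl⟩, h _ ⟨_, .inr (.inr (.inl rfl)), rfl⟩⟩, ?_⟩
  rintro ⟨h1, h2⟩ _ ⟨x, rfl | rfl | rfl | rfl, rfl⟩
  · simp
  · exact h1
  · exact h2
  · rw [← sr_mul_r, map_mul, map_mul, Module.End.mul_apply, h1, h2]

theorem exists_fix {s : S} (hs : s * s = 1) {v : M} (hv : v ≠ 0) :
    ∃ w, w ≠ 0 ∧ ρ s w = w ∧ ∀ g, ρ g v = v → ρ g (ρ s v) = ρ s v → ρ g w = w := by
  by_cases h : ρ s v = v
  · exact ⟨v, hv, h, fun _ h _ => h⟩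
  · refine ⟨ρ s v + v, fun h' => h ?_, ?_, fun g h1 h2 => by rw [map_add, h1, h2]⟩
    · rw [eq_neg_of_add_eq_zero_left h', ZModModule.neg_eq_self]
    · rw [map_add, ← Module.End.mul_apply, ← map_mul, hs, map_one, add_comm]; rfl

theorem tr_fix {a : S} (ha : a ^ 3 = 1) (v : M) :
    ρ a (v + ρ a v + ρ a (ρ a v)) = v + ρ a v + ρ a (ρ a v) := by
  have : ρ a (ρ a (ρ a v)) = v := by
    rw [← Module.End.mul_apply, ← Module.End.mul_apply, ← map_mul, ← map_mul, ← pow_three', ha]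
    simp
  rw [map_add, map_add, this]
  abel

theorem key [Finite S] (hfaith : Function.Injective ρ) (hirr : ∀ N : Submodule (ZMod 2) M,
      (∀ s : S, ∀ m ∈ N, ρ s m ∈ N) → N = ⊥ ∨ N = ⊤) (φ : DihedralGroup 4 →* S) {a : S}
    (ha1 : a ≠ 1) (ha : a ^ 3 = 1) (hs : φ (sr 0) * a = a * φ (sr 0))
    (hz : φ (r 2) * a * (φ (r 2))⁻¹ = a⁻¹)
    (hab : a * (φ (r 1) * a * (φ (r 1))⁻¹) = φ (r 1) * a * (φ (r 1))⁻¹ * a)
    (hgen : closure {a, φ (r 1), φ (sr 0)} = ⊤) {v : M} (hv : v ≠ 0) (hav : ρ a v = v) :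
    Nat.card M = 16 ∧ Nat.card {m : M // ∀ b ∈ (V 0).map φ, ρ b m = m} = 4 ∧
      Nat.card {m : M // ∀ b ∈ (V 1).map φ, ρ b m = m} = 2 := by
  have e : ∀ {g h k l : S}, g * h = k * l → ∀ m, ρ g (ρ h m) = ρ k (ρ l m) := fun h m => by
    rw [← Module.End.mul_apply, ← map_mul, h, map_mul, Module.End.mul_apply]
  have e1 : ∀ {g h k : S}, g * h = k → ∀ m, ρ g (ρ h m) = ρ k m := fun h m => by
    rw [← Module.End.mul_apply, ← map_mul, h]
  have hinv : ∀ N : Submodule (ZMod 2) M, (∀ m ∈ N, ρ a m ∈ N) → (∀ m ∈ N, ρ (φ (r 1)) m ∈ N) →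
      (∀ m ∈ N, ρ (φ (sr 0)) m ∈ N) → N = ⊥ ∨ N = ⊤ := fun N h1 h2 h3 => hirr N fun g => by
    have hg : g ∈ Submonoid.closure {a, φ (r 1), φ (sr 0)} := by
      rw [← closure_toSubmonoid_of_finite, hgen]; trivial
    induction hg using Submonoid.closure_induction with
    | mem x hx => rcases hx with rfl | rfl | rfl <;> assumption
    | one => simp
    | mul x y _ _ h1 h2 => exact fun m hm => e1 rfl m ▸ h1 _ (h2 m hm)
  have hrr : φ (r 1) * φ (r 1) = φ (r 2) := (map_mul φ _ _).symm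
  have hss : φ (sr 0) * φ (sr 0) = 1 := by rw [← map_mul]; exact φ.map_one
  have hzz : φ (r 2) * φ (r 2) = 1 := by rw [← map_mul]; exact φ.map_one
  have hsz : φ (sr 0) * φ (r 2) = φ (r 2) * φ (sr 0) := by rw [← map_mul, ← map_mul]; rfl
  have hsr : φ (sr 0) * φ (r 1) = φ (r 1) * (φ (r 2) * φ (sr 0)) := by
    rw [← map_mul, ← map_mul, ← map_mul]; rfl
  have hsr1 : φ (sr 0) * φ (r 1) = φ (sr 1) := (map_mul φ _ _).symm
  simp only [fix_iff]
  generalize φ (r 1) = t, φ (sr 0) = s, φ (r 2) = z, φ (sr 1) = s' at *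
  obtain ⟨b, hb⟩ : ∃ b, b * t = t * a := ⟨t * a * t⁻¹, by group⟩
  rw [← eq_mul_inv_of_mul_eq hb] at hab
  have ha2 : a⁻¹ = a * a := by rw [inv_eq_iff_mul_eq_one, ← pow_three, ha]
  have hb3 : b ^ 3 = 1 := by rw [eq_mul_inv_of_mul_eq hb, conj_pow, ha]; group
  have hza : a * z = z * (a * a) := by
    rw [← ha2, ← hz, ← mul_assoc, ← mul_assoc, hzz, one_mul, inv_eq_of_mul_eq_one_right hzz]
  have htb : t * b = a * a * t := by
    rw [← ha2, ← hz, ← hrr, eq_mul_inv_of_mul_eq hb]; group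
  have hat : a * t = t * (b * b) := by
    rw [← mul_assoc, htb, mul_assoc, htb, ← mul_assoc, ← mul_assoc, ← pow_three', ha, one_mul]
  have hsb : s * b = b * b * s := by
    refine mul_right_cancel (b := t) ?_
    rw [mul_assoc, hb, ← mul_assoc, hsr, mul_assoc (b * b), hsr, ← mul_assoc (b * b), mul_assoc b,
      hb, ← mul_assoc b, hb, mul_assoc t, mul_assoc z, hs, mul_assoc t, mul_assoc t, ← mul_assoc z,
      ← mul_assoc _ z, eq_mul_of_mul_inv_eq hz, ha2]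
  have hbs : b * s = s * (b * b) := by
    rw [← mul_assoc, hsb, mul_assoc, hsb, ← mul_assoc, ← mul_assoc, ← pow_three', hb3, one_mul]
  have h0 : ∀ m, ρ a m = m → ρ b m = m → m = 0 := fun m h1 h2 => by
    refine (Submodule.eq_bot_iff _).mp ((hinv (LinearMap.eqLocus (ρ a) 1 ⊓
      LinearMap.eqLocus (ρ b) 1) ?_ ?_ ?_).resolve_right fun h => ha1 (hfaith (LinearMap.ext
        fun m => (h.ge Submodule.mem_top).1.trans (by simp)))) m ⟨h1, h2⟩
    all_goals
      rintro m ⟨h1 : ρ a m = m, h2 : ρ b m = m⟩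
    · rw [h1]; exact ⟨h1, h2⟩
    · exact ⟨(e hat m).trans (by rw [← e1 rfl, h2, h2]; rfl), (e hb m).trans (by rw [h1]; rfl)⟩
    · exact ⟨(e hs m).symm.trans (by rw [h1]; rfl), (e hbs m).trans (by rw [← e1 rfl, h2, h2]; rfl)⟩
  obtain ⟨v', hv', h1, h2⟩ := exists_fix ρ hss hv
  replace h2 := h2 a hav (by rw [← e hs, hav])
  obtain ⟨u, hu, hzu, h3⟩ := exists_fix ρ hzz hv'
  have hsu := h3 s h1 (by rw [e hsz, h1])
  have hau := h3 a h2 (by rw [e hza, ← e1 rfl, h2, h2])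
  have hbw : ρ b (ρ t u) = ρ t u := by rw [e hb, hau]
  have habu : ρ a (ρ b u) = ρ b u := by rw [e hab, hau]
  have hbaw : ρ b (ρ a (ρ t u)) = ρ a (ρ t u) := by rw [← e hab, hbw]
  have hbb : ρ b (ρ b u) = u + ρ b u := by
    rw [← ZModModule.neg_eq_self (u + _), eq_neg_iff_add_eq_zero, add_comm]
    exact h0 _ (by rw [map_add, map_add, e hab (ρ b u), hau, habu]) (tr_fix ρ hb3 u)
  have haa : ρ a (ρ a (ρ t u)) = ρ t u + ρ a (ρ t u) := by
    rw [← ZModModule.neg_eq_self (_ + _), eq_neg_iff_add_eq_zero, add_comm]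
    exact h0 _ (tr_fix ρ ha _) (by rw [map_add, map_add, ← e hab (ρ a _), hbw, hbaw])
  have htt : ρ t (ρ t u) = u := (e1 hrr u).trans hzu
  have hst : ρ s (ρ t u) = ρ t u := by rw [e hsr, ← e1 rfl, hsu, hzu]
  let K := ZMod 2 × ZMod 2 × ZMod 2 × ZMod 2
  let f : K →ₗ[ZMod 2] M :=
    { toFun := fun c => c.1 • u + c.2.1 • ρ b u + (c.2.2.1 • ρ t u + c.2.2.2 • ρ a (ρ t u))
      map_add' := fun c d => by simp only [K, Prod.fst_add, Prod.snd_add, add_smul]; abel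
      map_smul' := fun c d => by simp [K, mul_smul] }
  have fa : ∀ c : K, ρ a (f c) = f (c.1, c.2.1, c.2.2.2, c.2.2.1 + c.2.2.2) := fun c => by
    simp only [f, LinearMap.coe_mk, AddHom.coe_mk, map_add, map_smul, hau, habu, haa, add_smul,
      smul_add]
    abel
  have ft : ∀ c : K, ρ t (f c) = f (c.2.2.1, c.2.2.2, c.1 + c.2.1, c.2.1) := fun c => by
    simp only [f, LinearMap.coe_mk, AddHom.coe_mk, map_add, map_smul, htt, e htb, ← e1 (g := a) rfl,
      haa, ← e hb, add_smul, smul_add]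
    abel
  have fs : ∀ c : K, ρ s (f c) = f (c.1 + c.2.1, c.2.1, c.2.2.1, c.2.2.2) := fun c => by
    simp only [f, LinearMap.coe_mk, AddHom.coe_mk, map_add, map_smul, hsu, e hsb,
      ← e1 (g := b) rfl, hbb, e hs, hst, add_smul, smul_add]
    abel
  have hind : ∀ (g : S) (x : M) (c d : ZMod 2), x ≠ 0 → ρ g x ≠ x → c • x + d • ρ g x = 0 →
      c = 0 ∧ d = 0 := fun g x c d h1 h2 h => by
    have h01 : ∀ c : ZMod 2, c = 0 ∨ c = 1 := by decide
    obtain rfl | rfl := h01 c <;> obtain rfl | rfl := h01 d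
    · exact ⟨rfl, rfl⟩
    · exact (h1 ((ρ.apply_bijective g).1 (by simpa using h))).elim
    · exact (h1 (by simpa using h)).elim
    · refine (h2 ?_).elim
      rw [one_smul, one_smul] at h
      rw [eq_neg_of_add_eq_zero_right h, ZModModule.neg_eq_self]
  have htu : ρ t u ≠ 0 := fun h => hu ((ρ.apply_bijective t).1 (h.trans (map_zero _).symm))
  have hf : Function.Bijective f := by
    refine ⟨(injective_iff_map_eq_zero f).mpr fun c hc => ?_, LinearMap.range_eq_top.mp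
      ((hinv _ ?_ ?_ ?_).resolve_left fun h => hu ((Submodule.eq_bot_iff _).mp h u
        ⟨(1, 0, 0, 0), by simp [f]⟩))⟩
    · have h4 : c.1 • u + c.2.1 • ρ b u = 0 := h0 _ (by simp [hau, habu]) (by
        rw [eq_neg_of_add_eq_zero_left hc]; simp [hbw, hbaw])
      have h5 := hind b u _ _ hu (fun h => hu (h0 u hau h)) h4
      have h6 := hind a _ _ _ htu (fun h => htu (h0 _ h hbw)) (by
        simpa only [f, LinearMap.coe_mk, AddHom.coe_mk, h4, zero_add] using hc)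
      exact Prod.ext h5.1 (Prod.ext h5.2 (Prod.ext h6.1 h6.2))
    all_goals
      rintro _ ⟨c, rfl⟩
    exacts [⟨_, (fa c).symm⟩, ⟨_, (ft c).symm⟩, ⟨_, (fs c).symm⟩]
  let g := Equiv.ofBijective f hf
  refine ⟨by rw [← Nat.card_congr g]; simp [K], ?_, ?_⟩
  · rw [← Nat.card_congr (g.subtypeEquiv (p := fun c => c.2.1 = 0 ∧ c.2.2.2 = 0) fun c => ?_),
      Nat.card_eq_fintype_card]
    · decide
    · simp only [g, Equiv.ofBijective_apply, ← e1 hrr, ft, fs, hf.1.eq_iff]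
      revert c; decide
  · rw [← Nat.card_congr (g.subtypeEquiv (p := fun c => c.2.1 = 0 ∧ c.2.2.2 = 0 ∧ c.1 = c.2.2.1)
      fun c => ?_), Nat.card_eq_fintype_card]
    · decide
    · simp only [g, Equiv.ofBijective_apply, ← e1 hrr, ← e1 hsr1, ft, fs, hf.1.eq_iff]
      revert c; decide

/-- Let S be a finite group with a normal elementary abelian subgroup A of order 9 that is self-centralizing (C_S(A) = A), and a dihedral subgroup X of order 8 with S = AX. Let M be a finite-dimensional module for S over the field with two elements that is faithful and irreducible. Then M has 16 elements, and X contains exactly one subgroup B of order 4 and exponent 2 whose fixed points on M form a subspace with exactly 2 elements (equivalently, M is free of rank one over the group algebra of B). -/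
theorem result {S : Type*} [Group S] [Finite S]
    (A : Subgroup S) [A.Normal] (hA : Cfsg.IsElementaryAbelian 3 A) (hA9 : Nat.card ↥A = 9)
    (hAC : Subgroup.centralizer (A : Set S) = A) (X : Subgroup S) (hX : Nonempty (↥X ≃* DihedralGroup 4)) (hAX : A ⊔ X = ⊤)
    {M : Type*} [AddCommGroup M] [Module (ZMod 2) M] [Finite M] (ρ : Representation (ZMod 2) S M)
    (hfaith : Function.Injective ρ)
    (hirr : ∀ N : Submodule (ZMod 2) M, (∀ s : S, ∀ m ∈ N, ρ s m ∈ N) → N = ⊥ ∨ N = ⊤) (hM : Nontrivial M) :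
    Nat.card M = 16 ∧
      ∃! B : Subgroup S, B ≤ X ∧ Nat.card ↥B = 4 ∧ (∀ b ∈ B, b ^ 2 = 1) ∧
        Nat.card {m : M // ∀ b ∈ B, ρ b m = m} = 2 := by
  obtain ⟨e⟩ := hX
  obtain ⟨φ, hφ, hφX⟩ : ∃ φ : DihedralGroup 4 →* S, Function.Injective φ ∧ φ.range = X :=
    ⟨X.subtype.comp e.symm.toMonoidHom, X.subtype_injective.comp e.symm.injective, by
      rw [MonoidHom.range_comp, MonoidHom.range_eq_top.mpr e.symm.surjective,
        ← MonoidHom.range_eq_map, range_subtype]⟩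
  have hc : ∀ {a b : S}, a ∈ A → b ∈ A → a * b = b * a := fun ha hb =>
    haveI := hA.1; setLike_mul_comm ha hb
  have h1 : ∀ a ∈ A, a * a = 1 → a = 1 := fun a ha h => by
    have := hA.2 a ha
    rwa [pow_three', h, one_mul] at this
  have h2 : ∀ d : DihedralGroup 4, d * d = 1 → d ≠ 1 → ∃ a ∈ A, φ d * a * (φ d)⁻¹ ≠ a :=
    fun d h h' => by
      by_contra! h3
      refine h' (hφ ((h1 _ (hAC.le fun a ha => (mul_inv_eq_iff_eq_mul.mp (h3 a ha)).symm)
        (by rw [← map_mul, h, map_one])).trans φ.map_one.symm))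
  have hn : ∀ g : S, ∀ a ∈ A, g * a * g⁻¹ ∈ A := fun g a ha => Normal.conj_mem ‹_› a ha g
  have hinv : ∀ d : DihedralGroup 4, d * d = 1 → ∀ a, φ d * (φ d * a * (φ d)⁻¹) * (φ d)⁻¹ = a :=
    fun d h a => by
      rw [← mul_assoc, ← mul_assoc, mul_assoc, ← mul_inv_rev, ← map_mul, h, map_one]; group
  have hz : ∀ a ∈ A, φ (r 2) * a * (φ (r 2))⁻¹ = a⁻¹ := by
    let I : Subgroup S :=
      { carrier := {a | a ∈ A ∧ φ (r 2) * a * (φ (r 2))⁻¹ = a⁻¹}
        one_mem' := ⟨one_mem A, by simp⟩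
        mul_mem' := fun {a b} ha hb => ⟨mul_mem ha.1 hb.1, by
          rw [← conj_mul, ha.2, hb.2, ← mul_inv_rev, hc ha.1 hb.1]⟩
        inv_mem' := fun {a} ha => ⟨inv_mem ha.1, by rw [← conj_inv, ha.2]⟩ }
    have hIA : I ≤ A := fun a ha => ha.1
    obtain ⟨x, hx, hx'⟩ := h2 (r 2) rfl (by decide)
    have hd : x⁻¹ * (φ (r 2) * x * (φ (r 2))⁻¹) ∈ I := ⟨mul_mem (inv_mem hx) (hn _ x hx), by
      rw [← conj_mul, hinv _ rfl]; group⟩
    obtain ⟨k, hk, h3⟩ := (Nat.dvd_prime_pow Nat.prime_three (m := 2)).mp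
      ((card_dvd_of_le hIA).trans hA9.dvd)
    interval_cases k
    · exact (hx' (inv_mul_eq_one.mp (mem_bot.mp ((card_eq_one.mp h3).le hd))).symm).elim
    · haveI := isCyclic_of_prime_card (p := 3) h3
      have h4 : φ (r 1) ∈ normalizer (I : Set S) := zpowers_le.mp (le_normalizer_of_conj_mem (by
        rintro _ ⟨i, rfl⟩ a ha
        have : Commute (φ (r 2)) (φ (r 1) ^ i) := 
          (Commute.map (show r 2 * r 1 = r 1 * r 2 from rfl) φ).zpow_right i
        exact ⟨hn _ a ha.1, by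
          rw [← mul_assoc, ← mul_assoc, this.eq, mul_assoc, ← mul_inv_rev, this.eq, mul_inv_rev,
            conj_inv, ← ha.2]; group⟩))
      have h5 := pow_card_eq_one' (x := I.normalizerMonoidHom ⟨_, h4⟩)
      rw [IsCyclic.card_mulAut, h3, ← map_pow] at h5
      have h6 := (mem_subgroupOf.mp ((normalizerMonoidHom_ker I).le h5) _ hd).symm
      rw [coe_pow, ← map_pow, show r 1 ^ Nat.totient (3 ^ 1) = (r 2 : DihedralGroup 4) by decide,
        ← mul_inv_eq_iff_eq_mul, hd.2, inv_eq_iff_mul_eq_one] at h6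
      exact (hx' (inv_mul_eq_one.mp (h1 _ hd.1 h6)).symm).elim
    · exact fun a ha => ((eq_of_le_of_card_ge hIA (hA9.trans h3.symm).le).ge ha).2
  have hgen : ∀ ψ : DihedralGroup 4 →* S, ψ.range = X → ψ (r 2) = φ (r 2) → ∀ a ∈ A, a ≠ 1 →
      ψ (sr 0) * a = a * ψ (sr 0) → closure {a, ψ (r 1), ψ (sr 0)} = ⊤ := fun ψ h3 h4 a ha h5 h6 => by
    set K := closure {a, ψ (r 1), ψ (sr 0)}
    have k1 : a ∈ K := subset_closure (by simp)
    have k2 : ψ (r 1) ∈ K := subset_closure (by simp)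
    have k3 : ψ (sr 0) ∈ K := subset_closure (by simp)
    refine eq_top_iff.mpr (hAX.ge.trans (sup_le ?_ ?_))
    · have h7 : ψ (r 1) * a * (ψ (r 1))⁻¹ ∉ zpowers a := fun h => by
        have h8 := zpowers_le.mpr (mem_centralizer_singleton_iff.mpr h6.symm) h
        have h9 : ψ (sr 0) * ψ (r 1) = ψ (r 1) * (ψ (sr 0) * φ (r 2)) := by
          rw [← h4, ← map_mul, ← map_mul, ← map_mul]; rfl
        refine h5 (h1 a ha (inv_eq_iff_mul_eq_one.mp ?_))
        rw [← hz a ha, mul_inv_eq_iff_eq_mul, ← mul_right_inj (ψ (r 1) * ψ (sr 0)), ← mul_assoc,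
          mul_assoc (ψ _), ← h9, ← mul_inv_cancel_right (ψ (sr 0) * ψ (r 1) * a) (ψ (r 1))⁻¹,
          mul_assoc (ψ _), mul_assoc (ψ _), ← mem_centralizer_singleton_iff.mp h8, inv_inv,
          mul_assoc, h9, ← mul_assoc _ a, mul_assoc (ψ _) _ a, h6]
        group
      have h8 : orderOf a = 3 := orderOf_eq_prime (hA.2 a ha) h5
      haveI := hA.1
      rw [← eq_of_le_of_card_ge (sup_le (zpowers_le.mpr ha) (zpowers_le.mpr (hn _ a ha))) (by
        rw [card_sup_zpowers_eq (p := 3) (le_normalizer_of_conj_mem (H := A) (fun x hx y hy => by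
          rwa [hc hx (zpowers_le.mpr ha hy), mul_inv_cancel_right]) (hn _ a ha)) h7
          (hA.2 _ (hn _ a ha) ▸ one_mem _), Nat.card_zpowers, h8, hA9])]
      exact sup_le (zpowers_le.mpr k1) (zpowers_le.mpr (mul_mem (mul_mem k2 k1) (inv_mem k2)))
    · rw [← h3]
      rintro _ ⟨i | i, rfl⟩
      · rw [← ZMod.natCast_zmod_val i, ← r_one_pow, map_pow]
        exact pow_mem k2 _
      · rw [← zero_add i, ← sr_mul_r, ← ZMod.natCast_zmod_val i, ← r_one_pow, map_mul, map_pow]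
        exact mul_mem k3 (pow_mem k2 _)
  have hV : ∀ i j, (i = 0 ∧ j = 1 ∨ i = 1 ∧ j = 0) →
      Nat.card {m : M // ∀ b ∈ (V i).map φ, ρ b m = m} = 4 →
      Nat.card {m : M // ∀ b ∈ (V j).map φ, ρ b m = m} = 2 → ∃! B : Subgroup S, B ≤ X ∧
        Nat.card B = 4 ∧ (∀ b ∈ B, b ^ 2 = 1) ∧ Nat.card {m : M // ∀ b ∈ B, ρ b m = m} = 2 :=
    fun i j hij h3 h4 => ⟨_, ⟨hφX ▸ map_le_range φ _, (card_map_of_injective hφ).trans (card_V j), by
      rintro _ ⟨x, rfl | rfl | rfl | rfl, rfl⟩ <;> rw [← map_pow, ← φ.map_one] <;> congr 1 <;>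
        simp [sq], h4⟩, fun B ⟨h5, h6, h7, h8⟩ => by
      rw [← hφX] at h5
      obtain ⟨C, rfl⟩ : ∃ C : Subgroup _, C.map φ = B := ⟨_, map_comap_eq_self h5⟩
      rcases eq_V ((card_map_of_injective hφ).symm.trans h6) fun b hb => hφ (by
        rw [map_pow, h7 _ ⟨b, hb, rfl⟩, map_one]) with rfl | rfl <;>
        rcases hij with ⟨rfl, rfl⟩ | ⟨rfl, rfl⟩ <;> first | rfl | omega⟩
  obtain ⟨a, ha, ha1, hs⟩ : ∃ a ∈ A, a ≠ 1 ∧ φ (sr 0) * a = a * φ (sr 0) := by
    obtain ⟨x, hx, h3⟩ := h2 (sr 0 * r 2) rfl (by decide)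
    refine ⟨_, mul_mem hx (hn (φ (sr 0)) x hx), fun h => h3 ?_, mul_inv_eq_iff_eq_mul.mp ?_⟩
    · rw [map_mul, mul_inv_rev, show ∀ s z : S, s * z * x * (z⁻¹ * s⁻¹) = s * (z * x * z⁻¹) * s⁻¹
        by intros; group, hz x hx, ← conj_inv, inv_eq_iff_mul_eq_one, hc (hn _ x hx) hx, h]
    · rw [← conj_mul, hinv _ rfl, hc (hn _ x hx) hx]
  set b := φ (r 1) * a * (φ (r 1))⁻¹ with hb
  have hbA : b ∈ A := hn _ a ha
  have htb : φ (r 1) * b * (φ (r 1))⁻¹ = a⁻¹ := by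
    rw [← hz a ha, show (r 2 : DihedralGroup 4) = r 1 * r 1 from rfl, map_mul, hb]; group
  have hsb : φ (sr 0) * b * (φ (sr 0))⁻¹ = b⁻¹ := by
    rw [← hz b hbA, hb, ← mul_assoc, ← mul_assoc, ← mul_assoc, ← mul_assoc, mul_assoc _ _ (_)⁻¹,
      mul_assoc _ _ (φ _)⁻¹, ← mul_inv_rev, ← mul_inv_rev, ← map_mul, ← map_mul,
      show (sr 0 * r 1 : DihedralGroup 4) = r 2 * r 1 * sr 0 from rfl, map_mul, mul_assoc _ _ a, hs]
    group
  by_cases h3 : ∃ v, v ≠ 0 ∧ ρ a v = v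
  · obtain ⟨v, hv, h3⟩ := h3
    obtain ⟨h4, h5, h6⟩ := key ρ hfaith hirr φ ha1 (hA.2 a ha) hs (hz a ha) (hc ha hbA)
      (hgen φ hφX rfl a ha ha1 hs) hv h3
    exact ⟨h4, hV 0 1 (.inl ⟨rfl, rfl⟩) h5 h6⟩
  have hab := mul_mem ha (inv_mem hbA)
  by_cases h4 : ∃ v, v ≠ 0 ∧ ρ (a * b⁻¹) v = v
  · obtain ⟨v, hv, h4⟩ := h4
    have h5 : a * b⁻¹ ≠ 1 := fun h => by
      rw [← mul_inv_eq_one.mp h, hs, mul_inv_cancel_right, eq_inv_iff_mul_eq_one] at hsb
      exact ha1 (h1 a ha hsb)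
    have h6 : φ (sr 1) * (a * b⁻¹) = a * b⁻¹ * φ (sr 1) := by
      rw [← mul_inv_eq_iff_eq_mul, show (sr 1 : DihedralGroup 4) = sr 0 * r 1 from rfl, map_mul,
        show ∀ s t : S, s * t * (a * b⁻¹) * (s * t)⁻¹ = s * (t * a * t⁻¹) * s⁻¹ *
          (s * (t * b * t⁻¹)⁻¹ * s⁻¹) by intros; group, ← hb, hsb, htb, inv_inv, hs,
        mul_inv_cancel_right, hc ha (inv_mem hbA)]
    obtain ⟨h7, h8, h9⟩ := key ρ hfaith hirr (φ.comp θ.toMonoidHom) h5 (hA.2 _ hab) h6 (hz _ hab)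
      (hc hab (hn _ _ hab)) (hgen (φ.comp θ.toMonoidHom) (by
        rw [MonoidHom.range_comp, (MonoidHom.range_eq_top (f := θ.toMonoidHom)).mpr θ.surjective,
          ← MonoidHom.range_eq_map, hφX]) rfl _ hab h5 h6) hv h4
    simp only [fix_iff] at h8 h9 hV
    refine ⟨h7, hV 1 0 (.inr ⟨rfl, rfl⟩) h8 ((Nat.card_congr (.subtypeEquivRight fun m =>
      and_congr_right fun h : ρ (φ (r 2)) m = m => ?_)).trans h9)⟩
    change _ ↔ ρ (φ (sr 0 * r 2)) m = m
    rw [map_mul, map_mul, Module.End.mul_apply, h]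
  exfalso
  push Not at h3 h4
  have h5 : ∀ g x : S, (∀ v, v ≠ 0 → ρ x v ≠ v) → ∀ v, ρ (g * x * g⁻¹) v = v → v = 0 :=
    fun g x h v h' => (ρ.apply_bijective g⁻¹).1 ((not_imp_not.mp (h _) (by
      conv_rhs => rw [← h']
      simp only [← Module.End.mul_apply, ← map_mul]; group)).trans (map_zero _).symm)
  obtain ⟨v, hv⟩ := exists_ne (0 : M)
  have h6 : ∀ v, v + ρ a v + ρ a (ρ a v) = 0 := fun v =>
    not_imp_not.mp (h3 _) (tr_fix ρ (hA.2 a ha) v)
  have h7 := h5 _ a h3 _ (tr_fix ρ (hA.2 b hbA) v)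
  have e : ∀ m, ρ a (ρ b m) = ρ b (ρ a m) := fun m => by
    simp only [← Module.End.mul_apply, ← map_mul, hc ha hbA]
  have h8 : ρ a (ρ b v + ρ a v + v) = ρ b v + ρ b (ρ a v) + ρ b (ρ b v) := by
    rw [map_add, map_add, e, add_assoc, eq_neg_of_add_eq_zero_right (h6 v),
      eq_neg_of_add_eq_zero_right h7]
    abel
  have h9 : ρ b v + ρ a v + v = 0 := not_imp_not.mp (h4 _) ((ρ.apply_bijective b).1 (by
    rw [← Module.End.mul_apply, ← map_mul, ← mul_assoc, ← hc ha hbA, mul_inv_cancel_right, h8,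
      map_add, map_add]
    abel))
  refine hv (h5 (φ (r 1)) _ h4 v ?_)
  rw [← conj_mul, ← hb, ← conj_inv, htb, inv_inv, map_mul, Module.End.mul_apply, ← e,
    eq_neg_of_add_eq_zero_left ((add_assoc _ _ _).symm.trans h9), map_neg, map_add,
    neg_eq_iff_add_eq_zero, ← h6 v]
  abel

end Cfsg.Agent.S4407
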