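import Cfsg.Statements.S4408
import Cfsg.Agent.H2.Elem2
import Cfsg.Agent.H2.Class2
import Cfsg.Agent.L.Comp

set_option autoImplicit false
open Cfsg

namespace Cfsg.Agent.S4408

open Subgroup Cfsg.Agent.H2
open scoped commutatorElement Pointwise

theorem aux {S : Type*} [Group S] [Finite S] {I A : Subgroup S} (hI : IsMulCommutative I)
    (hI2 : ∀ a ∈ I, a ^ 2 = 1) (hA : IsMulCommutative A) (hIA : I ≤ normalizer (A : Set S))
    (hAo : Odd (Nat.card A)) (hC : I ⊓ centralizer (A : Set S) = ⊥) {n : ℕ}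
    (hn : Nat.card I = 2 ^ n) (k : ℕ) (hk : k ≤ n) :
    ∃ f : Fin k → Subgroup S, (∀ i, (Nat.card (f i)).Prime) ∧ (∀ i, f i ≤ A) ∧
      (∀ i, I ≤ normalizer ((f i) : Set S)) ∧
      Nat.card ↥(⨆ i, f i) = ∏ i, Nat.card ↥(f i) ∧
      Nat.card (I ⊓ centralizer ((⨆ i, f i : Subgroup S) : Set S) : Subgroup S) * 2 ^ k = 2 ^ n := by
  induction k with
  | zero =>
    refine ⟨Fin.elim0, by simp, by simp, by simp, by simp, ?_⟩
    rw [iSup_of_empty, coe_bot, pow_zero, mul_one, ← hn]
    congr 2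
    exact inf_eq_left.mpr fun x _ => mem_centralizer_singleton_iff.mpr (by simp)
  | succ k ih =>
    obtain ⟨f, h1, h2, h3, h4, h5⟩ := ih (by omega)
    set B := ⨆ i, f i with hB
    set J := I ⊓ centralizer (B : Set S) with hJ
    have hBA : B ≤ A := iSup_le h2
    have hIp := isPGroup_of_pow_eq_one hI2
    have hJA : J ≤ normalizer (A : Set S) := inf_le_left.trans hIA
    have hK : ¬ ⁅A, J⁆ ≤ ⊥ := by
      intro h
      rw [le_bot_iff, commutator_comm, commutator_eq_bot_iff_le_centralizer] at h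
      have : J = ⊥ := eq_bot_iff.mpr (hC ▸ le_inf inf_le_left h)
      rw [this, card_bot, one_mul] at h5
      have := Nat.pow_right_injective le_rfl h5
      omega
    have hKA : ⁅A, J⁆ ≤ A := commutator_le_left_of_le_normalizer hJA
    obtain ⟨x₀, hx₀, hx1, hx2⟩ := exists_mem_not_mem_inverted hI hI2
      (le_normalizer_commutator hIA (le_normalizer_of_le_centralizer ((le_centralizer I).trans
        (centralizer_le (SetLike.coe_subset_coe.mpr inf_le_left)))))
      (hAo.of_dvd_nat (card_dvd_of_le hKA)) hK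
    obtain ⟨m, hm⟩ := exists_prime_orderOf_pow (x := x₀) hx1
    set x := x₀ ^ m with hx
    have hx3 : ∀ t ∈ I, t * x * t⁻¹ = x ∨ t * x * t⁻¹ = x⁻¹ := fun t ht => by
      rw [hx, ← conj_pow]
      rcases hx2 t ht with h | h <;> rw [h]
      · exact Or.inl rfl
      · exact Or.inr (inv_pow _ _)
    have hxK : x ∈ ⁅A, J⁆ := pow_mem hx₀ m
    have hdis := centralizer_inf_commutator_eq_bot hJA
      (coprime_card_of_odd (hIp.to_le inf_le_left) hAo) hA
    have hx4 : x ≠ 1 := fun h => by rw [h, orderOf_one] at hm; exact Nat.not_prime_one hm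
    have hsup : ⨆ i, (Fin.cons (zpowers x) f : Fin (k + 1) → Subgroup S) i = B ⊔ zpowers x :=
      le_antisymm (iSup_le fun i => Fin.cases le_sup_right (fun i => le_sup_of_le_left
        (le_iSup f i)) i) (sup_le (iSup_le fun i => le_iSup_of_le i.succ le_rfl)
          (le_iSup_of_le 0 le_rfl))
    refine ⟨Fin.cons (zpowers x) f, Fin.cases (by simpa using hm) h1,
      Fin.cases (zpowers_le.mpr (hKA hxK)) h2,
      Fin.cases (le_normalizer_zpowers_of_conj hx3) h3, ?_, ?_⟩
    · rw [hsup, Fin.prod_univ_succ]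
      have h6 := card_sup_mul_card_inf (H := B) (K := zpowers x) (le_normalizer_of_le_centralizer
        (hBA.trans ((le_centralizer A).trans (centralizer_le
          (SetLike.coe_subset_coe.mpr (zpowers_le.mpr (hKA hxK)))))))
      have h7 : B ⊓ zpowers x = ⊥ := eq_bot_iff.mpr (hdis ▸ inf_le_inf
        (le_centralizer_iff.mp inf_le_right) (zpowers_le.mpr hxK))
      rw [h7, card_bot, mul_one, h4, mul_comm] at h6
      exact h6
    · rw [hsup, centralizer_sup_zpowers, ← inf_assoc, ← hJ, ← h5, pow_succ', ← mul_assoc,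
        ← card_inf_mul_relIndex (centralizer {x}) J, inf_comm]
      congr 2
      symm
      have h6 : ¬ J ≤ centralizer {x} := fun h => hx4 (mem_bot.mp (hdis ▸ mem_inf.mpr
        ⟨fun t ht => mem_centralizer_singleton_iff.mp (h ht), hxK⟩))
      obtain ⟨a, ha, ha'⟩ := SetLike.not_le_iff_exists.mp h6
      have h7 : ∀ t ∈ J, t ∉ centralizer {x} → t * x * t⁻¹ = x⁻¹ := fun t ht ht' =>
        (hx3 t (mem_inf.mp ht).1).resolve_left fun h =>
          ht' (mem_centralizer_singleton_iff.mpr (mul_inv_eq_iff_eq_mul.mp h))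
      rw [relIndex_eq_two_iff]
      refine ⟨a, ha, fun b hb => ?_⟩
      by_cases h : b ∈ centralizer {x}
      · exact Or.inr ⟨h, fun h' => ha' ((mul_mem_cancel_left h).mp h')⟩
      · refine Or.inl ⟨mem_centralizer_singleton_iff.mpr (mul_inv_eq_iff_eq_mul.mp ?_), h⟩
        calc b * a * x * (b * a)⁻¹ = b * (a * x * a⁻¹) * b⁻¹ := by group
          _ = (b * x * b⁻¹)⁻¹ := by rw [h7 a ha ha']; group
          _ = x := by rw [h7 b hb h, inv_inv]

/-- Let S be a finite solvable group whose Fitting subgroup F(S) has odd order, and let I be an elementary abelian 2-subgroup of S of order 2ⁿ with n ≥ 1. Then F(S) contains subgroups A₁, …, Aₙ of prime order, each normalized by I, pairwise commuting and generating a subgroup A of order |A₁|⋯|Aₙ| (their internal direct product), such that no non-identity element of I centralizes A. -/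
theorem result {S : Type*} [Group S] [Finite S]
    [Group.IsSolvable S] (hF : Odd (Nat.card ↥(Cfsg.fittingSubgroup S)))
    (I : Subgroup S) (hI : Cfsg.IsElementaryAbelian 2 I) (n : ℕ) (hn : 1 ≤ n) (hIn : Nat.card ↥I = 2 ^ n) :
    ∃ f : Fin n → Subgroup S, (∀ i, (Nat.card ↥(f i)).Prime) ∧ (∀ i, f i ≤ Cfsg.fittingSubgroup S) ∧
      (∀ i, I ≤ Subgroup.normalizer ((f i) : Set S)) ∧ (∀ i j, i ≠ j → ∀ a ∈ f i, ∀ b ∈ f j, a * b = b * a) ∧
      Nat.card ↥(⨆ i, f i) = ∏ i, Nat.card ↥(f i) ∧ I ⊓ Subgroup.centralizer ((⨆ i, f i : Subgroup S) : Set S) = ⊥ := by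
  obtain ⟨A, -, hAF, hA, hIA, hC⟩ := exists_invariant_self_centralizing hI.1 hI.2
    le_normalizer_of_normal hF bot_le inferInstance le_normalizer_of_normal
  have hIp := isPGroup_of_pow_eq_one hI.2
  have hcop := coprime_card_of_odd (hIp.to_le (inf_le_left (b := centralizer (A : Set S)))) hF
  have h1 : I ⊓ centralizer (A : Set S) = ⊥ := by
    have h2 := le_centralizer_of_self_centralizing le_normalizer_of_normal hcop hAF hC
      (le_centralizer_iff.mp inf_le_right)
    have h3 := (le_centralizer_iff.mp h2).trans L.centralizer_fitting_le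
    exact card_eq_one.mp (Nat.Coprime.eq_one_of_dvd hcop (card_dvd_of_le h3))
  obtain ⟨f, h2, h3, h4, h5, h6⟩ := aux hI.1 hI.2 hA hIA (hF.of_dvd_nat (card_dvd_of_le hAF)) h1
    hIn n le_rfl
  refine ⟨f, h2, fun i => (h3 i).trans hAF, h4,
    fun i j _ a ha b hb => setLike_mul_comm (h3 i ha) (h3 j hb), h5, card_eq_one.mp ?_⟩
  exact Nat.eq_of_mul_eq_mul_right (by positivity) (h6.trans (one_mul _).symm)

end Cfsg.Agent.S4408
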