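import Cfsg.Statements.S4409
import Cfsg.Agent.H2.N8
import Cfsg.Agent.H2.Extra
import Cfsg.Agent.H2.Hall
import Cfsg.Agent.H2.Maschke
import Cfsg.Agent.L.Subnormal
import Cfsg.Agent.L.PSolv
import Cfsg.Agent.H1.Basic

set_option autoImplicit false
open Cfsg

namespace Cfsg.Agent.S4409

open Subgroup Cfsg.Agent.H2
open scoped commutatorElement Pointwise

variable {G : Type*} [Group G] [Finite G]

omit [Finite G] in
theorem comm_le {M Z Q : Subgroup G} (h1 : Q ≤ normalizer (M : Set G))
    (h2 : Q ≤ normalizer (Z : Set G)) (h : M.relIndex Z ∣ 2) : ⁅Z, Q⁆ ≤ M := by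
  rcases (Nat.dvd_prime Nat.prime_two).mp h with h | h
  · exact (commutator_le_left_of_le_normalizer h2).trans (relIndex_eq_one.mp h)
  · refine commutator_le.mpr fun z hz q hq => ?_
    rw [commutatorElement_def, mul_assoc, mul_assoc, ← mul_assoc q]
    exact (mul_mem_iff_of_index_two h (a := ⟨z, hz⟩) (b := ⟨_, conj_mem_of_le_normalizer h2 hq
      (inv_mem hz)⟩)).mpr (inv_mem_iff.symm.trans (mem_normalizer_iff.mp (h1 hq) _))

omit [Finite G] in
theorem mem_of_sq {c t x : G} (h : MaxCl c t 0) (ht : t * t = c ^ 2) (hx : x ^ 2 = 1) :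
    x ∈ zpowers c := by
  by_contra h1
  exact h.z_ne_one ((h.sq_eq_of_quaternion ht ((h.conj_cases h.notMem).resolve_right
    fun h => absurd h.1 (by decide)) h1).symm.trans hx)

theorem not_four {W U : Subgroup G} {c t : W} (h : MaxCl c t 0) (ht : t * t = c ^ 2) (hU : U ≤ W)
    (h2 : ∀ u ∈ U, u ^ 2 = 1) : Nat.card U ≤ 2 :=
  card_le_of_isCyclic_of_pow (isCyclic_of_le (H' := zpowers (c : G)) fun u hu => by
    obtain ⟨i, hi⟩ := mem_of_sq h ht (x := ⟨u, hU hu⟩) (Subtype.ext (h2 u hu))
    exact ⟨i, congrArg Subtype.val hi⟩) two_pos h2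

theorem frattini_le (hG : IsPGroup 2 G) {U : Subgroup G} [U.Normal] (h : Nat.card U = 4) :
    frattini G ≤ centralizer (U : Set G) := by
  have h1 : Nat.card (MulAut U) ∣ 2 * 3 := by
    by_cases h1 : IsCyclic U
    · rw [IsCyclic.card_mulAut, h]; decide
    · exact card_mulAut_dvd_six h fun u => (not_isCyclic_iff_exponent_eq_prime Nat.prime_two
        h).mp h1 ▸ Monoid.pow_exponent_eq_one u
  obtain ⟨k, hk⟩ := hG.index (centralizer (U : Set G))
  rcases (Nat.dvd_prime Nat.prime_two).mp (Nat.Coprime.dvd_of_dvd_mul_right (hk ▸ (show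
    Nat.Coprime 2 3 by decide).pow_left k) ((relIndex_top_right (centralizer (U : Set G)) ▸
      relIndex_centralizer_dvd (A := ⊤) le_normalizer_of_normal).trans h1)) with h2 | h2
  · exact le_top.trans (index_eq_one.mp h2).ge
  · exact frattini_le_coatom (isCoatom_of_index_eq_prime h2)

theorem part2 {X Q : Subgroup G} (hX : IsPGroup 2 X) (hQ : Odd (Nat.card Q))
    (hn : Q ≤ normalizer (X : Set G)) (hmin : ∀ Y < X, Q ≤ normalizer (Y : Set G) → N8 Y)
    (h8 : ¬ N8 X) : IsMulCommutative X ∨ (IsExtraspecial 2 X ∧ 32 ≤ Nat.card X) ∨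
      (∃ (X₀ : Subgroup G) (k : ℕ), X₀ ≤ X ∧ X₀.relIndex X = 2 ∧
        Nonempty (X₀ ≃* QuaternionGroup (2 ^ (k + 1))) ∧ X₀ ⊔ (X ⊓ centralizer (X₀ : Set G)) = X) ∨
      (IsSpecial 2 X ∧ Nat.card (center X) = 4) := by
  refine or_iff_not_imp_left.mpr fun hna => ?_
  haveI := hX.isNilpotent
  have hcop : ∀ Y ≤ X, (Nat.card Q).Coprime (Nat.card Y) := fun Y h =>
    (coprime_card_of_odd (hX.to_le h) hQ).symm
  obtain ⟨A, hAX, hA, hA8, hAc⟩ : ∃ A ≤ X, IsMulCommutative A ∧ Nat.card A = 8 ∧ ¬ IsCyclic A := by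
    simpa [N8] using h8
  replace hAX : A < X := hAX.lt_of_ne fun h => hna (h ▸ hA)
  have hW := commutator_le_left_of_le_normalizer hn
  have hQW : Q ≤ normalizer ((⁅X, Q⁆ : Subgroup G) : Set G) :=
    le_normalizer_commutator hn le_normalizer
  rcases hW.lt_or_eq with hW' | hW'
  · have h1 := centralizer_sup_commutator hn (hcop X le_rfl) (.inr inferInstance)
    have h2 := commutator_commutator_eq hn (hcop X le_rfl)
    have hXW : X ≤ normalizer ((⁅X, Q⁆ : Subgroup G) : Set G) := normalizer_commutator_ge_left _ _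
    have h3 : ¬ ⁅X, Q⁆ ≤ centralizer (Q : Set G) := fun h => hAc (hmin A hAX
      (le_normalizer_of_le_centralizer (le_centralizer_iff.mp (hAX.le.trans
        (le_centralizer_of_commutator_le_centralizer hn (hcop X le_rfl) h)))) A le_rfl hA hA8)
    generalize ⁅X, Q⁆ = W at *
    set C := X ⊓ centralizer (Q : Set G)
    have hQC : Q ≤ centralizer (C : Set G) := le_centralizer_iff.mp inf_le_right
    have h4 := (hmin W hW' hQW).cases_of_odd (hX.to_le hW) hQ hQW h3
    have h5 : C ≤ centralizer (W : Set G) := by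
      have h5 : ⁅W, C⁆ < W := (commutator_mono le_rfl inf_le_left).trans_lt
        (commutator_lt_of_nilpotent hW hXW fun h => h3 (h.le.trans bot_le))
      have h6 := le_normalizer_commutator hQW (le_normalizer_of_le_centralizer hQC)
      have h7 : ⁅W, C⁆ ≤ centralizer (Q : Set G) := by
        by_contra h7
        have h9 := card_lt_of_lt h5
        rcases (hmin _ (h5.trans hW') h6).cases_of_odd (hX.to_le (h5.le.trans hW)) hQ h6 h7
          with h | ⟨c', t', h, -⟩ <;> rcases h4 with h' | ⟨c, t, h', ht⟩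
        · omega
        · have := not_four h' ht h5.le h.2
          omega
        · have := h.card
          omega
        · have := h.card.trans h'.card.symm
          omega
      rw [le_centralizer_iff, ← commutator_eq_bot_iff_le_centralizer, ← h2, eq_bot_iff]
      refine three_subgroups ?_ ?_
      · rw [commutator_eq_bot_iff_le_centralizer.mpr hQC, commutator_bot_left]
      · rw [commutator_comm C, commutator_eq_bot_iff_le_centralizer.mpr h7]
    obtain ⟨y, hy, hyW⟩ := SetLike.not_le_iff_exists.mp fun h : C ≤ W =>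
      hW'.ne (sup_eq_right.mpr h ▸ h1)
    obtain ⟨k, hk⟩ := H1.isPGroup_iff_mem.mp hX y hy.1
    obtain ⟨j, h6, h7⟩ := exists_pow_not_mem_pow_mem hyW (hk ▸ one_mem W)
    replace hy := pow_mem hy (2 ^ j)
    generalize y ^ 2 ^ j = x at hy h6 h7
    have h9 : ∀ B ≤ W, IsMulCommutative B → Nat.card B = 4 → x ^ 2 ∈ B → x ^ 4 = 1 →
        W ⊔ zpowers x = X := fun B h1 h2 h3 h4 h8 => by
      by_contra h
      have h9 := centralizer_le (SetLike.coe_mono h1) (h5 hy)
      have := card_le_of_isCyclic_of_pow ((hmin _ ((sup_le hW (zpowers_le.mpr hy.1)).lt_of_ne h)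
        (le_normalizer_sup hQW (le_normalizer_of_le_centralizer (hQC.trans (centralizer_le
          (SetLike.coe_mono (zpowers_le.mpr hy))))))).not_mem (h1.trans le_sup_left) h2 h3
        (mem_sup_right (mem_zpowers x)) h9 (mt (@h1 x) h6) h4) four_pos
        (pow_eq_one_of_mem_sup_zpowers (fun a => pow_eq_one_of_card_eq h3) h9 h8)
      rw [card_sup_zpowers_eq (centralizer_le_normalizer _ h9) (mt (@h1 x) h6) h4] at this
      omega
    rcases h4 with h4 | ⟨c, t, h4, ht⟩
    · have h10 := isMulCommutative_of_card_eq_prime_sq (p := 2) h4.1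
      exact (hna (h9 W le_rfl h10 h4.1 h7 (by rw [show 4 = 2 * 2 from rfl, pow_mul, h4.2 _ h7]) ▸
        isMulCommutative_sup_zpowers h10 (h5 hy))).elim
    obtain ⟨i, hi⟩ := h4.center_eq.le (mem_center_iff.mpr fun g =>
      Subtype.ext (pow_mem (h5 hy) 2 g g.2) : (⟨_, h7⟩ : W) ∈ center W)
    replace hi : ((c : G) ^ 2) ^ i = x ^ 2 := congrArg Subtype.val hi
    have h10 := h9 (zpowers (c : G)) (zpowers_le.mpr c.2) inferInstance (by
      rw [Nat.card_zpowers, orderOf_coe, h4.ord]; rfl) (hi ▸ zpow_mem (pow_mem (mem_zpowers _) 2) i)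
      (by rw [show 4 = 2 * 2 from rfl, pow_mul, ← hi, ← zpow_natCast, ← zpow_mul, mul_comm,
        zpow_mul, zpow_natCast, show ((c : G) ^ 2) ^ 2 = 1 from congrArg Subtype.val h4.z_sq,
        one_zpow])
    exact .inr (.inl ⟨W, 0, hW, h10 ▸ relIndex_sup_zpowers_eq_prime
      (centralizer_le_normalizer _ (h5 hy)) h6 h7, nonempty_equiv_quaternion h4.ord ht
        ((h4.conj_cases h4.notMem).resolve_right fun h => absurd h.1 (by decide)) h4.notMem h4.card,
      le_antisymm (sup_le hW inf_le_left) (h10.ge.trans (sup_le_sup_left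
        (zpowers_le.mpr (mem_inf.mpr ⟨hy.1, h5 hy⟩)) _))⟩)
  set F := (frattini X).map X.subtype
  set Z := X ⊓ centralizer (X : Set G)
  haveI := Finite.one_lt_card_iff_nontrivial.mp ((show 1 < 8 by decide).trans
    (hA8 ▸ card_lt_of_lt hAX))
  have hF : F < X := (map_subtype_lt_map_subtype.mpr frattini_lt_top).trans_eq (by
    rw [← MonoidHom.range_eq_map, range_subtype])
  have hQF : Q ≤ normalizer (F : Set G) := le_normalizer_map_of_characteristic hn _
  have hXF : X ≤ normalizer (F : Set G) := le_normalizer_map_of_characteristic le_normalizer _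
  have hFZ : F ≤ Z := by
    refine le_inf hF.le ?_
    rcases (hmin F hF hQF).top.cases (hX.to_le hF.le) with h | h | ⟨c, t, k, h⟩
    · have h1 := commutator_eq_bot_iff_le_centralizer.mpr
        (le_centralizer_of_isCyclic_two (hX.to_le hF.le) h hQ hQF)
      rw [le_centralizer_iff, ← commutator_eq_bot_iff_le_centralizer, ← hW', eq_bot_iff]
      refine three_subgroups ?_ ((commutator_mono (commutator_le_left_of_le_normalizer hXF)
        le_rfl).trans h1.le)
      rw [commutator_comm Q, h1, commutator_bot_left]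
    · exact le_centralizer_iff.mp (hW'.ge.trans (comm_le (le_normalizer_centralizer hQF) hn
        (relIndex_centralizer_le_two hX hXF h.1 fun e he => congrArg Subtype.val (h.2 ⟨e, he⟩))))
    · obtain ⟨U, _, h1, h2⟩ := exists_normal_le_card_eq_pow hX (frattini X) (k := 2) (by
        rw [← L.card_map_subtype, h.card]; exact Nat.pow_le_pow_right two_pos (by omega))
      have h3 := card_le_of_le (show U.map X.subtype ≤ F ⊓ centralizer (F : Set G) from le_inf
        (map_mono h1) (by
          rintro _ ⟨u, hu, rfl⟩ _ ⟨f, hf, rfl⟩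
          exact congrArg Subtype.val (frattini_le hX h2 hf u hu).symm))
      rw [← L.map_subtype_center, L.card_map_subtype, L.card_map_subtype, h.card_center, h2] at h3
      omega
  have hX'F : ⁅X, X⁆ ≤ F := map_subtype_commutator X ▸ map_mono (commutator_le_frattini hX)
  have hZ : Z < X := inf_lt_left.mpr (mt le_centralizer_iff_isMulCommutative.mp hna)
  have hQZ : Q ≤ normalizer (Z : Set G) := le_normalizer_inf hn (le_normalizer_centralizer hn)
  have hZc : IsMulCommutative Z := le_centralizer_iff_isMulCommutative.mp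
    (inf_le_right.trans (centralizer_le (SetLike.coe_mono inf_le_left)))
  have h1 : Z ≤ centralizer (Q : Set G) → Z ≤ ⁅X, X⁆ := fun h => (le_inf hZ.le h).trans
    (centralizer_le_commutator_of_commutator_eq hn (hcop X le_rfl) hW')
  have h2 : ⁅X, X⁆ ≠ ⊥ := mt (fun h => le_centralizer_iff_isMulCommutative.mp
    (commutator_eq_bot_iff_le_centralizer.mp h)) hna
  have hsp : Z ≤ ⁅X, X⁆ → IsSpecial 2 X := fun h => ⟨hX, Subgroup.map_injective
    X.subtype_injective ((le_antisymm hFZ (h.trans hX'F)).trans (L.map_subtype_center X).symm),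
    Subgroup.map_injective X.subtype_injective ((map_subtype_commutator X).trans
      ((le_antisymm (hX'F.trans hFZ) h).trans (L.map_subtype_center X).symm))⟩
  have hc : Nat.card (center X) = Nat.card Z := by rw [← L.card_map_subtype, L.map_subtype_center]
  by_cases h3 : IsCyclic Z
  · have h4 := h1 (le_centralizer_of_isCyclic_two (hX.to_le hZ.le) h3 hQ hQZ)
    have h5 : ⁅X, X⁆ ≤ powKerIn Z hZc 2 := commutator_le.mpr fun x hx y hy => by
      have h5 := hFZ (hX'F (commutator_mem_commutator hx hy))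
      refine ⟨h5, ?_⟩
      rw [← commutator_pow_left_of_commute (h5.2 x hx), commutatorElement_eq_one_iff_mul_comm]
      exact ((hFZ ⟨_, pow_mem_frattini hX ⟨x, hx⟩, rfl⟩).2 y hy).symm
    have h6 := card_le_of_isCyclic_of_pow h3 two_pos fun a ha => (h5 (h4 ha)).2
    have h7 := (one_lt_card_iff_ne_bot Z).mpr fun h => h2 (eq_bot_iff.mpr
      ((hX'F.trans hFZ).trans h.le))
    have h9 : IsExtraspecial 2 X := ⟨hsp h4, by omega⟩
    obtain ⟨z, hz, -⟩ := exists_ES_of_isExtraspecial h9
    obtain ⟨m, hm, -⟩ := ES.exists_card_nsq _ X z le_rfl hz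
    have h10 : 3 < 2 * m + 1 := (Nat.pow_lt_pow_iff_right one_lt_two).mp
      ((hA8.ge.trans_lt (card_lt_of_lt hAX)).trans_eq hm)
    exact .inl ⟨h9, hm ▸ (Nat.pow_le_pow_right two_pos (by omega) : 2 ^ 5 ≤ _)⟩
  obtain ⟨h4, -⟩ := (hmin Z hZ hQZ).eq_four (hX.to_le hZ.le) le_rfl hZc h3
  refine .inr (.inr ⟨hsp ?_, hc.trans h4⟩)
  have h5 := card_mul_relIndex (hX'F.trans hFZ)
  obtain ⟨k, hk, h6⟩ := (Nat.dvd_prime_pow Nat.prime_two (m := 2)).mp
    ((card_dvd_of_le (hX'F.trans hFZ)).trans h4.dvd)
  have h7 := le_normalizer_commutator hn hn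
  interval_cases k
  · exact (h2 (card_eq_one.mp h6)).elim
  · exact h1 (le_centralizer_of_commutator_le_centralizer hQZ (hcop Z hZ.le) ((comm_le h7 hQZ
      (dvd_of_eq (by rw [h6, h4] at h5; omega))).trans (le_centralizer_of_isCyclic_two
        (hX.to_le (hX'F.trans hF.le)) (isCyclic_of_prime_card (p := 2) h6) hQ h7)))
  · exact (eq_of_le_of_card_ge (hX'F.trans hFZ) (h4.trans h6.symm).le).ge

/-- Let S be a finite solvable group with O_{2'}(S) = 1 that contains a non-cyclic abelian subgroup of order 8, while no proper subgroup of S of 2-power index contains one. Then a Sylow 2-subgroup X of S is normal in S, and one of the following holds: X is abelian; X is extraspecial of order at least 32; X has a generalized quaternion subgroup X₀ of index 2 with X = X₀·C_X(X₀); or X is special with centre of order 4. -/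
theorem result {S : Type*} [Group S] [Finite S]
    [Group.IsSolvable S] (hO : Cfsg.pPrimeCore 2 S = ⊥)
    (h8 : ∃ A : Subgroup S, IsMulCommutative ↥A ∧ ¬ IsCyclic ↥A ∧ Nat.card ↥A = 8)
    (hmin : ∀ R : Subgroup S, R ≠ ⊤ → (∃ k : ℕ, R.index = 2 ^ k) →
      ¬ ∃ A : Subgroup S, A ≤ R ∧ IsMulCommutative ↥A ∧ ¬ IsCyclic ↥A ∧ Nat.card ↥A = 8)
    (X : Sylow 2 S) :
    (X : Subgroup S).Normal ∧
      (IsMulCommutative ↥X ∨
        (Cfsg.IsExtraspecial 2 ↥X ∧ 32 ≤ Nat.card ↥X) ∨
        (∃ (X₀ : Subgroup S) (k : ℕ), X₀ ≤ (X : Subgroup S) ∧ X₀.relIndex (X : Subgroup S) = 2 ∧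
          Nonempty (↥X₀ ≃* QuaternionGroup (2 ^ (k + 1))) ∧ X₀ ⊔ ((X : Subgroup S) ⊓ Subgroup.centralizer (X₀ : Set S)) = (X : Subgroup S)) ∨
        (Cfsg.IsSpecial 2 ↥X ∧ Nat.card ↥(Subgroup.center ↥X) = 4)) := by
  obtain ⟨A, hA, hAc, hA8⟩ := h8
  have hA2 : IsPGroup 2 A := .of_card (n := 3) hA8
  obtain ⟨Q, hQ, -⟩ := exists_hall (G := S) {2}ᶜ
  rw [isPiHall_iff, compl_compl] at hQ
  have hQo : Odd (Nat.card Q) := Nat.coprime_two_right.mp (Nat.prime_two.coprime_iff_not_dvd.mpr
    ((piNum_compl_singleton_iff Nat.prime_two).mp hQ.1)).symm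
  have h1 : ∀ R, Q ≤ R → R ≠ ⊤ → N8 R := fun R h1 h2 B h3 h4 h5 => by
    by_contra h6
    exact hmin R h2 ⟨_, Nat.eq_prime_pow_of_unique_prime_dvd index_ne_zero_of_finite
      fun hr h => hQ.2 _ hr (h.trans (index_dvd_of_le h1))⟩ ⟨B, h3, h4, h6, h5⟩
  set H := pCore 2 S
  have hH : IsPGroup 2 H := L.pCore_isPGroup 2
  have hC : centralizer (H : Set S) ≤ H := L.centralizer_pCore_le (L.isPSolvable_of_isSolvable 2) hO
  have h2 : Q ⊔ H = ⊤ := by
    by_contra h2
    have h3 : N8 H := fun B h => h1 _ le_sup_left h2 B (h.trans le_sup_right)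
    have h4 : ∀ K : Subgroup S, K.Normal → (∀ x ∈ K, (orderOf x).Coprime 2 →
        x ∈ centralizer (H : Set S)) → K ≤ H := fun K _ h => L.le_pCore
      (H1.pResidualOf_eq_bot_iff.mp (eq_bot_iff.mpr (H1.pResidualOf_le_iff.mpr fun x hx h' => by
        obtain ⟨k, hk⟩ := H1.isPGroup_iff_mem.mp hH x (hC (h x hx h'))
        exact H1.eq_one_of_pow_of_coprime hk h')))
    have h5 : ∀ K ≤ H, K.Normal → K.index ∣ 2 * 3 → 4 ≤ Nat.card ↥(H ⊓ A) := fun K h5 _ h6 => by
      obtain ⟨k, hk : H.relIndex A = _⟩ := hA2.index (H.subgroupOf A)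
      have h7 := Nat.le_of_dvd two_pos (Nat.Coprime.dvd_of_dvd_mul_right (k := H.relIndex A)
        (hk ▸ (show Nat.Coprime 2 3 by decide).pow_left k)
        ((relIndex_dvd_index_of_normal H A).trans ((index_dvd_of_le h5).trans h6)))
      have := card_inf_mul_relIndex H A
      nlinarith
    have h0 : ¬ H ≤ centralizer (Q : Set S) := fun h => h2 (eq_top_iff.mpr (le_sup_of_le_right
      (L.le_pCore (.of_card (n := Q.index.primeFactorsList.length) (by
        rw [card_top, ← Q.card_mul_index, card_eq_one.mpr (L.inf_eq_bot_of_isPGroup hH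
          (Nat.coprime_two_right.mpr hQo) ▸ (inf_eq_right.mpr ((le_centralizer_iff.mp h).trans
            hC)).symm : Q = ⊥), one_mul]
        exact Nat.eq_prime_pow_of_unique_prime_dvd index_ne_zero_of_finite
          fun hr h => hQ.2 _ hr h)))))
    rcases h3.cases_of_odd hH hQo le_normalizer_of_normal h0 with h | ⟨c, t, h, ht⟩
    · have h6 := h5 _ hC inferInstance (relIndex_top_right (centralizer (H : Set S)) ▸
        (relIndex_centralizer_dvd (A := ⊤) le_normalizer_of_normal).trans
          (card_mulAut_dvd_six h.1 fun e => Subtype.ext (h.2 e e.2)))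
      have h7 := inf_eq_left.mp (eq_of_le_of_card_ge inf_le_left (h.1.trans_le h6))
      have := card_le_of_le (show A ≤ H from fun a ha => hC fun b hb => setLike_mul_comm (h7 hb) ha)
      omega
    · have hz : ∀ x : H, x ^ 2 ∈ center H := fun x => by
        rw [h.center_eq]
        by_cases hx : x ∈ zpowers c
        · obtain ⟨i, rfl⟩ := hx
          exact ⟨i, by simp only [← zpow_natCast, ← zpow_mul, mul_comm]; rfl⟩
        · rcases h.sq_cases hx with h | h <;> simp [h]
      let ψ := quotAct (MulAut.conjNormal : S →* MulAut H) (center H)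
        fun a => isInv_of_characteristic (center H) ⊤ a trivial
      have h6 : ψ.ker ≤ H := h4 _ inferInstance fun x hx h' => zpowers_le.mp
        (le_centralizer_iff.mp (le_centralizer_of_commutator_le_frattini le_normalizer_of_normal
          (L.coprime_card_of_isPGroup hH (Nat.card_zpowers x ▸ h')).symm (commutator_le.mpr
            fun y hy g hg => ⟨_, (h.center_eq.trans h.commutator_eq.symm).le.trans
              (commutator_le_frattini hH) (QuotientGroup.eq.mp (DFunLike.congr_fun
                (zpowers_le.mpr hx hg) ((⟨y, hy⟩⁻¹ : H) : H ⧸ center H)).symm), by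
              simp [commutatorElement_def, mul_assoc]⟩)))
      have h7 := h5 _ h6 inferInstance (index_ker ψ ▸ (card_subgroup_dvd_card _).trans
        (card_mulAut_dvd_six (by
          have := card_quotient_mul (center H)
          rw [h.card_center, h.card] at this
          omega) fun v => by
          obtain ⟨v, rfl⟩ := QuotientGroup.mk_surjective v
          exact (QuotientGroup.eq_one_iff _).mpr (hz v)))
      obtain ⟨E, hEA, hE4, hE2⟩ := exists_four_of_not_isCyclic hA2 hA hAc
      obtain ⟨e, he, heH⟩ := SetLike.not_le_iff_exists.mp fun h' : E ≤ H => by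
        have := not_four h ht h' hE2
        omega
      obtain ⟨i, hi, hiZ⟩ := SetLike.not_le_iff_exists.mp
        fun h' : (H ⊓ A).subgroupOf H ≤ center H => by
          have := card_le_of_le h'
          rw [L.card_subgroupOf_of_le inf_le_left, h.card_center] at this
          omega
      set α : MulAut H := MulAut.conjNormal e
      have hα : ∀ y, α (α y) = y := fun y => by
        rw [← MulAut.mul_apply, ← map_mul, ← sq, hE2 e he, map_one, MulAut.one_apply]
      have hαi : α i = i := Subtype.ext (mul_inv_eq_iff_eq_mul.mpr (setLike_mul_comm (hEA he) hi.2))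
      have hi2 : i ^ 2 ≠ 1 := fun h' => hiZ (h.center_eq.ge (by
        rw [(eq_one_or_eq_of_sq_eq_one (k := 1) h.ord (mem_of_sq h ht h') h').resolve_left
          fun h => hiZ (h ▸ one_mem _)]
        exact mem_zpowers _))
      have hi4 : orderOf i = 2 ^ (1 + 1) := orderOf_eq_prime_pow (by simpa using hi2) (by
        rw [pow_succ, pow_mul, pow_one]
        exact pow_eq_one_of_card_eq h.card_center (hz i))
      have h8 := index_zpowers_eq_two h.card hi4
      refine heH (h6 (MulEquiv.ext fun v => ?_))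
      obtain ⟨y, rfl⟩ := QuotientGroup.mk_surjective v
      refine (QuotientGroup.eq.mpr ?_ : (y : H ⧸ center H) = (α y : H)).symm
      have h9 : ∀ y ∈ zpowers i, α y = y := by
        rintro _ ⟨n, rfl⟩
        simp only [map_zpow, hαi]
      by_cases hy : y ∈ zpowers i
      · simp [h9 y hy]
      have h10 : y⁻¹ * α y ∈ zpowers i := (mul_mem_iff_of_index_two h8).mpr (iff_of_false
        (mt inv_mem_iff.mp hy) fun h => hy (by rwa [← hα y, h9 _ h]))
      have h11 := h9 _ h10
      rw [map_mul, map_inv, hα, ← inv_inv (_ * y), mul_inv_rev, inv_inv, inv_eq_iff_mul_eq_one,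
        ← sq] at h11
      rcases eq_one_or_eq_of_sq_eq_one hi4 h10 h11 with h | h
      · exact h ▸ one_mem _
      · exact h ▸ hz i
  have h3 : (X : Subgroup S) = H := le_antisymm (L.le_of_isPGroup_of_coprime_index X.2 (by
    rw [← relIndex_top_right, ← h2, relIndex_sup_right]
    exact (Nat.coprime_two_right.mpr hQo).coprime_dvd_left (relIndex_dvd_card _ _)))
    (L.pCore_le_sylow X)
  haveI hX : (X : Subgroup S).Normal := h3 ▸ inferInstance
  refine ⟨hX, part2 X.2 hQo le_normalizer_of_normal (fun Y hY hQY B hB => h1 (Y ⊔ Q) le_sup_right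
    (fun h => hY.not_ge fun x hx => ?_) B (hB.trans le_sup_left)) fun h => hAc (h A
      (L.le_of_isPGroup_of_coprime_index hA2 (Nat.prime_two.coprime_iff_not_dvd.mpr
        X.not_dvd_index).symm) hA hA8)⟩
  obtain ⟨y, hy, q, hq, rfl⟩ := (mem_sup_of_le_normalizer' hQY).mp (h.ge (mem_top x))
  rw [mem_bot.mp ((L.inf_eq_bot_of_isPGroup X.2 (Nat.coprime_two_right.mpr hQo)).le
    ⟨(mul_mem_cancel_left (hY.le hy)).mp hx, hq⟩), mul_one]
  exact hy

end Cfsg.Agent.S4409
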