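import Cfsg.Statements.S4410
import Cfsg.Agent.H2.PGroup
import Cfsg.Agent.L.Comp
import Mathlib.LinearAlgebra.Matrix.GeneralLinearGroup.Card

set_option autoImplicit false
open Cfsg

namespace Cfsg.Agent.S4410

open Subgroup Cfsg.Agent.H2
open scoped commutatorElement Pointwise

theorem aux3 : ∀ j : ZMod 3, j * j + 1 ≠ 0 := by decide

theorem aux7 : ∀ j : ZMod 7, j * j + 1 ≠ 0 := by decide

theorem card_dvd {K W : Type*} [Group K] [AddCommGroup W] [Module (ZMod 2) W] [Finite W]
    (ρ : K →* Module.End (ZMod 2) W) (hρ : Function.Injective ρ)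
    (h : Module.finrank (ZMod 2) W ≤ 3) : Nat.card K ∣ 168 := by
  let e := LinearMap.toMatrixAlgEquiv (Module.finBasis (ZMod 2) W)
  refine (card_dvd_of_injective (e.toMulEquiv.toMonoidHom.comp ρ).toHomUnits fun a b hab =>
    hρ (e.injective (congrArg Units.val hab))).trans ?_
  have := Matrix.card_GL_field (𝔽 := ZMod 2) (Module.finrank (ZMod 2) W)
  erw [this]
  generalize Module.finrank (ZMod 2) W = n at h
  interval_cases n <;> decide

/-- Let V be a finite-dimensional vector space over the field with two elements and S a solvable group of linear automorphisms of V with O₂(S) = 1. If P ∈ S has order 4 and (P − 1)³ = 0 on V, then the image of (P − 1)² has at least 4 elements; equivalently, in the decomposition of V into indecomposable modules for the cyclic group generated by P, at least two summands have dimension 3. -/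
theorem result
    {V : Type*} [AddCommGroup V] [Module (ZMod 2) V] [Finite V]
    (S : Subgroup (V ≃ₗ[ZMod 2] V)) (hS : Group.IsSolvable ↥S) (hO2 : Cfsg.pCore 2 ↥S = ⊥)
    (P : V ≃ₗ[ZMod 2] V) (hPS : P ∈ S) (hP4 : orderOf P = 4)
    (hcub : ((P : V →ₗ[ZMod 2] V) - LinearMap.id) ^ 3 = 0) :
    4 ≤ Nat.card ↥(LinearMap.range (((P : V →ₗ[ZMod 2] V) - LinearMap.id) ^ 2)) := by
  by_contra! hlt
  haveI : Finite (V ≃ₗ[ZMod 2] V) := Finite.of_injective _ DFunLike.coe_injective
  let ρ : S →* Module.End (ZMod 2) V :=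
    LinearEquiv.automorphismGroup.toLinearMapMonoidHom.comp S.subtype
  have hρ : Function.Injective ρ := LinearEquiv.toLinearMap_injective.comp Subtype.val_injective
  let a : S := ⟨P, hPS⟩
  have h2 : (2 : Module.End (ZMod 2) V) = 0 := by
    exact (map_ofNat (algebraMap (ZMod 2) _) 2).symm.trans (map_zero _)
  have hsq : ∀ g : S, (ρ g - 1) ^ 2 = ρ (g ^ 2) - 1 := fun g => by
    rw [map_pow, (Commute.one_right _).sub_sq, h2, sub_eq_add_neg _ 1,
      neg_eq_of_add_eq_zero_left ((one_add_one_eq_two).trans h2)]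
    simp
  set t := a ^ 2 with ht
  have ha4 : orderOf a = 4 := (orderOf_coe a).symm.trans hP4
  have ht2 : t * t = 1 := by rw [ht, ← pow_add]; exact orderOf_dvd_iff_pow_eq_one.mp ha4.dvd
  have ht1 : t ≠ 1 := pow_ne_one_of_lt_orderOf two_ne_zero (by omega)
  have hR : Module.finrank (ZMod 2) (LinearMap.range (ρ t - 1)) ≤ 1 := by
    rw [← hsq]
    change Nat.card (LinearMap.range ((ρ a - 1) ^ 2)) < 4 at hlt
    rw [Module.natCard_eq_pow_finrank (K := ZMod 2), Nat.card_zmod] at hlt
    exact Nat.lt_succ_iff.mp ((Nat.pow_lt_pow_iff_right one_lt_two).mp hlt)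
  obtain ⟨r, g, hg, hgt⟩ : ∃ r : Nat.Primes, ∃ g ∈ pCore r S, ⁅g, t⁆ ≠ 1 := by
    by_contra! h
    have h1 : t ∈ fittingSubgroup S := L.centralizer_fitting_le (zpowers_le.mp
      (le_centralizer_iff.mp (L.fitting_eq_iSup_pCore.trans_le (iSup_le fun r g hg => ?_))))
    · exact ht1 (mem_bot.mp (hO2.le (L.le_pCore_of_le_fitting (IsPGroup.of_card (n := 1) (by
        rw [Nat.card_zpowers, orderOf_eq_prime ((sq t).trans ht2) ht1, pow_one]))
        (zpowers_le.mpr h1) (mem_zpowers t))))
    · rw [zpowers_eq_closure, centralizer_closure, mem_centralizer_singleton_iff]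
      exact commutatorElement_eq_one_iff_mul_comm.mp (h r g hg)
  obtain ⟨r, hr⟩ := r
  haveI := Fact.mk hr
  have hr2 : r ≠ 2 := by
    rintro rfl
    exact hgt (by rw [mem_bot.mp (hO2.le hg), commutatorElement_one_left])
  have hti : t⁻¹ = t := inv_eq_of_mul_eq_one_right ht2
  set x := ⁅g, t⁆ with hx
  have hxO : x ∈ pCore r S := commutator_le_left _ ⊤ (commutator_mem_commutator hg (mem_top t))
  have hxt : t * x * t = x⁻¹ := by
    rw [hx, commutatorElement_inv, commutatorElement_def, commutatorElement_def, hti]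
    calc _ = t * g * t * g⁻¹ * (t * t) := by group
      _ = _ := by rw [ht2, mul_one]
  set y := a * x * a⁻¹ with hy
  have hyt : t * y * t = y⁻¹ := by
    calc _ = a * (t * x * t) * a⁻¹ := by rw [hy, ht]; group
      _ = _ := by rw [hxt, hy]; group
  set R := LinearMap.range (ρ t - 1)
  set W := R ⊔ R.map (ρ x) ⊔ R.map (ρ y)
  have hW : Module.finrank (ZMod 2) W ≤ 3 := by
    have h1 := Submodule.finrank_add_le_finrank_add_finrank (R ⊔ R.map (ρ x)) (R.map (ρ y))
    have h3 := Submodule.finrank_add_le_finrank_add_finrank R (R.map (ρ x))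
    have h4 := Submodule.finrank_map_le (ρ x) R
    have h5 := Submodule.finrank_map_le (ρ y) R
    exact h1.trans (by omega)
  let D : Subgroup S :=
    { carrier := {g | ∀ v, ρ g v - v ∈ W}
      one_mem' := fun v => by simp
      mul_mem' := fun {a b} ha hb v => by
        have := add_mem (ha (ρ b v)) (hb v)
        simpa using this
      inv_mem' := fun {a} ha v => by
        have := neg_mem (ha (ρ a⁻¹ v))
        rwa [← Module.End.mul_apply, ← map_mul, mul_inv_cancel, map_one, Module.End.one_apply,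
          neg_sub] at this }
  have hodd : ∀ z ∈ pCore r S, z ∈ zpowers (z ^ 2) := fun z hz => by
    obtain ⟨k, hk⟩ := (IsPGroup.iff_orderOf.mp (L.pCore_isPGroup r)) ⟨z, hz⟩
    rw [← orderOf_coe] at hk
    exact mem_zpowers_pow_iff.mpr (by
      rw [hk]; exact ((Nat.coprime_primes Nat.prime_two hr).mpr hr2.symm).pow_right k)
  have hD : ∀ z ∈ pCore r S, t * z * t = z⁻¹ → R.map (ρ z) ≤ W → z ∈ D := fun z hz h1 h3 => by
    have h4 : z * t * z⁻¹ ∈ D := fun v => h3 ⟨_, ⟨ρ z⁻¹ v, rfl⟩, by
      simp only [map_mul, LinearMap.sub_apply, map_sub, Module.End.one_apply, Module.End.mul_apply]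
      rw [← Module.End.mul_apply (ρ z) (ρ z⁻¹), ← map_mul, mul_inv_cancel, map_one,
        Module.End.one_apply]⟩
    have h5 : t ∈ D := fun v => Submodule.mem_sup_left (Submodule.mem_sup_left ⟨v, rfl⟩)
    refine zpowers_le.mpr ?_ (hodd z hz)
    convert mul_mem h4 h5 using 1
    rw [← h1]
    calc _ = z * (t * t) * z * (t * t) := by rw [ht2]; simp [sq]
      _ = _ := by group
  have hyO : y ∈ pCore r S := (inferInstance : (pCore r S).Normal).conj_mem x hxO a
  set K := closure {x, y}
  have hK : K ≤ pCore r S ⊓ D := (closure_le _).mpr (by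
    rintro _ (rfl | rfl)
    exacts [⟨hxO, hD _ hxO hxt (le_sup_of_le_left le_sup_right)⟩, ⟨hyO, hD _ hyO hyt le_sup_right⟩])
  have h3 := card_dvd (K := K) (Representation.subrepresentation (ρ.comp K.subtype) W
    fun k v hv => by simpa using add_mem ((hK k.2).2 v) hv) ((injective_iff_map_eq_one _).mpr
      fun k hk => Subtype.ext (mem_bot.mp ?_)) hW
  · obtain ⟨n, hn⟩ := ((L.pCore_isPGroup r).to_le (hK.trans inf_le_left)).exists_card_eq
    have hxK : x ∈ K := subset_closure (by simp)
    have h4 : n ≠ 0 := by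
      rintro rfl
      exact hgt (mem_bot.mp ((card_eq_one.mp hn).le hxK))
    rw [hn] at h3
    have h5 : r = 3 ∨ r = 7 := by
      have h5 : r ∣ 2 ^ 3 * 3 * 7 := (dvd_pow_self r h4).trans h3
      rw [hr.dvd_mul, hr.dvd_mul, Nat.prime_dvd_prime_iff_eq hr Nat.prime_three,
        Nat.prime_dvd_prime_iff_eq hr Nat.prime_seven] at h5
      exact h5.imp_left fun h => h.resolve_left fun h => hr2
        ((Nat.prime_dvd_prime_iff_eq hr Nat.prime_two).mp (hr.dvd_of_dvd_pow h))
    have h6 : n = 1 := by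
      by_contra h
      have := (pow_dvd_pow r (show 2 ≤ n by omega)).trans h3
      rcases h5 with rfl | rfl <;> exact absurd this (by decide)
    rw [h6, pow_one] at hn
    have h7 : orderOf x = r := ((Nat.dvd_prime hr).mp (hn ▸ orderOf_dvd_natCard K hxK)).resolve_left
      (mt orderOf_eq_one_iff.mp hgt)
    obtain ⟨i, hi⟩ := (eq_of_le_of_card_ge (zpowers_le.mpr hxK)
      (by rw [Nat.card_zpowers, h7, hn])).ge (subset_closure (by simp) : y ∈ K)
    replace hi : x ^ i = a * x * a⁻¹ := hi
    have h8 : x ^ (i * i + 1) = 1 := by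
      rw [zpow_add, zpow_mul, hi, conj_zpow, hi, zpow_one, mul_eq_one_iff_eq_inv, ← hxt]
      calc _ = t * x * t⁻¹ := by rw [ht, sq]; group
        _ = _ := by rw [hti]
    rw [← orderOf_dvd_iff_zpow_eq_one, h7, ← ZMod.intCast_zmod_eq_zero_iff_dvd] at h8
    push_cast at h8
    rcases h5 with rfl | rfl
    · exact aux3 _ h8
    · exact aux7 _ h8
  · have h3 : (ρ k - 1) ^ 2 = 0 := LinearMap.ext fun v => sub_eq_zero.mpr
      (congrArg Subtype.val (LinearMap.congr_fun hk ⟨_, (hK k.2).2 v⟩))
    rw [hsq, sub_eq_zero, map_eq_one_iff _ hρ] at h3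
    simpa [h3] using hodd k (hK k.2).1

end Cfsg.Agent.S4410
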