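import Cfsg.Statements.S4411
import Cfsg.Agent.H2.Fact2
import Cfsg.Agent.H2.Rank
import Cfsg.Agent.H1.Constrained
import Cfsg.Agent.H9.Burnside

set_option autoImplicit false
open Cfsg

namespace Cfsg.Agent.S4411

open Subgroup Cfsg.Agent.H2
open scoped commutatorElement Pointwise

universe u

variable {p q : ℕ} [hp : Fact p.Prime] [hq : Fact q.Prime]

/-- A `q`-element acts nontrivially on `H`. -/
def AQ (q : ℕ) {G : Type*} [Group G] (H : Subgroup G) (y : G) : Prop :=
  y ∈ normalizer (H : Set G) ∧ y ∉ centralizer (H : Set G) ∧ ∃ k, y ^ q ^ k = 1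

theorem exists_qPart {G : Type*} [Group G] [Finite G] {C : Subgroup G} {x : G} {k : ℕ}
    (h1 : x ^ q ^ k ∈ C) (h2 : x ∉ C) : ∃ a ∈ zpowers x, a ∉ C ∧ ∃ j, a ^ q ^ j = 1 := by
  obtain ⟨a, b, h3, h4, ⟨i, rfl⟩, h5, h6⟩ := H1.exists_pPart (p := q) x
  refine ⟨a, h4, fun h => h2 (h3 ▸ mul_mem h (zpowers_le.mpr ?_
    (mem_zpowers_pow_iff.mpr (h6.pow_right k).symm))), h5⟩
  rw [← zpow_natCast, ← zpow_mul, mul_comm, zpow_mul, zpow_natCast]
  exact zpow_mem h1 i

theorem aq_iff {G : Type*} [Group G] [Finite G] {H : Subgroup G} : (∃ y, AQ q H y) ↔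
    q ∣ ((centralizer (H : Set G)).subgroupOf (normalizer (H : Set G))).index := by
  constructor
  · rintro ⟨y, h1, h2, k, h3⟩
    rw [← normalizerMonoidHom_ker, index_ker]
    refine (?_ : q ∣ orderOf (H.normalizerMonoidHom ⟨y, h1⟩)).trans
      (orderOf_dvd_natCard _ ⟨_, rfl⟩)
    obtain ⟨j, -, hj⟩ := (Nat.dvd_prime_pow hq.out).mp (orderOf_dvd_of_pow_eq_one
      (show H.normalizerMonoidHom ⟨y, h1⟩ ^ q ^ k = 1 by
        rw [← map_pow, show (⟨y, h1⟩ : normalizer (H : Set G)) ^ q ^ k = 1 from Subtype.ext h3,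
          map_one]))
    refine hj ▸ dvd_pow_self q ?_
    rintro rfl
    exact h2 (mem_subgroupOf.mp ((normalizerMonoidHom_ker H).le (orderOf_eq_one_iff.mp hj)))
  · intro h
    obtain ⟨R, hR⟩ := H1.exists_isSylowIn (p := q) (normalizer (H : Set G))
    obtain ⟨y, h1, h2⟩ := SetLike.not_le_iff_exists.mp fun h' =>
      hR.not_dvd (h.trans (relIndex_dvd_of_le_left _ h'))
    exact ⟨y, hR.le h1, h2, H1.isPGroup_iff_mem.mp hR.isPGroup y h1⟩

/-- The two characteristic subgroups of the Thompson factorization. -/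
def WW (p : ℕ) {G : Type*} [Group G] (b : Bool) (P : Subgroup G) : Subgroup G :=
  if b then H1.JJ p P else omegaZ p P

section

variable {G G' : Type u} [Group G] [Finite G] [Group G']

theorem map_WW (f : G →* G') (hf : ¬ p ∣ Nat.card f.ker) {P : Subgroup G} (hP : IsPGroup p P)
    (b : Bool) : (WW p b P).map f = WW p b (P.map f) := by
  cases b
  · have h : ∀ x ∈ P, f x = 1 → x = 1 := fun x hx h => mem_bot.mp ((L.inf_eq_bot_of_isPGroup hP
      (hp.out.coprime_iff_not_dvd.mpr hf).symm).le ⟨hx, h⟩)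
    refine le_antisymm ?_ ?_
    · rintro _ ⟨x, ⟨⟨h1, h2⟩, h3⟩, rfl⟩
      refine ⟨⟨⟨x, h1, rfl⟩, ?_⟩, by rw [← map_pow, h3, map_one]⟩
      rintro _ ⟨y, hy, rfl⟩
      rw [← map_mul, h2 y hy, map_mul]
    · rintro _ ⟨⟨⟨x, h1, rfl⟩, h2⟩, h3⟩
      refine ⟨x, ⟨⟨h1, fun y hy => commutatorElement_eq_one_iff_mul_comm.mp
        (h _ (H1.commutator_mem_self hy h1) ?_)⟩, h _ (pow_mem h1 p) (by rw [map_pow, h3])⟩, rfl⟩
      rw [map_commutatorElement]
      exact commutatorElement_eq_one_iff_mul_comm.mpr (h2 _ ⟨y, hy, rfl⟩)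
  · exact H1.map_JJ_of_coprime (.inr rfl) f hf hP

omit hp [Finite G] in
theorem WW_le (b : Bool) (P : Subgroup G) : WW p b P ≤ P := by
  cases b
  exacts [omegaZ_le P, H1.JJ_le P]

omit hp [Finite G] in
theorem le_normalizer_WW (b : Bool) (P : Subgroup G) :
    normalizer (P : Set G) ≤ normalizer (WW p b P : Set G) := by
  cases b
  exacts [le_normalizer_omegaZ le_rfl, H1.normalizer_le_normalizer_JJ P]

theorem WW_ne_bot (b : Bool) {P : Subgroup G} (hP : IsPGroup p P) (h : P ≠ ⊥) : WW p b P ≠ ⊥ := by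
  cases b
  exacts [omegaZ_ne_bot hP h, H1.JJ_ne_bot (.inr rfl) hP h]

variable (p q) in
/-- The local conclusion. -/
def Good (P : Subgroup G) : Prop :=
  ∃ b, ∃ T ≤ P, ∃ y ∈ normalizer (WW p b P : Set G), AQ q T y

omit hp hq [Finite G] in
theorem AQ.map {H : Subgroup G} {y : G} (h : AQ q H y) (f : G →* G') (hf : Function.Injective f) :
    AQ q (H.map f) (f y) := by
  obtain ⟨h1, h2, k, h3⟩ := h
  exact ⟨le_normalizer_map f ⟨y, h1, rfl⟩, fun h => h2 fun x hx => hf (by
    simpa using h _ ⟨x, hx, rfl⟩), k, by rw [← map_pow, h3, map_one]⟩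

omit hq in
theorem Good.map {P : Subgroup G} (hP : IsPGroup p P) (h : Good p q P) (f : G →* G')
    (hf : Function.Injective f) : Good p q (P.map f) := by
  obtain ⟨b, T, h1, y, h2, h3⟩ := h
  refine ⟨b, _, map_mono h1, f y, ?_, h3.map f hf⟩
  rw [← map_WW f (by rw [(f.ker_eq_bot_iff).mpr hf, card_bot]; exact hp.out.not_dvd_one) hP]
  exact le_normalizer_map f ⟨y, h2, rfl⟩

theorem Good.of_map {P : Subgroup G} (hP : IsPGroup p P) (D : Subgroup G) [D.Normal]
    (hD : (Nat.card D).Coprime p) (h : Good p q (P.map (QuotientGroup.mk' D))) : Good p q P := by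
  obtain ⟨b, T, h1, y, h2, h3, h4, k, h5⟩ := h
  set f := QuotientGroup.mk' D
  have h6 := map_WW f (by
    rw [QuotientGroup.ker_mk']; exact hp.out.coprime_iff_not_dvd.mp hD.symm) hP b
  have h7 : (P ⊓ (T ⊔ WW p b (P.map f)).comap f).map f = T ⊔ WW p b (P.map f) :=
    le_antisymm (map_le_iff_le_comap.mpr inf_le_right) fun z hz => by
      obtain ⟨x, hx, rfl⟩ := sup_le h1 (WW_le _ _) hz
      exact ⟨x, ⟨hx, hz⟩, rfl⟩
  have h8 := (H1.normalizer_inf_le_sup _ _ ⟨h3, h2⟩)
  rw [← h7, normalizer_map_mk' (L.coprime_card_of_isPGroup (hP.to_le inf_le_left) hD)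
    (.inl (isSolvable_of_le inf_le_left (by haveI := hP.isNilpotent; infer_instance)))] at h8
  obtain ⟨x, hx, rfl⟩ := h8
  obtain ⟨a, h8, h9, h10⟩ := exists_qPart (q := q) (k := k) (x := x)
    (C := (centralizer (T : Set (G ⧸ D))).comap f) (by
      rw [mem_comap, map_pow, h5]; exact one_mem _) h4
  refine ⟨b, _, inf_le_left, a, ?_, zpowers_le.mpr hx h8, fun h => h9 fun t ht => ?_, h10⟩
  · have h11 : WW p b P = P ⊓ (T ⊔ WW p b (P.map f)).comap f ⊓ (WW p b (P.map f)).comap f := by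
      refine le_antisymm (le_inf (le_inf (WW_le _ _) (map_le_iff_le_comap.mp
        (h6.le.trans le_sup_right))) (map_le_iff_le_comap.mp h6.le)) fun z hz => ?_
      obtain ⟨w, hw, h⟩ := h6.ge hz.2
      have := (L.inf_eq_bot_of_isPGroup hP hD).le (mem_inf.mpr
        ⟨mul_mem (inv_mem (WW_le _ _ hw)) hz.1.1, QuotientGroup.eq.mp h⟩)
      exact inv_mul_eq_one.mp (mem_bot.mp this) ▸ hw
    rw [h11]
    exact zpowers_le.mpr (H1.normalizer_inf_le _ _ ⟨hx, le_normalizer_comap f h2⟩) h8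
  · obtain ⟨s, hs, rfl⟩ := h7.ge (mem_sup_left ht)
    rw [← map_mul, h s hs, map_mul]

theorem good_of_pair (hpq : p ≠ q) (h23 : ¬ ((p = 2 ∧ q = 3) ∨ (p = 3 ∧ q = 2)))
    (hG : PiNum {p, q} (Nat.card G)) (hc : centralizer (pCore p G : Set G) ≤ pCore p G)
    {P : Subgroup G} (hP : H1.IsSylowIn p P ⊤) (h : q ∣ Nat.card G) : Good p q P := by
  haveI : Group.IsSolvable G := by
    obtain ⟨k, hk⟩ := hP.isPGroup.exists_card_eq
    refine H9.burnside_pq hp.out hq.out (a := k) (b := P.index.primeFactorsList.length)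
      (dvd_of_eq ?_)
    rw [← P.card_mul_index, hk]
    exact congrArg _ (Nat.eq_prime_pow_of_unique_prime_dvd index_ne_zero_of_finite fun {r} hr h =>
      (hG r hr (h.trans P.index_dvd_card)).resolve_left fun h' =>
        hP.not_dvd (h' ▸ relIndex_top_right P ▸ h))
  have h1 : ∀ g : G, ∃ a ∈ normalizer (WW p true P : Set G),
      ∃ c ∈ centralizer (omegaZ p P : Set G), g = a * c := by
    by_cases hp2 : p = 2
    · subst hp2
      refine thompson_factorization_two (fun h => ?_) hc hP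
        (le_centralizer_iff.mp (omegaZ_le_centralizer P)) fun y hy => hy.2
      rcases hG 3 Nat.prime_three h with h | h
      · omega
      · exact h23 (.inl ⟨rfl, h.symm⟩)
    · refine H1.thompson_factorization (H1.nStable_of_not_sec hp2 (H1.not_sec_SL2_of_solvable hp2
        inferInstance fun h3 T => ?_)) hc hP (le_centralizer_iff.mp (omegaZ_le_centralizer P))
        fun y hy => hy.2
      rw [L.eq_bot_of_isPGroup_of_coprime T.2 (Nat.prime_two.coprime_iff_not_dvd.mpr fun h => ?_).symm]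
      · infer_instance
      · rcases hG 2 Nat.prime_two (h.trans (card_subgroup_dvd_card _)) with h | h
        · exact hp2 h.symm
        · exact h23 (.inr ⟨h3, h.symm⟩)
  have h2 := hP.le_of_normal (L.pCore_isPGroup p) le_top le_normalizer_of_normal
  obtain ⟨b, hb⟩ : ∃ b, ¬ normalizer (WW p b P : Set G) ≤ P := by
    by_contra! h'
    obtain ⟨k, hk⟩ := hP.isPGroup.exists_card_eq
    have : P = ⊤ := eq_top_iff.mpr fun g _ => by
      obtain ⟨a, ha, c, hc, rfl⟩ := h1 g
      exact mul_mem (h' _ ha) (h' false (centralizer_le_normalizer _ hc))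
    rw [this, card_top] at hk
    exact hpq ((Nat.prime_dvd_prime_iff_eq hq.out hp.out).mp (hq.out.dvd_of_dvd_pow (hk ▸ h))).symm
  have h3 : P ≤ normalizer (WW p b P : Set G) := le_normalizer.trans (le_normalizer_WW b P)
  obtain ⟨r, hr, h4⟩ := Nat.exists_prime_and_dvd (mt relIndex_eq_one.mp hb)
  have h5 := h4.trans (relIndex_dvd_card _ _)
  obtain rfl : r = q := (hG r hr (h5.trans (card_subgroup_dvd_card _))).resolve_left fun h =>
    (hP.of_le h3 le_top).not_dvd (h ▸ h4)
  obtain ⟨y, hy⟩ := exists_prime_orderOf_dvd_card' r h5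
  refine ⟨b, _, h2, y, y.2, le_normalizer_of_normal (mem_top _), fun h => ?_, 1, by
    rw [pow_one, ← hy, ← orderOf_coe, pow_orderOf_eq_one]⟩
  obtain ⟨k, hk⟩ := H1.isPGroup_iff_mem.mp (L.pCore_isPGroup p) _ (hc h)
  have := H1.eq_one_of_pow_of_coprime hk (by
    rw [orderOf_coe, hy]; exact (Nat.coprime_primes hr hp.out).mpr hpq.symm)
  rw [← orderOf_coe, this, orderOf_one] at hy
  exact hr.one_lt.ne hy

theorem good_of_isPSolvable (hpq : p ≠ q) (h23 : ¬ ((p = 2 ∧ q = 3) ∨ (p = 3 ∧ q = 2)))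
    (hG : IsPSolvable p G) {P : Subgroup G} (hP : H1.IsSylowIn p P ⊤) {y : G}
    (hy : y ∉ pPrimeCore p G) {k : ℕ} (hk : y ^ q ^ k = 1) : Good p q P := by
  refine .of_map hP.isPGroup _ (L.pPrimeCore_coprime p) ?_
  have h1 := H1.isSylowIn_map_mk' hP (pPrimeCore p G)
  have h2 := L.isPSolvable_quotient hG (pPrimeCore p G)
  have h3 := L.centralizer_pCore_le h2 (L.pPrimeCore_quotient p)
  have h4 : q ∣ Nat.card (G ⧸ pPrimeCore p G) := by
    obtain ⟨j, -, hj⟩ := (Nat.dvd_prime_pow hq.out).mp (orderOf_dvd_of_pow_eq_one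
      (show (y : G ⧸ pPrimeCore p G) ^ q ^ k = 1 by rw [← QuotientGroup.mk_pow, hk]; rfl))
    refine (hj ▸ dvd_pow_self q ?_).trans (orderOf_dvd_natCard _)
    rintro rfl
    exact hy ((QuotientGroup.eq_one_iff y).mp (orderOf_eq_one_iff.mp hj))
  generalize P.map (QuotientGroup.mk' (pPrimeCore p G)) = S at h1
  obtain ⟨H, hH⟩ := exists_hall_pair p q _ _ rfl h2
  obtain ⟨R, hR⟩ := H1.exists_isSylowIn (p := p) H
  have hR' : H1.IsSylowIn p R ⊤ := ⟨le_top, hR.isPGroup, by
    rw [relIndex_top_right, ← relIndex_mul_index hR.le, hp.out.dvd_mul]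
    exact not_or.mpr ⟨hR.not_dvd, hH.2 p hp.out (by simp)⟩⟩
  obtain ⟨g, -, rfl⟩ := h1.exists_cj_eq hR'
  refine Good.map hR.isPGroup ?_ _ (MulAut.conj g).injective
  rw [← hR.map_toSylow]
  have h5 := (hR'.le_of_normal (L.pCore_isPGroup p) le_top le_normalizer_of_normal).trans hR.le
  have h6 : (pCore p _).subgroupOf H ≤ pCore p H :=
    L.le_pCore (H1.isPGroup_subgroupOf (L.pCore_isPGroup p) H)
  refine Good.map hR.toSylow.2 (good_of_pair hpq h23 hH.1 (fun x hx => h6 (h3 fun z hz =>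
    congrArg Subtype.val (hx ⟨z, h5 hz⟩ (h6 hz)))) (H1.sylow_isSylowIn_top _) ?_) _
    H.subtype_injective
  exact ((hq.out.dvd_mul.mp (H.card_mul_index ▸ h4)).resolve_right (hH.2 q hq.out (by simp)))

variable (p G) in
/-- The hypothesis on automizers. -/
def Hs : Prop := ∀ H X : Subgroup G, IsPGroup p H → X ≤ normalizer (H : Set G) →
  IsPSolvable p ↥(X ⊓ centralizer (H : Set G)) → IsPSolvable p X

theorem good_of_hs (hpq : p ≠ q) (h23 : ¬ ((p = 2 ∧ q = 3) ∨ (p = 3 ∧ q = 2))) (hs : Hs p G)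
    {H P : Subgroup G} (hH : IsPGroup p H) (hP : H1.IsSylowIn p P (normalizer (H : Set G))) {x : G}
    (hx : AQ q H x) : Good p q P := by
  obtain ⟨h1, h2, k, h3⟩ := hx
  have h4 := hP.inf_of_normal (centralizer_le_normalizer _) (le_normalizer_centralizer le_rfl)
  set R := P ⊓ centralizer (H : Set G)
  set X := normalizer (H : Set G) ⊓ normalizer (R : Set G)
  have hPX : P ≤ X := le_inf hP.le (le_normalizer_inf le_normalizer (le_normalizer_centralizer hP.le))
  have hX : IsPSolvable p X := by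
    refine hs H X hH inf_le_left ?_
    have h5 : R ≤ X ⊓ centralizer (H : Set G) := le_inf (inf_le_left.trans hPX) inf_le_right
    haveI := normal_subgroupOf_of_le_normalizer (N := R) (H := X ⊓ centralizer (H : Set G))
      (inf_le_left.trans inf_le_right)
    exact L.isPSolvable_of_ext (R.subgroupOf _) (L.isPSolvable_of_isPGroup
      (H1.isPGroup_subgroupOf h4.isPGroup _)) (L.isPSolvable_of_coprime
        (hp.out.coprime_iff_not_dvd.mpr (h4.of_le h5 inf_le_right).not_dvd).symm)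
  obtain ⟨c, hc, h5⟩ := h4.frattini (le_normalizer_centralizer le_rfl) h1
  obtain ⟨a, h6, h7, j, h8⟩ := exists_qPart (q := q) (k := k) (x := c * x)
    (C := centralizer (H : Set G)) (by
      have : ∀ m : ℕ, (c * x) ^ m * (x ^ m)⁻¹ ∈ centralizer (H : Set G) := fun m => by
        induction m with
        | zero => simp
        | succ m ih =>
          rw [show (c * x) ^ (m + 1) * (x ^ (m + 1))⁻¹ =
            c * (x * ((c * x) ^ m * (x ^ m)⁻¹) * x⁻¹) by rw [pow_succ', pow_succ']; group]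
          exact mul_mem hc (conj_mem_of_le_normalizer (le_normalizer_centralizer le_rfl) h1 ih)
      simpa [h3] using this (q ^ k)) (fun h => h2 ((mul_mem_cancel_left hc).mp h))
  have h9 : a ∈ X := zpowers_le.mpr
    (mem_inf.mpr ⟨mul_mem (centralizer_le_normalizer _ hc) h1, h5⟩) h6
  have h10 := hP.of_le hPX inf_le_left
  rw [← h10.map_toSylow]
  refine Good.map h10.toSylow.2 (good_of_isPSolvable hpq h23 hX (H1.sylow_isSylowIn_top _)
    (y := ⟨a, h9⟩) (fun h => h7 fun z hz => ?_) (Subtype.ext h8)) _ X.subtype_injective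
  have h11 : H ≤ X := (hP.le_of_normal hH le_normalizer le_rfl).trans hPX
  haveI := normal_subgroupOf_of_le_normalizer (N := H) (H := X) inf_le_left
  exact congrArg Subtype.val (commutator_eq_bot_iff_le_centralizer.mp
    (L.commutator_pCore_pPrimeCore p) (L.le_pCore (H1.isPGroup_subgroupOf hH X)
      (show (⟨z, h11 hz⟩ : X) ∈ H.subgroupOf X from hz)) _ h).symm

end

theorem main (hpq : p ≠ q) (h23 : ¬ ((p = 2 ∧ q = 3) ∨ (p = 3 ∧ q = 2))) (n : ℕ) :
    ∀ (G : Type u) [Group G] [Finite G], Nat.card G = n → Hs p G → ∀ H : Subgroup G,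
      IsPGroup p H → (∃ y, AQ q H y) → ∃ K P : Subgroup G, H1.IsSylowIn p P ⊤ ∧ K ≤ P ∧
        P ≤ normalizer (K : Set G) ∧ ∃ y, AQ q K y := by
  induction n using Nat.strong_induction_on with
  | _ n ih =>
  intro G _ _ hn hs H₀ h1 h2
  obtain ⟨P, ⟨hP, H, hH, hPH, x, hx⟩, hmax⟩ := Set.exists_max_image {P : Subgroup G | IsPGroup p P ∧
    ∃ H : Subgroup G, IsPGroup p H ∧ P ≤ normalizer (H : Set G) ∧ ∃ y, AQ q H y}
    (fun P => Nat.card P) (Set.toFinite _) ⟨H₀, h1, H₀, h1, le_normalizer, h2⟩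
  have h3 : H1.IsSylowIn p P (normalizer (H : Set G)) := H1.isSylowIn_of_maximal hP hPH
    fun Q h3 h4 h5 => (eq_of_le_of_card_ge h4 (hmax Q ⟨h3, H, hH, h5, x, hx⟩)).symm
  have hHP := h3.le_of_normal hH le_normalizer le_rfl
  obtain ⟨S, hPS, hS⟩ := H1.exists_isSylowIn_ge hP le_top
  rcases hPS.eq_or_lt with rfl | hPS
  · exact ⟨H, P, hS, hHP, hPH, x, hx⟩
  obtain ⟨b, T, hT, y, hy, hy'⟩ := good_of_hs hpq h23 hs hH h3 hx
  have hW := WW_ne_bot b hP fun h => hx.2.1 fun z hz => by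
    rw [mem_bot.mp (h.le (hHP hz)), one_mul, mul_one]
  have hWP := WW_le (p := p) b P
  have hWn := le_normalizer_WW (p := p) b P
  generalize WW p b P = W at hy hW hWP hWn
  by_cases hM : normalizer (W : Set G) = ⊤
  · haveI := normalizer_eq_top_iff.mp hM
    by_cases hyW : y ∈ centralizer (W : Set G)
    swap
    · exact ⟨W, S, hS, hWP.trans hPS.le, le_normalizer_of_normal, y, hy, hyW, hy'.2.2⟩
    set f := QuotientGroup.mk' W
    have hf : (L.psClass p).P f.ker := by
      rw [QuotientGroup.ker_mk']; exact L.isPSolvable_of_isPGroup (hP.to_le hWP)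
    obtain ⟨h4, h5, k, h6⟩ := hy'
    obtain ⟨K, R, h7, h8, h9, z, h10, h11, j, h12⟩ := ih _ (hn ▸ card_quotient_lt hW) _ rfl
      (fun A X h7 h8 h9 => by
        rw [← map_comap_eq_self_of_surjective (QuotientGroup.mk'_surjective W) X]
        refine (L.psClass p).map (hs (A.comap f) _ (h7.comap_of_ker_isPGroup f
          ((QuotientGroup.ker_mk' W).symm ▸ hP.to_le hWP)) ((comap_mono h8).trans
            (le_normalizer_comap f)) ((L.psClass p).of_le ?_ ((L.psClass_ext p).comap f hf h9))) f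
        refine fun g hg => ⟨hg.1, fun a ha => ?_⟩
        obtain ⟨a, rfl⟩ := QuotientGroup.mk'_surjective W a
        rw [← map_mul, hg.2 a ha, map_mul]) (T.map f) ((hP.to_le hT).map f)
      ⟨f y, le_normalizer_map f ⟨y, h4, rfl⟩, fun h => h5 (by
        refine zpowers_le.mp (le_centralizer_iff.mp (le_centralizer_of_commutator_le_centralizer
          (zpowers_le.mpr h4) (L.coprime_card_of_isPGroup (H1.isPGroup_zpowers h6)
            (L.coprime_of_isPGroup_ne hpq (hP.to_le hT))) (le_trans ?_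
              (le_centralizer_iff.mp (zpowers_le.mpr hyW)))))
        rw [← QuotientGroup.ker_mk' W, ← Subgroup.map_eq_bot_iff, Subgroup.map_commutator,
          MonoidHom.map_zpowers, commutator_comm, commutator_eq_bot_iff_le_centralizer]
        exact zpowers_le.mpr h), k, by rw [← map_pow, h6, map_one]⟩
    obtain ⟨z, rfl⟩ := QuotientGroup.mk'_surjective W z
    obtain ⟨a, h13, h14, h15⟩ := exists_qPart (q := q) (k := j) (x := z)
      (C := (centralizer (K : Set (G ⧸ W))).comap f) (by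
        rw [mem_comap, map_pow, h12]; exact one_mem _) h11
    refine ⟨K.comap f, R.comap f, ⟨le_top, h7.isPGroup.comap_of_ker_isPGroup f
      ((QuotientGroup.ker_mk' W).symm ▸ hP.to_le hWP), ?_⟩, comap_mono h8, (comap_mono h9).trans
      (le_normalizer_comap f), a, zpowers_le.mpr (le_normalizer_comap f h10) h13,
      fun h => h14 fun w hw => ?_, h15⟩
    · rw [relIndex_top_right, index_comap_of_surjective _ (QuotientGroup.mk'_surjective W),
        ← relIndex_top_right]
      exact h7.not_dvd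
    · obtain ⟨w, rfl⟩ := QuotientGroup.mk'_surjective W w
      rw [← map_mul, h w hw, map_mul]
  · exfalso
    set M := normalizer (W : Set G)
    have hTM : T ≤ M := hT.trans (le_normalizer.trans hWn)
    obtain ⟨h4, h5, k, h6⟩ := hy'
    obtain ⟨K, R, h7, h8, h9, z, h10⟩ := ih _ (hn ▸ (card_lt_of_lt
      (lt_top_iff_ne_top.mpr hM)).trans_eq card_top) M rfl
      (fun A X h7 h8 h9 => (L.psClass p).of_map_inj M.subtype M.subtype_injective
        (hs _ _ (h7.map M.subtype) ((map_mono h8).trans (le_normalizer_map _))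
          ((L.psClass p).of_le (by
            rintro _ ⟨⟨g, hg, rfl⟩, h⟩
            exact ⟨g, ⟨hg, fun a ha => Subtype.ext (h _ ⟨a, ha, rfl⟩)⟩, rfl⟩)
            ((L.psClass p).map h9 M.subtype)))) (T.subgroupOf M)
      (H1.isPGroup_subgroupOf (hP.to_le hT) M) ⟨⟨y, hy⟩, le_normalizer_comap M.subtype h4,
        fun h => h5 fun t ht => congrArg Subtype.val (h ⟨t, hTM ht⟩ ht), k, Subtype.ext h6⟩
    have h11 := hmax _ ⟨h7.isPGroup.map M.subtype, _, (h7.isPGroup.to_le h8).map M.subtype,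
      (map_mono h9).trans (le_normalizer_map _), _, h10.map _ M.subtype_injective⟩
    have h12 := (h7.map M.subtype).card_le (hS.isPGroup.to_le inf_le_left) (by
      rw [← MonoidHom.range_eq_map, range_subtype]; exact inf_le_right.trans hWn)
    exact (card_lt_of_lt (H1.lt_inf_normalizer_of_isPGroup hS.isPGroup hPS)).not_ge
      (h12.trans h11)

/-- Let p and q be distinct primes with {p, q} ≠ {2, 3}, and let G be a finite group such that for every p-subgroup H of G the automizer N_G(H)/C_G(H) is p-solvable. If q divides the order of N_G(H)/C_G(H) for some p-subgroup H, then a Sylow p-subgroup of G has a normal subgroup K (normal in the Sylow subgroup) such that q divides the order of N_G(K)/C_G(K). -/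
theorem result {G : Type*} [Group G] [Finite G]
    (p q : ℕ) [Fact p.Prime] [Fact q.Prime] (hpq : p ≠ q) (h23 : ¬ ((p = 2 ∧ q = 3) ∨ (p = 3 ∧ q = 2)))
    (hsol : ∀ H : Subgroup G, IsPGroup p ↥H →
      Cfsg.IsPSolvable p (↥(Subgroup.normalizer (H : Set G)) ⧸ (Subgroup.centralizer (H : Set G)).subgroupOf (Subgroup.normalizer (H : Set G))))
    (H : Subgroup G) (hH : IsPGroup p ↥H)
    (hq : q ∣ ((Subgroup.centralizer (H : Set G)).subgroupOf (Subgroup.normalizer (H : Set G))).index)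
    (Gp : Sylow p G) :
    ∃ K : Subgroup G, K ≤ (Gp : Subgroup G) ∧ (Gp : Subgroup G) ≤ Subgroup.normalizer (K : Set G) ∧
      q ∣ ((Subgroup.centralizer (K : Set G)).subgroupOf (Subgroup.normalizer (K : Set G))).index := by
  obtain ⟨K, P, h1, h2, h3, y, hy⟩ := main hpq h23 _ G rfl (fun A X h1 h2 h3 => by
    let f := (QuotientGroup.mk' ((centralizer (A : Set G)).subgroupOf _)).comp (inclusion h2)
    refine (L.psClass p).top_iff.mp ((L.psClass_ext p).of_map f ?_
      (L.isPSolvable_subgroup (hsol A h1) _))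
    refine (L.psClass p).of_map_inj X.subtype X.subtype_injective ((L.psClass p).of_le ?_ h3)
    rintro _ ⟨x, hx, rfl⟩
    exact ⟨x.2, mem_subgroupOf.mp ((QuotientGroup.eq_one_iff (inclusion h2 x)).mp hx)⟩) H hH (aq_iff.mpr hq)
  obtain ⟨g, -, hg⟩ := (H1.sylow_isSylowIn_top Gp).exists_cj_eq h1
  refine ⟨H1.cj g K, hg ▸ H1.cj_mono g h2, ?_, aq_iff.mp ⟨_, hy.map _ (MulAut.conj g).injective⟩⟩
  rw [← hg, ← H1.cj_normalizer]
  exact H1.cj_mono g h3

end Cfsg.Agent.S4411
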