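import Cfsg.Statements.S4412
import Cfsg.Agent.H2.Elem2
import Cfsg.Agent.H2.Hol
import Cfsg.Agent.H2.Meta
import Cfsg.Agent.H2.NoFour
import Mathlib.GroupTheory.FixedPointFree

set_option autoImplicit false
open Cfsg

namespace Cfsg.Agent.S4412

open Subgroup Cfsg.Agent.H2
open scoped commutatorElement Pointwise

section

variable {P : Type*} [Group P] [Finite P] {p : ℕ} [hp : Fact p.Prime]

theorem exists_pow (hP : IsPGroup p P) {x : P} (hx : x ≠ 1) : ∃ k : ℕ, orderOf (x ^ k) = p := by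
  obtain ⟨k, hk⟩ := exists_prime_orderOf_pow hx
  obtain ⟨n, hn⟩ := (IsPGroup.iff_orderOf.mp hP) (x ^ k)
  exact ⟨k, (Nat.prime_dvd_prime_iff_eq hk hp.out).mp (hk.dvd_of_dvd_pow hn.dvd)⟩

theorem eq_one (hP : IsPGroup p P) (hp2 : p ≠ 2) {x : P} (hx : x⁻¹ = x) : x = 1 := by
  by_contra h
  obtain ⟨k, hk⟩ := exists_pow hP h
  refine hp2 ((Nat.prime_dvd_prime_iff_eq hp.out Nat.prime_two).mp (hk ▸ orderOf_dvd_of_pow_eq_one ?_))
  rw [← pow_mul, mul_comm, pow_mul, sq, mul_eq_one_iff_inv_eq.mpr hx, one_pow]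

theorem not_both (hP : IsPGroup p P) (hp2 : p ≠ 2) {g u v : P} (hu : u ∈ zpowers g)
    (hv : v ∈ zpowers g) (hu1 : u ≠ 1) (hv1 : v ≠ 1) {s : MulAut P} (h1 : s u = u)
    (h2 : s v = v⁻¹) : False := by
  obtain ⟨k, hk⟩ := exists_pow hP hu1
  obtain ⟨l, hl⟩ := exists_pow hP hv1
  have h3 := eq_of_le_zpowers_of_card_eq (zpowers_le.mpr (pow_mem hu k))
    (zpowers_le.mpr (pow_mem hv l)) (by rw [Nat.card_zpowers, Nat.card_zpowers, hk, hl])
  obtain ⟨i, hi⟩ := h3.ge (mem_zpowers _)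
  have h4 : s (v ^ l) = v ^ l := by rw [← hi, map_zpow, map_pow, h1]
  rw [map_pow, h2, inv_pow] at h4
  rw [eq_one hP hp2 h4, orderOf_one] at hl
  exact hp.out.one_lt.ne hl

theorem exists_eigen (hP : IsPGroup p P) (hp2 : p ≠ 2) {I : Subgroup (MulAut P)}
    (hI : IsElementaryAbelian 2 I) {t : MulAut P} (ht : t ∈ I) (ht1 : t ≠ 1) :
    ∃ x : P, orderOf x = p ∧ t x = x⁻¹ ∧ ∀ s ∈ I, s x = x ∨ s x = x⁻¹ := by
  haveI := hI.1
  obtain ⟨n, hn⟩ := hP.exists_card_eq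
  obtain ⟨_, ⟨x, -, rfl⟩, h1, h2⟩ := exists_mem_not_mem_inverted
    (I := I.map (SemidirectProduct.inr : _ →* P ⋊[MonoidHom.id _] MulAut P))
    (K := (⊤ : Subgroup P).map SemidirectProduct.inl) (L := centralizer {SemidirectProduct.inr t})
    inferInstance (by
      rintro _ ⟨a, ha, rfl⟩
      rw [← map_pow, hI.2 a ha, map_one]) (map_inr_le_normalizer_iff.mpr (isInv_top _))
    (by rw [card_map_inl, card_top, hn]; exact (hp.out.odd_of_ne_two hp2).pow)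
    fun h => ht1 (MulEquiv.ext fun x => inl_mem_centralizer_singleton_iff.mp (h ⟨x, trivial, rfl⟩))
  have h3 : ∀ s ∈ I, s x = x ∨ s x = x⁻¹ := fun s hs => by
    have := h2 _ ⟨s, hs, rfl⟩
    rwa [inr_mul_inl_mul_inv, ← map_inv, SemidirectProduct.inl_inj, SemidirectProduct.inl_inj]
      at this
  have h4 := (h3 t ht).resolve_left fun h => h1 (inl_mem_centralizer_singleton_iff.mpr h)
  obtain ⟨k, hk⟩ := exists_pow hP (x := x) fun h => h1 (by rw [h, map_one]; exact one_mem _)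
  exact ⟨x ^ k, hk, by rw [map_pow, h4, inv_pow], fun s hs => (h3 s hs).imp
    (fun h => by rw [map_pow, h]) fun h => by rw [map_pow, h, inv_pow]⟩

omit hp in
theorem card_le {J : Subgroup (MulAut P)} {x : P} (h : ∀ s ∈ J, s x = x ∨ s x = x⁻¹) :
    Nat.card J ≤ Nat.card (J ⊓ MulAction.stabilizer (MulAut P) x : Subgroup _) * 2 := by
  rw [← card_inf_mul_relIndex (MulAction.stabilizer (MulAut P) x) J, inf_comm]
  refine Nat.mul_le_mul_left _ ?_
  by_cases h1 : J ≤ MulAction.stabilizer (MulAut P) x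
  · rw [relIndex_eq_one.mpr h1]; decide
  obtain ⟨a, ha, ha'⟩ := SetLike.not_le_iff_exists.mp h1
  refine (relIndex_eq_two_iff.mpr ⟨a, ha, fun b hb => ?_⟩).le
  by_cases h2 : b ∈ MulAction.stabilizer (MulAut P) x
  · exact Or.inr ⟨h2, fun h' => ha' ((mul_mem_cancel_left h2).mp h')⟩
  · refine Or.inl ⟨?_, h2⟩
    change b (a x) = x
    rw [(h a ha).resolve_left ha', map_inv, (h b hb).resolve_left h2, inv_inv]

theorem gen_cases (hP : IsPGroup p P) (hp2 : p ≠ 2) {g : P} {s : MulAut P} (hs : s ^ 2 = 1)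
    (hg : s g ∈ zpowers g) : s g = g ∨ s g = g⁻¹ := by
  by_contra! h
  have h1 : s (s g) = g := by rw [← MulAut.mul_apply, ← sq, hs, MulAut.one_apply]
  have h2 : Commute g (s g) := by
    obtain ⟨i, hi⟩ := hg
    exact hi ▸ (Commute.refl g).zpow_right i
  refine not_both hP hp2 (mul_mem (mem_zpowers g) hg) (mul_mem (inv_mem (mem_zpowers g)) hg)
    (fun h3 => h.2 (eq_inv_of_mul_eq_one_right h3)) (fun h3 => h.1 (inv_mul_eq_one.mp h3).symm)
    (s := s) (by rw [map_mul, h1, h2.eq]) (by simp [h1])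

end

/-- Let p be an odd prime, P a finite p-group and I an elementary abelian subgroup of order 8 of Aut(P). Call T ∈ I, T ≠ 1, broad when its fixed-point subgroup C_P(T) is not cyclic. Suppose I has a proper subgroup I₀ containing no broad element such that the product of any two broad elements lies in I₀. Then P is abelian of rank exactly 3 (generated by three elements but not by two), there are exactly three broad elements and they generate I, and I₀ is exactly the set of products of two broad elements. -/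
theorem result
    {P : Type*} [Group P] [Finite P] (p : ℕ) (hp : p.Prime) (hp2 : p ≠ 2) (hP : IsPGroup p P)
    (I : Subgroup (MulAut P)) (hI : Cfsg.IsElementaryAbelian 2 I) (hI8 : Nat.card ↥I = 8)
    (I₀ : Subgroup (MulAut P)) (hI₀ : I₀ < I)
    (hdisj : ∀ T ∈ I₀, T ≠ 1 → ∃ g : P, ∀ x : P, (T x = x ↔ x ∈ Subgroup.zpowers g))
    (hprod : ∀ T ∈ I, ∀ T' ∈ I, T ≠ 1 → T' ≠ 1 → (¬ ∃ g : P, ∀ x : P, (T x = x ↔ x ∈ Subgroup.zpowers g)) →
      (¬ ∃ g : P, ∀ x : P, (T' x = x ↔ x ∈ Subgroup.zpowers g)) → T * T' ∈ I₀) :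
    IsMulCommutative P ∧ (∃ a b c : P, Subgroup.closure {a, b, c} = ⊤) ∧ (¬ ∃ a b : P, Subgroup.closure {a, b} = ⊤) ∧
      Nat.card {T : MulAut P // T ∈ I ∧ T ≠ 1 ∧ ¬ ∃ g : P, ∀ x : P, (T x = x ↔ x ∈ Subgroup.zpowers g)} = 3 ∧
      Subgroup.closure {T : MulAut P | T ∈ I ∧ T ≠ 1 ∧ ¬ ∃ g : P, ∀ x : P, (T x = x ↔ x ∈ Subgroup.zpowers g)} = I ∧
      (I₀ : Set (MulAut P)) = {S : MulAut P | ∃ T T' : MulAut P, T ∈ I ∧ T' ∈ I ∧ T ≠ 1 ∧ T' ≠ 1 ∧
        (¬ ∃ g : P, ∀ x : P, (T x = x ↔ x ∈ Subgroup.zpowers g)) ∧ (¬ ∃ g : P, ∀ x : P, (T' x = x ↔ x ∈ Subgroup.zpowers g)) ∧ S = T * T'} := by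
  haveI := Fact.mk hp
  haveI := hI.1
  set B : MulAut P → Prop := fun T => ¬ ∃ g : P, ∀ x : P, (T x = x ↔ x ∈ zpowers g) with hB
  have h2 : ∀ s ∈ I, s * s = 1 := fun s hs => (sq s).symm.trans (hI.2 s hs)
  have hc : ∀ s ∈ I, ∀ t ∈ I, s * t = t * s := fun s hs t ht => setLike_mul_comm (s := I) hs ht
  have hne : ∀ {x : P}, orderOf x = p → x ≠ 1 := fun hx h => by
    rw [h, orderOf_one] at hx; exact hp.one_lt.ne hx
  have hni : ∀ {x : P}, orderOf x = p → x⁻¹ ≠ x := fun hx h => hne hx (eq_one hP hp2 h)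
  have hex : ∀ J : Subgroup (MulAut P), 1 < Nat.card J → ∃ t ∈ J, t ≠ 1 := fun J hJ =>
    (J.bot_or_exists_ne_one).resolve_left fun h => by simp [h] at hJ
  set St := fun x : P => MulAction.stabilizer (MulAut P) x
  obtain ⟨s₁, hs₁, hs₁'⟩ := hex I (by omega)
  obtain ⟨a₁, ha₁, hb₁, he₁⟩ := exists_eigen hP hp2 hI hs₁ hs₁'
  have hJ₁ := card_le he₁
  obtain ⟨s₂, hs₂, hs₂'⟩ := hex (I ⊓ St a₁) (by simp only [St]; omega)
  obtain ⟨a₂, ha₂, hb₂, he₂⟩ := exists_eigen hP hp2 hI hs₂.1 hs₂'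
  have hJ₂ := card_le (J := I ⊓ St a₁) fun s hs => he₂ s hs.1
  obtain ⟨t₃, ⟨⟨ht₃, h31⟩, h32⟩, ht₃'⟩ := hex (I ⊓ St a₁ ⊓ St a₂) (by simp only [St] at *; omega)
  obtain ⟨a₃, ha₃, h33, he₃⟩ := exists_eigen hP hp2 hI ht₃ ht₃'
  have hIp : IsPGroup 2 I := IsPGroup.of_card (n := 3) hI8
  have hk : ∀ s ∈ I, s a₁ = a₁ → s a₂ = a₂ → s a₃ = a₃ → s = 1 := fun s hs e1 e2 e3 => by
    have h1 := mul_card_le_of_lt hIp (inf_lt_left.mpr fun h : I ≤ St a₁ =>
      hni ha₁ (hb₁.symm.trans (h hs₁)))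
    have h3 := mul_card_le_of_lt (hIp.to_le inf_le_left) (inf_lt_left.mpr
      fun h : I ⊓ St a₁ ≤ St a₂ => hni ha₂ (hb₂.symm.trans (h hs₂)))
    have h4 := mul_card_le_of_lt (hIp.to_le (inf_le_left.trans inf_le_left)) (inf_lt_left.mpr
      fun h : I ⊓ St a₁ ⊓ St a₂ ≤ St a₃ => hni ha₃ (h33.symm.trans (h ⟨⟨ht₃, h31⟩, h32⟩)))
    have h5 := Nat.card_pos (α := (I ⊓ St a₁ ⊓ St a₂ ⊓ St a₃ : Subgroup _))
    exact mem_bot.mp ((card_eq_one.mp (by omega) : I ⊓ St a₁ ⊓ St a₂ ⊓ St a₃ = ⊥).le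
      ⟨⟨⟨hs, e1⟩, e2⟩, e3⟩)
  have hJ₃ := card_le (J := I ⊓ St a₁) fun s hs => he₃ s hs.1
  obtain ⟨t₂, ⟨⟨ht₂, h21⟩, h23⟩, ht₂'⟩ := hex (I ⊓ St a₁ ⊓ St a₃) (by simp only [St] at *; omega)
  have hJ₄ := card_le he₂
  have hJ₅ := card_le (J := I ⊓ St a₂) fun s hs => he₃ s hs.1
  obtain ⟨t₁, ⟨⟨ht₁, h12⟩, h13⟩, ht₁'⟩ := hex (I ⊓ St a₂ ⊓ St a₃) (by simp only [St] at *; omega)
  replace h31 : t₃ a₁ = a₁ := h31
  replace h32 : t₃ a₂ = a₂ := h32
  replace h21 : t₂ a₁ = a₁ := h21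
  replace h23 : t₂ a₃ = a₃ := h23
  replace h12 : t₁ a₂ = a₂ := h12
  replace h13 : t₁ a₃ = a₃ := h13
  have h22 := (he₂ t₂ ht₂).resolve_left fun h => ht₂' (hk _ ht₂ h21 h h23)
  have h11 := (he₁ t₁ ht₁).resolve_left fun h => ht₁' (hk _ ht₁ h h12 h13)
  have hall : ∀ s ∈ I, s = 1 ∨ s = t₁ ∨ s = t₂ ∨ s = t₃ ∨ s = t₁ * t₂ ∨ s = t₁ * t₃ ∨
      s = t₂ * t₃ ∨ s = t₁ * t₂ * t₃ := fun s hs => by
    have key : ∀ t ∈ I, t a₁ = s a₁ → t a₂ = s a₂ → t a₃ = s a₃ → s = t := fun t ht e1 e2 e3 =>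
      (inv_mul_eq_one.mp (hk _ (mul_mem (inv_mem ht) hs) (by simp [← e1]) (by simp [← e2])
        (by simp [← e3]))).symm
    rcases he₁ s hs with e1 | e1 <;> rcases he₂ s hs with e2 | e2 <;>
      rcases he₃ s hs with e3 | e3
    · exact .inl (hk s hs e1 e2 e3)
    · exact .inr (.inr (.inr (.inl (key _ ht₃ (by simp [*]) (by simp [*]) (by simp [*])))))
    · exact .inr (.inr (.inl (key _ ht₂ (by simp [*]) (by simp [*]) (by simp [*]))))
    · exact .inr (.inr (.inr (.inr (.inr (.inr (.inl (key _ (mul_mem ht₂ ht₃) (by simp [*])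
        (by simp [*]) (by simp [*]))))))))
    · exact .inr (.inl (key _ ht₁ (by simp [*]) (by simp [*]) (by simp [*])))
    · exact .inr (.inr (.inr (.inr (.inr (.inl (key _ (mul_mem ht₁ ht₃) (by simp [*])
        (by simp [*]) (by simp [*])))))))
    · exact .inr (.inr (.inr (.inr (.inl (key _ (mul_mem ht₁ ht₂) (by simp [*])
        (by simp [*]) (by simp [*]))))))
    · exact .inr (.inr (.inr (.inr (.inr (.inr (.inr (key _ (mul_mem (mul_mem ht₁ ht₂) ht₃)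
        (by simp [*]) (by simp [*]) (by simp [*]))))))))
  have hB₁ : B t₁ := fun ⟨g, hg⟩ =>
    not_both hP hp2 ((hg _).mp h12) ((hg _).mp h13) (hne ha₂) (hne ha₃) h32 h33
  have hB₂ : B t₂ := fun ⟨g, hg⟩ =>
    not_both hP hp2 ((hg _).mp h21) ((hg _).mp h23) (hne ha₁) (hne ha₃) h31 h33
  have hB₃ : B t₃ := fun ⟨g, hg⟩ =>
    not_both hP hp2 ((hg _).mp h31) ((hg _).mp h32) (hne ha₁) (hne ha₂) h21 h22
  have n12 : t₁ * t₂ ≠ 1 := fun h => hni ha₁ (by simpa [h21, h11] using DFunLike.congr_fun h a₁)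
  have n13 : t₁ * t₃ ≠ 1 := fun h => hni ha₁ (by simpa [h31, h11] using DFunLike.congr_fun h a₁)
  have n23 : t₂ * t₃ ≠ 1 := fun h => hni ha₂ (by simpa [h32, h22] using DFunLike.congr_fun h a₂)
  have m12 := hprod _ ht₁ _ ht₂ ht₁' ht₂' hB₁ hB₂
  have m13 := hprod _ ht₁ _ ht₃ ht₁' ht₃' hB₁ hB₃
  have m23 := hprod _ ht₂ _ ht₃ ht₂' ht₃' hB₂ hB₃
  obtain ⟨g₃, hg₃⟩ := hdisj _ m12 n12
  obtain ⟨g₂, hg₂⟩ := hdisj _ m13 n13
  obtain ⟨g₁, hg₁⟩ := hdisj _ m23 n23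
  have hgen : ∀ u ∈ I, ∀ g a : P, (∀ x, u x = x ↔ x ∈ zpowers g) → orderOf a = p → u a = a →
      ∀ s ∈ I, (s a = a → s g = g) ∧ (s a = a⁻¹ → s g = g⁻¹) := fun u hu g a hg ha hua s hs => by
    have h1 := gen_cases hP hp2 (hI.2 s hs) ((hg _).mp (by
      rw [← MulAut.mul_apply, hc u hu s hs, MulAut.mul_apply, (hg g).mpr (mem_zpowers g)]))
    have h3 : g ≠ 1 := fun h => hne ha (by simpa [h] using (hg a).mp hua)
    exact ⟨fun h => h1.resolve_right fun h' => not_both hP hp2 ((hg a).mp hua) (mem_zpowers g)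
      (hne ha) h3 h h', fun h => h1.resolve_left fun h' => not_both hP hp2 (mem_zpowers g)
        ((hg a).mp hua) h3 (hne ha) h' h⟩
  have k₁ := hgen _ (hI₀.le m23) g₁ a₁ hg₁ ha₁ (by simp [*])
  have k₂ := hgen _ (hI₀.le m13) g₂ a₂ hg₂ ha₂ (by simp [*])
  have k₃ := hgen _ (hI₀.le m12) g₃ a₃ hg₃ ha₃ (by simp [*])
  have k11 := (k₁ _ ht₁).2 h11
  have k21 := (k₁ _ ht₂).1 h21
  have k31 := (k₁ _ ht₃).1 h31
  have k12 := (k₂ _ ht₁).1 h12
  have k22 := (k₂ _ ht₂).2 h22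
  have k32 := (k₂ _ ht₃).1 h32
  have k13 := (k₃ _ ht₁).1 h13
  have k23 := (k₃ _ ht₂).1 h23
  have k33 := (k₃ _ ht₃).2 h33
  have hcomm : ∀ t ∈ I, ∀ u ∈ I, ∀ g : P, (∀ x, u x = x ↔ x ∈ zpowers g) → t g = g⁻¹ →
      ∀ x y, t x = x → t y = y → Commute x y := fun t ht u hu g hg htg x y hx hy => by
    let C : Subgroup P := t.toMonoidHom.eqLocus (MonoidHom.id P)
    let φ : C →* C := (u.toMonoidHom.comp C.subtype).codRestrict C fun c => by
      change t (u c) = u c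
      rw [← MulAut.mul_apply, hc t ht u hu, MulAut.mul_apply, show t c = c from c.2]
    have h1 : MonoidHom.FixedPointFree φ := fun c hc => by
      obtain ⟨i, hi⟩ := (hg c).mp (congrArg Subtype.val hc)
      have h1 : t c = c := c.2
      replace hi : g ^ i = c := hi
      rw [← hi, map_zpow, htg, inv_zpow, hi] at h1
      exact Subtype.ext (eq_one hP hp2 h1)
    exact congrArg Subtype.val (h1.commute_all_of_involutive (fun c => Subtype.ext (by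
      change u (u c) = c
      rw [← MulAut.mul_apply, h2 u hu, MulAut.one_apply])) ⟨x, hx⟩ ⟨y, hy⟩).eq
  have c12 := hcomm _ ht₃ _ (hI₀.le m12) _ hg₃ k33 _ _ k31 k32
  have c13 := hcomm _ ht₂ _ (hI₀.le m13) _ hg₂ k22 _ _ k21 k23
  have c23 := hcomm _ ht₁ _ (hI₀.le m23) _ hg₁ k11 _ _ k12 k13
  have hI₀' : ∀ s ∈ I₀, s = 1 ∨ s = t₁ * t₂ ∨ s = t₁ * t₃ ∨ s = t₂ * t₃ := fun s hs => by
    rcases hall s (hI₀.le hs) with h | h | h | h | h | h | h | h
    · exact .inl h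
    · exact (hB₁ (hdisj _ (h ▸ hs) ht₁')).elim
    · exact (hB₂ (hdisj _ (h ▸ hs) ht₂')).elim
    · exact (hB₃ (hdisj _ (h ▸ hs) ht₃')).elim
    · exact .inr (.inl h)
    · exact .inr (.inr (.inl h))
    · exact .inr (.inr (.inr h))
    · exact (hB₃ (hdisj _ ((mul_mem_cancel_left m12).mp (h ▸ hs)) ht₃')).elim
  obtain ⟨n, hn⟩ := hP.exists_card_eq
  have htop : closure {g₁, g₂, g₃} = ⊤ := by
    refine eq_top_iff.mpr (act_le_of_forall_fixed_le (φ := MonoidHom.id _) (B := I₀)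
      ⟨⟨fun a b => Subtype.ext (hc _ (hI₀.le a.2) _ (hI₀.le b.2))⟩⟩
      (not_isCyclic_of_two_involutions m12 m13 n12 n13 (hI.2 _ (hI₀.le m12)) (hI.2 _ (hI₀.le m13))
        fun h => hni ha₂ (by simpa [h22, h32] using DFunLike.congr_fun (mul_left_cancel h) a₂))
      (isInv_top _) (by
        obtain ⟨m, hm⟩ := (hIp.to_le hI₀.le).exists_card_eq
        rw [card_top, hn, hm]
        exact (Nat.coprime_two_left.mpr (hp.odd_of_ne_two hp2).pow).pow_left m) fun s hs hs1 g _ hg => ?_)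
    rcases hI₀' s hs with h | h | h | h
    · exact (hs1 h).elim
    · exact zpowers_le.mpr (subset_closure (by simp)) ((hg₃ g).mp (h ▸ hg))
    · exact zpowers_le.mpr (subset_closure (by simp)) ((hg₂ g).mp (h ▸ hg))
    · exact zpowers_le.mpr (subset_closure (by simp)) ((hg₁ g).mp (h ▸ hg))
  have hab : IsMulCommutative P := by
    have := isMulCommutative_closure (k := {g₁, g₂, g₃}) (by
      rintro _ (rfl | rfl | rfl) _ (rfl | rfl | rfl)
      exacts [rfl, c12, c13, c12.symm, rfl, c23, c13.symm, c23.symm, rfl])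
    rw [htop] at this
    exact ⟨⟨fun a b => congrArg Subtype.val (mul_comm' (⟨a, mem_top a⟩ : (⊤ : Subgroup P))
      ⟨b, mem_top b⟩)⟩⟩
  have hBall : ∀ T, T ∈ I ∧ T ≠ 1 ∧ B T ↔ T ∈ ({t₁, t₂, t₃} : Set (MulAut P)) := fun T => by
    refine ⟨fun ⟨h1, h3, h4⟩ => ?_, ?_⟩
    · rcases hall T h1 with h | h | h | h | h | h | h | h
      · exact (h3 h).elim
      · exact .inl h
      · exact .inr (.inl h)
      · exact .inr (.inr h)
      · exact (h4 ⟨g₃, h ▸ hg₃⟩).elim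
      · exact (h4 ⟨g₂, h ▸ hg₂⟩).elim
      · exact (h4 ⟨g₁, h ▸ hg₁⟩).elim
      refine (h4 ⟨1, fun x => ⟨fun hx => ?_, fun hx => ?_⟩⟩).elim
      · letI : CommGroup P := { mul_comm := mul_comm' }
        have h5 := MonoidHom.eq_of_eqOn_dense htop (f := T.toMonoidHom) (g := invMonoidHom) (by
          rintro _ (rfl | rfl | rfl) <;> simp [*])
        rw [eq_one hP hp2 ((DFunLike.congr_fun h5 x).symm.trans hx)]
        exact one_mem _
      · rw [zpowers_one_eq_bot, mem_bot] at hx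
        rw [hx, map_one]
    · rintro (rfl | rfl | rfl)
      exacts [⟨ht₁, ht₁', hB₁⟩, ⟨ht₂, ht₂', hB₂⟩, ⟨ht₃, ht₃', hB₃⟩]
  refine ⟨hab, ⟨_, _, _, htop⟩, fun ⟨a, b, h⟩ => ?_, ?_, ?_, ?_⟩
  · have h1 : SR p 2 P := SR_of_isMetacyclic hp.pos (isMetacyclic_iff.mpr ⟨a, b, inferInstance, by
      rw [zpowers_eq_closure, zpowers_eq_closure, ← Subgroup.closure_union]; exact h⟩)
    have h3 := card_sup_zpowers_eq (p := p) (M := zpowers a₁) (x := a₂)
      (le_normalizer_of_normal (mem_top _))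
      (fun h => hni ha₂ (h22.symm.trans ((zpowers_le (H := t₂.toMonoidHom.eqLocus
        (MonoidHom.id P))).mpr h21 h))) (by rw [← ha₂, pow_orderOf_eq_one]; exact one_mem _)
    have h4 := card_sup_zpowers_eq (p := p) (M := zpowers a₁ ⊔ zpowers a₂) (x := a₃)
      (le_normalizer_of_normal (mem_top _))
      (fun h => hni ha₃ (h33.symm.trans ((sup_le (zpowers_le.mpr h31) (zpowers_le.mpr h32) :
        _ ≤ t₃.toMonoidHom.eqLocus (MonoidHom.id P)) h)))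
      (by rw [← ha₃, pow_orderOf_eq_one]; exact one_mem _)
    letI : CommGroup P := { mul_comm := mul_comm' }
    have h6 : ∀ {a : P}, orderOf a = p → zpowers a ≤ (powMonoidHom p).ker := fun {a} h =>
      zpowers_le.mpr (show a ^ p = 1 from h ▸ pow_orderOf_eq_one a)
    have h5 := h1.card_le (A := zpowers a₁ ⊔ zpowers a₂ ⊔ zpowers a₃) inferInstance
      (sup_le (sup_le (h6 ha₁) (h6 ha₂)) (h6 ha₃))
    rw [h4, h3, Nat.card_zpowers, ha₁, ← sq] at h5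
    exact (lt_mul_of_one_lt_right (pow_pos hp.pos 2) hp.one_lt).not_ge h5
  · rw [Nat.card_congr (Equiv.subtypeEquivRight hBall)]
    exact Set.ncard_eq_three.mpr ⟨t₁, t₂, t₃, fun h => n12 (h ▸ h2 _ ht₁), fun h => n13 (h ▸ h2 _ ht₁),
      fun h => n23 (h ▸ h2 _ ht₂), rfl⟩
  · rw [Set.ext hBall]
    refine le_antisymm ((closure_le _).mpr fun T hT => ((hBall T).mpr hT).1) fun s hs => ?_
    have e1 : t₁ ∈ closure {t₁, t₂, t₃} := subset_closure (by simp)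
    have e2 : t₂ ∈ closure {t₁, t₂, t₃} := subset_closure (by simp)
    have e3 : t₃ ∈ closure {t₁, t₂, t₃} := subset_closure (by simp)
    rcases hall s hs with h | h | h | h | h | h | h | h <;> rw [h]
    exacts [one_mem _, e1, e2, e3, mul_mem e1 e2, mul_mem e1 e3, mul_mem e2 e3,
      mul_mem (mul_mem e1 e2) e3]
  · refine Set.ext fun s => ⟨fun hs => ?_, ?_⟩
    · rcases hI₀' s hs with h | h | h | h
      exacts [⟨_, _, ht₁, ht₁, ht₁', ht₁', hB₁, hB₁, h.trans (h2 _ ht₁).symm⟩,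
        ⟨_, _, ht₁, ht₂, ht₁', ht₂', hB₁, hB₂, h⟩, ⟨_, _, ht₁, ht₃, ht₁', ht₃', hB₁, hB₃, h⟩,
        ⟨_, _, ht₂, ht₃, ht₂', ht₃', hB₂, hB₃, h⟩]
    · rintro ⟨T, T', h1, h3, h4, h5, h6, h7, rfl⟩
      exact hprod _ h1 _ h3 h4 h5 h6 h7

end Cfsg.Agent.S4412
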