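import Cfsg.Statements.S4413
import Cfsg.Agent.H2.Minus

set_option autoImplicit false
open Cfsg

namespace Cfsg.Agent.S4413

open Subgroup Cfsg.Agent.H2
open scoped commutatorElement Pointwise


/-- Let P be an extraspecial 2-group of order 32 with no elementary abelian subgroup of order 8 (the central product of a dihedral and a quaternion group of order 8). Then the inner automorphism group of P has order 16 and the outer automorphism group Aut(P)/Inn(P) is isomorphic to the symmetric group of degree 5; in particular Aut(P) has order 1920. -/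
theorem result {P : Type*} [Group P] [Finite P]
    (hex : Cfsg.IsExtraspecial 2 P) (h32 : Nat.card P = 32)
    (hminus : ∀ A : Subgroup P, Cfsg.IsElementaryAbelian 2 A → Nat.card ↥A ≤ 4)
    [(MulAut.conj : P →* MulAut P).range.Normal] :
    Nat.card ↥(MulAut.conj : P →* MulAut P).range = 16 ∧ Nat.card (MulAut P) = 1920 ∧
      Nonempty ((MulAut P ⧸ (MulAut.conj : P →* MulAut P).range) ≃* Equiv.Perm (Fin 5)) := by
  classical
  obtain ⟨z, h⟩ := exists_minus hex h32 hminus
  set ψ := MulAction.toPermHom (MulAut P) (InvCl P)
  have h1 : Nat.card (MulAut.conj : P →* MulAut P).range = 16 := by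
    have h1 : (MulAut.conj : P →* MulAut P).ker = center P := by
      ext g
      rw [MonoidHom.mem_ker, mem_center_iff, MulEquiv.ext_iff]
      exact forall_congr' fun x => mul_inv_eq_iff_eq_mul.trans eq_comm
    have h2 := card_mul_index (center P)
    rw [h.es.card_center, h32, ← h1, index_ker] at h2
    omega
  have h2 : (MulAut.conj : P →* MulAut P).range = ψ.ker := by
    refine eq_of_le_of_card_ge ?_ (h1 ▸ h.card_ker_le)
    rintro _ ⟨g, rfl⟩
    refine Equiv.ext fun q => Subtype.ext ?_
    obtain ⟨x, hx⟩ := QuotientGroup.mk_surjective q.1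
    change cenAct P _ q.1 = q.1
    rw [← hx, cenAct_mk, MulAut.conj_apply, show g * x * g⁻¹ = ⁅g, x⁆ * x by group,
      QuotientGroup.mk_mul, (QuotientGroup.eq_one_iff _).mpr (h.es.cen ▸ h.es.comm _ _), one_mul]
  haveI := Fintype.ofFinite (InvCl P)
  have h3 : Fintype.card (InvCl P) = 5 := Nat.card_eq_fintype_card.symm.trans h.card_invCl
  refine ⟨h1, ?_, ⟨((QuotientGroup.quotientMulEquivOfEq h2).trans
    (QuotientGroup.quotientKerEquivOfSurjective ψ h.toPermHom_surjective)).trans
      (Fintype.equivFinOfCardEq h3).permCongrHom⟩⟩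
  rw [← card_mul_index ψ.ker, index_ker, MonoidHom.range_eq_top.mpr h.toPermHom_surjective,
    card_top, ← h2, h1, Nat.card_perm, h.card_invCl]
  rfl

end Cfsg.Agent.S4413
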