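import Cfsg.Statements.S4414
import Cfsg.Agent.H2.FrobMod
import Cfsg.Agent.H2.Coprime
import Cfsg.Agent.H1.Basic
import Cfsg.Agent.L.Core

set_option autoImplicit false
open Cfsg

namespace Cfsg.Agent.S4414

open Subgroup Cfsg.Agent.H2
open scoped commutatorElement Pointwise

open Module MulAction
open scoped TensorProduct

theorem mem_range_baseChange {k K E ι : Type*} [Field k] [Field K] [Algebra k K] [AddCommGroup E]
    [Module k E] (σ : ι → End k E) (W : Submodule k E) (hW : ∀ v, (∀ i, σ i v = v) → v ∈ W)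
    {u : K ⊗[k] E} (hu : ∀ i, (σ i).baseChange K u = u) :
    u ∈ LinearMap.range (W.subtype.baseChange K) := by
  classical
  let b := Basis.ofVectorSpace k K
  have h : ∀ (f : End k E) u j, TensorProduct.equivFinsuppOfBasisLeft b (f.baseChange K u) j =
      f (TensorProduct.equivFinsuppOfBasisLeft b u j) := fun f u j => by
    induction u with
    | zero => simp
    | tmul x y => simp
    | add x y h1 h2 => simp only [map_add, Finsupp.add_apply, h1, h2]
  rw [← (TensorProduct.equivFinsuppOfBasisLeft b).symm_apply_apply u,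
    TensorProduct.equivFinsuppOfBasisLeft_symm_apply]
  exact Submodule.sum_mem _ fun j _ => ⟨b j ⊗ₜ ⟨_, hW _ fun i => (h _ u j).symm.trans (by rw [hu])⟩, rfl⟩

/-- Candidates for characters of a normal subgroup. -/
def Ch {S : Type*} [Group S] (N : Subgroup S) (K : Type*) := N → K

variable {S K U : Type*} [Group S] {N : Subgroup S} [N.Normal]

instance instCh : MulAction S (Ch N K) where
  smul g χ n := χ (MulAut.conjNormal g⁻¹ n)
  one_smul χ := by funext n; change χ _ = _; simp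
  mul_smul g h χ := by funext n; change χ _ = χ _; simp

variable [Field K] [AddCommGroup U] [Module K U] (ρ : Representation K S U)

/-- Eigenspaces. -/
def eig (χ : Ch N K) : Submodule K U := ⨅ n : N, End.eigenspace (ρ n) (χ n)

omit [N.Normal] in
theorem mem_eig {χ : Ch N K} {u : U} : u ∈ eig ρ χ ↔ ∀ n : N, ρ n u = χ n • u := by
  simp [eig]

theorem smul_mem_eig {χ : Ch N K} {u : U} (h : u ∈ eig ρ χ) (g : S) : ρ g u ∈ eig ρ (g • χ) :=
  (mem_eig ρ).mpr fun n => by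
    change _ = χ _ • _
    rw [← map_smul, ← (mem_eig ρ).mp h]
    simp [← End.mul_apply, ← map_mul, mul_assoc]

omit [N.Normal] in
theorem indep [FiniteDimensional K U] (hN : IsMulCommutative N) : iSupIndep (eig (N := N) ρ) :=
  (End.independent_iInf_maxGenEigenspace_of_forall_mapsTo (fun n : N => ρ n)
    fun a b c => End.mapsTo_maxGenEigenspace_of_comm (by
      rw [Commute, SemiconjBy, ← map_mul, ← map_mul, setLike_mul_comm b.2 a.2]) c).mono
    fun _ => iInf_mono fun _ => End.eigenspace_le_maxGenEigenspace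

/-- The sum of the eigenspaces over an orbit. -/
def eigO (T : Subgroup S) (χ : Ch N K) : Submodule K U := ⨆ μ ∈ orbit T χ, eig ρ μ

theorem exists_fixed [Finite S] {p : ℕ} [Fact p.Prime] [ExpChar K p] {T : Subgroup S}
    (hT : IsPGroup p T) {χ : Ch N K} (h : eig ρ χ ≠ ⊥) :
    ∃ w ∈ eigO ρ T χ, w ≠ 0 ∧ ∀ t ∈ T, ρ t w = w := by
  have h1 : ∀ t : T, eigO ρ T χ ≤ (eigO ρ T χ).comap (ρ.comp T.subtype t) := fun t =>
    iSup₂_le fun μ hμ u hu => (le_iSup₂_of_le (f := fun μ (_ : μ ∈ orbit T χ) => eig ρ μ)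
      (t • μ) (mapsTo_smul_orbit t χ hμ) le_rfl) (smul_mem_eig ρ hu t)
  obtain ⟨u, hu, hu0⟩ := (Submodule.ne_bot_iff _).mp h
  haveI := (hT.to_subgroup ⊤).isNilpotent
  obtain ⟨w, hw, h2⟩ := exists_fixed_of_pow_mem p (Representation.subrepresentation _ _ h1)
    (F := ⊤) (N := ⊥) bot_le le_normalizer_of_normal (fun x _ => hT x)
    (v := ⟨u, (le_iSup₂_of_le (f := fun μ (_ : μ ∈ orbit T χ) => eig ρ μ) χ
      (mem_orbit_self χ) le_rfl) hu⟩) (fun h => hu0 (congrArg Subtype.val h))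
    fun n hn => by rw [mem_bot.mp hn, map_one]; rfl
  exact ⟨w, w.2, fun h => hw (Subtype.ext h), fun t ht =>
    congrArg Subtype.val (h2 ⟨t, ht⟩ (mem_top _))⟩

theorem le_finrank [Finite S] [FiniteDimensional K U] (hN : IsMulCommutative N) {p : ℕ}
    [Fact p.Prime] [ExpChar K p] {T : Subgroup S} (hT : IsPGroup p T) {m : ℕ}
    (χ : Fin m → Ch N K) (h : ∀ i, eig ρ (χ i) ≠ ⊥) (h' : ∀ i j, χ i ∈ orbit T (χ j) → i = j)
    {W : Submodule K U} (hW : ∀ w, (∀ t ∈ T, ρ t w = w) → w ∈ W) : m ≤ finrank K W := by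
  choose w h1 h2 h3 using fun i => exists_fixed ρ hT (h i)
  have h4 : iSupIndep fun i => eigO ρ T (χ i) := fun i => by
    have h5 : (⨆ j, ⨆ _ : j ≠ i, eigO ρ T (χ j)) ≤
        ⨆ μ ∈ ⋃ j, ⋃ _ : j ≠ i, orbit T (χ j), eig ρ μ :=
      iSup₂_le fun j hj => biSup_mono fun μ hμ => Set.mem_iUnion₂.mpr ⟨j, hj, hμ⟩
    refine Disjoint.mono_right h5 (iSupIndep.disjoint_biSup_biSup (indep ρ hN) ?_)
    simp only [Set.disjoint_iUnion_right]
    refine fun j hj => Set.disjoint_left.mpr fun μ h5 h6 => hj (h' i j ?_).symm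
    rw [← orbit_eq_iff.mpr h6, orbit_eq_iff.mpr h5]
    exact mem_orbit_self _
  have h5 : LinearIndependent K fun i => (⟨w i, hW _ (h3 i)⟩ : W) :=
    .of_comp W.subtype (h4.linearIndependent _ (v := w) h1 h2)
  simpa using h5.fintype_card_le_finrank

theorem exists_orbit_le [Finite S] [IsAlgClosed K] [FiniteDimensional K U]
    (hN : IsMulCommutative N) {T H : Subgroup S} {χ : Ch N K} {w : U} (h1 : w ∈ eigO ρ T χ)
    (h2 : w ≠ 0) (h3 : ∀ h ∈ H, ρ h w = w) :
    ∃ μ : Ch N K, eig ρ μ ≠ ⊥ ∧ ∀ h ∈ H, h • μ ∈ orbit T μ := by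
  have h4 : ∀ n : N, eigO ρ T χ ≤ (eigO ρ T χ).comap (ρ n) := fun n =>
    iSup₂_le fun μ hμ u hu => (le_iSup₂_of_le (f := fun μ (_ : μ ∈ orbit T χ) => eig ρ μ)
      μ hμ le_rfl) (by rw [(mem_eig ρ).mp hu]; exact Submodule.smul_mem _ _ hu)
  let X := ⨅ h : H, (eigO ρ T χ).comap (ρ h)
  have h5 : ∀ n : N, ∀ x ∈ X, ρ n x ∈ X := fun n x hx => (Submodule.mem_iInf _).mpr fun h => by
    have := h4 (MulAut.conjNormal (h : S) n) ((Submodule.mem_iInf _).mp hx h)
    simpa [← End.mul_apply, ← map_mul] using this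
  haveI : Nontrivial X := nontrivial_of_ne ⟨w, (Submodule.mem_iInf _).mpr fun h => by
    simpa [h3 h h.2] using h1⟩ 0 fun h => h2 (congrArg Subtype.val h)
  obtain ⟨u, hu0, hu⟩ := exists_common_eigenvector (fun n : N => (ρ n).restrict (h5 n))
    fun a b => LinearMap.ext fun x => Subtype.ext (show (ρ a * ρ b) x = (ρ b * ρ a) x by
      rw [← map_mul, ← map_mul, setLike_mul_comm a.2 b.2])
  choose μ' hμ using hu
  obtain ⟨μ, hμ⟩ : ∃ μ : Ch N K, u.1 ∈ eig ρ μ :=
    ⟨μ', (mem_eig ρ).mpr fun n => congrArg Subtype.val (hμ n)⟩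
  replace hu0 : u.1 ≠ 0 := fun h => hu0 (Subtype.ext h)
  have h6 : ∀ h ∈ H, h • μ ∈ orbit T χ := fun h hh => by
    by_contra h6
    exact hu0 ((ρ.apply_bijective h).1 ((Submodule.disjoint_def.mp ((indep ρ hN).disjoint_biSup h6)
      _ (smul_mem_eig ρ hμ h) ((Submodule.mem_iInf _).mp u.2 ⟨h, hh⟩)).trans (map_zero _).symm))
  refine ⟨μ, (Submodule.ne_bot_iff _).mpr ⟨u, hμ, hu0⟩, fun h hh => ?_⟩
  rw [orbit_eq_iff.mpr (one_smul S μ ▸ h6 1 (one_mem H))]
  exact h6 h hh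

theorem eq_bot_of_fixed {Q : Subgroup S} (hQ : ⁅N, Q⁆ = N) (h0 : ∀ u, (∀ n ∈ N, ρ n u = u) → u = 0)
    {χ : Ch N K} (h : ∀ y ∈ Q, y • χ = χ) : eig ρ χ = ⊥ := by
  refine (Submodule.eq_bot_iff _).mpr fun u hu => h0 u ?_
  let D : Subgroup S :=
    { carrier := {g | ρ g u = u}
      one_mem' := by simp
      mul_mem' := fun {a b} (ha : _ = _) (hb : _ = _) => by simp [ha, hb]
      inv_mem' := fun {a} (ha : _ = _) => (ρ.apply_bijective a).1 (by
        simp [← End.mul_apply, ← map_mul, ha]) }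
  refine fun n hn => (hQ.ge.trans (commutator_le.mpr fun n hn y hy => ?_ : _ ≤ D)) hn
  have h1 := (mem_eig ρ).mp hu (MulAut.conjNormal y ⟨n, hn⟩⁻¹)
  have h2 : χ (MulAut.conjNormal y ⟨n, hn⟩⁻¹) = χ ⟨n, hn⟩⁻¹ := by
    rw [← inv_inv y]; exact congrFun (h _ (inv_mem hy)) ⟨n, hn⟩⁻¹
  rw [h2, ← (mem_eig ρ).mp hu] at h1
  change ρ _ u = u
  rw [commutatorElement_def, mul_assoc, mul_assoc, ← mul_assoc y, map_mul, End.mul_apply]
  simpa [← End.mul_apply, ← map_mul, mul_assoc] using congrArg (ρ n) h1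

/-- Let S be a finite solvable group whose order is divisible only by the primes 2, p, q (p, q distinct odd primes), with a Sylow system S₂, S_p, S_q (pairwise permutable Sylow subgroups) such that: S_p is a minimal normal subgroup of S of order p or p²; S_q has order q and [S_p, S_q] = S_p; and O₂(S) = 1. Let E be an irreducible module for S over the field with two elements on which S_p acts faithfully, and E₀ the subspace of fixed points of S₂. Then either E₀ has at least 8 elements, or E₀ has exactly 4 elements and S_q does not leave E₀ invariant. -/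
theorem result {S : Type*} [Group S] [Finite S]
    [Group.IsSolvable S] (p q : ℕ) (hp : p.Prime) (hq : q.Prime) (hp2 : p ≠ 2) (hq2 : q ≠ 2) (hpq : p ≠ q)
    (hπ : ∀ r : ℕ, r.Prime → r ∣ Nat.card S → r = 2 ∨ r = p ∨ r = q)
    (S₂ : Sylow 2 S) (Sp : Sylow p S) (Sq : Sylow q S)
    (h2q : Nat.card ↥((S₂ : Subgroup S) ⊔ (Sq : Subgroup S)) = Nat.card ↥S₂ * Nat.card ↥Sq)
    (h2p : Nat.card ↥((S₂ : Subgroup S) ⊔ (Sp : Subgroup S)) = Nat.card ↥S₂ * Nat.card ↥Sp)
    (hpq' : Nat.card ↥((Sp : Subgroup S) ⊔ (Sq : Subgroup S)) = Nat.card ↥Sp * Nat.card ↥Sq)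
    (hSpN : (Sp : Subgroup S).Normal) (hSpmin : ∀ N : Subgroup S, N.Normal → N ≤ (Sp : Subgroup S) → N = ⊥ ∨ N = (Sp : Subgroup S))
    (hSpcard : Nat.card ↥Sp = p ∨ Nat.card ↥Sp = p ^ 2)
    (hSq : Nat.card ↥Sq = q) (hcomm : ⁅(Sp : Subgroup S), (Sq : Subgroup S)⁆ = (Sp : Subgroup S))
    (hO2 : Cfsg.pCore 2 S = ⊥)
    {E : Type*} [AddCommGroup E] [Module (ZMod 2) E] [Finite E] (ρ : Representation (ZMod 2) S E) (hE : Nontrivial E)
    (hirr : ∀ N : Submodule (ZMod 2) E, (∀ s : S, ∀ m ∈ N, ρ s m ∈ N) → N = ⊥ ∨ N = ⊤)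
    (hfaith : ∀ x ∈ (Sp : Subgroup S), ρ x = 1 → x = 1) :
    8 ≤ Nat.card {v : E // ∀ s ∈ (S₂ : Subgroup S), ρ s v = v} ∨
      (Nat.card {v : E // ∀ s ∈ (S₂ : Subgroup S), ρ s v = v} = 4 ∧
        ∃ x ∈ (Sq : Subgroup S), ∃ v : E, (∀ s ∈ (S₂ : Subgroup S), ρ s v = v) ∧ ¬ ∀ s ∈ (S₂ : Subgroup S), ρ s (ρ x v) = ρ x v) := by
  classical
  haveI := Fact.mk hp
  haveI := Fact.mk hq
  set T := (S₂ : Subgroup S)
  set N := (Sp : Subgroup S)
  set Q := (Sq : Subgroup S)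
  set H := T ⊔ Q
  change Nat.card H = Nat.card T * Nat.card Q at h2q
  change Nat.card N = p ∨ Nat.card N = p ^ 2 at hSpcard
  change Nat.card Q = q at hSq
  let K := AlgebraicClosure (ZMod 2)
  let β : End (ZMod 2) E →* End K (K ⊗[ZMod 2] E) := End.baseChangeHom (ZMod 2) K E
  let σ : Representation K S (K ⊗[ZMod 2] E) := β.comp ρ
  have hN : IsMulCommutative N := hSpcard.elim
    (fun h => haveI := isCyclic_of_prime_card h; inferInstance) IsPGroup.isMulCommutative_of_card_eq_prime_sq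
  let E₀ := Representation.invariants (ρ.comp T.subtype)
  have hE₀ : ∀ v, v ∈ E₀ ↔ ∀ s ∈ T, ρ s v = v := fun v => Subtype.forall
  have hc : Nat.card {v : E // ∀ s ∈ T, ρ s v = v} = 2 ^ finrank (ZMod 2) E₀ := by
    rw [← Nat.card_congr (Equiv.subtypeEquivRight hE₀)]
    exact natCard_eq_pow_finrank.trans (by rw [Nat.card_zmod])
  have hW : ∀ w, (∀ t ∈ T, σ t w = w) → w ∈ LinearMap.range (E₀.subtype.baseChange K) :=
    fun w hw => mem_range_baseChange (fun t : T => ρ t) E₀ (fun _ h => h) fun t => hw t t.2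
  have hr : finrank K (LinearMap.range (E₀.subtype.baseChange K)) ≤ finrank (ZMod 2) E₀ :=
    (LinearMap.finrank_range_le _).trans_eq finrank_baseChange
  have h0 : ∀ u, (∀ n ∈ N, σ n u = u) → u = 0 := fun u hu => by
    rcases hirr (Representation.invariants (ρ.comp N.subtype)) fun s m hm n => by
      have := congrArg (ρ s) (hm (MulAut.conjNormal s⁻¹ n))
      simpa [← End.mul_apply, ← map_mul, mul_assoc] using this with h | h
    · obtain ⟨x, rfl⟩ := mem_range_baseChange (fun n : N => ρ n) ⊥ (fun _ h' => h.le h')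
        fun n => hu n n.2
      rw [Subsingleton.elim (Submodule.subtype ⊥) 0]
      simp
    · have : N = ⊥ := eq_bot_iff.mpr fun n hn =>
        hfaith n hn (LinearMap.ext fun v => h.ge Submodule.mem_top ⟨n, hn⟩)
      rw [this, card_bot] at hSpcard
      exact absurd hSpcard (not_or.mpr ⟨hp.one_lt.ne, (Nat.one_lt_pow two_ne_zero hp.one_lt).ne⟩)
  have h1 : ∀ χ : Ch N K, eig σ χ ≠ ⊥ → ∀ g, eig σ (g • χ) ≠ ⊥ := fun χ h g => by
    obtain ⟨u, hu, hu0⟩ := (Submodule.ne_bot_iff _).mp h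
    exact (Submodule.ne_bot_iff _).mpr ⟨_, smul_mem_eig σ hu g,
      fun h => hu0 ((σ.apply_bijective g).1 (h.trans (map_zero _).symm))⟩
  have h2 : ∀ χ : Ch N K, eig σ χ ≠ ⊥ → ∀ d : S, orderOf d = q → d • χ ≠ χ := fun χ h d hd h' => by
    obtain ⟨g, -, hg⟩ := exists_conj_le_sylow (K := ⊤) (H1.isPGroup_zpowers (k := 1) (by
      rw [pow_one, ← hd, pow_orderOf_eq_one])) le_top Sq.2 (H1.sylow_isSylowIn_top Sq).not_dvd
    refine h1 χ h g (eq_bot_of_fixed σ hcomm h0 ?_)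
    rw [← eq_of_le_of_card_ge (K := Q) (zpowers_le.mpr (hg d (mem_zpowers d))) (by
      rw [hSq, Nat.card_zpowers, ← hd]; exact ((MulAut.conj g).orderOf_eq d).ge)]
    exact zpowers_le (H := stabilizer S (g • χ)).mpr (by simp [mul_smul, h'])
  have h3 : ∀ χ : Ch N K, eig σ χ ≠ ⊥ → ¬ ∀ h ∈ H, h • χ ∈ orbit T χ := fun χ h h' => by
    have h3 : (stabilizer H χ).index = (stabilizer T χ).index := by
      rw [index_stabilizer, index_stabilizer]
      exact congrArg _ (Set.ext fun μ => ⟨fun ⟨g, hg⟩ => hg ▸ h' g g.2,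
        fun ⟨g, hg⟩ => ⟨⟨g, mem_sup_left g.2⟩, hg⟩⟩)
    obtain ⟨k, hk⟩ := S₂.2.index (stabilizer T χ)
    have h4 := (stabilizer H χ).card_mul_index
    rw [h3, hk, h2q, hSq] at h4
    obtain ⟨d, hd⟩ := exists_prime_orderOf_dvd_card' q ((hq.dvd_mul.mp (h4.symm ▸ dvd_mul_left q _)
      ).resolve_right fun h => hq2 ((Nat.prime_dvd_prime_iff_eq hq Nat.prime_two).mp
        (hq.dvd_of_dvd_pow h)))
    exact h2 χ h d (by rw [orderOf_coe, orderOf_coe, hd]) d.2
  haveI : Nontrivial (K ⊗[ZMod 2] E) := nontrivial_of_finrank_pos (R := K)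
    (by rw [finrank_baseChange]; exact finrank_pos)
  obtain ⟨u, hu0, hu⟩ := exists_common_eigenvector (fun n : N => σ n)
    fun a b => by rw [← map_mul, ← map_mul, setLike_mul_comm a.2 b.2]
  choose χ' hχ using hu
  obtain ⟨χ, hχ⟩ : ∃ χ : Ch N K, eig σ χ ≠ ⊥ :=
    ⟨χ', (Submodule.ne_bot_iff _).mpr ⟨u, (mem_eig σ).mpr hχ, hu0⟩⟩
  by_contra! hcon
  obtain ⟨h4, h5⟩ := hcon
  have h6 : finrank (ZMod 2) E₀ < 3 := (Nat.pow_lt_pow_iff_right one_lt_two).mp (hc ▸ h4)
  obtain ⟨h, hh, h7⟩ : ∃ h ∈ H, h • χ ∉ orbit T χ := by simpa using h3 χ hχ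
  have h8 := (le_finrank σ hN S₂.2 ![χ, h • χ] (by simp [hχ, h1 χ hχ h]) (by
    simpa using ⟨fun h' : χ ∈ orbit T (h • χ) => h7 (mem_orbit_symm.mp h'), h7⟩) hW).trans hr
  replace h5 := h5 (by rw [hc, show finrank (ZMod 2) E₀ = 2 by omega]; rfl)
  let C : Subgroup S :=
    { carrier := {g | ∀ v, (∀ s ∈ T, ρ s v = v) → ρ g v = v}
      one_mem' := by simp
      mul_mem' := fun {a b} ha hb v hv => by simp [ha v hv, hb v hv]
      inv_mem' := fun {a} ha v hv => (ρ.apply_bijective a).1 (by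
        simp [← End.mul_apply, ← map_mul, ha v hv]) }
  have hTH : Nat.card H = Nat.card T * q := by rw [h2q, hSq]
  rcases eq_or_eq_of_card_eq_mul_prime (le_inf le_sup_left fun t ht v hv => hv t ht : T ≤ H ⊓ C)
    inf_le_left hTH with h9 | h9
  · have h10 : H ≤ normalizer (T : Set S) := sup_le le_normalizer (le_normalizer_of_conj_mem
      fun y hy t ht => h9.le ⟨mul_mem (mul_mem (mem_sup_right hy) (mem_sup_left ht))
        (mem_sup_right (inv_mem hy)), fun v hv => by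
          simp only [map_mul, End.mul_apply, h5 _ (inv_mem hy) v hv t ht]
          simp [← End.mul_apply, ← map_mul]⟩)
    have h11 : H ⊓ stabilizer S χ ≤ T := le_sup_right.trans_eq ((eq_or_eq_of_card_eq_mul_prime
      le_sup_left (sup_le le_sup_left inf_le_left) hTH).resolve_right fun h' => h7 (by
        obtain ⟨t, ht, d, hd, rfl⟩ := (mem_sup_of_le_normalizer' (inf_le_left.trans h10)).mp
          (h'.ge hh)
        exact ⟨⟨t, ht⟩, by simp [mul_smul, mem_stabilizer_iff.mp hd.2]⟩))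
    obtain ⟨⟨y, hyQ⟩, hy⟩ := exists_prime_orderOf_dvd_card' q hSq.symm.dvd
    have h12 : 3 ≤ orderOf y := by
      have := hq.two_le
      rw [orderOf_mk] at hy
      omega
    refine absurd ((le_finrank σ hN S₂.2 (fun i : Fin 3 => y ^ i.1 • χ) (fun i => h1 χ hχ _)
      (fun i j ⟨t, ht⟩ => ?_) hW).trans hr) h6.not_ge
    have hi := mem_sup_right (S := T) (pow_mem hyQ i.1)
    have h13 := h11 (mem_inf.mpr ⟨mul_mem (mul_mem (inv_mem hi) (mem_sup_left t.2)) (mem_sup_right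
      (pow_mem hyQ j.1)), show _ = _ by rw [mul_smul, mul_smul, inv_smul_eq_iff]; exact ht⟩)
    rw [← mul_inv_cancel_left (y ^ i.1) (y ^ j.1), ← mul_assoc,
      mul_mem_cancel_left (conj_mem_of_le_normalizer' h10 hi t.2)] at h13
    exact Fin.ext (pow_injOn_Iio_orderOf (i.2.trans_le h12) (j.2.trans_le h12)
      (inv_mul_eq_one.mp (mem_bot.mp ((L.inf_eq_bot_of_isPGroup S₂.2 (L.coprime_of_isPGroup_ne
        hq2 Sq.2)).le (mem_inf.mpr ⟨h13, mul_mem (inv_mem (pow_mem hyQ _)) (pow_mem hyQ _)⟩)))))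
  · obtain ⟨w, h10, h11, h12⟩ := exists_fixed σ S₂.2 hχ
    obtain ⟨μ, h13, h14⟩ := exists_orbit_le σ hN (H := H) h10 h11 fun g hg => by
      obtain ⟨x, rfl⟩ := hW w h12
      have : ρ g ∘ₗ E₀.subtype = E₀.subtype := LinearMap.ext fun v =>
        (h9.ge hg).2 v ((hE₀ v).mp v.2)
      change (ρ g).baseChange K (E₀.subtype.baseChange K x) = _
      rw [← LinearMap.comp_apply, ← LinearMap.baseChange_comp, this]
    exact h3 μ h13 h14

end Cfsg.Agent.S4414
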