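import Cfsg.Statements.S4415
import Cfsg.Agent.H9.T3e

set_option autoImplicit false
open Cfsg

namespace Cfsg.Agent.S4415

/-- Let S be a finite solvable group acting faithfully on a finite-dimensional space E over the field with three elements, with O₃(S) = 1. Let B ≤ S have order 3 and suppose: E = E₀ ⊕ E₁ with B fixing E₁ pointwise, E₀ B-invariant of order 27 and indecomposable under B (a generator of B has a single Jordan block on E₀); B normalizes but does not centralize some subgroup Q of S that is elementary abelian of order 4; and B is the centre of a Sylow 3-subgroup of S. Put R = [O_{3'}(S), B]. Then R is elementary abelian of order 4 or extraspecial of order 32 containing an elementary abelian subgroup of order 8 (a central product of two quaternion groups), and E is the direct sum of a subspace fixed pointwise by R and an RB-invariant subspace on which the subgroup RB acts faithfully and irreducibly.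 -/
theorem result {S : Type*} [Group S] [Finite S]
    [Group.IsSolvable S] {E : Type*} [AddCommGroup E] [Module (ZMod 3) E] [Finite E] (ρ : Representation (ZMod 3) S E)
    (hfaith : Function.Injective ρ) (hO3 : Cfsg.pCore 3 S = ⊥)
    (B : Subgroup S) (hB : Nat.card ↥B = 3) (b : S) (hb : Subgroup.zpowers b = B)
    (E₀ E₁ : Submodule (ZMod 3) E) (hE01 : E₀ ⊓ E₁ = ⊥) (hE01' : E₀ ⊔ E₁ = ⊤)
    (hE1 : ∀ v ∈ E₁, ρ b v = v) (hE0inv : ∀ v ∈ E₀, ρ b v ∈ E₀) (hE0 : Nat.card ↥E₀ = 27)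
    (hind : ∃ v ∈ E₀, ρ b (ρ b v - v) - (ρ b v - v) ≠ 0)
    (Q : Subgroup S) (hQ : Cfsg.IsElementaryAbelian 2 Q) (hQ4 : Nat.card ↥Q = 4)
    (hBQ : B ≤ Subgroup.normalizer (Q : Set S)) (hBQ' : ¬ B ≤ Subgroup.centralizer (Q : Set S))
    (P : Sylow 3 S) (hBZ : (Subgroup.center ↥(P : Subgroup S)).map (P : Subgroup S).subtype = B) :
    ((Cfsg.IsElementaryAbelian 2 ⁅Cfsg.pPrimeCore 3 S, B⁆ ∧ Nat.card ↥⁅Cfsg.pPrimeCore 3 S, B⁆ = 4) ∨
      (Cfsg.IsExtraspecial 2 ↥⁅Cfsg.pPrimeCore 3 S, B⁆ ∧ Nat.card ↥⁅Cfsg.pPrimeCore 3 S, B⁆ = 32 ∧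
        ∃ A : Subgroup S, A ≤ ⁅Cfsg.pPrimeCore 3 S, B⁆ ∧ Cfsg.IsElementaryAbelian 2 A ∧ Nat.card ↥A = 8)) ∧
    ∃ F₀ F₁ : Submodule (ZMod 3) E, F₀ ⊓ F₁ = ⊥ ∧ F₀ ⊔ F₁ = ⊤ ∧
      (∀ r ∈ ⁅Cfsg.pPrimeCore 3 S, B⁆, ∀ v ∈ F₁, ρ r v = v) ∧ (∀ r ∈ ⁅Cfsg.pPrimeCore 3 S, B⁆ ⊔ B, ∀ v ∈ F₀, ρ r v ∈ F₀) ∧
      (∀ r ∈ ⁅Cfsg.pPrimeCore 3 S, B⁆ ⊔ B, (∀ v ∈ F₀, ρ r v = v) → r = 1) ∧
      (∀ N : Submodule (ZMod 3) E, N ≤ F₀ → (∀ r ∈ ⁅Cfsg.pPrimeCore 3 S, B⁆ ⊔ B, ∀ v ∈ N, ρ r v ∈ N) → N = ⊥ ∨ N = F₀) := by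
  letI : DistribMulAction S E := DistribMulAction.compHom E ρ
  haveI : FaithfulSMul S E := ⟨fun h => hfaith (LinearMap.ext h)⟩
  have h3 : ∀ v : E, v + v + v = 0 := fun v => by
    rw [← one_smul (ZMod 3) v, ← add_smul, ← add_smul, show (1 + 1 + 1 : ZMod 3) = 0 from rfl, zero_smul]
  subst hb
  have b3 : b * b * b = 1 := by rw [← pow_three', ← hB, Nat.card_zpowers, pow_orderOf_eq_one]
  have qa : ∀ x ∈ Q, ∀ y ∈ Q, Commute x y := fun x a y c => congrArg Subtype.val (hQ.1.1.1 ⟨x, a⟩ ⟨y, c⟩)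
  obtain ⟨a, a1, a2⟩ : ∃ a ∈ Q, ¬ Commute a b := by
    by_contra! n
    exact hBQ' (Subgroup.zpowers_le.2 n)
  have w := H9.T3.W.of b3 ((pow_two a).symm.trans (hQ.2 a a1)) a2 fun g c k d =>
    qa _ (H2.conj_mem_of_le_normalizer hBQ c a1) _ (H2.conj_mem_of_le_normalizer hBQ d a1)
  have h9 : (H9.T3.fx E b).index ≤ 9 := by
    obtain ⟨v, v1, v2⟩ := hind
    have e : H9.T3.fx E b ⊔ E₀.toAddSubgroup = ⊤ := top_le_iff.1 fun x _ => by
      obtain ⟨y, c, z, d, rfl⟩ := Submodule.mem_sup.1 (hE01'.ge (Submodule.mem_top (x := x)))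
      exact add_mem (AddSubgroup.mem_sup_right c) (AddSubgroup.mem_sup_left (hE1 z d))
    rw [← AddSubgroup.relIndex_top_right, ← e, AddSubgroup.relIndex_sup_left]
    have c := AddSubgroup.index_mul_card ((H9.T3.fx E b).addSubgroupOf E₀.toAddSubgroup)
    obtain ⟨k, d⟩ := H9.T3.card3 (fun v => Subtype.ext (h3 _)) ((H9.T3.fx E b).addSubgroupOf E₀.toAddSubgroup)
    have m := sub_mem (hE0inv v v1) v1
    have k0 : k ≠ 0 := fun f => v2 (congrArg Subtype.val (AddSubgroup.mem_bot.1 ((AddSubgroup.eq_bot_of_card_eq _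
      (by rw [d, f, pow_zero])).le (show (⟨_, sub_mem (hE0inv _ m) m⟩ : E₀.toAddSubgroup) ∈ _ from ?_))))
    · have := Nat.pow_le_pow_right (n := 3) (by norm_num) (Nat.pos_of_ne_zero k0)
      rw [d, show Nat.card E₀.toAddSubgroup = 27 from hE0] at c
      rw [AddSubgroup.relIndex]
      nlinarith
    · change b • (b • (b • v - v) - (b • v - v)) = b • (b • v - v) - (b • v - v)
      simp only [smul_sub, w.bbb]
      rw [← sub_eq_zero, ← h3 (b • v - b • b • v)]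
      abel
  have hu : a * (b * a * b⁻¹) ∈ pPrimeCore 3 S := by
    let f := QuotientGroup.mk' (pPrimeCore 3 S)
    have c : f b ∈ pCore 3 _ := L.centralizer_pCore_le (L.isPSolvable_of_isSolvable 3) (L.pPrimeCore_quotient 3)
      fun x hx => by
        obtain ⟨⟨y, y1⟩, y2, e⟩ := hBZ.ge (Subgroup.mem_zpowers b)
        obtain ⟨x, x1, rfl⟩ := L.pCore_le_sylow (P.mapSurjective (QuotientGroup.mk'_surjective _)) hx
        rw [← map_mul, ← map_mul, ← e]
        exact congrArg (f ·.1) (Subgroup.mem_center_iff.1 y2 ⟨x, x1⟩)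
    have d : f (a * (b * a * b⁻¹)) ∈ pCore 3 _ := by
      have := mul_mem (Subgroup.Normal.conj_mem inferInstance _ c (f a)) (inv_mem c)
      rwa [← map_inv f a, inv_eq_of_mul_eq_one_right ((pow_two a).symm.trans (hQ.2 a a1)), mul_assoc, mul_assoc,
        ← mul_assoc (f b), ← map_inv, ← map_mul, ← map_mul, ← map_mul] at this
    obtain ⟨k, e⟩ := L.pCore_isPGroup 3 ⟨_, d⟩
    exact (QuotientGroup.eq_one_iff _).1 ((pow_eq_one_iff_of_coprime (Nat.Coprime.pow_right k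
      (by norm_num : Nat.Coprime 2 3))).1 ⟨by rw [pow_two, ← QuotientGroup.mk_mul, w.sq]; rfl, congrArg Subtype.val e⟩)
  obtain ⟨c, F0, F1, c1, c2, c3, c4, c5, c6⟩ := H9.T3.main h3 w h9 hO3 hu
  refine ⟨c, AddSubgroup.toZModSubmodule 3 F0, AddSubgroup.toZModSubmodule 3 F1, ?_, ?_, c3, c4, c5, fun N d e => ?_⟩
  · rw [← map_inf, c1, map_bot]
  · rw [← map_sup, c2, map_top]
  · exact (c6 N.toAddSubgroup d e).imp (fun e => Submodule.toAddSubgroup_injective e)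
      fun e => Submodule.toAddSubgroup_injective e

end Cfsg.Agent.S4415
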