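import Cfsg.Statements.S4417
import Cfsg.Agent.H1.PLinear

set_option autoImplicit false
open Cfsg

namespace Cfsg.Agent.S4417

open Cfsg.Agent.H1
open scoped commutatorElement

/-- Let F be a field with q elements, p a prime not dividing q, and e the multiplicative order of q modulo p; assume e ≤ n. Then every p-subgroup of GL_n(F) has derived length at most ⌊log₂(n/e)⌋ + 1: that term of its derived series is trivial (n/e is the integer quotient). -/
theorem result {F : Type*} [Field F] [Fintype F] (q : ℕ) (hF : Fintype.card F = q) (p : ℕ) [Fact p.Prime] (hpq : ¬ p ∣ q) (n e : ℕ) (he : e = orderOf (q : ZMod p)) (hen : e ≤ n) (P : Subgroup (GL (Fin n) F)) (hP : IsPGroup p P) : derivedSeries ↥P (Nat.log 2 (n / e) + 1) = ⊥ := by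
  subst hF he
  have hp := (Fact.out : p.Prime)
  have he0 : 0 < orderOf (Fintype.card F : ZMod p) := by
    rw [orderOf_pos_iff]
    exact isOfFinOrder_iff_pow_eq_one.2 ⟨p - 1, by have := hp.two_le; omega,
      ZMod.pow_card_sub_one_eq_one (mt (ZMod.natCast_eq_zero_iff _ _).1 hpq)⟩
  let ρ : Representation F P (Fin n → F) :=
    ((Matrix.toLinAlgEquiv' (R := F) (n := Fin n)).toMonoidHom.comp (Units.coeHom _)).comp P.subtype
  have := derivedSeries_le_ker_of_finite hpq
    (Nat.log 2 (n / orderOf (Fintype.card F : ZMod p)) + 1) hP (Fin n → F) ρ (by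
      rw [Module.finrank_fin_fun, mul_comm]
      exact (Nat.div_lt_iff_lt_mul he0).1 (Nat.lt_pow_succ_log_self one_lt_two _))
  refine eq_bot_iff.2 fun g hg => Subtype.ext (Units.ext ?_)
  exact Matrix.toLinAlgEquiv'.injective ((this hg).trans (map_one _).symm)

end Cfsg.Agent.S4417
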