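import Cfsg.Statements.S4420
import Cfsg.Agent.H2.PGroup

set_option autoImplicit false
open Cfsg

namespace Cfsg.Agent.S4420

open Subgroup Cfsg.Agent.H2
open scoped commutatorElement Pointwise

theorem aux {H : Type*} [Group H] {A : Subgroup H} (hD : ∀ x : H, x ∉ A → x ^ 2 = 1) {x : H}
    (hx : x ∉ A) {b : H} (hb : b ∈ A) : x * b * x⁻¹ = b⁻¹ := by
  have h1 := hD x hx
  have h2 := hD (x * b) fun h => hx ((mul_mem_cancel_right hb).mp h)
  rw [sq] at h1 h2
  rw [← eq_inv_of_mul_eq_one_left h1]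
  exact eq_inv_of_mul_eq_one_left (by rw [← h2]; group)

theorem aux2 {H : Type*} [Group H] {A : Subgroup H} (hA : A ≠ ⊤) (hD : ∀ x : H, x ∉ A → x ^ 2 = 1) :
    IsMulCommutative A := by
  obtain ⟨x, -, hx⟩ := SetLike.exists_of_lt hA.lt_top
  refine ⟨⟨fun a b => Subtype.ext (inv_injective ?_)⟩⟩
  rw [← aux hD hx (a * b).2, coe_mul, coe_mul, mul_inv_rev, ← aux hD hx a.2, ← aux hD hx b.2]
  group

/-- Structure of groups in which every element outside some proper subgroup has square 1. Let H be a finite group with a proper subgroup A such that every element outside A has square 1. Then H has an abelian normal subgroup B of index 2 such that every element outside B is an involution inverting every element of B; and if H is not an elementary abelian 2-group, B is the only abelian normal subgroup of index 2 with this property. -/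
theorem result {H : Type*} [Group H] [Finite H] (A : Subgroup H) (hA : A ≠ ⊤) (hD : ∀ x : H, x ∉ A → x ^ 2 = 1) :
    ∃ B : Subgroup H, B.Normal ∧ IsMulCommutative ↥B ∧ B.index = 2 ∧
      (∀ x : H, x ∉ B → x ^ 2 = 1 ∧ ∀ b ∈ B, x * b * x⁻¹ = b⁻¹) ∧
      (¬ (IsMulCommutative H ∧ ∀ x : H, x ^ 2 = 1) →
        ∀ B' : Subgroup H, B'.Normal → IsMulCommutative ↥B' → B'.index = 2 →
          (∀ x : H, x ∉ B' → x ^ 2 = 1 ∧ ∀ b ∈ B', x * b * x⁻¹ = b⁻¹) → B' = B) := by
  by_cases h : ∀ x : H, x ^ 2 = 1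
  · obtain ⟨B, hB, hAB⟩ := (eq_top_or_exists_le_coatom A).resolve_left hA
    have h2 : IsPGroup 2 H := fun x => ⟨1, h x⟩
    have h3 := index_eq_of_isCoatom h2 hB
    refine ⟨B, normal_of_index_eq_two h3, aux2 hB.1 fun x _ => h x, h3,
      fun x hx => ⟨h x, fun b hb => aux (fun x _ => h x) hx hb⟩, fun h4 => absurd ⟨⟨⟨fun a b => ?_⟩⟩, h⟩ h4⟩
    have h5 : ∀ x : H, x⁻¹ = x := fun x => inv_eq_of_mul_eq_one_right (by rw [← sq, h])
    rw [← h5 (a * b), mul_inv_rev, h5, h5]
  · push Not at h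
    obtain ⟨a, ha⟩ := h
    have key : ∀ B : Subgroup H, B ≠ ⊤ → (∀ x, x ∉ B → x ^ 2 = 1) → ∀ x, x ∈ B ↔ x * a = a * x :=
      fun B hB hD x => by
        have haB : a ∈ B := by_contra fun h => ha (hD a h)
        have := aux2 hB hD
        refine ⟨fun hx => setLike_mul_comm (s := B) hx haB, fun hx => by_contra fun h => ha ?_⟩
        have := aux hD h haB
        rw [hx, mul_inv_cancel_right] at this
        rw [sq]
        exact mul_eq_one_iff_eq_inv.mpr this
    have h2 : A.index = 2 := by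
      obtain ⟨x, -, hx⟩ := SetLike.exists_of_lt hA.lt_top
      have haA : a ∈ A := by_contra fun h => ha (hD a h)
      refine index_eq_two_iff.mpr ⟨x, fun y => ?_⟩
      by_cases hy : y ∈ A
      · exact Or.inr ⟨hy, fun h => hx ((mul_mem_cancel_left hy).mp h)⟩
      · refine Or.inl ⟨(key A hA hD _).mpr (mul_inv_eq_iff_eq_mul.mp ?_), hy⟩
        rw [show y * x * a * (y * x)⁻¹ = y * (x * a * x⁻¹) * y⁻¹ by group, aux hD hx haA,
          aux hD hy (inv_mem haA), inv_inv]
    refine ⟨A, normal_of_index_eq_two h2, aux2 hA hD, h2,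
      fun x hx => ⟨hD x hx, fun b hb => aux hD hx hb⟩, fun _ B _ _ h3 h4 => ?_⟩
    ext x
    rw [key A hA hD, key B (by rintro rfl; simp at h3) fun x hx => (h4 x hx).1]

end Cfsg.Agent.S4420
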