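import Cfsg.Statements.S5075
import Cfsg.Agent.H8.McL4

set_option autoImplicit false
open Cfsg

namespace Cfsg.Agent.S5075

open Cfsg.Agent.H8

open Cfsg.Agent.H8.McL Module

theorem exists_tv {p : ℕ} [Fact p.Prime] {V : Type*} [AddCommGroup V] [Module (ZMod p) V] [Finite V]
    {H : Subgroup (V ≃ₗ[ZMod p] V)} {t : V ≃ₗ[ZMod p] V} (ht : t ∈ H) (h1 : orderOf t = p)
    (h2 : finrank (ZMod p) ↥(LinearMap.ker ((t : V →ₗ[ZMod p] V) - LinearMap.id)) + 1 =
      finrank (ZMod p) V) : ∃ a f, Tv H a f ∧ ∀ v, t v = v + f v • a := by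
  have := LinearMap.finrank_range_add_finrank_ker ((t : V →ₗ[ZMod p] V) - LinearMap.id)
  obtain ⟨f, a, e⟩ := LinearEquiv.mem_dilatransvections_iff_finrank.2
    (show finrank (ZMod p) (LinearMap.range ((t : V →ₗ[ZMod p] V) - LinearMap.id)) ≤ 1 by omega)
  have e' : ∀ v, t v = v + f v • a := fun v => LinearMap.congr_fun e v
  have hne : ¬ (a = 0 ∨ f = 0) := fun h => by
    rw [show t = 1 from LinearEquiv.ext fun v => by rcases h with rfl | rfl <;> simp [e'],
      orderOf_one] at h1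
    exact (Fact.out : p.Prime).ne_one h1.symm
  push Not at hne
  refine ⟨a, f, ⟨hne.1, hne.2, ?_, ⟨t, ht⟩, LinearMap.ext e'⟩, e'⟩
  have h3 : ∀ n : ℕ, (t ^ n) a = (1 + f a) ^ n • a := fun n => by
    induction n with
    | zero => simp
    | succ n ih => rw [pow_succ', LinearEquiv.mul_apply, ih, map_smul, e']; module
  have h4 := h3 p
  rw [ZMod.pow_card, (congrArg (t ^ ·) h1).symm.trans (pow_orderOf_eq_one t), add_smul,
    one_smul] at h4
  simpa [hne.1] using h4

/-- Let p be an odd prime, V a finite-dimensional vector space over the field with p elements, and H a group of linear automorphisms of V generated by transvections (elements of order p fixing a hyperplane pointwise) and having no nontrivial normal p-subgroup. Then for some n ≥ 1 there are a decomposition V = V₀ ⊕ V₁ ⊕ ⋯ ⊕ Vₙ into H-invariant subspaces and a decomposition of H as the internal direct product of normal subgroups H₁, …, Hₙ such that Hⱼ acts trivially on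 every Vᵢ with i ≠ j, and Hⱼ induces on Vⱼ exactly the special linear group of Vⱼ or exactly the isometry group of a non-degenerate alternating form on Vⱼ. -/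
theorem result {p : ℕ} [Fact p.Prime] (hp : Odd p) {V : Type*} [AddCommGroup V] [Module (ZMod p) V] [Finite V]
    (H : Subgroup (V ≃ₗ[ZMod p] V)) (T : Set (V ≃ₗ[ZMod p] V)) (hHT : H = Subgroup.closure T)
    (hT : ∀ t ∈ T, orderOf t = p ∧
      Module.finrank (ZMod p) ↥(LinearMap.ker ((t : V →ₗ[ZMod p] V) - LinearMap.id)) + 1 =
        Module.finrank (ZMod p) V)
    (hOp : Cfsg.pCore p ↥H = ⊥) :
    ∃ (n : ℕ) (W : Fin (n + 1) → Submodule (ZMod p) V) (K : Fin n → Subgroup (V ≃ₗ[ZMod p] V)),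
      1 ≤ n ∧ DirectSum.IsInternal W ∧
      (∀ h ∈ H, ∀ i, (W i).map (h : V →ₗ[ZMod p] V) = W i) ∧
      (∀ j, K j ≤ H ∧ ((K j).subgroupOf H).Normal) ∧ ⨆ j, K j = H ∧
      (∀ j, K j ⊓ (⨆ j' ∈ {j' : Fin n | j' ≠ j}, K j') = ⊥) ∧
      (∀ j j', j ≠ j' → ∀ a ∈ K j, ∀ b ∈ K j', a * b = b * a) ∧
      (∀ j, ∀ h ∈ K j, ∀ i : Fin (n + 1), i ≠ j.succ → ∀ v ∈ W i, h v = v) ∧
      (∀ j, ∃ ρ : ↥(K j) →* (↥(W j.succ) ≃ₗ[ZMod p] ↥(W j.succ)),
        (∀ (h : ↥(K j)) (v : ↥(W j.succ)), ((ρ h v : ↥(W j.succ)) : V) = (h : V ≃ₗ[ZMod p] V) (v : V)) ∧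
        ((ρ.range : Set (↥(W j.succ) ≃ₗ[ZMod p] ↥(W j.succ))) =
            {f : ↥(W j.succ) ≃ₗ[ZMod p] ↥(W j.succ) | LinearMap.det (f : ↥(W j.succ) →ₗ[ZMod p] ↥(W j.succ)) = 1} ∨
          ∃ B : LinearMap.BilinForm (ZMod p) ↥(W j.succ), B.IsAlt ∧ B.Nondegenerate ∧
            (ρ.range : Set (↥(W j.succ) ≃ₗ[ZMod p] ↥(W j.succ))) = {f : ↥(W j.succ) ≃ₗ[ZMod p] ↥(W j.succ) | ∀ x y, B (f x) (f y) = B x y})) := by
  classical
  have hp3 : 3 ≤ p := by
    have := (Fact.out : p.Prime).two_le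
    have : p ≠ 2 := by rintro rfl; exact absurd hp (by decide)
    omega
  have h2 : (2 : ZMod p) ≠ 0 := fun h => by
    have := Nat.le_of_dvd two_pos ((ZMod.natCast_eq_zero_iff 2 p).1 h)
    omega
  have hF : ∀ c : ZMod p, ∃ n : ℕ, (n : ZMod p) = c := ZMod.natCast_zmod_surjective
  have : Finite (V ≃ₗ[ZMod p] V) := Finite.of_injective _ DFunLike.coe_injective
  have hN : ∀ {a : V} {f : Dual (ZMod p) V}, Tv H a f → ∃ b g, Tv H b g ∧ f b ≠ 0 ∧ g a ≠ 0 :=
    ni_of_pCore hp3 hOp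
  have hT' : ∀ t ∈ T, ∃ a f, Tv H a f ∧ ∀ v, t v = v + f v • a := fun t ht =>
    exists_tv (hHT ▸ Subgroup.subset_closure ht) (hT t ht).1 (hT t ht).2
  have hg : (⨆ A ∈ Sg H, A) = ⊤ := by
    have : H ≤ (⨆ A ∈ Sg H, A).map H.subtype := by
      refine hHT.le.trans ((Subgroup.closure_le _).2 fun t ht => ?_)
      obtain ⟨a, f, ha, e⟩ := hT' t ht
      exact ⟨⟨t, ha.mem_of e⟩, le_gen_of_mem (S := Sg H) ⟨_, ha.mem, rfl⟩
        ((mem_Lq ha.sq).2 ⟨1, LinearMap.ext fun v => by simp [e]⟩), rfl⟩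
    refine eq_top_iff.2 fun x _ => ?_
    obtain ⟨y, hy, e⟩ := this x.2
    exact (Subtype.ext e : y = x) ▸ hy
  let ι := {C // IsComp H C}
  have : Nonempty ι := ⟨⟨∅, by simp, by simp⟩⟩
  let _ := Fintype.ofFinite ι
  let e := (Fintype.equivFin ι).symm
  let W : Fin (Fintype.card ι + 1) → Submodule (ZMod p) V :=
    Fin.cons (W0 H) fun j => geoW (ZMod p) (Rel (e j).1)
  have ex : ∀ {a f}, Tv H a f → ∃ j, Rel (e j).1 a f := fun ha =>
    ⟨e.symm ⟨_, isComp_comp _⟩, by simpa using ha.rel⟩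
  have pp : ∀ j a f, Rel (e j).1 a f → ∀ i, i ≠ j.succ → ∀ v ∈ W i, f v = 0 := by
    intro j a f ha i
    refine Fin.cases (fun _ v hv => hv a f ha.1) (fun i hi v hv => ?_) i
    exact perp hF hN (e j).2 (e i).2 (fun h => hi (by rw [e.injective (Subtype.ext h)])) ha hv
  have fx : ∀ j, ∀ h ∈ KK (e j).1, ∀ i, i ≠ j.succ → ∀ v ∈ W i, h v = v :=
    fun j h hh i hi v hv => KK_fix hh fun a f ha => pp j a f ha i hi v hv
  have sup : ⨆ j, KK (e j).1 = H := by
    refine le_antisymm (iSup_le fun _ => KK_le) (hHT.le.trans ((Subgroup.closure_le _).2 ?_))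
    intro t ht
    obtain ⟨a, f, ha, h⟩ := hT' t ht
    obtain ⟨j, hj⟩ := ex ha
    exact Subgroup.mem_iSup_of_mem j (Subgroup.subset_closure ⟨a, f, hj, h⟩)
  have top : ⨆ i, W i = ⊤ := by
    refine eq_top_iff.2 fun v _ => ?_
    choose w hw hw' using fun j => exists_proj hF hN h2 (e j).2 v
    rw [← sub_add_cancel v (∑ j, w j)]
    refine Submodule.add_mem _ (Submodule.mem_iSup_of_mem 0 fun a f ha => ?_)
      (Submodule.sum_mem _ fun j _ => Submodule.mem_iSup_of_mem j.succ (hw j))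
    obtain ⟨j, hj⟩ := ex ha
    rw [map_sub, map_sum, Finset.sum_eq_single j (fun i _ hi => pp j a f hj i.succ (by simpa)
      _ (hw i)) (by simp), hw' j a f hj, sub_self]
  have ext : ∀ x y : V ≃ₗ[ZMod p] V, (∀ i, ∀ v ∈ W i, x v = y v) → x = y := fun x y h =>
    LinearEquiv.ext fun v => Submodule.iSup_induction W (motive := fun v => x v = y v)
      (top ▸ Submodule.mem_top) h (by simp) fun u v hu hv => by simp [hu, hv]
  have inv : ∀ j, ∀ h ∈ KK (e j).1, ∀ i, ∀ v ∈ W i, h v ∈ W i := fun j h hh i v hv => by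
    by_cases hi : i = j.succ
    · subst hi
      exact KK_mem hh hv
    · rwa [fx j h hh i hi v hv]
  refine ⟨_, W, fun j => KK (e j).1, Fintype.card_pos,
    DirectSum.isInternal_submodule_of_iSupIndep_of_iSup_eq_top ?_ top, fun h hh i => ?_,
    fun j => ⟨KK_le, ⟨fun x hx g => ?_⟩⟩, sup, fun j => eq_bot_iff.2 fun x hx => ?_,
    fun j j' hj a ha b hb => ext _ _ fun i v hv => ?_, fx,
    fun j => ⟨res (e j).1, res_apply, range_res hF hN h2 (e j).2⟩⟩
  · rw [iSupIndep_iff_finsetSum_eq_zero_imp_eq_zero]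
    intro s v hv h0
    have : ∀ j : Fin (Fintype.card ι), j.succ ∈ s → v j.succ = 0 := fun j hj =>
      eq_zero_of hF hN h2 (e j).2 (hv _ hj) fun a f ha => by
        have := congrArg f h0
        rwa [map_sum, Finset.sum_eq_single_of_mem _ hj fun i hi h => pp j a f ha i h _ (hv i hi),
          map_zero] at this
    refine Fin.cases (fun hi => ?_) this
    rwa [Finset.sum_eq_single_of_mem _ hi (Fin.cases (fun _ h => absurd rfl h)
      fun j hj _ => this j hj)] at h0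
  · have : ∀ h ∈ H, ∀ v ∈ W i, h v ∈ W i := fun h hh => by
      rw [← sup] at hh
      exact Subgroup.iSup_induction _ (C := fun h => ∀ v ∈ W i, h v ∈ W i) hh
        (fun j h hh => inv j h hh i) (fun _ hv => hv) fun x y hx hy v hv => hx _ (hy v hv)
    exact map_eq_of (this h hh) (this _ (H.inv_mem hh))
  · rw [Subgroup.mem_subgroupOf] at hx ⊢
    refine (show g.1 • KK (e j).1 ≤ KK (e j).1 from ?_) (conj_mem_smul hx g.1)
    rw [KK, smul_closure, Subgroup.closure_le]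
    rintro _ ⟨t, ⟨a, f, ha, ht⟩, rfl⟩
    exact Subgroup.subset_closure ⟨_, _, ha.conj hF hN (e j).2 hg g, fun v => by simp [ht]⟩
  · refine ext _ _ fun i v hv => ?_
    by_cases hi : i = j.succ
    · have : (⨆ j' ∈ {j' | j' ≠ j}, KK (e j').1) ≤ MulAction.stabilizer (V ≃ₗ[ZMod p] V) v :=
        iSup₂_le fun j' hj' y hy => fx j' y hy i (by simpa [hi] using Ne.symm hj') v hv
      exact this hx.2
    · exact fx j x hx.1 i hi v hv
  · change a (b v) = b (a v)
    by_cases hi : i = j.succ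
    · have hi' : i ≠ j'.succ := by simpa [hi] using hj
      rw [fx j' b hb i hi' v hv, fx j' b hb i hi' _ (inv j a ha i v hv)]
    · rw [fx j a ha i hi v hv, fx j a ha i hi _ (inv j' b hb i v hv)]

end Cfsg.Agent.S5075
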